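import Mathlib
import Cfsg.Prelude
import Cfsg.Agent.Lib.H18.HHRed
import Cfsg.Agent.Lib.H18.ExtraCard
import Cfsg.Agent.Lib.H14.UniqueSub
import Cfsg.Agent.Lib.H01.Hall

set_option autoImplicit false
set_option linter.unusedVariables false
set_option linter.unusedSectionVars false
set_option linter.style.haveILetI false

namespace Cfsg.Agent.H20.AF

open Cfsg
open scoped commutatorElement

section basic
variable {G : Type*} [Group G] [Finite G]

/-- `Y` contains a non-cyclic abelian subgroup of order 8. -/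
def HasA (Y : Subgroup G) : Prop :=
  ∃ A : Subgroup G, A ≤ Y ∧ IsMulCommutative ↥A ∧ ¬ IsCyclic ↥A ∧ Nat.card ↥A = 8

theorem HasA.mono {Y Y' : Subgroup G} (h : Y ≤ Y') : HasA Y → HasA Y' := by
  rintro ⟨A, hA, h1, h2, h3⟩
  exact ⟨A, hA.trans h, h1, h2, h3⟩

theorem eq_of_cyclic_invol {E : Type*} [Group E] [Finite E] [IsCyclic E] {x y : E}
    (hx : orderOf x = 2) (hy : orderOf y = 2) : x = y := by
  classical
  haveI := Fintype.ofFinite E
  have h2 : 2 ∣ Fintype.card E := by rw [← hx]; exact orderOf_dvd_card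
  have h3 := IsCyclic.card_orderOf_eq_totient (α := E) h2
  have hφ : Nat.totient 2 = 1 := by decide
  rw [hφ] at h3
  exact (Finset.card_le_one.1 h3.le) x (by simp [hx]) y (by simp [hy])

theorem not_cyclic_of_two {B : Subgroup G} {x y : G} (hx : x ∈ B) (hy : y ∈ B) (hx2 : orderOf x = 2)
    (hy2 : orderOf y = 2) (hxy : x ≠ y) : ¬ IsCyclic B := by
  intro hc
  have h1 : orderOf (⟨x, hx⟩ : B) = 2 := by rw [Subgroup.orderOf_mk]; exact hx2
  have h2 : orderOf (⟨y, hy⟩ : B) = 2 := by rw [Subgroup.orderOf_mk]; exact hy2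
  have := eq_of_cyclic_invol h1 h2
  exact hxy (congrArg Subtype.val this)

theorem card_two_mul_le_of_lt {H K : Subgroup G} (h : H < K) : 2 * Nat.card H ≤ Nat.card K := by
  obtain ⟨c, hc⟩ := Subgroup.card_dvd_of_le h.le
  have hne : Nat.card H ≠ Nat.card K := by
    intro he
    exact h.ne (Subgroup.eq_of_le_of_card_ge h.le he.ge)
  have hpos : 0 < Nat.card K := Nat.card_pos
  have hc0 : c ≠ 0 := by
    rintro rfl
    simp at hc
    omega
  have hc1 : c ≠ 1 := by
    rintro rfl
    simp at hc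
    exact hne hc.symm
  rw [hc]
  have hH : 0 < Nat.card H := Nat.card_pos
  have : 2 ≤ c := by omega
  nlinarith

theorem hasA_of_two_invol (B : Subgroup G) (hB2 : IsPGroup 2 B) (hc : ∀ x ∈ B, ∀ y ∈ B, x * y = y * x)
    {x y : G} (hx : x ∈ B) (hy : y ∈ B) (hx2 : orderOf x = 2) (hy2 : orderOf y = 2) (hxy : x ≠ y)
    (h8 : 8 ≤ Nat.card B) : HasA B := by
  haveI : Fact (Nat.Prime 2) := ⟨Nat.prime_two⟩
  obtain ⟨k, hk⟩ := IsPGroup.iff_card.1 hB2
  have hk3 : 3 ≤ k := by
    by_contra hlt
    have : k ≤ 2 := by omega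
    have h1 : 2 ^ k ≤ 2 ^ 2 := Nat.pow_le_pow_right (by norm_num) this
    rw [hk] at h8
    omega
  have hxne1 : x ≠ 1 := by
    rintro rfl
    simp at hx2
  have hyne1 : y ≠ 1 := by
    rintro rfl
    simp at hy2
  -- the Klein four subgroup
  let x' : B := ⟨x, hx⟩
  let y' : B := ⟨y, hy⟩
  have hx'2 : orderOf x' = 2 := by rw [Subgroup.orderOf_mk]; exact hx2
  have hy'2 : orderOf y' = 2 := by rw [Subgroup.orderOf_mk]; exact hy2
  haveI hcB : IsMulCommutative B := ⟨⟨fun a b => Subtype.ext (hc a a.2 b b.2)⟩⟩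
  haveI hnY : (Subgroup.zpowers y').Normal := by
    constructor
    intro n hn g
    have hcomm : g * n * g⁻¹ = n := by
      have : g * n = n * g := Subtype.ext (hc g g.2 n n.2)
      rw [this]; group
    rw [hcomm]; exact hn
  have hcard4 : Nat.card (Subgroup.zpowers x' ⊔ Subgroup.zpowers y' : Subgroup B) = 2 ^ 2 := by
    have h1 := H01.card_sup_mul_card_inf (Subgroup.zpowers x') (Subgroup.zpowers y')
    have h2 : Subgroup.zpowers x' ⊓ Subgroup.zpowers y' = ⊥ := by
      rw [eq_bot_iff]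
      rintro w ⟨hw1, hw2⟩
      by_contra hw
      have hw1' : w ∈ Subgroup.zpowers x' := hw1
      have hw2' : w ∈ Subgroup.zpowers y' := hw2
      have hex : ∀ (u : B), orderOf u = 2 → ∀ w ∈ Subgroup.zpowers u, w ≠ 1 → w = u := by
        intro u hu w hw hne
        obtain ⟨n, rfl⟩ := Subgroup.mem_zpowers_iff.1 hw
        have h2 : u ^ 2 = 1 := by rw [← hu]; exact pow_orderOf_eq_one u
        rcases Int.even_or_odd' n with ⟨m, rfl | rfl⟩
        · exfalso; apply hne; rw [zpow_mul]; norm_cast; rw [h2]; simp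
        · rw [zpow_add, zpow_mul]; norm_cast; rw [h2]; simp
      have e1 := hex x' hx'2 w hw1' (by simpa using hw)
      have e2 := hex y' hy'2 w hw2' (by simpa using hw)
      apply hxy
      exact congrArg Subtype.val (e1.symm.trans e2)
    rw [h2, Nat.card_zpowers, Nat.card_zpowers, hx'2, hy'2] at h1
    simp at h1
    simpa using h1
  have hdvd : 2 ^ 3 ∣ Nat.card B := by
    rw [hk]; exact pow_dvd_pow 2 hk3
  obtain ⟨K, hK8, hKle⟩ := Sylow.exists_subgroup_card_pow_prime_le 2 hdvd _ hcard4 (by norm_num)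
  have hx'K : x' ∈ K := hKle ((le_sup_left : _ ≤ Subgroup.zpowers x' ⊔ Subgroup.zpowers y') (Subgroup.mem_zpowers x'))
  have hy'K : y' ∈ K := hKle ((le_sup_right : _ ≤ Subgroup.zpowers x' ⊔ Subgroup.zpowers y') (Subgroup.mem_zpowers y'))
  refine ⟨K.map B.subtype, ?_, ?_, ?_, ?_⟩
  · rintro _ ⟨w, _, rfl⟩
    exact w.2
  · refine ⟨⟨?_⟩⟩
    rintro ⟨a, ha⟩ ⟨b, hb⟩
    obtain ⟨a', -, rfl⟩ := ha
    obtain ⟨b', -, rfl⟩ := hb
    exact Subtype.ext (hc _ a'.2 _ b'.2)
  · refine not_cyclic_of_two (x := x) (y := y) ⟨x', hx'K, rfl⟩ ⟨y', hy'K, rfl⟩ hx2 hy2 hxy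
  · rw [← Nat.card_congr (K.equivMapOfInjective B.subtype B.subtype_injective).toEquiv, hK8]
    norm_num

/-- abelian non-cyclic of order at least 8 -/
theorem hasA_of_abelian (B : Subgroup G) (hB2 : IsPGroup 2 B) (hc : ∀ x ∈ B, ∀ y ∈ B, x * y = y * x)
    (hnc : ¬ IsCyclic B) (h8 : 8 ≤ Nat.card B) : HasA B := by
  haveI : Fact (Nat.Prime 2) := ⟨Nat.prime_two⟩
  have hnu : ¬ H14.UniqueP 2 B := by
    intro hu
    exact hnc (H14.isCyclic_of_comm_uniqueP hB2 (fun a b => Subtype.ext (hc a a.2 b b.2)) hu)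
  unfold H14.UniqueP at hnu
  push Not at hnu
  obtain ⟨x, y, hx, hy, hxy⟩ := hnu
  refine hasA_of_two_invol B hB2 hc x.2 y.2 (by rwa [Subgroup.orderOf_mk] at hx) (by rwa [Subgroup.orderOf_mk] at hy) ?_ h8
  intro h
  apply hxy
  have : y = x := Subtype.ext h.symm
  rw [this]
  exact Subgroup.mem_zpowers x

theorem comm_closure {T : Set G} (hT : ∀ x ∈ T, ∀ y ∈ T, x * y = y * x) :
    ∀ a ∈ Subgroup.closure T, ∀ b ∈ Subgroup.closure T, a * b = b * a := by
  have h1 : Subgroup.closure T ≤ Subgroup.centralizer (Subgroup.centralizer T : Set G) := by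
    rw [Subgroup.closure_le]
    intro x hx
    rw [SetLike.mem_coe, Subgroup.mem_centralizer_iff]
    intro y hy
    exact ((Subgroup.mem_centralizer_iff.1 hy) x hx).symm
  have h2 : Subgroup.closure T ≤ Subgroup.centralizer T := by
    rw [Subgroup.closure_le]
    intro x hx
    rw [SetLike.mem_coe, Subgroup.mem_centralizer_iff]
    intro y hy
    exact hT y hy x hx
  intro a ha b hb
  exact ((Subgroup.mem_centralizer_iff.1 (h1 ha)) b (h2 hb)).symm

end basic

section special
variable {E : Type*} [Group E] [Finite E]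

theorem sq_mem_center (hE : IsSpecial 2 E) (x : E) : x ^ 2 ∈ Subgroup.center E := by
  haveI : Fact (Nat.Prime 2) := ⟨Nat.prime_two⟩
  rw [← hE.2.1]
  exact H01.pow_mem_frattini_of_isPGroup hE.1 x

theorem comm_mem_center (hE : IsSpecial 2 E) (x y : E) : ⁅x, y⁆ ∈ Subgroup.center E := by
  rw [← hE.2.2]
  exact Subgroup.commutator_mem_commutator (Subgroup.mem_top _) (Subgroup.mem_top _)

theorem comm_sq (hE : IsSpecial 2 E) (x y : E) : ⁅x, y⁆ ^ 2 = 1 := by
  have hc : ∀ g, ⁅x, y⁆ * g = g * ⁅x, y⁆ := fun g => ((Subgroup.mem_center_iff.1 (comm_mem_center hE x y)) g).symm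
  have hx : ∀ g, x ^ 2 * g = g * x ^ 2 := fun g => ((Subgroup.mem_center_iff.1 (sq_mem_center hE x)) g).symm
  have h1 : x * y * x⁻¹ = ⁅x, y⁆ * y := by
    rw [commutatorElement_def]; group
  have h2 : x * (⁅x, y⁆ * y) * x⁻¹ = ⁅x, y⁆ * (x * y * x⁻¹) := by
    rw [← mul_assoc, ← hc x, mul_assoc, mul_assoc, mul_assoc]
  have h3 : x ^ 2 * y * (x ^ 2)⁻¹ = ⁅x, y⁆ ^ 2 * y := by
    calc x ^ 2 * y * (x ^ 2)⁻¹ = x * (x * y * x⁻¹) * x⁻¹ := by rw [sq]; group
      _ = x * (⁅x, y⁆ * y) * x⁻¹ := by rw [h1]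
      _ = ⁅x, y⁆ * (x * y * x⁻¹) := h2
      _ = ⁅x, y⁆ ^ 2 * y := by rw [h1, sq, mul_assoc]
  have h4 : x ^ 2 * y * (x ^ 2)⁻¹ = y := by
    rw [hx y]; group
  rw [h4] at h3
  exact (mul_eq_right.1 h3.symm)

theorem center_sq (hE : IsSpecial 2 E) : ∀ z ∈ Subgroup.center E, z ^ 2 = 1 := by
  let N : Subgroup E :=
    { carrier := {z | z ∈ Subgroup.center E ∧ z ^ 2 = 1}
      mul_mem' := by
        rintro a b ⟨ha, ha2⟩ ⟨hb, hb2⟩
        refine ⟨Subgroup.mul_mem _ ha hb, ?_⟩
        have hab : Commute a b := (Subgroup.mem_center_iff.1 ha b).symm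
        rw [hab.mul_pow, ha2, hb2, one_mul]
      one_mem' := ⟨Subgroup.one_mem _, one_pow _⟩
      inv_mem' := by
        rintro a ⟨ha, ha2⟩
        exact ⟨Subgroup.inv_mem _ ha, by rw [inv_pow, ha2, inv_one]⟩ }
  have h1 : commutator E ≤ N := by
    rw [commutator_def, Subgroup.commutator_le]
    intro x _ y _
    exact ⟨comm_mem_center hE x y, comm_sq hE x y⟩
  rw [hE.2.2] at h1
  intro z hz
  exact (h1 hz).2

theorem exists_not_center (hE : IsSpecial 2 E) [Nontrivial E] : ∃ x : E, x ∉ Subgroup.center E := by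
  by_contra hcon
  push Not at hcon
  have h1 : ∀ a b : E, ⁅a, b⁆ = 1 := by
    intro a b
    rw [commutatorElement_eq_one_iff_mul_comm]
    exact (Subgroup.mem_center_iff.1 (hcon b) a)
  have h2 : commutator E = ⊥ := by
    rw [eq_bot_iff, commutator_def, Subgroup.commutator_le]
    intro x _ y _
    rw [h1]; exact Subgroup.one_mem _
  have h3 : Subgroup.center E = ⊥ := by rw [← hE.2.2, h2]
  obtain ⟨g, hg⟩ := exists_ne (1 : E)
  have := hcon g
  rw [h3] at this
  exact hg (Subgroup.mem_bot.1 this)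

theorem sup_zpowers_card_le {Z : Subgroup E} [Z.Normal] {x : E} (hx : x ^ 2 ∈ Z) :
    Nat.card (Subgroup.zpowers x ⊔ Z : Subgroup E) ≤ 2 * Nat.card Z := by
  have h1 := H01.card_sup_mul_card_inf (Subgroup.zpowers x) Z
  have h2 : Subgroup.zpowers (x ^ 2) ≤ Subgroup.zpowers x ⊓ Z := by
    rw [le_inf_iff]
    constructor
    · rw [Subgroup.zpowers_le]
      exact Subgroup.pow_mem _ (Subgroup.mem_zpowers x) 2
    · rw [Subgroup.zpowers_le]
      exact hx
  have h3 : orderOf x ≤ 2 * orderOf (x ^ 2) := by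
    rw [orderOf_pow]
    have hpos : 0 < orderOf x := orderOf_pos x
    have hg : Nat.gcd (orderOf x) 2 ∣ 2 := Nat.gcd_dvd_right _ _
    have hg' : Nat.gcd (orderOf x) 2 ∣ orderOf x := Nat.gcd_dvd_left _ _
    have hle : Nat.gcd (orderOf x) 2 ≤ 2 := Nat.le_of_dvd (by norm_num) hg
    calc orderOf x = Nat.gcd (orderOf x) 2 * (orderOf x / Nat.gcd (orderOf x) 2) := (Nat.mul_div_cancel' hg').symm
      _ ≤ 2 * (orderOf x / Nat.gcd (orderOf x) 2) := Nat.mul_le_mul_right _ hle
  have h4 : Nat.card (Subgroup.zpowers (x ^ 2)) ≤ Nat.card (Subgroup.zpowers x ⊓ Z : Subgroup E) :=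
    Nat.le_of_dvd Nat.card_pos (Subgroup.card_dvd_of_le h2)
  rw [Nat.card_zpowers] at h4 h1
  have h5 : 0 < Nat.card (Subgroup.zpowers x ⊓ Z : Subgroup E) := Nat.card_pos
  have h6 : 0 < Nat.card Z := Nat.card_pos
  have h7 : Nat.card (Subgroup.zpowers x ⊔ Z : Subgroup E) * Nat.card (Subgroup.zpowers x ⊓ Z : Subgroup E)
      ≤ (2 * Nat.card Z) * Nat.card (Subgroup.zpowers x ⊓ Z : Subgroup E) := by
    rw [h1]
    calc orderOf x * Nat.card Z ≤ (2 * Nat.card (Subgroup.zpowers x ⊓ Z : Subgroup E)) * Nat.card Z := by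
          apply Nat.mul_le_mul_right
          omega
      _ = _ := by ring
  exact Nat.le_of_mul_le_mul_right h7 h5

/-- A special 2-group without a non-cyclic abelian subgroup of order 8 has order 8. -/
theorem special_small (hE : IsSpecial 2 E) [Nontrivial E] (hfree : ¬ HasA (⊤ : Subgroup E)) :
    Nat.card E = 8 ∧ Nat.card (Subgroup.center E) = 2 := by
  classical
  haveI : Fact (Nat.Prime 2) := ⟨Nat.prime_two⟩
  have h2 : IsPGroup 2 E := hE.1
  have hsub : ∀ B : Subgroup E, IsPGroup 2 B := fun B => h2.to_subgroup B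
  obtain ⟨k, hk⟩ := IsPGroup.iff_card.1 (hsub (Subgroup.center E))
  have hZ1 : Subgroup.center E ≠ ⊥ := by
    haveI := h2.center_nontrivial
    exact (Subgroup.nontrivial_iff_ne_bot _).1 inferInstance
  have hk0 : k ≠ 0 := by
    rintro rfl
    rw [pow_zero] at hk
    exact hZ1 (Subgroup.card_eq_one.1 hk)
  obtain ⟨x, hx⟩ := exists_not_center hE
  have hcenter_comm : ∀ a ∈ Subgroup.center E, ∀ b, a * b = b * a := fun a ha b =>
    (Subgroup.mem_center_iff.1 ha b).symm
  have hk1 : k = 1 := by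
    by_contra hk1
    have hk2 : 2 ≤ k := by omega
    -- the centre together with x contains A
    let T : Set E := (Subgroup.center E : Set E) ∪ {x}
    have hT : ∀ a ∈ T, ∀ b ∈ T, a * b = b * a := by
      rintro a (ha | ha) b (hb | hb)
      · exact hcenter_comm a ha b
      · exact hcenter_comm a ha b
      · exact (hcenter_comm b hb a).symm
      · rw [Set.mem_singleton_iff.1 ha, Set.mem_singleton_iff.1 hb]
    have hZle : Subgroup.center E ≤ Subgroup.closure T := fun z hz => Subgroup.subset_closure (Or.inl hz)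
    have hxB : x ∈ Subgroup.closure T := Subgroup.subset_closure (Or.inr rfl)
    have hlt : Subgroup.center E < Subgroup.closure T := by
      refine lt_of_le_of_ne hZle ?_
      intro he
      rw [← he] at hxB
      exact hx hxB
    have h8 : 8 ≤ Nat.card (Subgroup.closure T) := by
      have h3 := card_two_mul_le_of_lt hlt
      rw [hk] at h3
      have h4 : 2 ^ 2 ≤ 2 ^ k := Nat.pow_le_pow_right (by norm_num) hk2
      omega
    -- two involutions in the centre
    have hZ4 : 2 < Nat.card (Subgroup.center E) := by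
      rw [hk]
      have h4 : 2 ^ 2 ≤ 2 ^ k := Nat.pow_le_pow_right (by norm_num) hk2
      omega
    haveI := Fintype.ofFinite (Subgroup.center E)
    rw [Nat.card_eq_fintype_card, Fintype.two_lt_card_iff] at hZ4
    obtain ⟨a, b, c, hab, hac, hbc⟩ := hZ4
    have hord : ∀ u v : Subgroup.center E, u ≠ v → (v : E)⁻¹ * u ≠ 1 ∧ ((v : E)⁻¹ * u) ^ 2 = 1 := by
      intro u v huv
      constructor
      · intro h
        apply huv
        apply Subtype.ext
        exact (inv_mul_eq_one.1 h).symm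
      · exact center_sq hE _ (Subgroup.mul_mem _ (Subgroup.inv_mem _ v.2) u.2)
    -- u = c⁻¹ a, v = c⁻¹ b are distinct involutions
    obtain ⟨h1a, h2a⟩ := hord a c hac
    obtain ⟨h1b, h2b⟩ := hord b c hbc
    have hna : orderOf ((c : E)⁻¹ * a) = 2 := orderOf_eq_prime h2a h1a
    have hnb : orderOf ((c : E)⁻¹ * b) = 2 := orderOf_eq_prime h2b h1b
    have hne : (c : E)⁻¹ * a ≠ (c : E)⁻¹ * b := by
      intro h
      exact hab (Subtype.ext (mul_left_cancel h))
    have hA := hasA_of_two_invol (Subgroup.closure T) (hsub _) (comm_closure hT)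
      (hZle (Subgroup.mul_mem _ (Subgroup.inv_mem _ c.2) a.2))
      (hZle (Subgroup.mul_mem _ (Subgroup.inv_mem _ c.2) b.2)) hna hnb hne h8
    exact hfree (hA.mono le_top)
  subst hk1
  rw [pow_one] at hk
  refine ⟨?_, hk⟩
  -- order
  obtain ⟨m, hm1, hm⟩ := H18.extraspecial_card (p := 2) (E := E) ⟨hE, hk⟩
  by_contra hne
  have hm2 : 2 ≤ m := by
    by_contra hlt
    have : m = 1 := by omega
    subst this
    apply hne
    rw [hm]
    norm_num
  have hE32 : 32 ≤ Nat.card E := by
    rw [hm]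
    have : 2 * 2 + 1 ≤ 2 * m + 1 := by omega
    calc 32 = 2 ^ (2 * 2 + 1) := by norm_num
      _ ≤ 2 ^ (2 * m + 1) := Nat.pow_le_pow_right (by norm_num) this
  -- centralizer of x
  let C : Subgroup E := Subgroup.centralizer {x}
  have hCindex : C.index ≤ 2 := by
    let f : E →* Subgroup.center E :=
      { toFun := fun g => ⟨⁅g, x⁆, comm_mem_center hE g x⟩
        map_one' := by
          apply Subtype.ext
          simp
        map_mul' := by
          intro g g'
          apply Subtype.ext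
          show ⁅g * g', x⁆ = ⁅g, x⁆ * ⁅g', x⁆
          have hc : ∀ (a b w : E), ⁅a, b⁆ * w = w * ⁅a, b⁆ := fun a b w =>
            (Subgroup.mem_center_iff.1 (comm_mem_center hE a b) w).symm
          have e1 : ⁅g * g', x⁆ = g * ⁅g', x⁆ * g⁻¹ * ⁅g, x⁆ := by
            simp only [commutatorElement_def]; group
          rw [e1, ← hc g' x g, mul_inv_cancel_right, hc g' x ⁅g, x⁆] }
    have hker : f.ker = C := by
      ext g
      rw [MonoidHom.mem_ker, Subgroup.mem_centralizer_singleton_iff]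
      constructor
      · intro h
        have h1 : ⁅g, x⁆ = 1 := congrArg Subtype.val h
        rw [commutatorElement_eq_one_iff_mul_comm] at h1
        exact h1
      · intro h
        apply Subtype.ext
        show ⁅g, x⁆ = 1
        rw [commutatorElement_eq_one_iff_mul_comm]
        exact h
    rw [← hker, Subgroup.index_ker]
    calc Nat.card f.range ≤ Nat.card (Subgroup.center E) := Subgroup.card_le_card_group _
      _ = 2 := hk
  have hC16 : 16 ≤ Nat.card C := by
    have h1 := Subgroup.card_mul_index C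
    have h2 : Nat.card C * 2 ≥ Nat.card E := by
      rw [← h1]
      exact Nat.mul_le_mul_left _ hCindex
    omega
  haveI : (Subgroup.center E).Normal := inferInstance
  have hN0 := sup_zpowers_card_le (Z := Subgroup.center E) (sq_mem_center hE x)
  rw [hk] at hN0
  have hxC : x ∈ C := by
    rw [Subgroup.mem_centralizer_singleton_iff]
  obtain ⟨y, hyC, hyN⟩ : ∃ y ∈ C, y ∉ (Subgroup.zpowers x ⊔ Subgroup.center E : Subgroup E) := by
    by_contra hcon
    push Not at hcon
    have : C ≤ (Subgroup.zpowers x ⊔ Subgroup.center E : Subgroup E) := hcon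
    have h3 := Nat.le_of_dvd Nat.card_pos (Subgroup.card_dvd_of_le this)
    omega
  let T : Set E := (Subgroup.center E : Set E) ∪ {x, y}
  have hxy : x * y = y * x := by
    have := Subgroup.mem_centralizer_singleton_iff.1 hyC
    exact this.symm
  have hT : ∀ a ∈ T, ∀ b ∈ T, a * b = b * a := by
    rintro a (ha | ha) b (hb | hb)
    · exact hcenter_comm a ha b
    · exact hcenter_comm a ha b
    · exact (hcenter_comm b hb a).symm
    · simp only [Set.mem_insert_iff, Set.mem_singleton_iff] at ha hb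
      rcases ha with rfl | rfl <;> rcases hb with rfl | rfl
      · rfl
      · exact hxy
      · exact hxy.symm
      · rfl
  let B := Subgroup.closure T
  have hZB : Subgroup.center E ≤ B := fun z hz => Subgroup.subset_closure (Or.inl hz)
  have hxB : x ∈ B := Subgroup.subset_closure (Or.inr (by simp))
  have hyB : y ∈ B := Subgroup.subset_closure (Or.inr (by simp))
  have hN0B : (Subgroup.zpowers x ⊔ Subgroup.center E : Subgroup E) ≤ B :=
    sup_le (by rw [Subgroup.zpowers_le]; exact hxB) hZB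
  have hlt1 : Subgroup.center E < (Subgroup.zpowers x ⊔ Subgroup.center E : Subgroup E) := by
    refine lt_of_le_of_ne le_sup_right ?_
    intro he
    apply hx
    rw [he]
    exact (le_sup_left : _ ≤ Subgroup.zpowers x ⊔ Subgroup.center E) (Subgroup.mem_zpowers x)
  have hlt2 : (Subgroup.zpowers x ⊔ Subgroup.center E : Subgroup E) < B := by
    refine lt_of_le_of_ne hN0B ?_
    intro he
    apply hyN
    rw [he]
    exact hyB
  have h8 : 8 ≤ Nat.card B := by
    have h3 := card_two_mul_le_of_lt hlt1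
    have h4 := card_two_mul_le_of_lt hlt2
    rw [hk] at h3
    omega
  have hnc : ¬ IsCyclic B := by
    intro hcyc
    obtain ⟨g, hg⟩ := IsCyclic.exists_generator (α := B)
    have hord : orderOf g = Nat.card B := orderOf_eq_card_of_forall_mem_zpowers hg
    have h4 : (g : E) ^ 4 = 1 := by
      have h5 := center_sq hE _ (sq_mem_center hE (g : E))
      rw [← pow_mul] at h5
      simpa using h5
    have h5 : g ^ 4 = 1 := Subtype.ext (by simpa using h4)
    have h6 : orderOf g ≤ 4 := orderOf_le_of_pow_eq_one (by norm_num) h5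
    omega
  exact hfree ((hasA_of_abelian B (hsub B) (comm_closure hT) hnc h8).mono le_top)

end special

end Cfsg.Agent.H20.AF
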