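import Mathlib
import Cfsg.Prelude
import Cfsg.Agent.Lib.H20.AF1
import Cfsg.Agent.Lib.H20.Basic
import Cfsg.Agent.Lib.H13.CommNil

set_option autoImplicit false
set_option linter.unusedVariables false
set_option linter.unusedSectionVars false
set_option linter.style.haveILetI false

namespace Cfsg.Agent.H20.AF

open Cfsg
open scoped commutatorElement

section af
variable {S : Type*} [Group S] [Finite S]

theorem mem_norm_sup {A B : Subgroup S} {x : S} (hA : x ∈ Subgroup.normalizer (A : Set S))
    (hB : x ∈ Subgroup.normalizer (B : Set S)) : x ∈ Subgroup.normalizer ((A ⊔ B : Subgroup S) : Set S) := by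
  apply Cfsg.Agent.H20.mem_normalizer_of_conj_le
  have : A ⊔ B ≤ (A ⊔ B).comap (MulAut.conj x).toMonoidHom := by
    apply sup_le
    · intro y hy
      exact (le_sup_left : A ≤ A ⊔ B) (H01.conj_mem_of_mem_normalizer hA hy)
    · intro y hy
      exact (le_sup_right : B ≤ A ⊔ B) (H01.conj_mem_of_mem_normalizer hB hy)
  intro y hy
  exact this hy

theorem exists_min (Y : Subgroup S) (h : S) (hn : h ∈ Subgroup.normalizer (Y : Set S))
    (hne : ∃ y ∈ Y, h * y * h⁻¹ ≠ y) :
    ∃ P : Subgroup S, P ≤ Y ∧ h ∈ Subgroup.normalizer (P : Set S) ∧ (∃ u ∈ P, h * u * h⁻¹ ≠ u) ∧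
      ∀ U : Subgroup S, U < P → h ∈ Subgroup.normalizer (U : Set S) → ∀ u ∈ U, h * u * h⁻¹ = u := by
  let T : Set (Subgroup S) := {P | P ≤ Y ∧ h ∈ Subgroup.normalizer (P : Set S) ∧ ∃ u ∈ P, h * u * h⁻¹ ≠ u}
  have hT : T.Nonempty := ⟨Y, le_rfl, hn, hne⟩
  obtain ⟨P, hP⟩ := T.toFinite.exists_minimal hT
  refine ⟨P, hP.1.1, hP.1.2.1, hP.1.2.2, ?_⟩
  intro U hU hUn u hu
  by_contra hne'
  have hUT : U ∈ T := ⟨hU.le.trans hP.1.1, hUn, u, hu, hne'⟩
  exact absurd (hP.2 hUT hU.le) (not_le_of_gt hU)

/-- The Frattini subgroup of `P`, as a subgroup of the ambient group. -/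
abbrev Dof (P : Subgroup S) : Subgroup S := (frattini ↥P).map P.subtype

structure IrrData (P : Subgroup S) (h : S) : Prop where
  norm : h ∈ Subgroup.normalizer (P : Set S)
  comm : ⁅P, Subgroup.zpowers h⁆ = P
  fix : ∀ x ∈ Dof P, h * x * h⁻¹ = x
  cen : ∀ x ∈ Dof P, ∀ y ∈ P, x * y = y * x
  irr : ∀ U : Subgroup S, Dof P ≤ U → U ≤ P → h ∈ Subgroup.normalizer (U : Set S) → U = Dof P ∨ U = P
  cases : IsElementaryAbelian 2 P ∨ IsSpecial 2 ↥P

theorem coprime_two_of_odd {n : ℕ} (h : Odd n) : n.Coprime 2 := by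
  exact Nat.Coprime.symm (Nat.coprime_two_left.2 h)

theorem irr_data {P : Subgroup S} (hP : IsPGroup 2 P) {h : S} (hodd : Odd (orderOf h))
    (hn : h ∈ Subgroup.normalizer (P : Set S)) (hmv : ∃ u ∈ P, h * u * h⁻¹ ≠ u)
    (hmin : ∀ U : Subgroup S, U < P → h ∈ Subgroup.normalizer (U : Set S) → ∀ u ∈ U, h * u * h⁻¹ = u) :
    IrrData P h := by
  haveI : Fact (Nat.Prime 2) := ⟨Nat.prime_two⟩
  have hB : Subgroup.zpowers h ≤ Subgroup.normalizer (P : Set S) := by
    rw [Subgroup.zpowers_le]; exact hn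
  have hAn : Subgroup.zpowers h ≤ Subgroup.normalizer ((Subgroup.zpowers h : Subgroup S) : Set S) :=
    Subgroup.le_normalizer
  have hAp : (Nat.card (Subgroup.zpowers h)).Coprime 2 := by
    rw [Nat.card_zpowers]; exact coprime_two_of_odd hodd
  have hnt : ⁅P, Subgroup.zpowers h⁆ ≠ ⊥ := by
    intro h0
    obtain ⟨u, hu, hne⟩ := hmv
    have h1 : ⁅u, h⁆ ∈ ⁅P, Subgroup.zpowers h⁆ := Subgroup.commutator_mem_commutator hu (Subgroup.mem_zpowers h)
    rw [h0, Subgroup.mem_bot, commutatorElement_eq_one_iff_mul_comm] at h1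
    apply hne
    rw [← h1]
    group
  have hmin' : ∀ U : Subgroup S, U < P → Subgroup.zpowers h ≤ Subgroup.normalizer (U : Set S) →
      ⁅U, Subgroup.zpowers h⁆ = ⊥ := by
    intro U hU hUn
    have hfix := hmin U hU (hUn (Subgroup.mem_zpowers h))
    rw [eq_bot_iff, Subgroup.commutator_le]
    intro u hu g hg
    obtain ⟨n, rfl⟩ := Subgroup.mem_zpowers_iff.1 hg
    have hc : Commute u h := by
      have h2 := hfix u hu
      show u * h = h * u
      calc u * h = (h * u * h⁻¹) * h := by rw [h2]
        _ = h * u := by group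
    rw [Subgroup.mem_bot, commutatorElement_eq_one_iff_mul_comm]
    exact hc.zpow_right n
  obtain ⟨hfix, hcen, hcases, hirr, _⟩ :=
    H18.hh_main (Subgroup.zpowers h) (Subgroup.zpowers h) P hP hB le_rfl hAn hAp hnt hmin'
  have hcomm := H18.hh_comm_eq (Subgroup.zpowers h) (Subgroup.zpowers h) P hP hB le_rfl hAn hAp hnt hmin'
  refine ⟨hn, hcomm, ?_, ?_, ?_, hcases⟩
  · intro x hx
    exact hfix x hx h (Subgroup.mem_zpowers h)
  · rintro _ ⟨z, hz, rfl⟩ y hy
    have := Subgroup.mem_center_iff.1 (hcen z hz) ⟨y, hy⟩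
    exact (congrArg Subtype.val this).symm
  · intro U hDU hUP hUn
    exact hirr U hDU hUP (by rw [Subgroup.zpowers_le]; exact hUn)

theorem dof_le (P : Subgroup S) : Dof P ≤ P := by
  rintro _ ⟨x, -, rfl⟩
  exact x.2

theorem mem_dof_iff {P : Subgroup S} (a : ↥P) : (a : S) ∈ Dof P ↔ a ∈ frattini ↥P := by
  constructor
  · rintro ⟨b, hb, hba⟩
    have : b = a := Subtype.ext hba
    rwa [← this]
  · intro h
    exact ⟨a, h, rfl⟩

theorem not_hasA_top {P : Subgroup S} (h : ¬ HasA P) : ¬ HasA (⊤ : Subgroup ↥P) := by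
  rintro ⟨A, -, h1, h2, h3⟩
  apply h
  refine ⟨A.map P.subtype, ?_, ?_, ?_, ?_⟩
  · rintro _ ⟨w, _, rfl⟩
    exact w.2
  · refine ⟨⟨?_⟩⟩
    rintro ⟨a, ha⟩ ⟨b, hb⟩
    obtain ⟨a', ha', rfl⟩ := ha
    obtain ⟨b', hb', rfl⟩ := hb
    have := h1.is_comm.comm ⟨a', ha'⟩ ⟨b', hb'⟩
    apply Subtype.ext
    show (a' : S) * b' = b' * a'
    have h4 := congrArg Subtype.val this
    exact congrArg Subtype.val h4
  · intro hc
    apply h2
    exact isCyclic_of_surjective (A.equivMapOfInjective P.subtype P.subtype_injective).symm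
      (A.equivMapOfInjective P.subtype P.subtype_injective).symm.surjective
  · rw [← Nat.card_congr (A.equivMapOfInjective P.subtype P.subtype_injective).toEquiv]
    exact h3

/-- Klein four type. -/
structure V4 (P : Subgroup S) : Prop where
  card : Nat.card P = 4
  dof : Dof P = ⊥
  comm : ∀ a ∈ P, ∀ b ∈ P, a * b = b * a
  exp : ∀ a ∈ P, a ^ 2 = 1

/-- Quaternion type. -/
structure Q8 (P : Subgroup S) : Prop where
  card : Nat.card P = 8
  cardD : Nat.card (Dof P) = 2
  dof : Dof P = (Subgroup.center ↥P).map P.subtype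
  spec : IsSpecial 2 ↥P
  pair : ∃ a ∈ P, ∃ b ∈ P, a * b ≠ b * a
  sq : ∀ t ∈ P, t ∉ Dof P → t ^ 2 ≠ 1
  iso : Nonempty (↥P ≃* QuaternionGroup 2)

theorem comm_of_card_le_four {E : Type*} [Group E] [Finite E] (hE : IsPGroup 2 E) (h4 : Nat.card E ≤ 4) :
    ∀ a b : E, a * b = b * a := by
  haveI : Fact (Nat.Prime 2) := ⟨Nat.prime_two⟩
  obtain ⟨k, hk⟩ := IsPGroup.iff_card.1 hE
  have hk2 : k ≤ 2 := by
    by_contra hlt
    have : 3 ≤ k := by omega
    have h1 : 2 ^ 3 ≤ 2 ^ k := Nat.pow_le_pow_right (by norm_num) this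
    omega
  interval_cases k
  · intro a b
    have : Subsingleton E := (Nat.card_eq_one_iff_unique.1 (by simpa using hk)).1
    exact Subsingleton.elim _ _
  · haveI : Fact (Nat.Prime (Nat.card E)) := ⟨by rw [hk]; norm_num⟩
    haveI : IsCyclic E := isCyclic_of_prime_card (p := Nat.card E) rfl
    letI := IsCyclic.commGroup (α := E)
    intro a b
    exact mul_comm a b
  · haveI := IsPGroup.isMulCommutative_of_card_eq_prime_sq (p := 2) hk
    intro a b
    exact mul_comm' a b

theorem irr_type {P : Subgroup S} (hP2 : IsPGroup 2 P) (hfree : ¬ HasA P) {h : S} (hodd : Odd (orderOf h))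
    (hd : IrrData P h) (hmv : ∃ u ∈ P, h * u * h⁻¹ ≠ u) : V4 P ∨ Q8 P := by
  classical
  haveI : Fact (Nat.Prime 2) := ⟨Nat.prime_two⟩
  obtain ⟨u, huP, hu⟩ := hmv
  have hu1 : u ≠ 1 := by
    rintro rfl
    simp at hu
  haveI hnt : Nontrivial ↥P := ⟨⟨⟨u, huP⟩, 1, by
    intro he
    exact hu1 (congrArg Subtype.val he)⟩⟩
  rcases hd.cases with ⟨hc, hexp⟩ | hs
  · left
    have hcomm : ∀ a ∈ P, ∀ b ∈ P, a * b = b * a := by
      intro a ha b hb
      have := hc.is_comm.comm ⟨a, ha⟩ ⟨b, hb⟩
      exact congrArg Subtype.val this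
    obtain ⟨k, hk⟩ := IsPGroup.iff_card.1 hP2
    have hcard : Nat.card P = 4 := by
      have hk3 : k < 3 := by
        by_contra hge
        have hge' : 3 ≤ k := by omega
        have h8 : 8 ≤ Nat.card P := by
          rw [hk]
          calc 8 = 2 ^ 3 := by norm_num
            _ ≤ 2 ^ k := Nat.pow_le_pow_right (by norm_num) hge'
        have hnc : ¬ IsCyclic P := by
          intro hcyc
          obtain ⟨g, hg⟩ := IsCyclic.exists_generator (α := P)
          have hord : orderOf g = Nat.card P := orderOf_eq_card_of_forall_mem_zpowers hg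
          have h5 : g ^ 2 = 1 := Subtype.ext (by simpa using hexp g g.2)
          have h6 : orderOf g ≤ 2 := orderOf_le_of_pow_eq_one (by norm_num) h5
          omega
        exact hfree (hasA_of_abelian P hP2 hcomm hnc h8)
      interval_cases k
      · exfalso
        rw [pow_zero] at hk
        have : Subsingleton ↥P := (Nat.card_eq_one_iff_unique.1 hk).1
        exact hu1 (congrArg Subtype.val (Subsingleton.elim (⟨u, huP⟩ : ↥P) 1))
      · exfalso
        rw [pow_one] at hk
        obtain ⟨y, -, hy⟩ := (Nat.card_eq_two_iff' (1 : ↥P)).1 hk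
        have hconj : h * u * h⁻¹ ∈ P := H01.conj_mem_of_mem_normalizer hd.norm huP
        have e1 := hy ⟨u, huP⟩ (by
          intro he
          exact hu1 (congrArg Subtype.val he))
        have e2 := hy ⟨h * u * h⁻¹, hconj⟩ (by
          intro he
          have h3 : h * u * h⁻¹ = 1 := congrArg Subtype.val he
          apply hu1
          have h4 : h * u = h := by
            calc h * u = (h * u * h⁻¹) * h := by group
              _ = h := by rw [h3, one_mul]
          exact mul_eq_left.1 h4)
        apply hu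
        have := e2.trans e1.symm
        exact congrArg Subtype.val this
      · simpa using hk
    refine ⟨hcard, ?_, hcomm, hexp⟩
    have hfr : frattini ↥P = ⊥ := by
      rw [eq_bot_iff]
      apply H01.frattini_le_of_comm_pow (p := 2) ⊥
      · rw [commutator_def, Subgroup.commutator_le]
        intro a _ b _
        rw [Subgroup.mem_bot, commutatorElement_eq_one_iff_mul_comm]
        exact Subtype.ext (hcomm a a.2 b b.2)
      · intro x
        rw [Subgroup.mem_bot]
        exact Subtype.ext (by simpa using hexp x x.2)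
    show (frattini ↥P).map P.subtype = ⊥
    rw [hfr, Subgroup.map_bot]
  · right
    obtain ⟨h8, hZ2⟩ := special_small hs (not_hasA_top hfree)
    have hDeq : Dof P = (Subgroup.center ↥P).map P.subtype := by
      show (frattini ↥P).map P.subtype = _
      rw [hs.2.1]
    have hD2 : Nat.card (Dof P) = 2 := by
      rw [hDeq, ← Nat.card_congr ((Subgroup.center ↥P).equivMapOfInjective P.subtype P.subtype_injective).toEquiv]
      exact hZ2
    have hzeq : ∀ w ∈ Dof P, ∀ w' ∈ Dof P, w ≠ 1 → w' ≠ 1 → w = w' := by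
      intro w hw w' hw' h1 h2
      obtain ⟨y, -, hy⟩ := (Nat.card_eq_two_iff' (1 : ↥(Dof P))).1 hD2
      have e1 := hy ⟨w, hw⟩ (by
        intro he
        exact h1 (congrArg Subtype.val he))
      have e2 := hy ⟨w', hw'⟩ (by
        intro he
        exact h2 (congrArg Subtype.val he))
      exact congrArg Subtype.val (e1.trans e2.symm)
    have hDexp : ∀ w ∈ Dof P, w ^ 2 = 1 := by
      intro w hw
      rw [hDeq] at hw
      obtain ⟨w', hw', rfl⟩ := hw
      have := center_sq hs w' hw'
      simpa using congrArg Subtype.val this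
    have hDcen := hd.cen
    have hsqD : ∀ x ∈ P, x ^ 2 ∈ Dof P := by
      intro x hx
      exact ⟨⟨x, hx⟩ ^ 2, H01.pow_mem_frattini_of_isPGroup hP2 ⟨x, hx⟩, by simp⟩
    have hh_n := hd.norm
    have hfixD := hd.fix
    -- no fixed coset of `D`
    have no_fix : ∀ g : S, h ∈ Subgroup.zpowers g → g ∈ Subgroup.normalizer (P : Set S) →
        (∀ x ∈ Dof P, g * x * g⁻¹ = x) → ∀ t ∈ P, t ∉ Dof P → t⁻¹ * (g * t * g⁻¹) ∉ Dof P := by
      intro g hhg hgn hgD t ht htD hcon
      let t' : ↥P := ⟨t, ht⟩
      let U' : Subgroup ↥P := Subgroup.zpowers t' ⊔ Subgroup.center ↥P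
      have hU'card : Nat.card U' ≤ 4 := by
        have := sup_zpowers_card_le (Z := Subgroup.center ↥P) (sq_mem_center hs t')
        rw [hZ2] at this
        exact this
      let U : Subgroup S := U'.map P.subtype
      have hDU : Dof P ≤ U := by
        rw [hDeq]
        exact Subgroup.map_mono le_sup_right
      have hUP : U ≤ P := by
        rintro _ ⟨w, _, rfl⟩
        exact w.2
      have htU : t ∈ U := ⟨t', (le_sup_left : Subgroup.zpowers t' ≤ U') (Subgroup.mem_zpowers t'), rfl⟩
      have hgU : g ∈ Subgroup.normalizer (U : Set S) := by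
        apply Cfsg.Agent.H20.mem_normalizer_of_conj_le
        have hle : U' ≤ (U.comap (MulAut.conj g).toMonoidHom).comap P.subtype := by
          apply sup_le
          · rw [Subgroup.zpowers_le]
            show g * t * g⁻¹ ∈ U
            have : g * t * g⁻¹ = t * (t⁻¹ * (g * t * g⁻¹)) := by group
            rw [this]
            exact U.mul_mem htU (hDU hcon)
          · intro z hz
            show g * (z : S) * g⁻¹ ∈ U
            have hzD : (z : S) ∈ Dof P := by
              rw [hDeq]
              exact ⟨z, hz, rfl⟩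
            rw [hgD _ hzD]
            exact hDU hzD
        rintro _ ⟨w, hw, rfl⟩
        exact hle hw
      have hhU : h ∈ Subgroup.normalizer (U : Set S) := by
        have : Subgroup.zpowers g ≤ Subgroup.normalizer (U : Set S) := by
          rw [Subgroup.zpowers_le]; exact hgU
        exact this hhg
      rcases hd.irr U hDU hUP hhU with he | he
      · rw [he] at htU
        exact htD htU
      · have h1 : Nat.card U = Nat.card U' :=
          (Nat.card_congr (U'.equivMapOfInjective P.subtype P.subtype_injective).toEquiv).symm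
        rw [he, h8] at h1
        omega
    have hh2 : h ∈ Subgroup.zpowers (h ^ 2) := by
      obtain ⟨n, hn⟩ := hodd
      have : h = (h ^ 2) ^ (n + 1) := by
        rw [← pow_mul]
        have e : 2 * (n + 1) = orderOf h + 1 := by omega
        rw [e, pow_succ, pow_orderOf_eq_one, one_mul]
      have hmem : (h ^ 2) ^ (n + 1) ∈ Subgroup.zpowers (h ^ 2) := Subgroup.pow_mem _ (Subgroup.mem_zpowers _) _
      rwa [← this] at hmem
    have hn2 : h ^ 2 ∈ Subgroup.normalizer (P : Set S) := Subgroup.pow_mem _ hh_n 2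
    have hfix2 : ∀ x ∈ Dof P, h ^ 2 * x * (h ^ 2)⁻¹ = x := by
      intro x hx
      have e : h ^ 2 * x * (h ^ 2)⁻¹ = h * (h * x * h⁻¹) * h⁻¹ := by
        rw [sq]; group
      rw [e, hfixD x hx, hfixD x hx]
    have hinvD : ∀ t, t ∉ Dof P → h * t * h⁻¹ ∉ Dof P := by
      intro t ht hcon
      have h1 := hfixD _ hcon
      have h2 : h * (h * t * h⁻¹) * h⁻¹ = h * t * h⁻¹ := h1
      have h3 : h * t * h⁻¹ = t := by
        have h4 : h * (h * t * h⁻¹) = h * t := by
          calc h * (h * t * h⁻¹) = (h * (h * t * h⁻¹) * h⁻¹) * h := by group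
            _ = (h * t * h⁻¹) * h := by rw [h2]
            _ = h * t := by group
        exact mul_left_cancel h4
      rw [h3] at hcon
      exact ht hcon
    -- squares are constant
    let Φ : Subgroup ↥P := frattini ↥P
    have hPbar : Nat.card (↥P ⧸ Φ) = 4 := by
      have h1 := Subgroup.card_eq_card_quotient_mul_card_subgroup Φ
      have h2 : Nat.card Φ = 2 := by
        rw [← hZ2]
        show Nat.card (frattini ↥P) = _
        rw [hs.2.1]
      rw [h2, h8] at h1
      omega
    have hconst : ∀ x ∈ P, x ∉ Dof P → ∀ t ∈ P, t ∉ Dof P → t ^ 2 = x ^ 2 := by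
      intro x hx hxD t ht htD
      let y := h * x * h⁻¹
      let w := h * y * h⁻¹
      have hyP : y ∈ P := H01.conj_mem_of_mem_normalizer hh_n hx
      have hwP : w ∈ P := H01.conj_mem_of_mem_normalizer hh_n hyP
      have hyD : y ∉ Dof P := hinvD x hxD
      have hwD : w ∉ Dof P := hinvD y hyD
      have hy2 : y ^ 2 = x ^ 2 := by
        show (h * x * h⁻¹) ^ 2 = x ^ 2
        rw [conj_pow]
        exact hfixD _ (hsqD x hx)
      have hw2 : w ^ 2 = x ^ 2 := by
        show (h * y * h⁻¹) ^ 2 = x ^ 2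
        rw [conj_pow, hy2]
        exact hfixD _ (hsqD x hx)
      let q : ↥P → ↥P ⧸ Φ := fun a => (a : ↥P ⧸ Φ)
      have hq : ∀ a b : ↥P, q a = q b ↔ (a : S)⁻¹ * b ∈ Dof P := by
        intro a b
        show ((a : ↥P ⧸ Φ) = b) ↔ _
        rw [QuotientGroup.eq, ← mem_dof_iff]
        simp
      have hq1 : ∀ a : ↥P, q a = 1 ↔ (a : S) ∈ Dof P := by
        intro a
        show ((a : ↥P ⧸ Φ) = 1) ↔ _
        rw [QuotientGroup.eq_one_iff, ← mem_dof_iff]
      let x' : ↥P := ⟨x, hx⟩
      let y' : ↥P := ⟨y, hyP⟩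
      let w' : ↥P := ⟨w, hwP⟩
      have n1 : q x' ≠ 1 := fun he => hxD ((hq1 x').1 he)
      have n2 : q y' ≠ 1 := fun he => hyD ((hq1 y').1 he)
      have n3 : q w' ≠ 1 := fun he => hwD ((hq1 w').1 he)
      have n4 : q x' ≠ q y' := fun he => no_fix h (Subgroup.mem_zpowers h) hh_n hfixD x hx hxD ((hq x' y').1 he)
      have n5 : q y' ≠ q w' := fun he => no_fix h (Subgroup.mem_zpowers h) hh_n hfixD y hyP hyD ((hq y' w').1 he)
      have n6 : q x' ≠ q w' := fun he => by
        apply no_fix (h ^ 2) hh2 hn2 hfix2 x hx hxD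
        have e : h ^ 2 * x * (h ^ 2)⁻¹ = w := by
          show _ = h * (h * x * h⁻¹) * h⁻¹
          rw [sq]; group
        rw [e]
        exact (hq x' w').1 he
      haveI := Fintype.ofFinite (↥P ⧸ Φ)
      have hF : ({1, q x', q y', q w'} : Finset (↥P ⧸ Φ)) = Finset.univ := by
        apply Finset.eq_univ_of_card
        rw [← Nat.card_eq_fintype_card, hPbar]
        rw [Finset.card_insert_of_notMem, Finset.card_insert_of_notMem, Finset.card_insert_of_notMem, Finset.card_singleton]
        · simpa using n5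
        · simp only [Finset.mem_insert, Finset.mem_singleton, not_or]
          exact ⟨n4, n6⟩
        · simp only [Finset.mem_insert, Finset.mem_singleton, not_or]
          exact ⟨n1.symm, n2.symm, n3.symm⟩
      let t' : ↥P := ⟨t, ht⟩
      have hmem : q t' ∈ ({1, q x', q y', q w'} : Finset (↥P ⧸ Φ)) := by
        rw [hF]; exact Finset.mem_univ _
      simp only [Finset.mem_insert, Finset.mem_singleton] at hmem
      have hcos : ∀ a ∈ P, ∀ b ∈ P, a⁻¹ * b ∈ Dof P → b ^ 2 = a ^ 2 := by
        intro a ha b hb hab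
        have e : b = a * (a⁻¹ * b) := by group
        rw [e]
        have hc : Commute a (a⁻¹ * b) := (hDcen _ hab a ha).symm
        rw [hc.mul_pow, hDexp _ hab, mul_one]
      rcases hmem with h1 | h1 | h1 | h1
      · exact absurd ((hq1 t').1 h1) htD
      · exact hcos x hx t ht ((hq x' t').1 h1.symm)
      · rw [hcos y hyP t ht ((hq y' t').1 h1.symm), hy2]
      · rw [hcos w hwP t ht ((hq w' t').1 h1.symm), hw2]
    obtain ⟨x₀, hx₀⟩ := exists_not_center hs
    have hx₀D : (x₀ : S) ∉ Dof P := by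
      intro hc
      rw [hDeq] at hc
      obtain ⟨z, hz, hzx⟩ := hc
      have : z = x₀ := Subtype.ext hzx
      exact hx₀ (this ▸ hz)
    have hnonab : ∃ a ∈ P, ∃ b ∈ P, a * b ≠ b * a := by
      by_contra hcon
      push Not at hcon
      apply hx₀
      rw [Subgroup.mem_center_iff]
      intro g
      exact Subtype.ext (hcon g g.2 x₀ x₀.2)
    have hsq : ∀ t ∈ P, t ∉ Dof P → t ^ 2 ≠ 1 := by
      intro t ht htD ht2
      have hall : ∀ a ∈ P, a ^ 2 = 1 := by
        intro a ha
        by_cases haD : a ∈ Dof P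
        · exact hDexp a haD
        · rw [hconst t ht htD a ha haD, ht2]
      obtain ⟨a, ha, b, hb, hab⟩ := hnonab
      apply hab
      have e1 : a⁻¹ = a := by
        rw [inv_eq_iff_mul_eq_one, ← sq]; exact hall a ha
      have e2 : b⁻¹ = b := by
        rw [inv_eq_iff_mul_eq_one, ← sq]; exact hall b hb
      have e3 : (a * b)⁻¹ = a * b := by
        rw [inv_eq_iff_mul_eq_one, ← sq]; exact hall _ (P.mul_mem ha hb)
      rw [mul_inv_rev, e1, e2] at e3
      exact e3.symm
    have huniq : H14.UniqueP 2 ↥P := by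
      intro a b ha hb
      have ha2 : (a : S) ^ 2 = 1 := by
        have := pow_orderOf_eq_one a
        rw [ha] at this
        simpa using congrArg Subtype.val this
      have hb2 : (b : S) ^ 2 = 1 := by
        have := pow_orderOf_eq_one b
        rw [hb] at this
        simpa using congrArg Subtype.val this
      have haD : (a : S) ∈ Dof P := by
        by_contra hc
        exact hsq a a.2 hc ha2
      have hbD : (b : S) ∈ Dof P := by
        by_contra hc
        exact hsq b b.2 hc hb2
      have ha1 : (a : S) ≠ 1 := by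
        intro he
        have : a = 1 := Subtype.ext he
        rw [this, orderOf_one] at ha
        omega
      have hb1 : (b : S) ≠ 1 := by
        intro he
        have : b = 1 := Subtype.ext he
        rw [this, orderOf_one] at hb
        omega
      have := hzeq _ haD _ hbD ha1 hb1
      have hab : a = b := Subtype.ext this
      rw [← hab]
      exact Subgroup.mem_zpowers a
    refine ⟨h8, hD2, hDeq, hs, hnonab, hsq, ?_⟩
    rcases H14.isCyclic_or_quaternion hP2 huniq with hcyc | ⟨-, k, hk1, ⟨e⟩⟩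
    · exfalso
      obtain ⟨a, ha, b, hb, hab⟩ := hnonab
      letI := IsCyclic.commGroup (α := ↥P)
      apply hab
      have := mul_comm (⟨a, ha⟩ : ↥P) ⟨b, hb⟩
      exact congrArg Subtype.val this
    · have hcardQ : Nat.card (QuaternionGroup (2 ^ k)) = 4 * 2 ^ k := by
        haveI : NeZero (2 ^ k) := ⟨by positivity⟩
        rw [Nat.card_eq_fintype_card, QuaternionGroup.card]
      rw [← Nat.card_congr e.toEquiv, h8] at hcardQ
      have hk' : 2 ^ k = 2 := by omega
      have hk'' : k = 1 := Nat.pow_right_injective (le_refl 2) (by simpa using hk')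
      subst hk''
      exact ⟨e.trans (MulEquiv.refl _)⟩

end af

end Cfsg.Agent.H20.AF
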