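import Mathlib
import Cfsg.Prelude
import Cfsg.Agent.Lib.H20.AF2

set_option autoImplicit false
set_option linter.unusedVariables false
set_option linter.unusedSectionVars false
set_option linter.style.haveILetI false

namespace Cfsg.Agent.H20.AF

open Cfsg
open scoped commutatorElement

section af
variable {S : Type*} [Group S] [Finite S]

theorem two_invol_of_card {P : Subgroup S} (h4 : Nat.card P = 4) (hc : ∀ a ∈ P, ∀ b ∈ P, a * b = b * a)
    (hexp : ∀ a ∈ P, a ^ 2 = 1) : ∃ u ∈ P, ∃ v ∈ P, orderOf u = 2 ∧ orderOf v = 2 ∧ u ≠ v := by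
  classical
  haveI := Fintype.ofFinite P
  have h2 : 2 < Fintype.card P := by
    rw [← Nat.card_eq_fintype_card, h4]; norm_num
  rw [Fintype.two_lt_card_iff] at h2
  obtain ⟨a, b, c, hab, hac, hbc⟩ := h2
  have hord : ∀ s t : P, s ≠ t → orderOf ((t : S)⁻¹ * s) = 2 := by
    intro s t hst
    refine orderOf_eq_prime (hexp _ (P.mul_mem (P.inv_mem t.2) s.2)) ?_
    intro h
    apply hst
    apply Subtype.ext
    exact (inv_mul_eq_one.1 h).symm
  refine ⟨_, P.mul_mem (P.inv_mem c.2) a.2, _, P.mul_mem (P.inv_mem c.2) b.2, hord a c hac, hord b c hbc, ?_⟩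
  intro h
  exact hab (Subtype.ext (mul_left_cancel h))

/-- A 2-element outside `P` has a power outside `P` with square inside. -/
theorem exists_pow_sq_mem {P : Subgroup S} {y : S} (hy : ∃ m : ℕ, orderOf y = 2 ^ m) (hyP : y ∉ P) :
    ∃ n : ℕ, y ^ (2 ^ n) ∉ P ∧ (y ^ (2 ^ n)) ^ 2 ∈ P := by
  classical
  obtain ⟨m, hm⟩ := hy
  have hex : ∃ n : ℕ, y ^ (2 ^ n) ∈ P := ⟨m, by rw [← hm, pow_orderOf_eq_one]; exact P.one_mem⟩
  have h0 : Nat.find hex ≠ 0 := by
    intro h
    have := Nat.find_spec hex
    rw [h] at this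
    simp at this
    exact hyP this
  obtain ⟨k, hk⟩ := Nat.exists_eq_succ_of_ne_zero h0
  refine ⟨k, ?_, ?_⟩
  · exact Nat.find_min hex (by omega)
  · have := Nat.find_spec hex
    rw [hk, pow_succ, pow_mul] at this
    exact this

/-- `P = Y`. -/
theorem eq_of_norm {P Y : Subgroup S} (hPY : P ≤ Y) (hY2 : IsPGroup 2 Y) (hfree : ¬ HasA Y) {h : S}
    (hodd : Odd (orderOf h)) (hd : IrrData P h) (hn : h ∈ Subgroup.normalizer (Y : Set S))
    (hmv : ∃ u ∈ P, h * u * h⁻¹ ≠ u) (hty : V4 P ∨ Q8 P) : P = Y := by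
  classical
  haveI : Fact (Nat.Prime 2) := ⟨Nat.prime_two⟩
  have hP2 : IsPGroup 2 P := hY2.to_le hPY
  let N₁ : Subgroup S := Y ⊓ Subgroup.normalizer (P : Set S)
  have hN₁P : N₁ ≤ Subgroup.normalizer (P : Set S) := inf_le_right
  have hhN₁ : h ∈ Subgroup.normalizer (N₁ : Set S) := by
    apply Cfsg.Agent.H20.mem_normalizer_of_conj_le
    rintro g ⟨hg1, hg2⟩
    refine ⟨H01.conj_mem_of_mem_normalizer hn hg1, ?_⟩
    exact Subgroup.mul_mem _ (Subgroup.mul_mem _ hd.norm hg2) (Subgroup.inv_mem _ hd.norm)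
  have hhD : h ∈ Subgroup.normalizer ((Dof P : Subgroup S) : Set S) := by
    apply Cfsg.Agent.H20.mem_normalizer_of_conj_le
    intro y hy
    rw [hd.fix y hy]
    exact hy
  have hE : ∀ x ∈ P, ∀ y ∈ N₁, ⁅x, y⁆ ∈ Dof P := by
    have hhE : h ∈ Subgroup.normalizer ((⁅P, N₁⁆ ⊔ Dof P : Subgroup S) : Set S) :=
      mem_norm_sup (H01.mem_normalizer_commutator hd.norm hhN₁) hhD
    have hcP : ⁅P, N₁⁆ ≤ P := H18.hh_comm_le hN₁P
    rcases hd.irr (⁅P, N₁⁆ ⊔ Dof P) le_sup_right (sup_le hcP (dof_le P)) hhE with he | he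
    · intro x hx y hy
      rw [← he]
      exact (le_sup_left : ⁅P, N₁⁆ ≤ _) (Subgroup.commutator_mem_commutator hx hy)
    · exfalso
      have h1 : (⁅P, N₁⁆).subgroupOf P ⊔ frattini ↥P = ⊤ := by
        have h2 : ((⁅P, N₁⁆).subgroupOf P ⊔ frattini ↥P).map P.subtype = (⊤ : Subgroup ↥P).map P.subtype := by
          rw [Subgroup.map_sup, Subgroup.map_subgroupOf_eq_of_le hcP]
          show ⁅P, N₁⁆ ⊔ Dof P = _
          rw [he]
          ext w
          simp
        exact Subgroup.map_injective P.subtype_injective h2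
      have h3 := frattini_nongenerating h1
      have h4 : P ≤ ⁅P, N₁⁆ := by
        intro w hw
        have : (⟨w, hw⟩ : ↥P) ∈ (⁅P, N₁⁆).subgroupOf P := by rw [h3]; trivial
        exact this
      have hPN : P ≤ N₁ := le_inf hPY Subgroup.le_normalizer
      have h5 := H13.eq_bot_of_le_commutator (hY2.to_le inf_le_left) hPN h4
      obtain ⟨u, hu, hne⟩ := hmv
      rw [h5, Subgroup.mem_bot] at hu
      subst hu
      simp at hne
  -- centralizer
  have hC : ∀ y ∈ Y, (∀ x ∈ P, x * y = y * x) → y ∈ P := by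
    intro y hyY hyc
    by_contra hyP
    rcases hty with hty | hty
    · let T : Set S := (P : Set S) ∪ {y}
      have hT : ∀ a ∈ T, ∀ b ∈ T, a * b = b * a := by
        rintro a (ha | ha) b (hb | hb)
        · exact hty.comm a ha b hb
        · rw [Set.mem_singleton_iff.1 hb]; exact hyc a ha
        · rw [Set.mem_singleton_iff.1 ha]; exact (hyc b hb).symm
        · rw [Set.mem_singleton_iff.1 ha, Set.mem_singleton_iff.1 hb]
      have hBY : Subgroup.closure T ≤ Y := by
        rw [Subgroup.closure_le]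
        rintro a (ha | ha)
        · exact hPY ha
        · rw [Set.mem_singleton_iff.1 ha]; exact hyY
      have hPB : P ≤ Subgroup.closure T := fun a ha => Subgroup.subset_closure (Or.inl ha)
      have hlt : P < Subgroup.closure T := by
        refine lt_of_le_of_ne hPB ?_
        intro he
        have : y ∈ Subgroup.closure T := Subgroup.subset_closure (Or.inr rfl)
        rw [← he] at this
        exact hyP this
      have h8 : 8 ≤ Nat.card (Subgroup.closure T) := by
        have := card_two_mul_le_of_lt hlt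
        rw [hty.card] at this
        omega
      obtain ⟨u, hu, v, hv, hu2, hv2, huv⟩ := two_invol_of_card hty.card hty.comm hty.exp
      exact hfree ((hasA_of_two_invol _ (hY2.to_le hBY) (comm_closure hT) (hPB hu) (hPB hv) hu2 hv2 huv h8).mono hBY)
    · obtain ⟨a, ha, b, hb, hab⟩ := hty.pair
      have hDcen : ∀ w ∈ P, (∀ x ∈ P, w * x = x * w) → w ∈ Dof P := by
        intro w hw hwc
        rw [hty.dof]
        refine ⟨⟨w, hw⟩, ?_, rfl⟩
        show (⟨w, hw⟩ : ↥P) ∈ Subgroup.center ↥P
        rw [Subgroup.mem_center_iff]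
        intro g
        exact Subtype.ext (hwc g g.2).symm
      have haD : a ∉ Dof P := by
        intro hc
        exact hab (hd.cen a hc b hb)
      have hDexp : ∀ w ∈ Dof P, w ^ 2 = 1 := by
        intro w hw
        rw [hty.dof] at hw
        obtain ⟨w', hw', rfl⟩ := hw
        have := center_sq hty.spec w' hw'
        simpa using congrArg Subtype.val this
      have hsqD : ∀ x ∈ P, x ^ 2 ∈ Dof P := by
        intro x hx
        exact ⟨⟨x, hx⟩ ^ 2, H01.pow_mem_frattini_of_isPGroup hP2 ⟨x, hx⟩, by simp⟩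
      have hzeq : ∀ w ∈ Dof P, ∀ w' ∈ Dof P, w ≠ 1 → w' ≠ 1 → w = w' := by
        intro w hw w' hw' h1 h2
        obtain ⟨y, -, hy⟩ := (Nat.card_eq_two_iff' (1 : ↥(Dof P))).1 hty.cardD
        have e1 := hy ⟨w, hw⟩ (by
          intro he
          exact h1 (congrArg Subtype.val he))
        have e2 := hy ⟨w', hw'⟩ (by
          intro he
          exact h2 (congrArg Subtype.val he))
        exact congrArg Subtype.val (e1.trans e2.symm)
      have hz : a ^ 2 ≠ 1 := hty.sq a ha haD
      have hz2 : (a ^ 2) ^ 2 = 1 := hDexp _ (hsqD a ha)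
      have hzord : orderOf (a ^ 2) = 2 := orderOf_eq_prime hz2 hz
      have hyord : ∃ m : ℕ, orderOf y = 2 ^ m := by
        have := (IsPGroup.iff_orderOf.1 hY2) ⟨y, hyY⟩
        obtain ⟨m, hm⟩ := this
        exact ⟨m, by rwa [Subgroup.orderOf_mk] at hm⟩
      obtain ⟨n, hn1, hn2⟩ := exists_pow_sq_mem hyord hyP
      obtain ⟨y₁, hy₁⟩ : ∃ y₁, y₁ = y ^ (2 ^ n) := ⟨_, rfl⟩
      rw [← hy₁] at hn1 hn2
      have hy₁Y : y₁ ∈ Y := by rw [hy₁]; exact Y.pow_mem hyY _
      have hy₁c : ∀ x ∈ P, x * y₁ = y₁ * x := by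
        intro x hx
        rw [hy₁]
        exact ((show Commute x y from hyc x hx).pow_right _)
      have hy₁D : y₁ ^ 2 ∈ Dof P := by
        apply hDcen _ hn2
        intro x hx
        exact ((show Commute x y₁ from hy₁c x hx).pow_right 2).symm
      -- the second involution
      obtain ⟨t, htB, htP, ht2⟩ : ∃ t ∈ Subgroup.closure ({a, y₁} : Set S), t ∉ P ∧ t ^ 2 = 1 := by
        by_cases hc : y₁ ^ 2 = 1
        · exact ⟨y₁, Subgroup.subset_closure (by simp), hn1, hc⟩
        · refine ⟨y₁ * a, Subgroup.mul_mem _ (Subgroup.subset_closure (by simp)) (Subgroup.subset_closure (by simp)), ?_, ?_⟩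
          · intro hm
            apply hn1
            have : y₁ = (y₁ * a) * a⁻¹ := by group
            rw [this]
            exact P.mul_mem hm (P.inv_mem ha)
          · have hcm : Commute y₁ a := (hy₁c a ha).symm
            rw [hcm.mul_pow, hzeq _ hy₁D _ (hsqD a ha) hc hz]
            rw [← sq]
            exact hz2
      have ht1 : t ≠ 1 := by
        rintro rfl
        exact htP P.one_mem
      have htord : orderOf t = 2 := orderOf_eq_prime ht2 ht1
      have hT : ∀ u ∈ ({a, y₁} : Set S), ∀ v ∈ ({a, y₁} : Set S), u * v = v * u := by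
        intro u hu v hv
        simp only [Set.mem_insert_iff, Set.mem_singleton_iff] at hu hv
        rcases hu with rfl | rfl <;> rcases hv with rfl | rfl
        · rfl
        · exact hy₁c _ ha
        · exact (hy₁c _ ha).symm
        · rfl
      have hBY : Subgroup.closure ({a, y₁} : Set S) ≤ Y := by
        rw [Subgroup.closure_le]
        intro u hu
        simp only [Set.mem_insert_iff, Set.mem_singleton_iff] at hu
        rcases hu with rfl | rfl
        · exact hPY ha
        · exact hy₁Y
      have haB : a ∈ Subgroup.closure ({a, y₁} : Set S) := Subgroup.subset_closure (by simp)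
      have hy₁B : y₁ ∈ Subgroup.closure ({a, y₁} : Set S) := Subgroup.subset_closure (by simp)
      have hord4 : orderOf a = 4 := by
        have := orderOf_eq_prime_pow (p := 2) (n := 1) (x := a) (by simpa using hz) (by
          rw [show 2 ^ (1 + 1) = 2 * 2 from rfl, pow_mul]; exact hz2)
        simpa using this
      have hlt : Subgroup.zpowers a < Subgroup.closure ({a, y₁} : Set S) := by
        refine lt_of_le_of_ne (by rw [Subgroup.zpowers_le]; exact haB) ?_
        intro he
        rw [← he] at hy₁B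
        apply hn1
        have h1 : Subgroup.zpowers a ≤ P := by rw [Subgroup.zpowers_le]; exact ha
        exact h1 hy₁B
      have h8 : 8 ≤ Nat.card (Subgroup.closure ({a, y₁} : Set S)) := by
        have := card_two_mul_le_of_lt hlt
        rw [Nat.card_zpowers, hord4] at this
        omega
      have hne : a ^ 2 ≠ t := by
        intro he
        apply htP
        rw [← he]
        exact P.pow_mem ha 2
      exact hfree ((hasA_of_two_invol _ (hY2.to_le hBY) (comm_closure hT)
        (Subgroup.pow_mem _ haB 2) htB hzord htord hne h8).mono hBY)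
  -- normalizer
  have hN : ∀ y ∈ N₁, y ∈ P := by
    intro y hy
    rcases hty with hty | hty
    · apply hC y hy.1
      intro x hx
      have h1 := hE x hx y hy
      rw [hty.dof, Subgroup.mem_bot, commutatorElement_eq_one_iff_mul_comm] at h1
      exact h1
    · obtain ⟨a, ha, b, hb, hab⟩ := hty.pair
      have hDexp : ∀ w ∈ Dof P, w ^ 2 = 1 := by
        intro w hw
        rw [hty.dof] at hw
        obtain ⟨w', hw', rfl⟩ := hw
        have := center_sq hty.spec w' hw'
        simpa using congrArg Subtype.val this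
      have hzeq : ∀ w ∈ Dof P, ∀ w' ∈ Dof P, w ≠ 1 → w' ≠ 1 → w = w' := by
        intro w hw w' hw' h1 h2
        obtain ⟨y, -, hy⟩ := (Nat.card_eq_two_iff' (1 : ↥(Dof P))).1 hty.cardD
        have e1 := hy ⟨w, hw⟩ (by
          intro he
          exact h1 (congrArg Subtype.val he))
        have e2 := hy ⟨w', hw'⟩ (by
          intro he
          exact h2 (congrArg Subtype.val he))
        exact congrArg Subtype.val (e1.trans e2.symm)
      have hcommD : ∀ u ∈ P, ∀ v ∈ P, ⁅u, v⁆ ∈ Dof P := by
        intro u hu v hv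
        refine ⟨⁅(⟨u, hu⟩ : ↥P), ⟨v, hv⟩⁆, ?_, rfl⟩
        exact H01.commutator_le_frattini_of_isPGroup hP2
          (Subgroup.commutator_mem_commutator (Subgroup.mem_top _) (Subgroup.mem_top _))
      have hyN : y ∈ Subgroup.normalizer (P : Set S) := hy.2
      have hyDn : y ∈ Subgroup.normalizer ((Dof P : Subgroup S) : Set S) :=
        H18.hh_char_map_normalized P (frattini ↥P) hyN
      have hyD : ∀ w ∈ Dof P, y * w * y⁻¹ = w := by
        intro w hw
        by_cases hw1 : w = 1
        · rw [hw1]; group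
        · apply hzeq _ (H01.conj_mem_of_mem_normalizer hyDn hw) _ hw _ hw1
          intro he
          apply hw1
          have : y * w = y := by
            calc y * w = (y * w * y⁻¹) * y := by group
              _ = y := by rw [he, one_mul]
          exact mul_eq_left.1 this
      -- nontrivial commutators
      have hnt : ∀ u v : S, (u = a ∨ u = a⁻¹) → (v = b ∨ v = b⁻¹) → ⁅u, v⁆ ≠ 1 ∧ ⁅v, u⁆ ≠ 1 := by
        have key : ∀ u v : S, (u = a ∨ u = a⁻¹) → (v = b ∨ v = b⁻¹) → u * v = v * u → False := by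
          intro u v hu hv huv
          apply hab
          have hc : Commute u v := huv
          rcases hu with rfl | rfl <;> rcases hv with rfl | rfl
          · exact hc
          · have := hc.inv_right
            rw [inv_inv] at this
            exact this
          · have := hc.inv_left
            rw [inv_inv] at this
            exact this
          · have := hc.inv_left.inv_right
            rw [inv_inv, inv_inv] at this
            exact this
        intro u v hu hv
        constructor
        · intro h1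
          rw [commutatorElement_eq_one_iff_mul_comm] at h1
          exact key u v hu hv h1
        · intro h1
          rw [commutatorElement_eq_one_iff_mul_comm] at h1
          exact key u v hu hv h1.symm
      have haP' : a⁻¹ ∈ P := P.inv_mem ha
      have hbP' : b⁻¹ ∈ P := P.inv_mem hb
      have hk : ∃ k ∈ P, (k⁻¹ * a * k * a⁻¹ = y * a * y⁻¹ * a⁻¹) ∧ (k⁻¹ * b * k * b⁻¹ = y * b * y⁻¹ * b⁻¹) := by
        have hαD : y * a * y⁻¹ * a⁻¹ ∈ Dof P := by
          have h1 := hE a ha y hy
          have h2 : y * a * y⁻¹ * a⁻¹ = (⁅a, y⁆)⁻¹ := by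
            rw [commutatorElement_def]; group
          rw [h2]
          exact Subgroup.inv_mem _ h1
        have hβD : y * b * y⁻¹ * b⁻¹ ∈ Dof P := by
          have h1 := hE b hb y hy
          have h2 : y * b * y⁻¹ * b⁻¹ = (⁅b, y⁆)⁻¹ := by
            rw [commutatorElement_def]; group
          rw [h2]
          exact Subgroup.inv_mem _ h1
        by_cases hα : y * a * y⁻¹ * a⁻¹ = 1 <;> by_cases hβ : y * b * y⁻¹ * b⁻¹ = 1
        · exact ⟨1, P.one_mem, by rw [hα]; group, by rw [hβ]; group⟩
        · -- `k = a`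
          refine ⟨a, ha, by rw [hα]; group, ?_⟩
          have e : a⁻¹ * b * a * b⁻¹ = ⁅a⁻¹, b⁆ := by
            rw [commutatorElement_def]; group
          rw [e]
          exact hzeq _ (hcommD _ haP' _ hb) _ hβD (hnt a⁻¹ b (Or.inr rfl) (Or.inl rfl)).1 hβ
        · -- `k = b`
          refine ⟨b, hb, ?_, by rw [hβ]; group⟩
          have e : b⁻¹ * a * b * a⁻¹ = ⁅b⁻¹, a⁆ := by
            rw [commutatorElement_def]; group
          rw [e]
          exact hzeq _ (hcommD _ hbP' _ ha) _ hαD (hnt a b⁻¹ (Or.inl rfl) (Or.inr rfl)).2 hα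
        · -- `k = a * b`
          refine ⟨a * b, P.mul_mem ha hb, ?_, ?_⟩
          · have e : (a * b)⁻¹ * a * (a * b) * a⁻¹ = ⁅b⁻¹, a⁆ := by
              rw [commutatorElement_def]; group
            rw [e]
            exact hzeq _ (hcommD _ hbP' _ ha) _ hαD (hnt a b⁻¹ (Or.inl rfl) (Or.inr rfl)).2 hα
          · have e : (a * b)⁻¹ * b * (a * b) * b⁻¹ = ⁅b⁻¹, a⁻¹⁆ := by
              rw [commutatorElement_def]; group
            rw [e]
            exact hzeq _ (hcommD _ hbP' _ haP') _ hβD (hnt a⁻¹ b⁻¹ (Or.inr rfl) (Or.inr rfl)).2 hβ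
      obtain ⟨k, hkP, hka, hkb⟩ := hk
      have hfixc : ∀ c ∈ P, k⁻¹ * c * k * c⁻¹ = y * c * y⁻¹ * c⁻¹ → y * k⁻¹ * c = c * (y * k⁻¹) := by
        intro c hc he
        have hα : y * c * y⁻¹ * c⁻¹ ∈ Dof P := by
          have h1 := hE c hc y hy
          have h2 : y * c * y⁻¹ * c⁻¹ = (⁅c, y⁆)⁻¹ := by
            rw [commutatorElement_def]; group
          rw [h2]
          exact Subgroup.inv_mem _ h1
        obtain ⟨α, hαe⟩ : ∃ α, α = y * c * y⁻¹ * c⁻¹ := ⟨_, rfl⟩
        rw [← hαe] at hα he
        have e1 : k⁻¹ * c * k = α * c := by rw [← he]; group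
        have e2 : y * c * y⁻¹ = α * c := by rw [hαe]; group
        have hα2 : α ^ 2 = 1 := hDexp α hα
        calc y * k⁻¹ * c = y * (k⁻¹ * c * k) * k⁻¹ := by group
          _ = y * (α * c) * k⁻¹ := by rw [e1]
          _ = (y * α * y⁻¹) * (y * c * y⁻¹) * (y * k⁻¹) := by group
          _ = α * (α * c) * (y * k⁻¹) := by rw [hyD α hα, e2]
          _ = α ^ 2 * c * (y * k⁻¹) := by rw [sq]; group
          _ = c * (y * k⁻¹) := by rw [hα2, one_mul]
      have hya := hfixc a ha hka
      have hyb := hfixc b hb hkb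
      obtain ⟨y', hy'⟩ : ∃ y', y' = y * k⁻¹ := ⟨_, rfl⟩
      rw [← hy'] at hya hyb
      let W : Subgroup S := P ⊓ Subgroup.centralizer {y'}
      have haW : a ∈ W := ⟨ha, Subgroup.mem_centralizer_singleton_iff.2 hya.symm⟩
      have hbW : b ∈ W := ⟨hb, Subgroup.mem_centralizer_singleton_iff.2 hyb.symm⟩
      have hWP : W = P := by
        by_contra hne
        have hlt : W < P := lt_of_le_of_ne inf_le_left hne
        have h1 := card_two_mul_le_of_lt hlt
        rw [hty.card] at h1
        have h2 : Nat.card W ≤ 4 := by omega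
        have h3 := comm_of_card_le_four (hP2.to_le inf_le_left : IsPGroup 2 W) h2 ⟨a, haW⟩ ⟨b, hbW⟩
        exact hab (congrArg Subtype.val h3)
      have hy'Y : y' ∈ Y := by
        rw [hy']
        exact Y.mul_mem hy.1 (Y.inv_mem (hPY hkP))
      have hy'P : y' ∈ P := by
        apply hC y' hy'Y
        intro x hx
        have : x ∈ W := by rw [hWP]; exact hx
        exact (Subgroup.mem_centralizer_singleton_iff.1 this.2)
      have : y = y' * k := by rw [hy']; group
      rw [this]
      exact P.mul_mem hy'P hkP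
  -- conclusion
  by_contra hne
  have hlt : P < Y := lt_of_le_of_ne hPY hne
  haveI hnil : Group.IsNilpotent ↥Y := hY2.isNilpotent
  have hnc := Group.normalizerCondition_of_isNilpotent (G := ↥Y)
  have h1 : P.subgroupOf Y < ⊤ := by
    rw [lt_top_iff_ne_top]
    intro he
    rw [Subgroup.subgroupOf_eq_top] at he
    exact absurd he (not_le_of_gt hlt)
  obtain ⟨y, hy1, hy2⟩ := SetLike.exists_of_lt (hnc _ h1)
  have hyP : (y : S) ∉ P := hy2
  apply hyP
  apply hN
  refine ⟨y.2, ?_⟩
  apply Cfsg.Agent.H20.mem_normalizer_of_conj_le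
  intro x hx
  have h3 : (⟨x, hPY hx⟩ : ↥Y) ∈ P.subgroupOf Y := hx
  have h4 := (Subgroup.mem_normalizer_iff.1 hy1 _).1 h3
  exact h4

/-- **AF**: odd action on a 2-group without non-cyclic abelian subgroups of order 8. -/
theorem af_main {Y : Subgroup S} (hY2 : IsPGroup 2 Y) (hfree : ¬ HasA Y) {h : S} (hodd : Odd (orderOf h))
    (hn : h ∈ Subgroup.normalizer (Y : Set S)) (hne : ∃ y ∈ Y, h * y * h⁻¹ ≠ y) :
    IrrData Y h ∧ (V4 Y ∨ Q8 Y) := by
  obtain ⟨P, hPY, hPn, hmv, hmin⟩ := exists_min Y h hn hne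
  have hP2 : IsPGroup 2 P := hY2.to_le hPY
  have hfreeP : ¬ HasA P := fun hA => hfree (hA.mono hPY)
  have hd := irr_data hP2 hodd hPn hmv hmin
  have hty := irr_type hP2 hfreeP hodd hd hmv
  have he := eq_of_norm hPY hY2 hfree hodd hd hn hmv hty
  subst he
  exact ⟨hd, hty⟩

end af

end Cfsg.Agent.H20.AF
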