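import Mathlib
import Cfsg.Prelude
import Cfsg.Agent.Lib.H20.AF3

set_option autoImplicit false
set_option linter.unusedVariables false
set_option linter.unusedSectionVars false
set_option linter.style.haveILetI false

namespace Cfsg.Agent.H20.AF

open Cfsg
open scoped commutatorElement

section af
variable {S : Type*} [Group S] [Finite S]

theorem comm_le_dof {P X T : Subgroup S} (hPX : P ≤ X) (hX2 : IsPGroup 2 X) (hTX : T ≤ X)
    (hTN : T ≤ Subgroup.normalizer (P : Set S)) {h : S} (hd : IrrData P h)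
    (hhT : h ∈ Subgroup.normalizer (T : Set S)) (hP1 : P ≠ ⊥) : ∀ x ∈ P, ∀ y ∈ T, ⁅x, y⁆ ∈ Dof P := by
  haveI : Fact (Nat.Prime 2) := ⟨Nat.prime_two⟩
  have hhD : h ∈ Subgroup.normalizer ((Dof P : Subgroup S) : Set S) := by
    apply Cfsg.Agent.H20.mem_normalizer_of_conj_le
    intro y hy
    rw [hd.fix y hy]
    exact hy
  have hhE : h ∈ Subgroup.normalizer ((⁅P, T⁆ ⊔ Dof P : Subgroup S) : Set S) :=
    mem_norm_sup (H01.mem_normalizer_commutator hd.norm hhT) hhD
  have hcP : ⁅P, T⁆ ≤ P := H18.hh_comm_le hTN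
  rcases hd.irr (⁅P, T⁆ ⊔ Dof P) le_sup_right (sup_le hcP (dof_le P)) hhE with he | he
  · intro x hx y hy
    rw [← he]
    exact (le_sup_left : ⁅P, T⁆ ≤ _) (Subgroup.commutator_mem_commutator hx hy)
  · exfalso
    have h1 : (⁅P, T⁆).subgroupOf P ⊔ frattini ↥P = ⊤ := by
      have h2 : ((⁅P, T⁆).subgroupOf P ⊔ frattini ↥P).map P.subtype = (⊤ : Subgroup ↥P).map P.subtype := by
        rw [Subgroup.map_sup, Subgroup.map_subgroupOf_eq_of_le hcP]
        show ⁅P, T⁆ ⊔ Dof P = _
        rw [he]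
        ext w
        simp
      exact Subgroup.map_injective P.subtype_injective h2
    have h3 := frattini_nongenerating h1
    have h4 : P ≤ ⁅P, T⁆ := by
      intro w hw
      have : (⟨w, hw⟩ : ↥P) ∈ (⁅P, T⁆).subgroupOf P := by rw [h3]; trivial
      exact this
    exact hP1 (H13.eq_bot_of_le_commutator hX2 hPX (h4.trans (Subgroup.commutator_mono le_rfl hTX)))

section q8
variable {P : Subgroup S} (hP2 : IsPGroup 2 P) (hty : Q8 P)
include hP2 hty

theorem q8_exp : ∀ w ∈ Dof P, w ^ 2 = 1 := by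
  intro w hw
  rw [hty.dof] at hw
  obtain ⟨w', hw', rfl⟩ := hw
  have := center_sq hty.spec w' hw'
  simpa using congrArg Subtype.val this

theorem q8_eq : ∀ w ∈ Dof P, ∀ w' ∈ Dof P, w ≠ 1 → w' ≠ 1 → w = w' := by
  intro w hw w' hw' h1 h2
  obtain ⟨y, -, hy⟩ := (Nat.card_eq_two_iff' (1 : ↥(Dof P))).1 hty.cardD
  have e1 := hy ⟨w, hw⟩ (by
    intro he
    exact h1 (congrArg Subtype.val he))
  have e2 := hy ⟨w', hw'⟩ (by
    intro he
    exact h2 (congrArg Subtype.val he))
  exact congrArg Subtype.val (e1.trans e2.symm)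

theorem q8_sqD : ∀ x ∈ P, x ^ 2 ∈ Dof P := by
  haveI : Fact (Nat.Prime 2) := ⟨Nat.prime_two⟩
  intro x hx
  exact ⟨⟨x, hx⟩ ^ 2, H01.pow_mem_frattini_of_isPGroup hP2 ⟨x, hx⟩, by simp⟩

theorem q8_cen : ∀ w ∈ Dof P, ∀ x ∈ P, w * x = x * w := by
  intro w hw x hx
  rw [hty.dof] at hw
  obtain ⟨w', hw', rfl⟩ := hw
  have := Subgroup.mem_center_iff.1 hw' ⟨x, hx⟩
  exact (congrArg Subtype.val this).symm

theorem q8_mem : ∀ w ∈ P, (∀ x ∈ P, w * x = x * w) → w ∈ Dof P := by
  intro w hw hwc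
  rw [hty.dof]
  refine ⟨⟨w, hw⟩, ?_, rfl⟩
  show (⟨w, hw⟩ : ↥P) ∈ Subgroup.center ↥P
  rw [Subgroup.mem_center_iff]
  intro g
  exact Subtype.ext (hwc g g.2).symm

theorem q8_stab {y : S} (hyN : y ∈ Subgroup.normalizer (P : Set S)) (hE : ∀ x ∈ P, ⁅x, y⁆ ∈ Dof P) :
    ∃ k ∈ P, ∀ x ∈ P, x * (y * k⁻¹) = (y * k⁻¹) * x := by
  haveI : Fact (Nat.Prime 2) := ⟨Nat.prime_two⟩
  obtain ⟨a, ha, b, hb, hab⟩ := hty.pair
  have hDexp := q8_exp hP2 hty
  have hzeq := q8_eq hP2 hty
  have hcommD : ∀ u ∈ P, ∀ v ∈ P, ⁅u, v⁆ ∈ Dof P := by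
    intro u hu v hv
    refine ⟨⁅(⟨u, hu⟩ : ↥P), ⟨v, hv⟩⁆, ?_, rfl⟩
    exact H01.commutator_le_frattini_of_isPGroup hP2
      (Subgroup.commutator_mem_commutator (Subgroup.mem_top _) (Subgroup.mem_top _))
  have hyDn : y ∈ Subgroup.normalizer ((Dof P : Subgroup S) : Set S) :=
    H18.hh_char_map_normalized P (frattini ↥P) hyN
  have hyD : ∀ w ∈ Dof P, y * w * y⁻¹ = w := by
    intro w hw
    by_cases hw1 : w = 1
    · rw [hw1]; group
    · apply hzeq _ (H01.conj_mem_of_mem_normalizer hyDn hw) _ hw _ hw1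
      intro he
      apply hw1
      have : y * w = y := by
        calc y * w = (y * w * y⁻¹) * y := by group
          _ = y := by rw [he, one_mul]
      exact mul_eq_left.1 this
  have hnt : ∀ u v : S, (u = a ∨ u = a⁻¹) → (v = b ∨ v = b⁻¹) → ⁅u, v⁆ ≠ 1 ∧ ⁅v, u⁆ ≠ 1 := by
    have key : ∀ u v : S, (u = a ∨ u = a⁻¹) → (v = b ∨ v = b⁻¹) → u * v = v * u → False := by
      intro u v hu hv huv
      apply hab
      have hc : Commute u v := huv
      rcases hu with rfl | rfl <;> rcases hv with rfl | rfl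
      · exact hc
      · have := hc.inv_right
        rw [inv_inv] at this
        exact this
      · have := hc.inv_left
        rw [inv_inv] at this
        exact this
      · have := hc.inv_left.inv_right
        rw [inv_inv, inv_inv] at this
        exact this
    intro u v hu hv
    constructor
    · intro h1
      rw [commutatorElement_eq_one_iff_mul_comm] at h1
      exact key u v hu hv h1
    · intro h1
      rw [commutatorElement_eq_one_iff_mul_comm] at h1
      exact key u v hu hv h1.symm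
  have haP' : a⁻¹ ∈ P := P.inv_mem ha
  have hbP' : b⁻¹ ∈ P := P.inv_mem hb
  have hk : ∃ k ∈ P, (k⁻¹ * a * k * a⁻¹ = y * a * y⁻¹ * a⁻¹) ∧ (k⁻¹ * b * k * b⁻¹ = y * b * y⁻¹ * b⁻¹) := by
    have hαD : y * a * y⁻¹ * a⁻¹ ∈ Dof P := by
      have h1 := hE a ha
      have h2 : y * a * y⁻¹ * a⁻¹ = (⁅a, y⁆)⁻¹ := by
        rw [commutatorElement_def]; group
      rw [h2]
      exact Subgroup.inv_mem _ h1
    have hβD : y * b * y⁻¹ * b⁻¹ ∈ Dof P := by
      have h1 := hE b hb
      have h2 : y * b * y⁻¹ * b⁻¹ = (⁅b, y⁆)⁻¹ := by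
        rw [commutatorElement_def]; group
      rw [h2]
      exact Subgroup.inv_mem _ h1
    by_cases hα : y * a * y⁻¹ * a⁻¹ = 1 <;> by_cases hβ : y * b * y⁻¹ * b⁻¹ = 1
    · exact ⟨1, P.one_mem, by rw [hα]; group, by rw [hβ]; group⟩
    · refine ⟨a, ha, by rw [hα]; group, ?_⟩
      have e : a⁻¹ * b * a * b⁻¹ = ⁅a⁻¹, b⁆ := by
        rw [commutatorElement_def]; group
      rw [e]
      exact hzeq _ (hcommD _ haP' _ hb) _ hβD (hnt a⁻¹ b (Or.inr rfl) (Or.inl rfl)).1 hβ
    · refine ⟨b, hb, ?_, by rw [hβ]; group⟩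
      have e : b⁻¹ * a * b * a⁻¹ = ⁅b⁻¹, a⁆ := by
        rw [commutatorElement_def]; group
      rw [e]
      exact hzeq _ (hcommD _ hbP' _ ha) _ hαD (hnt a b⁻¹ (Or.inl rfl) (Or.inr rfl)).2 hα
    · refine ⟨a * b, P.mul_mem ha hb, ?_, ?_⟩
      · have e : (a * b)⁻¹ * a * (a * b) * a⁻¹ = ⁅b⁻¹, a⁆ := by
          rw [commutatorElement_def]; group
        rw [e]
        exact hzeq _ (hcommD _ hbP' _ ha) _ hαD (hnt a b⁻¹ (Or.inl rfl) (Or.inr rfl)).2 hα
      · have e : (a * b)⁻¹ * b * (a * b) * b⁻¹ = ⁅b⁻¹, a⁻¹⁆ := by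
          rw [commutatorElement_def]; group
        rw [e]
        exact hzeq _ (hcommD _ hbP' _ haP') _ hβD (hnt a⁻¹ b⁻¹ (Or.inr rfl) (Or.inr rfl)).2 hβ
  obtain ⟨k, hkP, hka, hkb⟩ := hk
  have hfixc : ∀ c ∈ P, k⁻¹ * c * k * c⁻¹ = y * c * y⁻¹ * c⁻¹ → y * k⁻¹ * c = c * (y * k⁻¹) := by
    intro c hc he
    have hα : y * c * y⁻¹ * c⁻¹ ∈ Dof P := by
      have h1 := hE c hc
      have h2 : y * c * y⁻¹ * c⁻¹ = (⁅c, y⁆)⁻¹ := by
        rw [commutatorElement_def]; group
      rw [h2]
      exact Subgroup.inv_mem _ h1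
    obtain ⟨α, hαe⟩ : ∃ α, α = y * c * y⁻¹ * c⁻¹ := ⟨_, rfl⟩
    rw [← hαe] at hα he
    have e1 : k⁻¹ * c * k = α * c := by rw [← he]; group
    have e2 : y * c * y⁻¹ = α * c := by rw [hαe]; group
    have hα2 : α ^ 2 = 1 := hDexp α hα
    calc y * k⁻¹ * c = y * (k⁻¹ * c * k) * k⁻¹ := by group
      _ = y * (α * c) * k⁻¹ := by rw [e1]
      _ = (y * α * y⁻¹) * (y * c * y⁻¹) * (y * k⁻¹) := by group
      _ = α * (α * c) * (y * k⁻¹) := by rw [hyD α hα, e2]
      _ = α ^ 2 * c * (y * k⁻¹) := by rw [sq]; group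
      _ = c * (y * k⁻¹) := by rw [hα2, one_mul]
  have hya := hfixc a ha hka
  have hyb := hfixc b hb hkb
  obtain ⟨y', hy'⟩ : ∃ y', y' = y * k⁻¹ := ⟨_, rfl⟩
  rw [← hy'] at hya hyb
  let W : Subgroup S := P ⊓ Subgroup.centralizer {y'}
  have haW : a ∈ W := ⟨ha, Subgroup.mem_centralizer_singleton_iff.2 hya.symm⟩
  have hbW : b ∈ W := ⟨hb, Subgroup.mem_centralizer_singleton_iff.2 hyb.symm⟩
  have hWP : W = P := by
    by_contra hne
    have hlt : W < P := lt_of_le_of_ne inf_le_left hne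
    have h1 := card_two_mul_le_of_lt hlt
    rw [hty.card] at h1
    have h2 : Nat.card W ≤ 4 := by omega
    have h3 := comm_of_card_le_four (hP2.to_le inf_le_left : IsPGroup 2 W) h2 ⟨a, haW⟩ ⟨b, hbW⟩
    exact hab (congrArg Subtype.val h3)
  refine ⟨k, hkP, ?_⟩
  intro x hx
  have : x ∈ W := by rw [hWP]; exact hx
  rw [← hy']
  exact (Subgroup.mem_centralizer_singleton_iff.1 this.2)

end q8

theorem hasA_of_centralizing {P Y : Subgroup S} (hty : V4 P ∨ Q8 P) (hPY : P ≤ Y) (hY2 : IsPGroup 2 Y) {y : S}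
    (hyY : y ∈ Y) (hyc : ∀ x ∈ P, x * y = y * x) (hyP : y ∉ P) : HasA Y := by
  classical
  haveI : Fact (Nat.Prime 2) := ⟨Nat.prime_two⟩
  have hP2 : IsPGroup 2 P := hY2.to_le hPY
  rcases hty with hty | hty
  · let T : Set S := (P : Set S) ∪ {y}
    have hT : ∀ a ∈ T, ∀ b ∈ T, a * b = b * a := by
      rintro a (ha | ha) b (hb | hb)
      · exact hty.comm a ha b hb
      · rw [Set.mem_singleton_iff.1 hb]; exact hyc a ha
      · rw [Set.mem_singleton_iff.1 ha]; exact (hyc b hb).symm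
      · rw [Set.mem_singleton_iff.1 ha, Set.mem_singleton_iff.1 hb]
    have hBY : Subgroup.closure T ≤ Y := by
      rw [Subgroup.closure_le]
      rintro a (ha | ha)
      · exact hPY ha
      · rw [Set.mem_singleton_iff.1 ha]; exact hyY
    have hPB : P ≤ Subgroup.closure T := fun a ha => Subgroup.subset_closure (Or.inl ha)
    have hlt : P < Subgroup.closure T := by
      refine lt_of_le_of_ne hPB ?_
      intro he
      have : y ∈ Subgroup.closure T := Subgroup.subset_closure (Or.inr rfl)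
      rw [← he] at this
      exact hyP this
    have h8 : 8 ≤ Nat.card (Subgroup.closure T) := by
      have := card_two_mul_le_of_lt hlt
      rw [hty.card] at this
      omega
    obtain ⟨u, hu, v, hv, hu2, hv2, huv⟩ := two_invol_of_card hty.card hty.comm hty.exp
    exact (hasA_of_two_invol _ (hY2.to_le hBY) (comm_closure hT) (hPB hu) (hPB hv) hu2 hv2 huv h8).mono hBY
  · obtain ⟨a, ha, b, hb, hab⟩ := hty.pair
    have hDcen := q8_mem hP2 hty
    have haD : a ∉ Dof P := by
      intro hc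
      exact hab (q8_cen hP2 hty a hc b hb)
    have hDexp := q8_exp hP2 hty
    have hsqD := q8_sqD hP2 hty
    have hzeq := q8_eq hP2 hty
    have hz : a ^ 2 ≠ 1 := hty.sq a ha haD
    have hz2 : (a ^ 2) ^ 2 = 1 := hDexp _ (hsqD a ha)
    have hzord : orderOf (a ^ 2) = 2 := orderOf_eq_prime hz2 hz
    have hyord : ∃ m : ℕ, orderOf y = 2 ^ m := by
      have := (IsPGroup.iff_orderOf.1 hY2) ⟨y, hyY⟩
      obtain ⟨m, hm⟩ := this
      exact ⟨m, by rwa [Subgroup.orderOf_mk] at hm⟩
    obtain ⟨n, hn1, hn2⟩ := exists_pow_sq_mem hyord hyP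
    obtain ⟨y₁, hy₁⟩ : ∃ y₁, y₁ = y ^ (2 ^ n) := ⟨_, rfl⟩
    rw [← hy₁] at hn1 hn2
    have hy₁Y : y₁ ∈ Y := by rw [hy₁]; exact Y.pow_mem hyY _
    have hy₁c : ∀ x ∈ P, x * y₁ = y₁ * x := by
      intro x hx
      rw [hy₁]
      exact ((show Commute x y from hyc x hx).pow_right _)
    have hy₁D : y₁ ^ 2 ∈ Dof P := by
      apply hDcen _ hn2
      intro x hx
      exact ((show Commute x y₁ from hy₁c x hx).pow_right 2).symm
    obtain ⟨t, htB, htP, ht2⟩ : ∃ t ∈ Subgroup.closure ({a, y₁} : Set S), t ∉ P ∧ t ^ 2 = 1 := by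
      by_cases hc : y₁ ^ 2 = 1
      · exact ⟨y₁, Subgroup.subset_closure (by simp), hn1, hc⟩
      · refine ⟨y₁ * a, Subgroup.mul_mem _ (Subgroup.subset_closure (by simp)) (Subgroup.subset_closure (by simp)), ?_, ?_⟩
        · intro hm
          apply hn1
          have : y₁ = (y₁ * a) * a⁻¹ := by group
          rw [this]
          exact P.mul_mem hm (P.inv_mem ha)
        · have hcm : Commute y₁ a := (hy₁c a ha).symm
          rw [hcm.mul_pow, hzeq _ hy₁D _ (hsqD a ha) hc hz]
          rw [← sq]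
          exact hz2
    have ht1 : t ≠ 1 := by
      rintro rfl
      exact htP P.one_mem
    have htord : orderOf t = 2 := orderOf_eq_prime ht2 ht1
    have hT : ∀ u ∈ ({a, y₁} : Set S), ∀ v ∈ ({a, y₁} : Set S), u * v = v * u := by
      intro u hu v hv
      simp only [Set.mem_insert_iff, Set.mem_singleton_iff] at hu hv
      rcases hu with rfl | rfl <;> rcases hv with rfl | rfl
      · rfl
      · exact hy₁c _ ha
      · exact (hy₁c _ ha).symm
      · rfl
    have hBY : Subgroup.closure ({a, y₁} : Set S) ≤ Y := by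
      rw [Subgroup.closure_le]
      intro u hu
      simp only [Set.mem_insert_iff, Set.mem_singleton_iff] at hu
      rcases hu with rfl | rfl
      · exact hPY ha
      · exact hy₁Y
    have haB : a ∈ Subgroup.closure ({a, y₁} : Set S) := Subgroup.subset_closure (by simp)
    have hy₁B : y₁ ∈ Subgroup.closure ({a, y₁} : Set S) := Subgroup.subset_closure (by simp)
    have hord4 : orderOf a = 4 := by
      have := orderOf_eq_prime_pow (p := 2) (n := 1) (x := a) (by simpa using hz) (by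
        rw [show 2 ^ (1 + 1) = 2 * 2 from rfl, pow_mul]; exact hz2)
      simpa using this
    have hlt : Subgroup.zpowers a < Subgroup.closure ({a, y₁} : Set S) := by
      refine lt_of_le_of_ne (by rw [Subgroup.zpowers_le]; exact haB) ?_
      intro he
      rw [← he] at hy₁B
      apply hn1
      have h1 : Subgroup.zpowers a ≤ P := by rw [Subgroup.zpowers_le]; exact ha
      exact h1 hy₁B
    have h8 : 8 ≤ Nat.card (Subgroup.closure ({a, y₁} : Set S)) := by
      have := card_two_mul_le_of_lt hlt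
      rw [Nat.card_zpowers, hord4] at this
      omega
    have hne : a ^ 2 ≠ t := by
      intro he
      apply htP
      rw [← he]
      exact P.pow_mem ha 2
    exact (hasA_of_two_invol _ (hY2.to_le hBY) (comm_closure hT)
      (Subgroup.pow_mem _ haB 2) htB hzord htord hne h8).mono hBY

/-- A 2-group normalising `P` with `|P/Φ(P)| = 4` has a subgroup of index at most two acting trivially on `P/Φ(P)`. -/
theorem stab_index {P A : Subgroup S} (hP2 : IsPGroup 2 P) (hA2 : IsPGroup 2 A) (hAN : A ≤ Subgroup.normalizer (P : Set S))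
    (hcard : Nat.card (↥P ⧸ frattini ↥P) = 4) :
    ∃ A₀ : Subgroup S, A₀ ≤ A ∧ Nat.card A ≤ 2 * Nat.card A₀ ∧ ∀ a ∈ A₀, ∀ x ∈ P, ⁅x, a⁆ ∈ Dof P := by
  classical
  haveI : Fact (Nat.Prime 2) := ⟨Nat.prime_two⟩
  let f : ↥A → (↥P →* ↥P) := fun a =>
    { toFun := fun x => ⟨(a : S) * x * (a : S)⁻¹, H01.conj_mem_of_mem_normalizer (hAN a.2) x.2⟩
      map_one' := by
        apply Subtype.ext
        simp
      map_mul' := by
        intro x y
        apply Subtype.ext
        simp only [Subgroup.coe_mul]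
        group }
  have hf : ∀ a : ↥A, frattini ↥P ≤ (frattini ↥P).comap (f a) := by
    intro a x hx
    have h1 : (a : S) ∈ Subgroup.normalizer ((Dof P : Subgroup S) : Set S) :=
      H18.hh_char_map_normalized P (frattini ↥P) (hAN a.2)
    have h2 : (x : S) ∈ Dof P := ⟨x, hx, rfl⟩
    have h3 := H01.conj_mem_of_mem_normalizer h1 h2
    exact (mem_dof_iff (f a x)).1 h3
  let act : ↥A → (↥P ⧸ frattini ↥P →* ↥P ⧸ frattini ↥P) := fun a => QuotientGroup.map _ _ (f a) (hf a)
  have hact : ∀ (a : ↥A) (x : ↥P), act a (x : ↥P ⧸ frattini ↥P) = ((f a x : ↥P) : ↥P ⧸ frattini ↥P) := fun a x => rfl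
  letI inst : MulAction ↥A (↥P ⧸ frattini ↥P) :=
    { smul := fun a q => act a q
      one_smul := by
        intro q
        induction q using QuotientGroup.induction_on with | _ x => ?_
        show act 1 (x : ↥P ⧸ frattini ↥P) = x
        rw [hact]
        congr 1
        apply Subtype.ext
        simp [f]
      mul_smul := by
        intro a b q
        induction q using QuotientGroup.induction_on with | _ x => ?_
        show act (a * b) (x : ↥P ⧸ frattini ↥P) = act a (act b (x : ↥P ⧸ frattini ↥P))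
        rw [hact, hact, hact]
        congr 1
        apply Subtype.ext
        simp only [f, MonoidHom.mk'_apply, MonoidHom.coe_mk, OneHom.coe_mk, Subgroup.coe_mul, mul_inv_rev]
        group }
  have hsm : ∀ (a : ↥A) (q : ↥P ⧸ frattini ↥P), a • q = act a q := fun a q => rfl
  have h2d : 2 ∣ Nat.card (↥P ⧸ frattini ↥P) := by rw [hcard]; norm_num
  obtain ⟨u, hu, hu1⟩ := hA2.exists_fixed_point_of_prime_dvd_card_of_fixed_point (↥P ⧸ frattini ↥P) h2d
    (a := (1 : ↥P ⧸ frattini ↥P)) (fun g => map_one (act g))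
  have hu1' : u ≠ 1 := hu1.symm
  haveI := Fintype.ofFinite (↥P ⧸ frattini ↥P)
  -- a fourth point
  obtain ⟨v, hv1, hvu⟩ : ∃ v : ↥P ⧸ frattini ↥P, v ≠ 1 ∧ v ≠ u := by
    by_contra hcon
    push Not at hcon
    have hsub : (Finset.univ : Finset (↥P ⧸ frattini ↥P)) ⊆ {1, u} := by
      intro w _
      by_cases hw : w = 1
      · simp [hw]
      · simp [hcon w hw]
    have := Finset.card_le_card hsub
    rw [Finset.card_univ, ← Nat.card_eq_fintype_card, hcard] at this
    have h3 : ({1, u} : Finset (↥P ⧸ frattini ↥P)).card ≤ 2 := Finset.card_le_two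
    omega
  have hvuv : v ≠ u * v := by
    intro he
    have : u = 1 := by
      have h3 : 1 * v = u * v := by rw [one_mul]; exact he
      exact (mul_right_cancel h3).symm
    exact hu1' this
  have huv1 : u * v ≠ 1 := by
    intro he
    have h5 : v = u⁻¹ := eq_inv_of_mul_eq_one_right he
    have hc2 : ∀ q : ↥P ⧸ frattini ↥P, q ^ 2 = 1 := by
      intro q
      induction q using QuotientGroup.induction_on with | _ x => ?_
      rw [← QuotientGroup.mk_pow, QuotientGroup.eq_one_iff]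
      exact H01.pow_mem_frattini_of_isPGroup hP2 x
    have h6 : u⁻¹ = u := by
      rw [inv_eq_iff_mul_eq_one, ← sq]; exact hc2 u
    exact absurd (h5.trans h6) hvu
  have hF : ({1, u, v, u * v} : Finset (↥P ⧸ frattini ↥P)) = Finset.univ := by
    apply Finset.eq_univ_of_card
    rw [← Nat.card_eq_fintype_card, hcard]
    rw [Finset.card_insert_of_notMem, Finset.card_insert_of_notMem, Finset.card_insert_of_notMem, Finset.card_singleton]
    · simpa using hvuv
    · simp only [Finset.mem_insert, Finset.mem_singleton, not_or]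
      refine ⟨hvu.symm, ?_⟩
      intro he
      have : v = 1 := by
        have h3 : u * 1 = u * v := by rw [mul_one]; exact he
        exact (mul_left_cancel h3).symm
      exact hv1 this
    · simp only [Finset.mem_insert, Finset.mem_singleton, not_or]
      exact ⟨hu1, hv1.symm, huv1.symm⟩
  have hall : ∀ w : ↥P ⧸ frattini ↥P, w = 1 ∨ w = u ∨ w = v ∨ w = u * v := by
    intro w
    have : w ∈ ({1, u, v, u * v} : Finset (↥P ⧸ frattini ↥P)) := by rw [hF]; exact Finset.mem_univ _
    simpa using this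
  have hfix1 : ∀ g : ↥A, g • (1 : ↥P ⧸ frattini ↥P) = 1 := fun g => map_one (act g)
  have horb : MulAction.orbit ↥A v ⊆ ({v, u * v} : Set (↥P ⧸ frattini ↥P)) := by
    rintro _ ⟨g, rfl⟩
    show g • v ∈ _
    rcases hall (g • v) with h | h | h | h
    · exfalso
      apply hv1
      rw [← hfix1 g] at h
      exact MulAction.injective g h
    · exfalso
      apply hvu
      have h3 : g • u = u := hu g
      rw [← h3] at h
      exact MulAction.injective g h
    · left; exact h
    · right; exact h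
  have hindex : (MulAction.stabilizer ↥A v).index ≤ 2 := by
    rw [MulAction.index_stabilizer]
    calc (MulAction.orbit ↥A v).ncard ≤ ({v, u * v} : Set (↥P ⧸ frattini ↥P)).ncard :=
          Set.ncard_le_ncard horb (Set.toFinite _)
      _ = 2 := Set.ncard_pair hvuv
  refine ⟨(MulAction.stabilizer ↥A v).map A.subtype, ?_, ?_, ?_⟩
  · rintro _ ⟨w, _, rfl⟩
    exact w.2
  · rw [← Nat.card_congr ((MulAction.stabilizer ↥A v).equivMapOfInjective A.subtype A.subtype_injective).toEquiv]
    have h1 := Subgroup.card_mul_index (MulAction.stabilizer ↥A v)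
    calc Nat.card A = Nat.card (MulAction.stabilizer ↥A v) * (MulAction.stabilizer ↥A v).index := h1.symm
      _ ≤ Nat.card (MulAction.stabilizer ↥A v) * 2 := Nat.mul_le_mul_left _ hindex
      _ = 2 * Nat.card (MulAction.stabilizer ↥A v) := by ring
  · rintro _ ⟨a, ha, rfl⟩ x hx
    have hav : a • v = v := ha
    have hau : a • u = u := hu a
    have hall' : ∀ w : ↥P ⧸ frattini ↥P, act a w = w := by
      intro w
      rcases hall w with rfl | rfl | rfl | rfl
      · exact map_one _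
      · exact hau
      · exact hav
      · rw [map_mul]
        show (a • u) * (a • v) = _
        rw [hau, hav]
    have h1 := hall' (((⟨x, hx⟩ : ↥P)⁻¹ : ↥P) : ↥P ⧸ frattini ↥P)
    rw [hact, eq_comm, QuotientGroup.eq] at h1
    rw [← mem_dof_iff] at h1
    have e : ((((⟨x, hx⟩ : ↥P)⁻¹)⁻¹ * f a (⟨x, hx⟩ : ↥P)⁻¹ : ↥P) : S) = ⁅x, (a : S)⁆ := by
      simp only [f, MonoidHom.coe_mk, OneHom.coe_mk, Subgroup.coe_mul, inv_inv, Subgroup.coe_inv, commutatorElement_def]
      group
    show ⁅x, (a : S)⁆ ∈ Dof P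
    rw [← e]
    exact h1

theorem fix_of_dof {P : Subgroup S} (hP2 : IsPGroup 2 P) (hty : Q8 P) {y : S}
    (hyN : y ∈ Subgroup.normalizer (P : Set S)) : ∀ w ∈ Dof P, y * w * y⁻¹ = w := by
  have hyDn : y ∈ Subgroup.normalizer ((Dof P : Subgroup S) : Set S) :=
    H18.hh_char_map_normalized P (frattini ↥P) hyN
  intro w hw
  by_cases hw1 : w = 1
  · rw [hw1]; group
  · apply q8_eq hP2 hty _ (H01.conj_mem_of_mem_normalizer hyDn hw) _ hw _ hw1
    intro he
    apply hw1
    have : y * w = y := by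
      calc y * w = (y * w * y⁻¹) * y := by group
        _ = y := by rw [he, one_mul]
    exact mul_eq_left.1 this

theorem no_A {Q A : Subgroup S} (hQ2 : IsPGroup 2 Q) (hQn : Q.Normal)
    (hC : Subgroup.centralizer (Q : Set S) ≤ Q) (hty : V4 Q ∨ Q8 Q)
    (hAc : IsMulCommutative A) (hAnc : ¬ IsCyclic A) (hA8 : Nat.card A = 8) : False := by
  classical
  haveI : Fact (Nat.Prime 2) := ⟨Nat.prime_two⟩
  have hA2 : IsPGroup 2 A := IsPGroup.of_card (n := 3) (by rw [hA8]; norm_num)
  have hAN : A ≤ Subgroup.normalizer (Q : Set S) := by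
    rw [Subgroup.normalizer_eq_top Q]; exact le_top
  have hAcomm : ∀ a ∈ A, ∀ b ∈ A, a * b = b * a := by
    intro a ha b hb
    have := hAc.is_comm.comm ⟨a, ha⟩ ⟨b, hb⟩
    exact congrArg Subtype.val this
  have hcardΦ : Nat.card (frattini ↥Q) = Nat.card (Dof Q) :=
    Nat.card_congr ((frattini ↥Q).equivMapOfInjective Q.subtype Q.subtype_injective).toEquiv
  have hcard : Nat.card (↥Q ⧸ frattini ↥Q) = 4 := by
    have h1 := Subgroup.card_eq_card_quotient_mul_card_subgroup (frattini ↥Q)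
    rcases hty with hty | hty
    · rw [hcardΦ, hty.dof, hty.card] at h1
      simpa using h1.symm
    · rw [hcardΦ, hty.cardD, hty.card] at h1
      omega
  obtain ⟨A₀, hA₀A, hA₀c, hA₀⟩ := stab_index hQ2 hA2 hAN hcard
  rw [hA8] at hA₀c
  rcases hty with hty | hty
  · have hA₀Q : A₀ ≤ Q := by
      intro a ha
      apply hC
      rw [Subgroup.mem_centralizer_iff]
      intro x hx
      have h1 := hA₀ a ha x hx
      rw [hty.dof, Subgroup.mem_bot, commutatorElement_eq_one_iff_mul_comm] at h1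
      exact h1
    have he : A₀ = Q := Subgroup.eq_of_le_of_card_ge hA₀Q (by rw [hty.card]; omega)
    have hQA : Q ≤ A := he ▸ hA₀A
    have hAQ : A ≤ Q := by
      intro a ha
      apply hC
      rw [Subgroup.mem_centralizer_iff]
      intro x hx
      exact hAcomm x (hQA hx) a ha
    have h3 := Nat.le_of_dvd Nat.card_pos (Subgroup.card_dvd_of_le hAQ)
    rw [hA8, hty.card] at h3
    omega
  · have hmemQ : ∀ y ∈ Subgroup.normalizer (Q : Set S), (∀ x ∈ Q, ⁅x, y⁆ ∈ Dof Q) → y ∈ Q := by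
      intro y hyN hE
      obtain ⟨k, hk, hkc⟩ := q8_stab hQ2 hty hyN hE
      have h1 : y * k⁻¹ ∈ Q := by
        apply hC
        rw [Subgroup.mem_centralizer_iff]
        exact hkc
      have : y = (y * k⁻¹) * k := by group
      rw [this]
      exact Q.mul_mem h1 hk
    have hA₀Q : A₀ ≤ Q := fun a ha => hmemQ a (hAN (hA₀A ha)) (hA₀ a ha)
    obtain ⟨i, hiA₀, hiD⟩ : ∃ i ∈ A₀, i ∉ Dof Q := by
      by_contra hcon
      push Not at hcon
      have h3 := Nat.le_of_dvd Nat.card_pos (Subgroup.card_dvd_of_le (show A₀ ≤ Dof Q from hcon))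
      rw [hty.cardD] at h3
      omega
    have hiA : i ∈ A := hA₀A hiA₀
    have hiQ : i ∈ Q := hA₀Q hiA₀
    have hi2 : i ^ 2 ≠ 1 := hty.sq i hiQ hiD
    have hexpD := q8_exp hQ2 hty
    have hsqD := q8_sqD hQ2 hty
    have hzeq := q8_eq hQ2 hty
    have hcenD := q8_cen hQ2 hty
    -- an involution of `A` other than `i²`
    obtain ⟨t, htA, ht2, ht1, htz⟩ : ∃ t ∈ A, t ^ 2 = 1 ∧ t ≠ 1 ∧ t ≠ i ^ 2 := by
      have hnu : ¬ H14.UniqueP 2 A := by
        intro hu
        exact hAnc (H14.isCyclic_of_comm_uniqueP hA2 (fun a b => Subtype.ext (hAcomm a a.2 b b.2)) hu)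
      unfold H14.UniqueP at hnu
      push Not at hnu
      obtain ⟨x, y, hx, hy, hxy⟩ := hnu
      have hx' : (x : S) ^ 2 = 1 := by
        have := pow_orderOf_eq_one x
        rw [hx] at this
        simpa using congrArg Subtype.val this
      have hy' : (y : S) ^ 2 = 1 := by
        have := pow_orderOf_eq_one y
        rw [hy] at this
        simpa using congrArg Subtype.val this
      have hx1 : (x : S) ≠ 1 := by
        intro he
        have : x = 1 := Subtype.ext he
        rw [this, orderOf_one] at hx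
        omega
      have hy1 : (y : S) ≠ 1 := by
        intro he
        have : y = 1 := Subtype.ext he
        rw [this, orderOf_one] at hy
        omega
      by_cases hc : (x : S) = i ^ 2
      · refine ⟨y, y.2, hy', hy1, ?_⟩
        intro he
        apply hxy
        have : y = x := Subtype.ext (he.trans hc.symm)
        rw [this]
        exact Subgroup.mem_zpowers x
      · exact ⟨x, x.2, hx', hx1, hc⟩
    have htQ : t ∉ Q := by
      intro htQ
      by_cases htD : t ∈ Dof Q
      · exact htz (hzeq _ htD _ (hsqD i hiQ) ht1 hi2)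
      · exact hty.sq t htQ htD ht2
    have htN : t ∈ Subgroup.normalizer (Q : Set S) := hAN htA
    obtain ⟨x, hxQ, hxD⟩ : ∃ x ∈ Q, ⁅x, t⁆ ∉ Dof Q := by
      by_contra hcon
      push Not at hcon
      exact htQ (hmemQ t htN hcon)
    have htfix := fix_of_dof hQ2 hty htN
    have htt : t * t = 1 := by rw [← sq]; exact ht2
    have htinv : t⁻¹ = t := by
      rw [inv_eq_iff_mul_eq_one]; exact htt
    let W : Subgroup S :=
      { carrier := {w | w ∈ Q ∧ t * w * t⁻¹ * w⁻¹ ∈ Dof Q}
        mul_mem' := by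
          rintro a b ⟨ha, ha'⟩ ⟨hb, hb'⟩
          refine ⟨Q.mul_mem ha hb, ?_⟩
          have e : t * (a * b) * t⁻¹ * (a * b)⁻¹ =
              (t * a * t⁻¹) * (t * b * t⁻¹ * b⁻¹) * a⁻¹ := by group
          rw [e, ← hcenD _ hb' _ (H01.conj_mem_of_mem_normalizer htN ha), mul_assoc]
          exact Subgroup.mul_mem _ hb' ha'
        one_mem' := ⟨Q.one_mem, by simp⟩
        inv_mem' := by
          rintro a ⟨ha, ha'⟩
          refine ⟨Q.inv_mem ha, ?_⟩
          have e : t * a⁻¹ * t⁻¹ * a⁻¹⁻¹ = a⁻¹ * (t * a * t⁻¹ * a⁻¹)⁻¹ * a := by group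
          rw [e, ← hcenD _ (Subgroup.inv_mem _ ha') _ (Q.inv_mem ha), mul_assoc, inv_mul_cancel, mul_one]
          exact Subgroup.inv_mem _ ha' }
    have hiW : i ∈ W := by
      refine ⟨hiQ, ?_⟩
      have e : t * i * t⁻¹ * i⁻¹ = 1 := by
        rw [hAcomm t htA i hiA]; group
      rw [e]
      exact Subgroup.one_mem _
    have hxW : x ∉ W := by
      rintro ⟨-, h1⟩
      apply hxD
      have e : ⁅x, t⁆ = (t * x * t⁻¹ * x⁻¹)⁻¹ := by
        rw [commutatorElement_def]; group
      rw [e]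
      exact Subgroup.inv_mem _ h1
    obtain ⟨c, hc⟩ : ∃ c, c = x⁻¹ * (t * x * t⁻¹) := ⟨_, rfl⟩
    have hcQ : c ∈ Q := by
      rw [hc]
      exact Q.mul_mem (Q.inv_mem hxQ) (H01.conj_mem_of_mem_normalizer htN hxQ)
    have hcD : c ∉ Dof Q := by
      intro hcD
      apply hxW
      refine ⟨hxQ, ?_⟩
      have e : t * x * t⁻¹ * x⁻¹ = x * c * x⁻¹ := by
        rw [hc]; group
      rw [e, ← hcenD _ hcD _ hxQ]
      simpa using hcD
    have htc : t * c * t⁻¹ = c⁻¹ := by
      rw [hc]
      have e1 : t * (x⁻¹ * (t * x * t⁻¹)) * t⁻¹ = (t * x⁻¹ * t⁻¹) * ((t * t) * x * (t⁻¹ * t⁻¹)) := by group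
      rw [e1]
      have e2 : t⁻¹ * t⁻¹ = 1 := by rw [htinv]; exact htt
      rw [htt, e2]
      group
    have hcW : c ∈ W := by
      refine ⟨hcQ, ?_⟩
      rw [htc]
      have e : c⁻¹ * c⁻¹ = (c ^ 2)⁻¹ := by rw [sq]; group
      rw [e]
      exact Subgroup.inv_mem _ (hsqD c hcQ)
    have hWQ : W < Q := by
      refine lt_of_le_of_ne (fun w hw => hw.1) ?_
      intro he
      apply hxW
      rw [he]
      exact hxQ
    have hW4 : Nat.card W ≤ 4 := by
      have := card_two_mul_le_of_lt hWQ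
      rw [hty.card] at this
      omega
    have hord4 : orderOf i = 4 := by
      have := orderOf_eq_prime_pow (p := 2) (n := 1) (x := i) (by simpa using hi2) (by
        rw [show 2 ^ (1 + 1) = 2 * 2 from rfl, pow_mul]; exact hexpD _ (hsqD i hiQ))
      simpa using this
    have hzW : Subgroup.zpowers i ≤ W := by
      rw [Subgroup.zpowers_le]; exact hiW
    have heW : Subgroup.zpowers i = W := by
      apply Subgroup.eq_of_le_of_card_ge hzW
      rw [Nat.card_zpowers, hord4]
      exact hW4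
    have hcz : c ∈ Subgroup.zpowers i := by rw [heW]; exact hcW
    have htcomm : t * c = c * t := by
      obtain ⟨n, hn⟩ := Subgroup.mem_zpowers_iff.1 hcz
      rw [← hn]
      exact ((show Commute t i from hAcomm t htA i hiA).zpow_right n)
    have h5 : c⁻¹ = c := by
      rw [← htc, htcomm]; group
    have h6 : c ^ 2 = 1 := by
      rw [sq]
      nth_rw 1 [← h5]
      exact inv_mul_cancel c
    exact hty.sq c hcQ hcD h6

end af

end Cfsg.Agent.H20.AF
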