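import Mathlib
import Cfsg.Prelude

set_option autoImplicit false
set_option linter.unusedVariables false
set_option linter.unusedSectionVars false
set_option linter.style.haveILetI false

namespace Cfsg.Agent.H20.FR

open Cfsg

section frame
variable {S : Type*} [Group S] [Finite S]

/-- The frame: generators of `A` normalised by the dihedral group. -/
theorem frame_exists (A : Subgroup S) [hAn : A.Normal] (hA : Cfsg.IsElementaryAbelian 3 A) (hA9 : Nat.card ↥A = 9)
    (hAC : Subgroup.centralizer (A : Set S) = A) (X : Subgroup S) (e : ↥X ≃* DihedralGroup 4) (hAX : A ⊔ X = ⊤) :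
    ∃ a b : S, a ∈ A ∧ b ∈ A ∧ a ≠ 1 ∧ a ^ 3 = 1 ∧ b ^ 3 = 1 ∧ a * b = b * a ∧
      ((e.symm (DihedralGroup.r 1) : S)) * a * (e.symm (DihedralGroup.r 1) : S)⁻¹ = b ∧
      ((e.symm (DihedralGroup.r 1) : S)) * b * (e.symm (DihedralGroup.r 1) : S)⁻¹ = a⁻¹ ∧
      ((e.symm (DihedralGroup.sr 0) : S)) * a * (e.symm (DihedralGroup.sr 0) : S)⁻¹ = a ∧
      ((e.symm (DihedralGroup.sr 0) : S)) * b * (e.symm (DihedralGroup.sr 0) : S)⁻¹ = b⁻¹ ∧
      A ≤ Subgroup.closure {a, b} := by
  classical
  obtain ⟨hAc, hA3⟩ := hA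
  have hcomm : ∀ g ∈ A, ∀ h ∈ A, g * h = h * g := by
    intro g hg h hh
    have := hAc.1.comm ⟨g, hg⟩ ⟨h, hh⟩
    exact congrArg Subtype.val this
  have hXcard : Nat.card X = 8 := by
    rw [Nat.card_congr e.toEquiv, DihedralGroup.nat_card]
  have hdisj : Disjoint A X := by
    apply Subgroup.disjoint_of_coprime_natCard
    rw [hA9, hXcard]; norm_num
  -- faithfulness
  have hfaith : ∀ x ∈ X, (∀ g ∈ A, x * g * x⁻¹ = g) → x = 1 := by
    intro x hx h
    have h1 : x ∈ Subgroup.centralizer (A : Set S) := by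
      rw [Subgroup.mem_centralizer_iff]
      intro g hg
      have := h g hg
      rw [mul_inv_eq_iff_eq_mul] at this
      exact this.symm
    rw [hAC] at h1
    exact Subgroup.disjoint_def.mp hdisj h1 hx
  set r : S := (e.symm (DihedralGroup.r 1) : S) with hr
  set t : S := (e.symm (DihedralGroup.sr 0) : S) with ht
  have hrX : r ∈ X := (e.symm (DihedralGroup.r 1)).2
  have htX : t ∈ X := (e.symm (DihedralGroup.sr 0)).2
  have coe_e : ∀ u v : DihedralGroup 4, (e.symm (u * v) : S) = (e.symm u : S) * (e.symm v : S) := by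
    intro u v
    rw [map_mul]; rfl
  have hr4 : r * r * r * r = 1 := by
    have : (DihedralGroup.r 1 : DihedralGroup 4) * DihedralGroup.r 1 * DihedralGroup.r 1 * DihedralGroup.r 1 = 1 := by
      decide
    have h1 := congrArg (fun d => (e.symm d : S)) this
    simpa only [coe_e, map_one, OneMemClass.coe_one] using h1
  have ht2 : t * t = 1 := by
    have : (DihedralGroup.sr 0 : DihedralGroup 4) * DihedralGroup.sr 0 = 1 := by decide
    have h1 := congrArg (fun d => (e.symm d : S)) this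
    simpa only [coe_e, map_one, OneMemClass.coe_one] using h1
  have htr : t * r * t = r⁻¹ := by
    have : (DihedralGroup.sr 0 : DihedralGroup 4) * DihedralGroup.r 1 * DihedralGroup.sr 0 * DihedralGroup.r 1 = 1 := by
      decide
    have h1 := congrArg (fun d => (e.symm d : S)) this
    simp only [coe_e, map_one, OneMemClass.coe_one] at h1
    exact eq_inv_of_mul_eq_one_left h1
  have hz1 : r * r ≠ 1 := by
    intro h
    have : (DihedralGroup.r 1 : DihedralGroup 4) * DihedralGroup.r 1 = 1 := by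
      apply e.symm.injective
      apply Subtype.ext
      rw [coe_e, map_one]
      exact h
    exact absurd this (by decide)
  have htz : t ≠ r * r := by
    intro h
    have : (DihedralGroup.sr 0 : DihedralGroup 4) = DihedralGroup.r 1 * DihedralGroup.r 1 := by
      apply e.symm.injective
      apply Subtype.ext
      rw [coe_e]
      exact h
    exact absurd this (by decide)
  obtain ⟨z, hz⟩ : ∃ z : S, z = r * r := ⟨_, rfl⟩
  rw [← hz] at hz1 htz
  have hzX : z ∈ X := hz ▸ X.mul_mem hrX hrX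
  have hzz : z * z = 1 := by
    rw [hz, ← hr4]; group
  have hzinv : z⁻¹ = z := inv_eq_of_mul_eq_one_left hzz
  have hcA : ∀ x : S, ∀ g ∈ A, x * g * x⁻¹ ∈ A := fun x g hg => hAn.conj_mem g hg x
  have hone3 : ∀ g ∈ A, g * g = 1 → g = 1 := by
    intro g hg h
    have h3 := hA3 g hg
    rw [pow_succ, sq, h, one_mul] at h3
    exact h3
  -- `z` inverts `A`
  have hzinvert : ∀ g ∈ A, z * g * z⁻¹ = g⁻¹ := by
    by_contra hcon
    push Not at hcon
    obtain ⟨g₀, hg₀, hg₀ne⟩ := hcon
    -- the inverted part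
    let D : Subgroup S :=
      { carrier := {g | g ∈ A ∧ z * g * z⁻¹ = g⁻¹}
        mul_mem' := by
          rintro p q ⟨hp, hp'⟩ ⟨hq, hq'⟩
          refine ⟨A.mul_mem hp hq, ?_⟩
          have e1 : z * (p * q) * z⁻¹ = (z * p * z⁻¹) * (z * q * z⁻¹) := by group
          rw [e1, hp', hq', mul_inv_rev, hcomm _ (A.inv_mem hp) _ (A.inv_mem hq)]
        one_mem' := ⟨A.one_mem, by simp⟩
        inv_mem' := by
          rintro p ⟨hp, hp'⟩
          refine ⟨A.inv_mem hp, ?_⟩
          have e1 : z * p⁻¹ * z⁻¹ = (z * p * z⁻¹)⁻¹ := by group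
          rw [e1, hp'] }
    have hDA : D ≤ A := fun g hg => hg.1
    -- a nontrivial inverted element
    obtain ⟨g₁, hg₁, hg₁ne⟩ : ∃ g ∈ A, z * g * z⁻¹ ≠ g := by
      by_contra h
      push Not at h
      exact hz1 (hfaith z hzX h)
    set d : S := g₁ * (z * g₁ * z⁻¹)⁻¹ with hd
    have hdA : d ∈ A := A.mul_mem hg₁ (A.inv_mem (hcA z g₁ hg₁))
    have hdD : d ∈ D := by
      refine ⟨hdA, ?_⟩
      have e1 : z * d * z⁻¹ = (z * g₁ * z⁻¹) * (z * (z * g₁ * z⁻¹) * z⁻¹)⁻¹ := by
        rw [hd]; group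
      have e2 : z * (z * g₁ * z⁻¹) * z⁻¹ = g₁ := by
        have : z * (z * g₁ * z⁻¹) * z⁻¹ = (z * z) * g₁ * (z * z)⁻¹ := by group
        rw [this, hzz]; simp
      rw [e1, e2, hd, mul_inv_rev, inv_inv]
    have hd1 : d ≠ 1 := by
      rw [hd]
      intro h
      rw [mul_inv_eq_one] at h
      exact hg₁ne h.symm
    -- the fixed element
    set c : S := g₀ * (z * g₀ * z⁻¹) with hc
    have hcA' : c ∈ A := A.mul_mem hg₀ (hcA z g₀ hg₀)
    have hc1 : c ≠ 1 := by
      rw [hc]
      intro h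
      apply hg₀ne
      exact (eq_inv_of_mul_eq_one_right h)
    have hcfix : z * c * z⁻¹ = c := by
      have e1 : z * c * z⁻¹ = (z * g₀ * z⁻¹) * (z * (z * g₀ * z⁻¹) * z⁻¹) := by
        rw [hc]; group
      have e2 : z * (z * g₀ * z⁻¹) * z⁻¹ = g₀ := by
        have : z * (z * g₀ * z⁻¹) * z⁻¹ = (z * z) * g₀ * (z * z)⁻¹ := by group
        rw [this, hzz]; simp
      rw [e1, e2, hc]
      exact hcomm _ (hcA z g₀ hg₀) _ hg₀
    have hDne : D ≠ A := by
      intro h
      have h1 : c ∈ D := by rw [h]; exact hcA'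
      have h2 := h1.2
      rw [hcfix] at h2
      apply hc1
      apply hone3 c hcA'
      nth_rw 1 [h2]
      simp
    have hDcard : Nat.card D = 3 := by
      have h1 : Nat.card D ∣ 9 := hA9 ▸ Subgroup.card_dvd_of_le hDA
      have h2 : Nat.card D ≠ 1 := by
        intro h
        rw [Subgroup.card_eq_one] at h
        rw [h] at hdD
        exact hd1 hdD
      have h3 : Nat.card D ≠ 9 := by
        intro h
        exact hDne (Subgroup.eq_of_le_of_card_ge hDA (by omega))
      have h4 : Nat.card D ∈ Nat.divisors 9 := by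
        rw [Nat.mem_divisors]; exact ⟨h1, by norm_num⟩
      have h5 : Nat.divisors 9 = {1, 3, 9} := by decide
      rw [h5] at h4
      simp only [Finset.mem_insert, Finset.mem_singleton] at h4
      omega
    -- `r` acts on `D`
    have hrd : r * d * r⁻¹ ∈ D := by
      refine ⟨hcA r d hdA, ?_⟩
      have e1 : z * (r * d * r⁻¹) * z⁻¹ = r * (z * d * z⁻¹) * r⁻¹ := by
        rw [hz]; group
      rw [e1, hdD.2]; group
    have hrd1 : r * d * r⁻¹ ≠ 1 := by
      intro h
      apply hd1
      have : r⁻¹ * (r * d * r⁻¹) * r = d := by group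
      rw [← this, h]; group
    -- elements of `D`
    have hDel : ∀ y ∈ D, y ≠ 1 → y = d ∨ y = d⁻¹ := by
      intro y hy hy1
      haveI : Fact (Nat.Prime 3) := ⟨Nat.prime_three⟩
      have h1 := mem_zpowers_of_prime_card (G := D) hDcard (g := ⟨d, hdD⟩) (g' := ⟨y, hy⟩)
        (fun h => hd1 (congrArg Subtype.val h))
      obtain ⟨k, hk⟩ := h1
      have hk' : d ^ k = y := congrArg Subtype.val hk
      have hd3 : d ^ (3 : ℤ) = 1 := by
        have := hA3 d hdA
        exact_mod_cast this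
      have hmod : d ^ k = d ^ (k % 3) := by
        conv_lhs => rw [← Int.mul_ediv_add_emod k 3, zpow_add, zpow_mul, hd3, one_zpow, one_mul]
      have h3 : k % 3 = 0 ∨ k % 3 = 1 ∨ k % 3 = 2 := by omega
      rw [hmod] at hk'
      rcases h3 with h3 | h3 | h3
      · rw [h3] at hk'
        exact absurd (by simpa using hk'.symm) hy1
      · rw [h3] at hk'
        left
        simpa using hk'.symm
      · rw [h3] at hk'
        right
        rw [← hk', eq_inv_iff_mul_eq_one, ← zpow_add_one]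
        exact hd3
    have hfinal : z * d * z⁻¹ = d := by
      have e1 : z * d * z⁻¹ = r * (r * d * r⁻¹) * r⁻¹ := by
        rw [hz]; group
      rcases hDel _ hrd hrd1 with h | h
      · rw [e1, h, h]
      · rw [e1, h]
        have e2 : r * d⁻¹ * r⁻¹ = (r * d * r⁻¹)⁻¹ := by group
        rw [e2, h, inv_inv]
    have h5 := hdD.2
    rw [hfinal] at h5
    apply hd1
    apply hone3 d hdA
    nth_rw 1 [h5]
    simp
  -- an element fixed by `t`
  obtain ⟨a, haA, ha1, hta⟩ : ∃ a ∈ A, a ≠ 1 ∧ t * a * t⁻¹ = a := by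
    by_contra hcon
    push Not at hcon
    have htinv : ∀ g ∈ A, t * g * t⁻¹ = g⁻¹ := by
      intro g hg
      by_contra hne
      have h1 : g * (t * g * t⁻¹) ∈ A := A.mul_mem hg (hcA t g hg)
      have h2 : g * (t * g * t⁻¹) ≠ 1 := fun h => hne (eq_inv_of_mul_eq_one_right h)
      apply hcon _ h1 h2
      have e1 : t * (g * (t * g * t⁻¹)) * t⁻¹ = (t * g * t⁻¹) * ((t * t) * g * (t * t)⁻¹) := by group
      rw [e1, ht2]
      simp only [one_mul, inv_one, mul_one]
      exact hcomm _ (hcA t g hg) _ hg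
    apply htz
    have h1 : z⁻¹ * t = 1 := by
      apply hfaith _ (X.mul_mem (X.inv_mem hzX) htX)
      intro g hg
      have e1 : z⁻¹ * t * g * (z⁻¹ * t)⁻¹ = z⁻¹ * (t * g * t⁻¹) * z := by group
      have e2 : z⁻¹ * g⁻¹ * z = z * g⁻¹ * z⁻¹ := by rw [hzinv]
      rw [e1, htinv g hg, e2, hzinvert _ (A.inv_mem hg), inv_inv]
    exact (inv_mul_eq_one.mp h1).symm
  -- the frame
  have hr3 : r * z = r⁻¹ := by
    rw [hz, eq_inv_iff_mul_eq_one, ← hr4]; group
  refine ⟨a, r * a * r⁻¹, haA, hcA r a haA, ha1, hA3 a haA, hA3 _ (hcA r a haA), hcomm a haA _ (hcA r a haA), rfl, ?_, hta, ?_, ?_⟩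
  · have e1 : r * (r * a * r⁻¹) * r⁻¹ = z * a * z⁻¹ := by
      rw [hz]; group
    rw [e1, hzinvert a haA]
  · have ht' : t⁻¹ = t := inv_eq_of_mul_eq_one_left ht2
    have e1 : t * (r * a * r⁻¹) * t⁻¹ = (t * r * t⁻¹) * (t * a * t⁻¹) * (t * r * t⁻¹)⁻¹ := by group
    rw [e1, hta, ht', htr, inv_inv]
    have e2 : (r * a * r⁻¹)⁻¹ = r * a⁻¹ * r⁻¹ := by group
    rw [e2, ← hzinvert a haA]
    have e3 : r * (z * a * z⁻¹) * r⁻¹ = (r * z) * a * (r * z)⁻¹ := by group
    rw [e3, hr3, inv_inv]
  · set b := r * a * r⁻¹ with hb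
    have hbA : b ∈ A := hcA r a haA
    have htb : t * b * t⁻¹ = b⁻¹ := by
      have ht' : t⁻¹ = t := inv_eq_of_mul_eq_one_left ht2
      have e1 : t * (r * a * r⁻¹) * t⁻¹ = (t * r * t⁻¹) * (t * a * t⁻¹) * (t * r * t⁻¹)⁻¹ := by group
      rw [hb, e1, hta, ht', htr, inv_inv]
      have e2 : (r * a * r⁻¹)⁻¹ = r * a⁻¹ * r⁻¹ := by group
      rw [e2, ← hzinvert a haA]
      have e3 : r * (z * a * z⁻¹) * r⁻¹ = (r * z) * a * (r * z)⁻¹ := by group
      rw [e3, hr3, inv_inv]
    have hb1 : b ≠ 1 := by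
      intro h
      apply ha1
      have : r⁻¹ * (r * a * r⁻¹) * r = a := by group
      rw [← this, ← hb, h]; group
    have hbz : b ∉ Subgroup.zpowers a := by
      rintro ⟨k, hk⟩
      have hk' : a ^ k = b := hk
      have h1 : t * b * t⁻¹ = b := by
        rw [← hk', ← conj_zpow, hta]
      rw [htb] at h1
      apply hb1
      apply hone3 b hbA
      nth_rw 1 [← h1]
      simp
    have hcl : Subgroup.closure ({a, b} : Set S) ≤ A := by
      rw [Subgroup.closure_le]
      intro y hy
      rcases hy with rfl | rfl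
      · exact haA
      · exact hbA
    have hza : Subgroup.zpowers a ≤ Subgroup.closure ({a, b} : Set S) := by
      rw [Subgroup.zpowers_le]
      exact Subgroup.subset_closure (by simp)
    haveI : Fact (Nat.Prime 3) := ⟨Nat.prime_three⟩
    have hoa : orderOf a = 3 := orderOf_eq_prime (hA3 a haA) ha1
    have hc3 : Nat.card (Subgroup.zpowers a) = 3 := by rw [Nat.card_zpowers, hoa]
    have h1 : Nat.card (Subgroup.closure ({a, b} : Set S)) ∣ 9 := hA9 ▸ Subgroup.card_dvd_of_le hcl
    have h2 : 3 ∣ Nat.card (Subgroup.closure ({a, b} : Set S)) := hc3 ▸ Subgroup.card_dvd_of_le hza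
    have h3 : Nat.card (Subgroup.closure ({a, b} : Set S)) ≠ 3 := by
      intro h
      have : Subgroup.zpowers a = Subgroup.closure ({a, b} : Set S) :=
        Subgroup.eq_of_le_of_card_ge hza (by omega)
      apply hbz
      rw [this]
      exact Subgroup.subset_closure (by simp)
    have h4 : Nat.card (Subgroup.closure ({a, b} : Set S)) ∈ Nat.divisors 9 := by
      rw [Nat.mem_divisors]; exact ⟨h1, by norm_num⟩
    have h5 : Nat.divisors 9 = {1, 3, 9} := by decide
    rw [h5] at h4
    simp only [Finset.mem_insert, Finset.mem_singleton] at h4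
    have h6 : Nat.card (Subgroup.closure ({a, b} : Set S)) = 9 := by
      rcases h4 with h | h | h
      · rw [h] at h2; omega
      · exact absurd h h3
      · exact h
    exact (Subgroup.eq_of_le_of_card_ge hcl (by omega)).symm.le

end frame

end Cfsg.Agent.H20.FR
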