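import Mathlib
import Cfsg.Agent.Lib.H20.FR1

set_option autoImplicit false
set_option linter.unusedVariables false
set_option linter.unusedSectionVars false
set_option linter.style.haveILetI false

namespace Cfsg.Agent.H20.FR

open Cfsg

section core
variable {S M : Type*} [Group S] [Finite S] [AddCommGroup M] [Module (ZMod 2) M] [Finite M]
  (ρ : Representation (ZMod 2) S M)

theorem char2 (x : M) : x + x = 0 := by
  have : (2 : ZMod 2) • x = 0 := by rw [show (2 : ZMod 2) = 0 from rfl, zero_smul]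
  rwa [two_smul] at this

theorem zmod2_cases (x : ZMod 2) : x = 0 ∨ x = 1 := by revert x; decide

theorem rep_mul (g h : S) (m : M) : ρ (g * h) m = ρ g (ρ h m) := by rw [map_mul]; rfl
theorem rep_one (m : M) : ρ 1 m = m := by rw [map_one]; rfl
theorem rep_inv_apply (g : S) (m : M) : ρ g⁻¹ (ρ g m) = m := by
  rw [← rep_mul, inv_mul_cancel, rep_one]
theorem rep_apply_inv (g : S) (m : M) : ρ g (ρ g⁻¹ m) = m := by
  rw [← rep_mul, mul_inv_cancel, rep_one]
theorem rep_conj (x c : S) (m : M) : ρ (x * c * x⁻¹) (ρ x m) = ρ x (ρ c m) := by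
  rw [← rep_mul, ← rep_mul]; congr 1; group
theorem rep_inv_fix {c : S} {m : M} (h : ρ c m = m) : ρ c⁻¹ m = m := by
  nth_rw 1 [← h]
  exact rep_inv_apply ρ c m

theorem inv_of_gens (N : Submodule (ZMod 2) M) (gens : Set S) (hc : Subgroup.closure gens = ⊤)
    (h : ∀ g ∈ gens, ∀ n ∈ N, ρ g n ∈ N) : ∀ s, ∀ n ∈ N, ρ s n ∈ N := by
  intro s
  have hs : s ∈ Subgroup.closure gens := by rw [hc]; trivial
  induction hs using Subgroup.closure_induction with
  | mem g hg => exact h g hg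
  | one => intro n hn; rwa [rep_one]
  | mul g k _ _ hg hk => intro n hn; rw [rep_mul]; exact hg _ (hk n hn)
  | inv g _ hg =>
    have hpow : ∀ i : ℕ, ∀ n ∈ N, ρ (g ^ i) n ∈ N := by
      intro i
      induction i with
      | zero => intro n hn; rw [pow_zero]; rwa [rep_one]
      | succ j ih => intro n hn; rw [pow_succ, rep_mul]; exact ih _ (hg n hn)
    have hm1 : g⁻¹ = g ^ (orderOf g - 1) := by
      rw [eq_comm, ← mul_eq_one_iff_eq_inv, ← pow_succ, Nat.sub_add_cancel (orderOf_pos g), pow_orderOf_eq_one]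
    rw [hm1]
    exact hpow _

theorem core (hM : Nontrivial M)
    (hirr : ∀ N : Submodule (ZMod 2) M, (∀ s : S, ∀ m ∈ N, ρ s m ∈ N) → N = ⊥ ∨ N = ⊤)
    (r t a b : S) (X : Subgroup S) (hXp : IsPGroup 2 X) (hrX : r ∈ X) (htX : t ∈ X)
    (hgen : Subgroup.closure ({r, t, a, b} : Set S) = ⊤) (ha3 : a ^ 3 = 1) (hb3 : b ^ 3 = 1) (hab : a * b = b * a)
    (hra : r * a * r⁻¹ = b) (hrb : r * b * r⁻¹ = a⁻¹) (hta : t * a * t⁻¹ = a) (htb : t * b * t⁻¹ = b⁻¹)
    (hne : ∃ m, ρ a m ≠ m)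
    (hsplit : ∀ m, ∃ m₁ m₂, m = m₁ + m₂ ∧ ρ a m₁ = m₁ ∧ ρ b m₂ = m₂) :
    ∃ u p q : M, Nat.card M = 16 ∧ u ≠ 0 ∧ (∀ m, (ρ (r * r) m = m ∧ ρ (r * t) m = m) ↔ (m = 0 ∨ m = u)) ∧
      p ≠ 0 ∧ q ≠ 0 ∧ p ≠ q ∧ ρ t p = p ∧ ρ t q = q ∧ ρ (r * r) p = p ∧ ρ (r * r) q = q := by
  have h2 := char2 (M := M)
  have hmul := rep_mul ρ
  have hcomm : ∀ m, ρ a (ρ b m) = ρ b (ρ a m) := by
    intro m; rw [← hmul, ← hmul, hab]
  have ha3' : ∀ m, ρ a (ρ a (ρ a m)) = m := by
    intro m
    have e : a * a * a = 1 := by rw [← ha3, pow_succ, sq]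
    rw [← hmul, ← hmul, e, rep_one]
  have hb3' : ∀ m, ρ b (ρ b (ρ b m)) = m := by
    intro m
    have e : b * b * b = 1 := by rw [← hb3, pow_succ, sq]
    rw [← hmul, ← hmul, e, rep_one]
  -- no common fixed vectors
  have hfix0 : ∀ m, ρ a m = m → ρ b m = m → m = 0 := by
    let N₀ : Submodule (ZMod 2) M :=
      { carrier := {m | ρ a m = m ∧ ρ b m = m}
        add_mem' := by
          rintro x y ⟨hx, hx'⟩ ⟨hy, hy'⟩
          exact ⟨by rw [map_add, hx, hy], by rw [map_add, hx', hy']⟩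
        zero_mem' := ⟨map_zero _, map_zero _⟩
        smul_mem' := by
          rintro c x ⟨hx, hx'⟩
          exact ⟨by rw [map_smul, hx], by rw [map_smul, hx']⟩ }
    have hinv : ∀ s, ∀ m ∈ N₀, ρ s m ∈ N₀ := by
      apply inv_of_gens ρ N₀ _ hgen
      rintro g hg n ⟨hn, hn'⟩
      simp only [Set.mem_insert_iff, Set.mem_singleton_iff] at hg
      rcases hg with rfl | rfl | rfl | rfl
      · -- `r`
        constructor
        · have e1 : a = g * b⁻¹ * g⁻¹ := by
            have : g * b⁻¹ * g⁻¹ = (g * b * g⁻¹)⁻¹ := by group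
            rw [this, hrb, inv_inv]
          rw [e1, rep_conj, rep_inv_fix ρ hn']
        · rw [← hra, rep_conj, hn]
      · constructor
        · nth_rw 1 [← hta]
          rw [rep_conj, hn]
        · have e1 : b = g * b⁻¹ * g⁻¹ := by
            have : g * b⁻¹ * g⁻¹ = (g * b * g⁻¹)⁻¹ := by group
            rw [this, htb, inv_inv]
          nth_rw 1 [e1]
          rw [rep_conj, rep_inv_fix ρ hn']
      · exact ⟨by rw [hn, hn], by rw [hn, hn']⟩
      · exact ⟨by rw [hn', hn], by rw [hn', hn']⟩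
    rcases hirr N₀ hinv with h | h
    · intro m h1 h3
      have : m ∈ N₀ := ⟨h1, h3⟩
      rw [h] at this
      simpa using this
    · exfalso
      obtain ⟨m, hm⟩ := hne
      have : m ∈ N₀ := by rw [h]; trivial
      exact hm this.1
  have hsum_a : ∀ m, ρ b m = m → ρ a (ρ a m) = m + ρ a m := by
    intro m hm
    have h0 : m + ρ a m + ρ a (ρ a m) = 0 := by
      apply hfix0
      · rw [map_add, map_add, ha3' m]; abel
      · rw [map_add, map_add, hm, ← hcomm m, hm, ← hcomm (ρ a m), ← hcomm m, hm]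
    linear_combination (norm := abel) h0 - h2 m - h2 (ρ a m)
  have hsum_b : ∀ m, ρ a m = m → ρ b (ρ b m) = m + ρ b m := by
    intro m hm
    have h0 : m + ρ b m + ρ b (ρ b m) = 0 := by
      apply hfix0
      · rw [map_add, map_add, hm, hcomm m, hm, hcomm (ρ b m), hcomm m, hm]
      · rw [map_add, map_add, hb3' m]; abel
    linear_combination (norm := abel) h0 - h2 m - h2 (ρ b m)
  -- a fixed vector of `X`
  obtain ⟨v, hv0, hvr, hvt⟩ : ∃ v : M, v ≠ 0 ∧ ρ r v = v ∧ ρ t v = v := by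
    letI act : MulAction X M :=
      { smul := fun g m => ρ (g : S) m
        one_smul := fun m => rep_one ρ m
        mul_smul := fun g h m => rep_mul ρ g h m }
    have h2d : 2 ∣ Nat.card M := by
      obtain ⟨m, hm⟩ := exists_ne (0 : M)
      have : addOrderOf m = 2 := addOrderOf_eq_prime (by rw [two_nsmul]; exact h2 m) hm
      rw [← this]
      exact addOrderOf_dvd_natCard m
    obtain ⟨w, hw, hne'⟩ := hXp.exists_fixed_point_of_prime_dvd_card_of_fixed_point M h2d (a := (0 : M))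
      (fun g => map_zero (ρ (g : S)))
    exact ⟨w, hne'.symm, hw ⟨r, hrX⟩, hw ⟨t, htX⟩⟩
  obtain ⟨m1, m2, hv, hm1, hm2⟩ := hsplit v
  have hbr : ∀ m, ρ a m = m → ρ b (ρ r m) = ρ r m := by
    intro m hm
    rw [← hra, rep_conj, hm]
  have har : ∀ m, ρ b m = m → ρ a (ρ r m) = ρ r m := by
    intro m hm
    have e1 : a = r * b⁻¹ * r⁻¹ := by
      have : r * b⁻¹ * r⁻¹ = (r * b * r⁻¹)⁻¹ := by group
      rw [this, hrb, inv_inv]
    rw [e1, rep_conj, rep_inv_fix ρ hm]
  have hat : ∀ m, ρ a m = m → ρ a (ρ t m) = ρ t m := by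
    intro m hm
    nth_rw 1 [← hta]
    rw [rep_conj, hm]
  have hbt : ∀ m, ρ b m = m → ρ b (ρ t m) = ρ t m := by
    intro m hm
    have e1 : b = t * b⁻¹ * t⁻¹ := by
      have : t * b⁻¹ * t⁻¹ = (t * b * t⁻¹)⁻¹ := by group
      rw [this, htb, inv_inv]
    nth_rw 1 [e1]
    rw [rep_conj, rep_inv_fix ρ hm]
  have hAdd : ∀ {p q : M}, ρ a p = p → ρ b q = q → p = q → p = 0 := by
    intro p q hp hq hpq
    exact hfix0 p hp (by rw [hpq]; rw [hpq] at hp; exact hq)
  -- the action of `r` and `t` on the two components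
  have hvr' : ρ r m1 + ρ r m2 = m1 + m2 := by
    rw [← map_add, ← hv]; exact hvr
  have hvt' : ρ t m1 + ρ t m2 = m1 + m2 := by
    rw [← map_add, ← hv]; exact hvt
  have hx1 : m1 + ρ r m2 = 0 := by
    apply hAdd (q := m2 + ρ r m1)
    · rw [map_add, hm1, har m2 hm2]
    · rw [map_add, hm2, hbr m1 hm1]
    · linear_combination (norm := abel) h2 (ρ r m2) - h2 m2 - hvr'
  have hx2 : m2 + ρ r m1 = 0 := by
    have : m1 + ρ r m2 = m2 + ρ r m1 := by
      linear_combination (norm := abel) h2 (ρ r m2) - h2 m2 - hvr'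
    rw [← this]; exact hx1
  have hrm2 : ρ r m2 = m1 := by
    linear_combination (norm := abel) hx1 - h2 m1
  have hrm1 : ρ r m1 = m2 := by
    linear_combination (norm := abel) hx2 - h2 m2
  have hy1 : m1 + ρ t m1 = 0 := by
    apply hAdd (q := m2 + ρ t m2)
    · rw [map_add, hm1, hat m1 hm1]
    · rw [map_add, hm2, hbt m2 hm2]
    · linear_combination (norm := abel) h2 (ρ t m1) - h2 m2 - hvt'
  have hy2 : m2 + ρ t m2 = 0 := by
    have : m1 + ρ t m1 = m2 + ρ t m2 := by
      linear_combination (norm := abel) h2 (ρ t m1) - h2 m2 - hvt'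
    rw [← this]; exact hy1
  have htm1 : ρ t m1 = m1 := by
    linear_combination (norm := abel) hy1 - h2 m1
  have htm2 : ρ t m2 = m2 := by
    linear_combination (norm := abel) hy2 - h2 m2
  have hm10 : m1 ≠ 0 := by
    intro h
    apply hv0
    have h3 : m2 = 0 := by rw [← hrm1, h, map_zero]
    rw [hv, h, h3, add_zero]
  have hm20 : m2 ≠ 0 := by
    intro h
    apply hv0
    have h3 : m1 = 0 := by rw [← hrm2, h, map_zero]
    rw [hv, h, h3, add_zero]
  set m1' := ρ b m1 with hm1'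
  set m2' := ρ a m2 with hm2'
  have hm1'a : ρ a m1' = m1' := by rw [hm1', hcomm, hm1]
  have hm2'b : ρ b m2' = m2' := by rw [hm2', ← hcomm, hm2]
  have hbm1' : ρ b m1' = m1 + m1' := hsum_b m1 hm1
  have ham2' : ρ a m2' = m2 + m2' := hsum_a m2 hm2
  have htm1' : ρ t m1' = m1 + m1' := by
    rw [hm1', ← hsum_b m1 hm1]
    have e1 : ρ t (ρ b m1) = ρ (t * b * t⁻¹) (ρ t m1) := (rep_conj ρ t b m1).symm
    rw [e1, htm1, htb]
    have e2 : b⁻¹ = b * b := by
      rw [inv_eq_iff_mul_eq_one, ← hb3, pow_succ, sq, mul_assoc]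
    rw [e2, hmul]
  have htm2' : ρ t m2' = m2' := by
    rw [hm2']
    have e1 : ρ t (ρ a m2) = ρ (t * a * t⁻¹) (ρ t m2) := (rep_conj ρ t a m2).symm
    rw [e1, htm2, hta]
  have hrm1' : ρ r m1' = m2 + m2' := by
    rw [hm1']
    have e1 : ρ r (ρ b m1) = ρ (r * b * r⁻¹) (ρ r m1) := (rep_conj ρ r b m1).symm
    rw [e1, hrm1, hrb]
    have e2 : a⁻¹ = a * a := by
      rw [inv_eq_iff_mul_eq_one, ← ha3, pow_succ, sq, mul_assoc]
    rw [e2, hmul, hsum_a m2 hm2]
  have hrm2' : ρ r m2' = m1' := by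
    rw [hm2']
    have e1 : ρ r (ρ a m2) = ρ (r * a * r⁻¹) (ρ r m2) := (rep_conj ρ r a m2).symm
    rw [e1, hrm2, hra]
  have hm1'0 : m1' ≠ 0 := by
    intro h
    apply hm10
    have := rep_inv_apply ρ b m1
    rw [← hm1', h, map_zero] at this
    exact this.symm
  have hm2'0 : m2' ≠ 0 := by
    intro h
    apply hm20
    have := rep_inv_apply ρ a m2
    rw [← hm2', h, map_zero] at this
    exact this.symm
  have hm1'ne : m1 ≠ m1' := fun h => hm10 (hfix0 m1 hm1 h.symm)
  have hm2'ne : m2 ≠ m2' := fun h => hm20 (hfix0 m2 h.symm hm2)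
  -- the span
  let N : Submodule (ZMod 2) M := Submodule.span (ZMod 2) {m1, m1', m2, m2'}
  have hN1 : m1 ∈ N := Submodule.subset_span (by simp)
  have hN1' : m1' ∈ N := Submodule.subset_span (by simp)
  have hN2 : m2 ∈ N := Submodule.subset_span (by simp)
  have hN2' : m2' ∈ N := Submodule.subset_span (by simp)
  have hNinv : ∀ s, ∀ n ∈ N, ρ s n ∈ N := by
    apply inv_of_gens ρ N _ hgen
    intro g hg n hn
    have hle : N ≤ N.comap (ρ g) := by
      rw [Submodule.span_le]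
      intro y hy
      simp only [Set.mem_insert_iff, Set.mem_singleton_iff] at hy hg
      show ρ g y ∈ N
      rcases hg with rfl | rfl | rfl | rfl <;> rcases hy with rfl | rfl | rfl | rfl
      · rw [hrm1]; exact hN2
      · rw [hrm1']; exact N.add_mem hN2 hN2'
      · rw [hrm2]; exact hN1
      · rw [hrm2']; exact hN1'
      · rw [htm1]; exact hN1
      · rw [htm1']; exact N.add_mem hN1 hN1'
      · rw [htm2]; exact hN2
      · rw [htm2']; exact hN2'
      · rw [hm1]; exact hN1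
      · rw [hm1'a]; exact hN1'
      · exact hN2'
      · rw [ham2']; exact N.add_mem hN2 hN2'
      · exact hN1'
      · rw [hbm1']; exact N.add_mem hN1 hN1'
      · rw [hm2]; exact hN2
      · rw [hm2'b]; exact hN2'
    exact hle hn
  have hNtop : N = ⊤ := by
    rcases hirr N hNinv with h | h
    · exfalso
      rw [h] at hN1
      exact hm10 (by simpa using hN1)
    · exact h
  let f : ZMod 2 × ZMod 2 × ZMod 2 × ZMod 2 → M :=
    fun x => x.1 • m1 + (x.2.1 • m1' + (x.2.2.1 • m2 + x.2.2.2 • m2'))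
  have hfsurj : Function.Surjective f := by
    intro m
    have hm : m ∈ N := by rw [hNtop]; trivial
    simp only [N, Submodule.mem_span_insert, Submodule.mem_span_singleton] at hm
    obtain ⟨x₁, _, ⟨x₂, _, ⟨y₁, _, ⟨y₂, rfl⟩, rfl⟩, rfl⟩, rfl⟩ := hm
    exact ⟨(x₁, x₂, y₁, y₂), rfl⟩
  have hpair : ∀ (x y : ZMod 2) (u w : M), u ≠ 0 → w ≠ 0 → u ≠ w → x • u + y • w = 0 → x = 0 ∧ y = 0 := by
    intro x y u w hu hw huw h
    have hx : x = 0 ∨ x = 1 := zmod2_cases x
    have hy : y = 0 ∨ y = 1 := zmod2_cases y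
    rcases hx with rfl | rfl <;> rcases hy with rfl | rfl
    · exact ⟨rfl, rfl⟩
    · simp at h; exact absurd h hw
    · simp at h; exact absurd h hu
    · exfalso
      simp only [one_smul] at h
      apply huw
      linear_combination (norm := abel) h - h2 w
  have hfzero : ∀ x, f x = 0 → x = 0 := by
    rintro ⟨x₁, x₂, y₁, y₂⟩ h
    have hPa : ρ a (x₁ • m1 + x₂ • m1') = x₁ • m1 + x₂ • m1' := by
      rw [map_add, map_smul, map_smul, hm1, hm1'a]
    have hQb : ρ b (y₁ • m2 + y₂ • m2') = y₁ • m2 + y₂ • m2' := by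
      rw [map_add, map_smul, map_smul, hm2, hm2'b]
    have hPQ : x₁ • m1 + x₂ • m1' = y₁ • m2 + y₂ • m2' := by
      have h' : (x₁ • m1 + x₂ • m1') + (y₁ • m2 + y₂ • m2') = 0 := by
        have : f (x₁, x₂, y₁, y₂) = x₁ • m1 + (x₂ • m1' + (y₁ • m2 + y₂ • m2')) := rfl
        rw [this] at h
        rw [add_assoc]; exact h
      linear_combination (norm := abel) h' - h2 (y₁ • m2 + y₂ • m2')
    have hP0 := hAdd hPa hQb hPQ
    have hQ0 : y₁ • m2 + y₂ • m2' = 0 := by rw [← hPQ]; exact hP0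
    obtain ⟨rfl, rfl⟩ := hpair _ _ _ _ hm10 hm1'0 hm1'ne hP0
    obtain ⟨rfl, rfl⟩ := hpair _ _ _ _ hm20 hm2'0 hm2'ne hQ0
    rfl
  have hfadd : ∀ x y, f (x + y) = f x + f y := by
    rintro ⟨x₁, x₂, y₁, y₂⟩ ⟨x₁', x₂', y₁', y₂'⟩
    simp only [f, Prod.mk_add_mk, add_smul]
    abel
  have hfinj : Function.Injective f := by
    intro x y h
    have h0 : f (x + y) = 0 := by rw [hfadd, h]; exact h2 _
    have h3 := hfzero _ h0
    exact CharTwo.add_eq_zero.mp h3
  have hcard : Nat.card M = 16 := by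
    rw [← Nat.card_congr (Equiv.ofBijective f ⟨hfinj, hfsurj⟩)]
    simp [Nat.card_prod, Nat.card_zmod]
  have hzm1 : ρ (r * r) m1 = m1 := by rw [hmul, hrm1, hrm2]
  have hzm2 : ρ (r * r) m2 = m2 := by rw [hmul, hrm2, hrm1]
  have hzm1' : ρ (r * r) m1' = m1 + m1' := by rw [hmul, hrm1', map_add, hrm2, hrm2']
  have hzm2' : ρ (r * r) m2' = m2 + m2' := by rw [hmul, hrm2', hrm1']
  have hwm1 : ρ (r * t) m1 = m2 := by rw [hmul, htm1, hrm1]
  have hwm2 : ρ (r * t) m2 = m1 := by rw [hmul, htm2, hrm2]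
  refine ⟨m1 + m2, m1, m2, hcard, ?_, ?_, hm10, hm20, ?_, htm1, htm2, hzm1, hzm2⟩
  · intro h
    have h3 := hfzero (1, 0, 1, 0) (by simpa [f] using h)
    have h4 := congrArg Prod.fst h3
    exact absurd h4 (by decide)
  · intro m
    constructor
    · rintro ⟨hz, hw⟩
      obtain ⟨⟨x₁, x₂, y₁, y₂⟩, rfl⟩ := hfsurj m
      have e0 : f (x₁, x₂, y₁, y₂) = x₁ • m1 + (x₂ • m1' + (y₁ • m2 + y₂ • m2')) := rfl
      rw [e0] at hz hw ⊢
      rw [map_add, map_add, map_add, map_smul, map_smul, map_smul, map_smul, hzm1, hzm1', hzm2, hzm2'] at hz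
      have h3 : f (x₂, 0, y₂, 0) = 0 := by
        simp only [f, zero_smul, add_zero]
        simp only [smul_add] at hz
        linear_combination (norm := abel) hz
      have h4 := hfzero _ h3
      have hx2 : x₂ = 0 := congrArg Prod.fst h4
      have hy2 : y₂ = 0 := congrArg (fun p => p.2.2.1) h4
      subst hx2 hy2
      simp only [zero_smul, zero_add, add_zero] at hw ⊢
      rw [map_add, map_smul, map_smul, hwm1, hwm2] at hw
      have h5 : f (x₁ + y₁, 0, x₁ + y₁, 0) = 0 := by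
        simp only [f, zero_smul, add_zero, zero_add, add_smul]
        linear_combination (norm := abel) hw + h2 (x₁ • m1) + h2 (y₁ • m2)
      have h6 := hfzero _ h5
      have h7 : x₁ + y₁ = 0 := congrArg Prod.fst h6
      have h8 : x₁ = y₁ := CharTwo.add_eq_zero.mp h7
      subst h8
      have hx : x₁ = 0 ∨ x₁ = 1 := zmod2_cases x₁
      rcases hx with rfl | rfl
      · left; simp
      · right; simp
    · rintro (rfl | rfl)
      · simp
      · constructor
        · rw [map_add, hzm1, hzm2]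
        · rw [map_add, hwm1, hwm2, add_comm]
  · intro h
    apply hm10
    exact hfix0 m1 hm1 (by rw [h]; exact hm2)

end core

end Cfsg.Agent.H20.FR
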