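import Mathlib
import Cfsg.Prelude.Def_Local
import Cfsg.Agent.Lib.H03.PSolv
import Cfsg.Agent.Lib.H01.Basic
import Cfsg.Agent.Lib.H01.SZ2
import Cfsg.Agent.Lib.H20.Basic

set_option autoImplicit false
set_option linter.unusedVariables false
set_option linter.style.haveILetI false
set_option linter.unusedSectionVars false

namespace Cfsg.Agent.H20

open scoped Pointwise

section chain

variable {G : Type*} [Group G]

/-- Elementwise form of the chain. -/
structure EC (p : ℕ) (A B C : Subgroup G) : Prop where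
  an : A.Normal
  bn : B.Normal
  cn : C.Normal
  ab : A ≤ B
  bc : B ≤ C
  p1 : ∀ x ∈ A, x ^ p = 1 → x = 1
  p2 : ∀ x ∈ B, ∃ k : ℕ, x ^ p ^ k ∈ A
  p3 : ∀ x ∈ C, ∃ m : ℕ, ¬ p ∣ m ∧ x ^ m ∈ B
  p4 : ∀ x : G, ∃ k : ℕ, x ^ p ^ k ∈ C

/-- Hypothesis on maximal subgroups, elementwise form. -/
def MaxHyp (p : ℕ) (G : Type*) [Group G] : Prop :=
  ∀ M : Subgroup G, IsCoatom M →
    (∃ K : Subgroup G, K ≤ M ∧ (∀ m ∈ M, ∀ k ∈ K, m * k * m⁻¹ ∈ K) ∧ (∀ k ∈ K, (orderOf k).Coprime p) ∧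
      ∀ m ∈ M, ∃ j : ℕ, m ^ p ^ j ∈ K) ∨ M.index.Prime

variable {p : ℕ}

theorem MaxHyp.quot [Finite G] (h : MaxHyp p G) (N : Subgroup G) [N.Normal] : MaxHyp p (G ⧸ N) := by
  intro Mb hMb
  set π := QuotientGroup.mk' N with hπ
  have hπs : Function.Surjective π := QuotientGroup.mk'_surjective N
  let M : Subgroup G := Mb.comap π
  have hmapM : M.map π = Mb := Subgroup.map_comap_eq_self_of_surjective hπs Mb
  have hM : IsCoatom M := by
    refine ⟨?_, ?_⟩
    · intro htop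
      apply hMb.1
      rw [← hmapM]
      show M.map π = ⊤
      rw [htop]
      exact Subgroup.map_top_of_surjective π hπs
    · intro X hX
      have hNM : N ≤ M := by
        intro n hn
        show π n ∈ Mb
        have : π n = 1 := (QuotientGroup.eq_one_iff n).2 hn
        rw [this]; exact Mb.one_mem
      have hlt : Mb < X.map π := by
        refine lt_of_le_of_ne ?_ ?_
        · rw [← hmapM]; exact Subgroup.map_mono hX.le
        · intro he
          apply hX.not_ge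
          intro x hx
          have h1 : π x ∈ X.map π := ⟨x, hx, rfl⟩
          rw [← he] at h1
          exact h1
      have h2 := hMb.2 _ hlt
      rw [eq_top_iff]
      intro g _
      have h3 : π g ∈ X.map π := by rw [h2]; trivial
      obtain ⟨x, hx, hxg⟩ := h3
      have h4 : x⁻¹ * g ∈ N := by
        apply (QuotientGroup.eq_one_iff _).1
        show π (x⁻¹ * g) = 1
        rw [map_mul, map_inv, hxg, inv_mul_cancel]
      have h5 := X.mul_mem hx (hX.le (hNM h4))
      rwa [mul_inv_cancel_left] at h5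
  rcases h M hM with ⟨K, hKM, hKn, hKo, hKj⟩ | hp
  · left
    refine ⟨K.map π, ?_, ?_, ?_, ?_⟩
    · rw [← hmapM]; exact Subgroup.map_mono hKM
    · rintro m hm _ ⟨k, hk, rfl⟩
      obtain ⟨m', rfl⟩ := hπs m
      refine ⟨m' * k * m'⁻¹, hKn m' hm k hk, ?_⟩
      simp [map_mul, map_inv]
    · rintro _ ⟨k, hk, rfl⟩
      exact Nat.Coprime.coprime_dvd_left (orderOf_map_dvd π k) (hKo k hk)
    · intro m hm
      obtain ⟨m', rfl⟩ := hπs m
      obtain ⟨j, hj⟩ := hKj m' hm
      exact ⟨j, ⟨_, hj, map_pow _ _ _⟩⟩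
  · right
    have : M.index = Mb.index := Subgroup.index_comap_of_surjective Mb hπs
    rwa [← this]

/-- Pulling back chains. -/
theorem EC.comap_parts {N : Subgroup G} [N.Normal] {Ab Bb Cb : Subgroup (G ⧸ N)} (h : EC p Ab Bb Cb) :
    (Ab.comap (QuotientGroup.mk' N)).Normal ∧ (Bb.comap (QuotientGroup.mk' N)).Normal ∧
      (Cb.comap (QuotientGroup.mk' N)).Normal ∧
      (Ab.comap (QuotientGroup.mk' N)) ≤ (Bb.comap (QuotientGroup.mk' N)) ∧
      (Bb.comap (QuotientGroup.mk' N)) ≤ (Cb.comap (QuotientGroup.mk' N)) ∧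
      (∀ x ∈ Ab.comap (QuotientGroup.mk' N), x ^ p ∈ N → x ∈ N) ∧
      (∀ x ∈ Bb.comap (QuotientGroup.mk' N), ∃ k : ℕ, x ^ p ^ k ∈ Ab.comap (QuotientGroup.mk' N)) ∧
      (∀ x ∈ Cb.comap (QuotientGroup.mk' N), ∃ m : ℕ, ¬ p ∣ m ∧ x ^ m ∈ Bb.comap (QuotientGroup.mk' N)) ∧
      (∀ x : G, ∃ k : ℕ, x ^ p ^ k ∈ Cb.comap (QuotientGroup.mk' N)) := by
  haveI := h.an; haveI := h.bn; haveI := h.cn
  refine ⟨inferInstance, inferInstance, inferInstance, Subgroup.comap_mono h.ab, Subgroup.comap_mono h.bc, ?_, ?_, ?_, ?_⟩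
  · intro x hx hxp
    have h1 : (QuotientGroup.mk' N x) ^ p = 1 := by
      rw [← map_pow]
      exact (QuotientGroup.eq_one_iff _).2 hxp
    have h2 := h.p1 _ hx h1
    exact (QuotientGroup.eq_one_iff _).1 h2
  · intro x hx
    obtain ⟨k, hk⟩ := h.p2 _ hx
    exact ⟨k, by rw [Subgroup.mem_comap, map_pow]; exact hk⟩
  · intro x hx
    obtain ⟨m, hm, hk⟩ := h.p3 _ hx
    exact ⟨m, hm, by rw [Subgroup.mem_comap, map_pow]; exact hk⟩
  · intro x
    obtain ⟨k, hk⟩ := h.p4 (QuotientGroup.mk' N x)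
    exact ⟨k, by rw [Subgroup.mem_comap, map_pow]; exact hk⟩

/-- Lifting along a normal subgroup without elements of order `p`. -/
theorem EC.lift {N : Subgroup G} [N.Normal] {Ab Bb Cb : Subgroup (G ⧸ N)} (h : EC p Ab Bb Cb)
    (hN : ∀ x ∈ N, x ^ p = 1 → x = 1) :
    ∃ A B C : Subgroup G, EC p A B C := by
  obtain ⟨h1, h2, h3, h4, h5, h6, h7, h8, h9⟩ := h.comap_parts
  refine ⟨_, _, _, ⟨h1, h2, h3, h4, h5, ?_, h7, h8, h9⟩⟩
  intro x hx hxp
  have : x ∈ N := h6 x hx (by rw [hxp]; exact N.one_mem)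
  exact hN x this hxp

/-- Subdirect products. -/
theorem EC.subdirect [Fact p.Prime] {N₁ N₂ : Subgroup G} [N₁.Normal] [N₂.Normal] (h12 : N₁ ⊓ N₂ = ⊥)
    {A₁ B₁ C₁ : Subgroup (G ⧸ N₁)} {A₂ B₂ C₂ : Subgroup (G ⧸ N₂)}
    (h₁ : EC p A₁ B₁ C₁) (h₂ : EC p A₂ B₂ C₂) : ∃ A B C : Subgroup G, EC p A B C := by
  obtain ⟨a1, a2, a3, a4, a5, a6, a7, a8, a9⟩ := h₁.comap_parts
  obtain ⟨b1, b2, b3, b4, b5, b6, b7, b8, b9⟩ := h₂.comap_parts
  have hpow : ∀ (X : Subgroup G) (x : G) (k l : ℕ), k ≤ l → x ^ p ^ k ∈ X → x ^ p ^ l ∈ X := by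
    intro X x k l hkl hx
    obtain ⟨d, rfl⟩ := Nat.exists_eq_add_of_le hkl
    rw [pow_add, pow_mul]
    exact X.pow_mem hx _
  refine ⟨_ ⊓ _, _ ⊓ _, _ ⊓ _, ⟨Subgroup.normal_inf_normal _ _ (hH := a1) (hK := b1),
    Subgroup.normal_inf_normal _ _ (hH := a2) (hK := b2), Subgroup.normal_inf_normal _ _ (hH := a3) (hK := b3),
    inf_le_inf a4 b4, inf_le_inf a5 b5, ?_, ?_, ?_, ?_⟩⟩
  · rintro x ⟨hx1, hx2⟩ hxp
    have h1 : x ∈ N₁ := a6 x hx1 (by rw [hxp]; exact Subgroup.one_mem _)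
    have h2 : x ∈ N₂ := b6 x hx2 (by rw [hxp]; exact Subgroup.one_mem _)
    have : x ∈ N₁ ⊓ N₂ := ⟨h1, h2⟩
    rw [h12] at this
    exact this
  · rintro x ⟨hx1, hx2⟩
    obtain ⟨k, hk⟩ := a7 x hx1
    obtain ⟨l, hl⟩ := b7 x hx2
    exact ⟨max k l, hpow _ _ _ _ (le_max_left _ _) hk, hpow _ _ _ _ (le_max_right _ _) hl⟩
  · rintro x ⟨hx1, hx2⟩
    obtain ⟨k, hk, hk'⟩ := a8 x hx1
    obtain ⟨l, hl, hl'⟩ := b8 x hx2
    refine ⟨k * l, ?_, ?_, ?_⟩
    · intro hd
      rcases (Fact.out : p.Prime).dvd_mul.1 hd with h | h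
      · exact hk h
      · exact hl h
    · rw [pow_mul]; exact Subgroup.pow_mem _ hk' _
    · rw [mul_comm, pow_mul]; exact Subgroup.pow_mem _ hl' _
  · intro x
    obtain ⟨k, hk⟩ := a9 x
    obtain ⟨l, hl⟩ := b9 x
    exact ⟨max k l, hpow _ _ _ _ (le_max_left _ _) hk, hpow _ _ _ _ (le_max_right _ _) hl⟩

end chain

section frat

variable {A : Type*} [Group A] [Finite A]

theorem frattini_complement (N : Subgroup A) [N.Normal] (hcop : (Nat.card N).Coprime N.index)
    (hsolv : Group.IsSolvable N) (φ : MulAut A) (hφ : ∀ x ∈ N, φ x ∈ N) (H₀ : Subgroup A)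
    (hH₀ : N.IsComplement' H₀) : ∃ a : A, ∀ h ∈ H₀, a * φ h * a⁻¹ ∈ H₀ := by
  let H₁ : Subgroup A := H₀.map φ.toMonoidHom
  have hcardH : Nat.card H₁ = Nat.card H₀ := Subgroup.card_map_of_injective φ.injective
  have hNmap : N.map φ.toMonoidHom = N := by
    apply Subgroup.eq_of_le_of_card_ge
    · rintro _ ⟨x, hx, rfl⟩
      exact hφ x hx
    · rw [Subgroup.card_map_of_injective φ.injective]
  have hc : N.IsComplement' H₁ := by
    apply Subgroup.isComplement'_of_card_mul_and_disjoint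
    · rw [hcardH]; exact hH₀.card_mul_card
    · rw [Subgroup.disjoint_def]
      rintro x hx ⟨y, hy, rfl⟩
      have hx' : φ y ∈ N.map φ.toMonoidHom := by rw [hNmap]; exact hx
      obtain ⟨n, hn, hny⟩ := hx'
      have hyn : n = y := φ.injective hny
      rw [hyn] at hn
      have := Subgroup.disjoint_def.1 hH₀.disjoint hn hy
      rw [this]
      exact map_one φ
  obtain ⟨a, ha⟩ := Cfsg.Agent.H01.sz_conj N hcop H₁ H₀ hc hH₀ (Or.inl hsolv)
  refine ⟨a, fun h hh => ?_⟩
  rw [← ha]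
  exact Subgroup.smul_mem_pointwise_smul (φ h) (MulAut.conj a) H₁ ⟨h, hh, rfl⟩

end frat

section cases

variable {G : Type*} [Group G] [Finite G] {p : ℕ} [Fact p.Prime]

theorem phi_case {N : Subgroup G} [N.Normal] (hNp : IsPGroup p N) (hNc : ∀ a ∈ N, ∀ b ∈ N, a * b = b * a)
    (hΦ : ∀ M : Subgroup G, IsCoatom M → N ≤ M)
    (hnop : ∀ R : Subgroup G, R.Normal → (∀ x ∈ R, x ^ p = 1 → x = 1) → R = ⊥)
    {Ab Bb Cb : Subgroup (G ⧸ N)} (h : EC p Ab Bb Cb) : ∃ A B C : Subgroup G, EC p A B C := by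
  classical
  obtain ⟨a1, a2, a3, a4, a5, a6, a7, a8, a9⟩ := h.comap_parts
  set A : Subgroup G := Ab.comap (QuotientGroup.mk' N) with hA
  set B : Subgroup G := Bb.comap (QuotientGroup.mk' N) with hB
  set C : Subgroup G := Cb.comap (QuotientGroup.mk' N) with hC
  haveI := a1
  have hNA : N ≤ A := by
    intro n hn
    show QuotientGroup.mk' N n ∈ Ab
    have : QuotientGroup.mk' N n = 1 := (QuotientGroup.eq_one_iff n).2 hn
    rw [this]; exact Ab.one_mem
  let N' : Subgroup A := N.subgroupOf A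
  haveI hN'n : N'.Normal := Subgroup.Normal.subgroupOf inferInstance A
  have hcardN' : Nat.card N' = Nat.card N := Nat.card_congr (Subgroup.subgroupOfEquivOfLe hNA).toEquiv
  obtain ⟨a₀, ha₀⟩ := IsPGroup.iff_card.1 hNp
  have hidx : ¬ p ∣ N'.index := by
    intro hd
    have hd' : p ∣ Nat.card (A ⧸ N') := hd
    obtain ⟨y, hy⟩ := exists_prime_orderOf_dvd_card' p hd'
    obtain ⟨x, rfl⟩ := QuotientGroup.mk_surjective y
    have h1 : ((x : A) : A ⧸ N') ^ p = 1 := by rw [← hy, pow_orderOf_eq_one]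
    rw [← QuotientGroup.mk_pow, QuotientGroup.eq_one_iff] at h1
    have h2 : (x : G) ^ p ∈ N := h1
    have h3 : (x : G) ∈ N := a6 _ x.2 h2
    have h4 : ((x : A) : A ⧸ N') = 1 := (QuotientGroup.eq_one_iff x).2 h3
    rw [h4, orderOf_one] at hy
    exact (Fact.out : p.Prime).one_lt.ne hy
  have hcop : (Nat.card N').Coprime N'.index := by
    rw [hcardN', ha₀]
    exact Nat.Coprime.pow_left _ (((Fact.out : p.Prime).coprime_iff_not_dvd).2 hidx)
  obtain ⟨H₀, hH₀⟩ := Subgroup.exists_right_complement'_of_coprime hcop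
  have hsolv : Group.IsSolvable N' := Group.isSolvable_of_comm (by
    rintro ⟨⟨a, haA⟩, ha⟩ ⟨⟨b, hbA⟩, hb⟩
    exact Subtype.ext (Subtype.ext (hNc a ha b hb)))
  let H : Subgroup G := H₀.map A.subtype
  have hHnorm : ∀ g : G, g ∈ Subgroup.normalizer (H : Set G) := by
    -- every g is in N * N(H)
    have hdecomp : ∀ g : G, ∃ n ∈ N, ∃ u ∈ Subgroup.normalizer (H : Set G), g = n * u := by
      intro g
      let φ : MulAut A := MulAut.conjNormal g
      have hφc : ∀ x : A, ((φ x : A) : G) = g * x * g⁻¹ := fun x => MulAut.conjNormal_apply g x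
      have hφ : ∀ x ∈ N', φ x ∈ N' := by
        intro x hx
        show ((φ x : A) : G) ∈ N
        rw [hφc]
        exact (inferInstance : N.Normal).conj_mem _ hx g
      obtain ⟨a, ha⟩ := frattini_complement N' hcop hsolv φ hφ H₀ hH₀
      have hnormag : (a : G) * g ∈ Subgroup.normalizer (H : Set G) := by
        apply Cfsg.Agent.H20.mem_normalizer_of_conj_le
        rintro _ ⟨h, hh, rfl⟩
        refine ⟨_, ha h hh, ?_⟩
        show ((a * φ h * a⁻¹ : A) : G) = _
        simp only [Subgroup.coe_mul, Subgroup.coe_inv, hφc, Subgroup.coe_subtype]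
        group
      -- write a = h' * n'
      have ha' : a ∈ H₀ ⊔ N' := by
        rw [sup_comm, hH₀.sup_eq_top]; trivial
      obtain ⟨h', hh', n', hn', hhn⟩ := Subgroup.mem_sup_of_normal_right.1 ha'
      have hh'norm : (h' : G) ∈ Subgroup.normalizer (H : Set G) :=
        Subgroup.le_normalizer (⟨h', hh', rfl⟩ : (h' : G) ∈ H)
      refine ⟨((n' : A) : G)⁻¹, N.inv_mem hn', ((h' : A) : G)⁻¹ * ((a : G) * g),
        Subgroup.mul_mem _ (Subgroup.inv_mem _ hh'norm) hnormag, ?_⟩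
      rw [← hhn]
      simp only [Subgroup.coe_mul]
      group
    by_contra hcon
    push Not at hcon
    obtain ⟨g, hg⟩ := hcon
    have hne : Subgroup.normalizer (H : Set G) ≠ ⊤ := by
      intro h
      rw [h] at hg
      exact hg trivial
    obtain ⟨M, hM, hle⟩ := (eq_top_or_exists_le_coatom (Subgroup.normalizer (H : Set G))).resolve_left hne
    have hall : ∀ g : G, g ∈ M := by
      intro g
      obtain ⟨n, hn, u, hu, rfl⟩ := hdecomp g
      exact M.mul_mem (hΦ M hM hn) (hle hu)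
    exact hM.1 (eq_top_iff.2 (fun g _ => hall g))
  have hHn : H.Normal := Subgroup.normalizer_eq_top_iff.1 (eq_top_iff.2 (fun g _ => hHnorm g))
  have hcardH₀ : (Nat.card H₀).Coprime p := by
    have h1 := hH₀.card_mul_card
    have h2 := Subgroup.card_mul_index N'
    have h3 : Nat.card H₀ = N'.index := by
      have hpos : 0 < Nat.card N' := Nat.card_pos
      exact Nat.eq_of_mul_eq_mul_left hpos (h1.trans h2.symm)
    rw [h3, Nat.coprime_comm]
    exact ((Fact.out : p.Prime).coprime_iff_not_dvd).2 hidx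
  have hH0 : H = ⊥ := by
    apply hnop H hHn
    rintro _ ⟨y, hy, rfl⟩ hyp
    have h1 : orderOf y ∣ Nat.card H₀ := Subgroup.orderOf_dvd_natCard H₀ hy
    have h2 : (y : G) ^ p = 1 := hyp
    have h3 : y ^ p = 1 := Subtype.ext h2
    have h4 := orderOf_dvd_of_pow_eq_one h3
    have h5 := Nat.dvd_gcd h1 h4
    rw [hcardH₀, Nat.dvd_one] at h5
    have h6 := orderOf_eq_one_iff.1 h5
    rw [h6]; rfl
  have hH₀bot : H₀ = ⊥ := by
    rw [eq_bot_iff]
    intro y hy
    have : (y : G) ∈ H := ⟨y, hy, rfl⟩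
    rw [hH0] at this
    exact Subtype.ext this
  have hN'top : N' = ⊤ := by
    have := hH₀.sup_eq_top
    rwa [hH₀bot, sup_bot_eq] at this
  have hAN : ∀ x ∈ A, x ∈ N := by
    intro x hx
    have : (⟨x, hx⟩ : A) ∈ N' := by rw [hN'top]; trivial
    exact this
  refine ⟨⊥, B, C, ⟨inferInstance, a2, a3, bot_le, a5, fun x hx _ => hx, ?_, a8, a9⟩⟩
  intro x hx
  obtain ⟨k, hk⟩ := a7 x hx
  have hm := hAN _ hk
  obtain ⟨l, hl⟩ := hNp ⟨_, hm⟩
  refine ⟨k + l, ?_⟩
  have h1 : (x ^ p ^ k) ^ p ^ l = 1 := congrArg Subtype.val hl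
  rw [pow_add, pow_mul, h1]
  exact Subgroup.one_mem _

/-- An element of order dividing `p` acting on a normal subgroup of order `p` centralizes it. -/
theorem centralizes_of_card_prime {N : Subgroup G} [N.Normal] (hcard : Nat.card N = p) {y : G} (hy : y ^ p = 1) :
    ∀ n ∈ N, y * n = n * y := by
  classical
  have hpp : p.Prime := Fact.out
  haveI : IsCyclic N := isCyclic_of_prime_card hcard
  obtain ⟨⟨n₀, hn₀⟩, hgen⟩ := IsCyclic.exists_generator (α := N)
  have hord : orderOf n₀ = p := by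
    have h1 : orderOf (⟨n₀, hn₀⟩ : N) = Nat.card N := orderOf_eq_card_of_forall_mem_zpowers hgen
    rw [hcard, Subgroup.orderOf_mk] at h1
    exact h1
  have hmemN : ∀ n ∈ N, ∃ i : ℤ, n = n₀ ^ i := by
    intro n hn
    obtain ⟨i, hi⟩ := Subgroup.mem_zpowers_iff.1 (hgen ⟨n, hn⟩)
    exact ⟨i, by
      have := congrArg Subtype.val hi
      simpa using this.symm⟩
  obtain ⟨a, ha⟩ := hmemN _ ((inferInstance : N.Normal).conj_mem n₀ hn₀ y)
  have hiter : ∀ k : ℕ, y ^ k * n₀ * (y ^ k)⁻¹ = n₀ ^ (a ^ k) := by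
    intro k
    induction k with
    | zero => simp
    | succ k ih =>
      have e : y ^ (k + 1) * n₀ * (y ^ (k + 1))⁻¹ = y * (y ^ k * n₀ * (y ^ k)⁻¹) * y⁻¹ := by
        rw [pow_succ']; group
      rw [e, ih, ← conj_zpow, ha, ← zpow_mul, pow_succ']
  have h1 := hiter p
  rw [hy] at h1
  simp only [one_mul, inv_one, mul_one] at h1
  have h2 : n₀ ^ (a ^ p) = n₀ ^ (1 : ℤ) := by rw [← h1, zpow_one]
  rw [zpow_eq_zpow_iff_modEq, hord] at h2
  haveI : Fact p.Prime := ⟨hpp⟩
  have h3 : ((a : ℤ) : ZMod p) = 1 := by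
    have h4 : ((a ^ p : ℤ) : ZMod p) = ((1 : ℤ) : ZMod p) := (ZMod.intCast_eq_intCast_iff _ _ _).2 h2
    push_cast at h4
    rwa [ZMod.pow_card] at h4
  have h5 : n₀ ^ a = n₀ := by
    have h6 : a ≡ 1 [ZMOD (p : ℤ)] := by
      rw [← ZMod.intCast_eq_intCast_iff]
      simpa using h3
    have h7 : n₀ ^ a = n₀ ^ (1 : ℤ) := by
      rw [zpow_eq_zpow_iff_modEq, hord]
      exact h6
    rwa [zpow_one] at h7
  have hyn₀ : y * n₀ = n₀ * y := by
    rw [h5] at ha
    exact mul_inv_eq_iff_eq_mul.1 ha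
  intro n hn
  obtain ⟨i, rfl⟩ := hmemN n hn
  exact (Commute.zpow_right (show Commute y n₀ from hyn₀) i)

theorem nonphi_case {N : Subgroup G} [hNn : N.Normal] (hNp : IsPGroup p N) (hNc : ∀ a ∈ N, ∀ b ∈ N, a * b = b * a)
    (hmin : ∀ R : Subgroup G, R.Normal → R ≤ N → R = ⊥ ∨ R = N) (hN1 : N ≠ ⊥)
    (hmono : ∀ R : Subgroup G, R.Normal → R ≠ ⊥ → N ≤ R) (hH : MaxHyp p G)
    (M : Subgroup G) (hM : IsCoatom M) (hNM : ¬ N ≤ M) : ∃ A B C : Subgroup G, EC p A B C := by
  classical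
  have hpp : p.Prime := Fact.out
  have hsup : N ⊔ M = ⊤ := by
    apply hM.2
    refine lt_of_le_of_ne le_sup_right ?_
    intro he
    apply hNM
    rw [he]
    exact le_sup_left
  have hdec : ∀ g : G, ∃ n ∈ N, ∃ m ∈ M, n * m = g := by
    intro g
    have : g ∈ N ⊔ M := by rw [hsup]; trivial
    exact Subgroup.mem_sup_of_normal_left.1 this
  have hinf : N ⊓ M = ⊥ := by
    have hnorm : (N ⊓ M).Normal := by
      refine ⟨fun r hr g => ?_⟩
      obtain ⟨n, hn, m, hm, rfl⟩ := hdec g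
      have h1 : m * r * m⁻¹ ∈ N ⊓ M :=
        ⟨hNn.conj_mem r hr.1 m, M.mul_mem (M.mul_mem hm hr.2) (M.inv_mem hm)⟩
      have h2 : (n * m) * r * (n * m)⁻¹ = n * (m * r * m⁻¹) * n⁻¹ := by group
      rw [h2, hNc n hn _ h1.1, mul_inv_cancel_right]
      exact h1
    rcases hmin _ hnorm inf_le_left with h | h
    · exact h
    · exfalso
      apply hNM
      rw [← h]
      exact inf_le_right
  have hfaith : ∀ y ∈ M, (∀ n ∈ N, y * n = n * y) → y = 1 := by
    let R : Subgroup G := M ⊓ Subgroup.centralizer (N : Set G)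
    have hRn : R.Normal := by
      refine ⟨fun r hr g => ?_⟩
      obtain ⟨n, hn, m, hm, rfl⟩ := hdec g
      have hc : ∀ x ∈ N, r * x = x * r := fun x hx =>
        (Subgroup.mem_centralizer_iff.1 hr.2 x hx).symm
      have hc' : ∀ x ∈ N, (m * r * m⁻¹) * x = x * (m * r * m⁻¹) := by
        intro x hx
        have h3 : m⁻¹ * x * m ∈ N := by
          have := hNn.conj_mem x hx m⁻¹
          rwa [inv_inv] at this
        calc (m * r * m⁻¹) * x = m * (r * (m⁻¹ * x * m)) * m⁻¹ := by group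
          _ = m * ((m⁻¹ * x * m) * r) * m⁻¹ := by rw [hc _ h3]
          _ = _ := by group
      have h1 : m * r * m⁻¹ ∈ M := M.mul_mem (M.mul_mem hm hr.1) (M.inv_mem hm)
      have h2 : (n * m) * r * (n * m)⁻¹ = m * r * m⁻¹ := by
        calc (n * m) * r * (n * m)⁻¹ = n * (m * r * m⁻¹) * n⁻¹ := by group
          _ = (m * r * m⁻¹) * n * n⁻¹ := by rw [(hc' n hn).symm]
          _ = _ := by group
      rw [h2]
      exact ⟨h1, Subgroup.mem_centralizer_iff.2 (fun x hx => (hc' x hx).symm)⟩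
    have hR0 : R = ⊥ := by
      by_contra hne
      have := hmono R hRn hne
      exact hNM (this.trans inf_le_left)
    intro y hy hc
    have : y ∈ R := ⟨hy, Subgroup.mem_centralizer_iff.2 (fun x hx => (hc x hx).symm)⟩
    rw [hR0] at this
    exact this
  -- a p-complement of M
  obtain ⟨K, hKM, hKn, hKo, hKj⟩ : ∃ K : Subgroup G, K ≤ M ∧ (∀ m ∈ M, ∀ k ∈ K, m * k * m⁻¹ ∈ K) ∧
      (∀ k ∈ K, (orderOf k).Coprime p) ∧ ∀ m ∈ M, ∃ j : ℕ, m ^ p ^ j ∈ K := by
    rcases hH M hM with h | h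
    · exact h
    · refine ⟨M, le_rfl, fun m hm k hk => M.mul_mem (M.mul_mem hm hk) (M.inv_mem hm), ?_, fun m _ => ?_⟩
      · -- the index of M is the order of N
        have hcompl : M.index = Nat.card N := by
          let f : N → G ⧸ M := fun n => ((n : G) : G ⧸ M)
          have hbij : Function.Bijective f := by
            constructor
            · rintro ⟨a, ha⟩ ⟨b, hb⟩ hab
              have h1 : a⁻¹ * b ∈ M := QuotientGroup.eq.1 hab
              have h2 : a⁻¹ * b ∈ N ⊓ M := ⟨N.mul_mem (N.inv_mem ha) hb, h1⟩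
              rw [hinf] at h2
              exact Subtype.ext (inv_mul_eq_one.1 h2)
            · intro q
              obtain ⟨g, rfl⟩ := QuotientGroup.mk_surjective q
              obtain ⟨n, hn, m, hm, rfl⟩ := hdec g
              refine ⟨⟨n, hn⟩, ?_⟩
              apply QuotientGroup.eq.2
              have e : n⁻¹ * (n * m) = m := by group
              rw [e]; exact hm
          exact (Nat.card_congr (Equiv.ofBijective f hbij)).symm
        obtain ⟨a₀, ha₀⟩ := IsPGroup.iff_card.1 hNp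
        have hcardp : Nat.card N = p := by
          have h1 : (Nat.card N).Prime := by rw [← hcompl]; exact h
          rw [ha₀] at h1 ⊢
          have h2 : a₀ ≠ 0 := by
            rintro rfl
            simp at h1
            exact Nat.not_prime_one h1
          have h3 : p ∣ p ^ a₀ := dvd_pow_self p h2
          exact ((Nat.prime_dvd_prime_iff_eq hpp h1).1 h3).symm
        intro k hk
        by_contra hnc
        have hd : p ∣ orderOf k := by
          by_contra hnd
          exact hnc ((Nat.coprime_comm.1 ((hpp.coprime_iff_not_dvd).2 hnd)))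
        have hk0 : orderOf k ≠ 0 := (orderOf_pos k).ne'
        have hy := orderOf_pow_orderOf_div hk0 hd
        have hyp : (k ^ (orderOf k / p)) ^ p = 1 := by
          rw [← pow_mul, Nat.div_mul_cancel hd, pow_orderOf_eq_one]
        have hcent := centralizes_of_card_prime hcardp hyp
        have hy1 := hfaith _ (M.pow_mem hk _) hcent
        rw [hy1, orderOf_one] at hy
        exact hpp.one_lt.ne hy
      · exact ⟨0, by simpa using ‹m ∈ M›⟩
  -- the chain
  have hCn : (N ⊔ K).Normal := by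
    refine ⟨fun x hx g => ?_⟩
    obtain ⟨n', hn', k, hk, rfl⟩ := Subgroup.mem_sup_of_normal_left.1 hx
    obtain ⟨n, hn, m, hm, rfl⟩ := hdec g
    have h1 : m * k * m⁻¹ ∈ K := hKn m hm k hk
    set k₁ := m * k * m⁻¹ with hk₁
    have e : (n * m) * (n' * k) * (n * m)⁻¹ =
        ((n * m) * n' * (n * m)⁻¹) * (n * (k₁ * n⁻¹ * k₁⁻¹)) * k₁ := by
      rw [hk₁]; group
    rw [e]
    refine Subgroup.mul_mem _ (Subgroup.mul_mem _ ?_ ?_) (Subgroup.mem_sup_right h1)
    · exact Subgroup.mem_sup_left (hNn.conj_mem n' hn' _)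
    · refine Subgroup.mem_sup_left (N.mul_mem hn ?_)
      exact hNn.conj_mem _ (N.inv_mem hn) k₁
  refine ⟨⊥, N, N ⊔ K, ⟨inferInstance, hNn, hCn, bot_le, le_sup_left, fun x hx _ => hx, ?_, ?_, ?_⟩⟩
  · intro x hx
    obtain ⟨l, hl⟩ := hNp ⟨x, hx⟩
    exact ⟨l, congrArg Subtype.val hl⟩
  · intro x hx
    obtain ⟨n, hn, k, hk, rfl⟩ := Subgroup.mem_sup_of_normal_left.1 hx
    refine ⟨orderOf k, ?_, ?_⟩
    · intro hd
      have h1 := hKo k hk
      have h2 := Nat.dvd_gcd hd (dvd_refl p)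
      rw [h1, Nat.dvd_one] at h2
      exact hpp.one_lt.ne' h2
    · rw [← QuotientGroup.eq_one_iff, QuotientGroup.mk_pow, QuotientGroup.mk_mul]
      have h1 : (n : G ⧸ N) = 1 := (QuotientGroup.eq_one_iff n).2 hn
      rw [h1, one_mul, ← QuotientGroup.mk_pow, pow_orderOf_eq_one]
      rfl
  · intro x
    obtain ⟨n, hn, m, hm, rfl⟩ := hdec x
    obtain ⟨j, hj⟩ := hKj m hm
    refine ⟨j, ?_⟩
    have h1 : ((n * m) ^ p ^ j * (m ^ p ^ j)⁻¹ : G) ∈ N := by
      rw [← QuotientGroup.eq_one_iff, QuotientGroup.mk_mul, QuotientGroup.mk_pow, QuotientGroup.mk_mul,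
        QuotientGroup.mk_inv]
      have h2 : (n : G ⧸ N) = 1 := (QuotientGroup.eq_one_iff n).2 hn
      rw [h2, one_mul, QuotientGroup.mk_pow, mul_inv_cancel]
    have h3 : (n * m) ^ p ^ j = ((n * m) ^ p ^ j * (m ^ p ^ j)⁻¹) * m ^ p ^ j := by group
    rw [h3]
    exact Subgroup.mul_mem _ (Subgroup.mem_sup_left h1) (Subgroup.mem_sup_right hj)

end cases

section main

universe u

/-- The main induction. -/
theorem main_ec {p : ℕ} [Fact p.Prime] : ∀ (n : ℕ) (G : Type u) [Group G] [Finite G], Nat.card G = n →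
    Cfsg.IsPSolvable p G → MaxHyp p G → ∃ A B C : Subgroup G, EC p A B C := by
  intro n
  induction n using Nat.strong_induction_on with
  | _ n ih =>
    intro G _ _ hn hS hH
    classical
    have hpp : p.Prime := Fact.out
    by_cases htriv : Subsingleton G
    · refine ⟨⊥, ⊥, ⊤, ⟨inferInstance, inferInstance, inferInstance, le_rfl, bot_le, fun x hx _ => hx, ?_, ?_, ?_⟩⟩
      · exact fun x hx => ⟨0, by simpa using hx⟩
      · exact fun x hx => ⟨1, fun hd => hpp.one_lt.ne' (Nat.dvd_one.1 hd), by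
          rw [Subsingleton.elim (x ^ 1) 1]; exact Subgroup.one_mem _⟩
      · exact fun x => ⟨0, trivial⟩
    haveI : Nontrivial G := not_subsingleton_iff_nontrivial.1 htriv
    have hIH : ∀ R : Subgroup G, R.Normal → R ≠ ⊥ → ∃ (_ : R.Normal), ∃ A B C : Subgroup (G ⧸ R), EC p A B C := by
      intro R hR hne
      haveI := hR
      refine ⟨hR, ?_⟩
      have hlt : Nat.card (G ⧸ R) < n := by
        have h1 := Subgroup.card_eq_card_quotient_mul_card_subgroup R
        have h2 : 1 < Nat.card R := by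
          rw [Finite.one_lt_card_iff_nontrivial]
          exact (Subgroup.nontrivial_iff_ne_bot R).2 hne
        have h3 : 0 < Nat.card (G ⧸ R) := Nat.card_pos
        rw [hn] at h1
        rw [h1]
        nlinarith
      exact ih _ hlt (G ⧸ R) rfl
        (Cfsg.Agent.H03.isPSolvable_of_surjective (QuotientGroup.mk'_surjective R) hS) (hH.quot R)
    by_cases hp' : ∃ R : Subgroup G, R.Normal ∧ R ≠ ⊥ ∧ ∀ x ∈ R, x ^ p = 1 → x = 1
    · obtain ⟨R, hR, hne, hx⟩ := hp'
      obtain ⟨_, A, B, C, hEC⟩ := hIH R hR hne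
      exact hEC.lift hx
    push Not at hp'
    have hnop : ∀ R : Subgroup G, R.Normal → (∀ x ∈ R, x ^ p = 1 → x = 1) → R = ⊥ := by
      intro R hR hx
      by_contra hne
      obtain ⟨x, hxR, hxp, hx1⟩ := hp' R hR hne
      exact hx1 (hx x hxR hxp)
    obtain ⟨N, hNn, hN1, hNmin⟩ := Cfsg.Agent.H01.exists_minimal_normal (G := G)
    haveI := hNn
    obtain ⟨M₀, hM₀le, hM₀n, hM₀1, hM₀⟩ := Cfsg.Agent.H03.exists_normal_le_of_isPSolvable hS hNn hN1
    have hM₀N : M₀ = N := (hNmin M₀ hM₀n hM₀le).resolve_left hM₀1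
    subst hM₀N
    have hNp : IsPGroup p M₀ := by
      rcases hM₀ with h | h
      · exact h
      · exfalso
        apply hN1
        apply hnop _ hNn
        intro x hx hxp
        have h1 : orderOf (⟨x, hx⟩ : M₀) ∣ Nat.card M₀ := orderOf_dvd_natCard _
        have h2 : orderOf (⟨x, hx⟩ : M₀) ∣ p := orderOf_dvd_of_pow_eq_one (Subtype.ext hxp)
        have h3 := Nat.dvd_gcd h1 h2
        rw [h, Nat.dvd_one] at h3
        have h4 := orderOf_eq_one_iff.1 h3
        exact congrArg Subtype.val h4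
    -- abelian
    have hNc : ∀ a ∈ M₀, ∀ b ∈ M₀, a * b = b * a := by
      let Z : Subgroup G := M₀ ⊓ Subgroup.centralizer (M₀ : Set G)
      have hZn : Z.Normal := by
        haveI : (Subgroup.centralizer (M₀ : Set G)).Normal := Subgroup.normal_centralizer
        exact Subgroup.normal_inf_normal _ _
      have hZ1 : Z ≠ ⊥ := by
        haveI : Nontrivial M₀ := (Subgroup.nontrivial_iff_ne_bot M₀).2 hN1
        haveI : Fact p.Prime := ⟨hpp⟩
        haveI := hNp.center_nontrivial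
        obtain ⟨z, hz⟩ := exists_ne (1 : Subgroup.center M₀)
        intro hbot
        apply hz
        have h1 : ((z : M₀) : G) ∈ Z := by
          refine ⟨(z : M₀).2, ?_⟩
          show ((z : M₀) : G) ∈ Subgroup.centralizer (M₀ : Set G)
          rw [Subgroup.mem_centralizer_iff]
          intro b hb
          have := (Subgroup.mem_center_iff.1 z.2) ⟨b, hb⟩
          exact congrArg Subtype.val this
        rw [hbot] at h1
        exact Subtype.ext (Subtype.ext h1)
      have hZN : Z = M₀ := (hNmin Z hZn inf_le_left).resolve_left hZ1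
      intro a ha b hb
      have h1 : b ∈ Z := by rw [hZN]; exact hb
      exact (Subgroup.mem_centralizer_iff.1 h1.2 a ha)
    by_cases hR : ∃ R : Subgroup G, R.Normal ∧ R ≠ ⊥ ∧ ¬ M₀ ≤ R
    · obtain ⟨R, hRn, hR1, hRN⟩ := hR
      have hinf : M₀ ⊓ R = ⊥ := by
        haveI := hRn
        rcases hNmin (M₀ ⊓ R) (Subgroup.normal_inf_normal _ _) inf_le_left with h | h
        · exact h
        · exfalso
          apply hRN
          rw [← h]
          exact inf_le_right
      obtain ⟨_, A₁, B₁, C₁, h₁⟩ := hIH M₀ hNn hN1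
      obtain ⟨_, A₂, B₂, C₂, h₂⟩ := hIH R hRn hR1
      exact EC.subdirect hinf h₁ h₂
    push Not at hR
    by_cases hΦ : ∀ M : Subgroup G, IsCoatom M → M₀ ≤ M
    · obtain ⟨_, A, B, C, hEC⟩ := hIH M₀ hNn hN1
      exact phi_case hNp hNc hΦ hnop hEC
    · push Not at hΦ
      obtain ⟨M, hM, hMN⟩ := hΦ
      exact nonphi_case hNp hNc hNmin hN1 hR hH M hM hMN

/-- Conversion from the elementwise chain. -/
theorem EC.final {G : Type*} [Group G] [Finite G] {p : ℕ} [Fact p.Prime] {A B C : Subgroup G} (h : EC p A B C) :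
    ¬ p ∣ Nat.card A ∧ (∃ k : ℕ, A.relIndex B = p ^ k) ∧ ¬ p ∣ B.relIndex C ∧ ∃ k : ℕ, C.index = p ^ k := by
  have hpp : p.Prime := Fact.out
  haveI := h.an; haveI := h.bn; haveI := h.cn
  refine ⟨?_, ?_, ?_, ?_⟩
  · intro hd
    obtain ⟨y, hy⟩ := exists_prime_orderOf_dvd_card' p hd
    have h1 : y ^ p = 1 := by rw [← hy, pow_orderOf_eq_one]
    have h2 := h.p1 y y.2 (congrArg Subtype.val h1)
    have h3 : y = 1 := Subtype.ext h2
    rw [h3, orderOf_one] at hy
    exact hpp.one_lt.ne hy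
  · haveI : (A.subgroupOf B).Normal := Subgroup.Normal.subgroupOf inferInstance B
    have hP : IsPGroup p (B ⧸ A.subgroupOf B) := by
      intro q
      obtain ⟨x, rfl⟩ := QuotientGroup.mk_surjective q
      obtain ⟨k, hk⟩ := h.p2 x x.2
      refine ⟨k, ?_⟩
      rw [← QuotientGroup.mk_pow, QuotientGroup.eq_one_iff]
      exact hk
    obtain ⟨k, hk⟩ := IsPGroup.iff_card.1 hP
    exact ⟨k, hk⟩
  · haveI : (B.subgroupOf C).Normal := Subgroup.Normal.subgroupOf inferInstance C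
    intro hd
    have hd' : p ∣ Nat.card (C ⧸ B.subgroupOf C) := hd
    obtain ⟨y, hy⟩ := exists_prime_orderOf_dvd_card' p hd'
    obtain ⟨x, rfl⟩ := QuotientGroup.mk_surjective y
    obtain ⟨m, hm, hxm⟩ := h.p3 x x.2
    have h1 : ((x : C) : C ⧸ B.subgroupOf C) ^ m = 1 := by
      rw [← QuotientGroup.mk_pow, QuotientGroup.eq_one_iff]
      exact hxm
    have h2 := orderOf_dvd_of_pow_eq_one h1
    rw [hy] at h2
    exact hm h2
  · have hP : IsPGroup p (G ⧸ C) := by
      intro q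
      obtain ⟨x, rfl⟩ := QuotientGroup.mk_surjective q
      obtain ⟨k, hk⟩ := h.p4 x
      refine ⟨k, ?_⟩
      rw [← QuotientGroup.mk_pow, QuotientGroup.eq_one_iff]
      exact hk
    obtain ⟨k, hk⟩ := IsPGroup.iff_card.1 hP
    exact ⟨k, hk⟩

/-- Conversion of the hypothesis on maximal subgroups. -/
theorem maxHyp_of {G : Type*} [Group G] [Finite G] {p : ℕ} [Fact p.Prime]
    (hmax : ∀ M : Subgroup G, IsCoatom M → (∃ K : Subgroup ↥M, K.Normal ∧ ¬ p ∣ Nat.card K ∧ ∃ k : ℕ, K.index = p ^ k) ∨ (M.index).Prime) :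
    MaxHyp p G := by
  intro M hM
  rcases hmax M hM with ⟨K, hKn, hKp, k, hk⟩ | h
  · left
    refine ⟨K.map M.subtype, ?_, ?_, ?_, ?_⟩
    · exact Subgroup.map_subtype_le K
    · rintro m hm _ ⟨x, hx, rfl⟩
      refine ⟨⟨m, hm⟩ * x * ⟨m, hm⟩⁻¹, hKn.conj_mem x hx ⟨m, hm⟩, ?_⟩
      simp
    · rintro _ ⟨x, hx, rfl⟩
      have h1 : orderOf x ∣ Nat.card K := Subgroup.orderOf_dvd_natCard K hx
      have h2 : orderOf (M.subtype x) = orderOf x := by
        exact Subgroup.orderOf_coe x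
      rw [h2, Nat.coprime_comm, (Fact.out : p.Prime).coprime_iff_not_dvd]
      exact fun hd => hKp (hd.trans h1)
    · intro m hm
      refine ⟨k, ⟨⟨m, hm⟩ ^ p ^ k, ?_, rfl⟩⟩
      rw [← hk]
      exact Subgroup.pow_index_mem K _
  · exact Or.inr h

end main

end Cfsg.Agent.H20
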