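import Cfsg.Agent.S0799
import Cfsg.Agent.Lib.H09.Dick9
import Cfsg.Agent.Lib.Lead.CardSL
import Cfsg.Agent.Lib.H11.PSL2
import Cfsg.Agent.Lib.H20.RedSyl
import Cfsg.Agent.Lib.H20.Basic
import Mathlib

set_option autoImplicit false
set_option linter.unusedVariables false
set_option linter.unusedSectionVars false
set_option linter.style.haveILetI false

namespace Cfsg.Agent.H20.P213

open Matrix Cfsg.Agent.H11.SL2X

instance fact13 : Fact (Nat.Prime 13) := ⟨by norm_num⟩
instance fact7 : Fact (Nat.Prime 7) := ⟨by norm_num⟩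

/-- the group -/
abbrev G13 := PS2 (ZMod 13)

lemma card_F : Fintype.card (ZMod 13) = 13 := ZMod.card 13

lemma card_G : Nat.card G13 = 1092 := by
  have h := Cfsg.Agent.Lead.card_PSL (F := ZMod 13) 2 (by norm_num)
  rw [card_F, Fin.prod_univ_two] at h
  have h2 : Nat.gcd 2 (13 - 1) = 2 := by norm_num
  rw [h2] at h
  have h3 : (13 ^ 2 - 13 ^ (((0 : Fin 2)) : ℕ)) * (13 ^ 2 - 13 ^ (((1 : Fin 2)) : ℕ)) = 26208 := by norm_num
  rw [h3] at h
  have h4 : Nat.card G13 = Nat.card (ProjectiveSpecialLinearGroup (Fin 2) (ZMod 13)) := rfl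
  rw [h4]
  omega

instance simpleG : IsSimpleGroup G13 := by
  apply Cfsg.Agent.H11.PSL_simple' 2 (by norm_num)
  rw [card_F]
  omega

instance finiteG : Finite G13 := Nat.finite_of_card_ne_zero (by rw [card_G]; norm_num)

lemma normal_eq {H : Subgroup G13} (hn : H.Normal) : H = ⊥ ∨ H = ⊤ := hn.eq_bot_or_eq_top

/-- the normaliser of a proper non-trivial subgroup is proper -/
lemma normalizer_ne_top {H : Subgroup G13} (h1 : H ≠ ⊥) (h2 : H ≠ ⊤) :
    Subgroup.normalizer (H : Set G13) ≠ ⊤ := by
  intro h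
  rw [Subgroup.normalizer_eq_top_iff] at h
  rcases normal_eq h with h3 | h3
  · exact h1 h3
  · exact h2 h3

lemma card_sylow_prime {p m k : ℕ} [Fact p.Prime] (hG : Nat.card G13 = p ^ k * m) (hm : ¬ p ∣ m)
    (P : Sylow p G13) : Nat.card (P : Subgroup G13) = p ^ k := by
  have hp : p.Prime := Fact.out
  obtain ⟨a, ha⟩ := IsPGroup.iff_card.1 P.isPGroup'
  have h1 : p ^ k ∣ Nat.card (P : Subgroup G13) :=
    Sylow.pow_dvd_card_of_pow_dvd_card P (by rw [hG]; exact dvd_mul_right _ _)
  have h2 : Nat.card (P : Subgroup G13) ∣ p ^ k * m := by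
    rw [← hG]
    exact Subgroup.card_subgroup_dvd_card _
  rw [ha] at h1 h2 ⊢
  have h3 : k ≤ a := (Nat.pow_dvd_pow_iff_le_right hp.one_lt).1 h1
  have h4 : a ≤ k := by
    by_contra h5
    push Not at h5
    have h6 : p ^ (k + 1) ∣ p ^ k * m := dvd_trans (pow_dvd_pow p h5) h2
    rw [pow_succ] at h6
    exact hm (Nat.dvd_of_mul_dvd_mul_left (pow_pos hp.pos k) h6)
  rw [le_antisymm h3 h4]

/-- the list of orders of proper subgroups -/
theorem card_normalizer13 (P : Sylow 13 G13) :
    Nat.card (Subgroup.normalizer ((P : Subgroup G13) : Set G13)) = 78 := by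
  have hc := card_sylow_prime (p := 13) (m := 84) (k := 1) (by rw [card_G]; norm_num) (by norm_num) P
  have h1 : Nat.card (Sylow 13 G13) = (Subgroup.normalizer ((P : Subgroup G13) : Set G13)).index :=
    Sylow.card_eq_index_normalizer P
  have h2 := (Subgroup.normalizer ((P : Subgroup G13) : Set G13)).card_mul_index
  have h3 : Nat.card (Sylow 13 G13) ≡ 1 [MOD 13] := card_sylow_modEq_one 13 G13
  have h4 : Nat.card (Sylow 13 G13) ∣ (P : Subgroup G13).index := Sylow.card_dvd_index P
  have h5 := (P : Subgroup G13).card_mul_index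
  rw [hc, card_G] at h5
  have h6 : (P : Subgroup G13).index = 84 := by omega
  rw [h6] at h4
  set n := Nat.card (Sylow 13 G13) with hn
  have hle : n ≤ 84 := Nat.le_of_dvd (by norm_num) h4
  rw [← h1, card_G] at h2
  have hP1 : (P : Subgroup G13) ≠ ⊥ := by
    intro h
    rw [h, Subgroup.card_bot] at hc
    norm_num at hc
  have hP2 : (P : Subgroup G13) ≠ ⊤ := by
    intro h
    rw [h, Subgroup.card_top, card_G] at hc
    norm_num at hc
  have hn1 : n ≠ 1 := by
    intro h
    rw [h] at h2
    apply normalizer_ne_top hP1 hP2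
    apply Subgroup.eq_top_of_card_eq
    rw [card_G]
    omega
  have hm : n % 13 = 1 := h3
  obtain ⟨c, hcc⟩ := h4
  have hn14 : n = 14 := by
    interval_cases n <;> omega
  rw [hn14] at h2
  omega

theorem card_normalizer7 (P : Sylow 7 G13) :
    Nat.card (Subgroup.normalizer ((P : Subgroup G13) : Set G13)) = 14 := by
  have hc := card_sylow_prime (p := 7) (m := 156) (k := 1) (by rw [card_G]; norm_num) (by norm_num) P
  have h1 : Nat.card (Sylow 7 G13) = (Subgroup.normalizer ((P : Subgroup G13) : Set G13)).index :=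
    Sylow.card_eq_index_normalizer P
  have h2 := (Subgroup.normalizer ((P : Subgroup G13) : Set G13)).card_mul_index
  have h3 : Nat.card (Sylow 7 G13) ≡ 1 [MOD 7] := card_sylow_modEq_one 7 G13
  have h4 : Nat.card (Sylow 7 G13) ∣ (P : Subgroup G13).index := Sylow.card_dvd_index P
  have h5 := (P : Subgroup G13).card_mul_index
  rw [hc, card_G] at h5
  have h6 : (P : Subgroup G13).index = 156 := by omega
  rw [h6] at h4
  set n := Nat.card (Sylow 7 G13) with hn
  have hle : n ≤ 156 := Nat.le_of_dvd (by norm_num) h4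
  rw [← h1, card_G] at h2
  have hP1 : (P : Subgroup G13) ≠ ⊥ := by
    intro h
    rw [h, Subgroup.card_bot] at hc
    norm_num at hc
  have hP2 : (P : Subgroup G13) ≠ ⊤ := by
    intro h
    rw [h, Subgroup.card_top, card_G] at hc
    norm_num at hc
  have hn1 : n ≠ 1 := by
    intro h
    rw [h] at h2
    apply normalizer_ne_top hP1 hP2
    apply Subgroup.eq_top_of_card_eq
    rw [card_G]
    omega
  have hm : n % 7 = 1 := h3
  obtain ⟨c, hcc⟩ := h4
  have hn14 : n = 78 := by
    interval_cases n <;> omega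
  rw [hn14] at h2
  omega

/-- orders of proper subgroups -/
theorem card_list (H : Subgroup G13) (hH : H ≠ ⊤) :
    Nat.card H ∈ ({1, 2, 3, 4, 6, 7, 12, 13, 14, 26, 39, 78} : Finset ℕ) := by
  have hd : Nat.card H ∣ 1092 := by
    rw [← card_G]; exact Subgroup.card_subgroup_dvd_card H
  have hne : Nat.card H ≠ 1092 := by
    intro h
    apply hH
    apply Subgroup.eq_top_of_card_eq
    rw [h, card_G]
  rcases Cfsg.Agent.S0799.result (F := ZMod 13) (q := 13) card_F 13 H with
    ⟨k, hk, hc⟩ | ⟨P, K, hK, ⟨e⟩⟩ | ⟨⟨e⟩⟩ | ⟨⟨e⟩⟩ | ⟨⟨e⟩⟩ | ⟨K, _, _, m, hm, hc⟩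
  · have h1 : k ∣ 7 ∨ k ∣ 6 := by
      norm_num at hk
      exact hk
    have h2 : k = 1 ∨ k = 7 ∨ k = 2 ∨ k = 3 ∨ k = 6 := by
      rcases h1 with h | h
      · have := (Nat.dvd_prime (by norm_num : Nat.Prime 7)).1 h
        omega
      · have h3 : k ≤ 6 := Nat.le_of_dvd (by norm_num) h
        interval_cases k <;> simp_all
    rcases hc with ⟨-, hc⟩ | ⟨⟨e⟩⟩
    · rw [hc]
      rcases h2 with rfl | rfl | rfl | rfl | rfl <;> decide
    · have h3 : Nat.card H = 2 * k := by
        rw [Nat.card_congr e.toEquiv, DihedralGroup.nat_card]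
      rw [h3]
      rcases h2 with rfl | rfl | rfl | rfl | rfl <;> decide
  · have h1 : Nat.card H = Nat.card K := Nat.card_congr e.toEquiv
    have h2 : Nat.card K ∣ 78 := by
      rw [← card_normalizer13 P]
      exact Subgroup.card_dvd_of_le hK
    rw [h1]
    have h3 : Nat.card K ≤ 78 := Nat.le_of_dvd (by norm_num) h2
    have h4 : Nat.card K = 1 ∨ Nat.card K = 2 ∨ Nat.card K = 3 ∨ Nat.card K = 6 ∨ Nat.card K = 13 ∨ Nat.card K = 26 ∨ Nat.card K = 39 ∨ Nat.card K = 78 := by
      generalize Nat.card K = n at h2 h3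
      interval_cases n <;> simp_all
    rcases h4 with h | h | h | h | h | h | h | h <;> rw [h] <;> decide
  · rw [Nat.card_congr e.toEquiv]
    have : Nat.card (alternatingGroup (Fin 4)) = 12 := by
      rw [Nat.card_eq_fintype_card]
      decide +kernel
    rw [this]
    decide
  · exfalso
    have h1 := Nat.card_congr e.toEquiv
    rw [Nat.card_eq_fintype_card (α := Equiv.Perm (Fin 4)), Fintype.card_perm, Fintype.card_fin] at h1
    rw [h1] at hd
    revert hd
    decide
  · exfalso
    have h1 := Nat.card_congr e.toEquiv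
    have : Nat.card (alternatingGroup (Fin 5)) = 60 := by
      rw [Nat.card_eq_fintype_card]
      decide +kernel
    rw [this] at h1
    rw [h1] at hd
    revert hd
    decide
  · exfalso
    have hK2 : 2 ≤ Fintype.card K := Fintype.one_lt_card
    have hKq : Fintype.card K = 13 := by
      have h1 : Fintype.card K ∣ 13 := by
        rw [← hm]
        apply dvd_pow_self
        rintro rfl
        simp at hm
      rcases (Nat.dvd_prime (by norm_num : Nat.Prime 13)).1 h1 with h | h
      · omega
      · exact h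
    rcases hc with ⟨⟨e⟩⟩ | ⟨⟨e⟩⟩
    · apply hne
      rw [Nat.card_congr e.toEquiv]
      have h := Cfsg.Agent.Lead.card_PSL (F := K) 2 (by norm_num)
      rw [hKq, Fin.prod_univ_two] at h
      norm_num at h
      omega
    · have h1 := Nat.card_congr e.toEquiv
      rw [Cfsg.Agent.H09.Dick.card_PGL, hKq] at h1
      norm_num at h1
      rw [h1] at hd
      revert hd
      decide

/-- subgroups whose order is 12, 14 or 78 are maximal -/
theorem isCoatom_of_card {M : Subgroup G13} (hM : Nat.card M = 12 ∨ Nat.card M = 14 ∨ Nat.card M = 78) :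
    IsCoatom M := by
  have hMtop : M ≠ ⊤ := by
    rintro rfl
    rw [Subgroup.card_top, card_G] at hM
    omega
  refine ⟨hMtop, ?_⟩
  intro L hL
  by_contra hLtop
  have h1 := card_list L hLtop
  have h2 : Nat.card M ∣ Nat.card L := Subgroup.card_dvd_of_le hL.le
  have h3 : Nat.card M ≠ Nat.card L := by
    intro h
    exact hL.ne (Subgroup.eq_of_le_of_card_ge hL.le h.ge)
  simp only [Finset.mem_insert, Finset.mem_singleton] at h1
  rcases hM with h | h | h <;> rw [h] at h2 h3 <;>
    rcases h1 with h' | h' | h' | h' | h' | h' | h' | h' | h' | h' | h' | h' <;> rw [h'] at h2 h3 <;>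
    revert h2 h3 <;> decide

/-- a subgroup of order 12, 14, 78 is self-normalising -/
theorem normalizer_eq_of_card {M : Subgroup G13} (hM : Nat.card M = 12 ∨ Nat.card M = 14 ∨ Nat.card M = 78) :
    Subgroup.normalizer (M : Set G13) = M := by
  have hc := isCoatom_of_card hM
  have hle : M ≤ Subgroup.normalizer (M : Set G13) := Subgroup.le_normalizer
  have hb : M ≠ ⊥ := by
    rintro rfl
    rw [Subgroup.card_bot] at hM
    omega
  rcases eq_or_lt_of_le hle with h | h
  · exact h.symm
  · exact absurd (hc.2 _ h) (normalizer_ne_top hb hc.1)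

/-- two subgroups of prime order in a small group are equal -/
lemma eq_of_card_prime {X : Type*} [Group X] [Finite X] {r : ℕ} (hr : r.Prime) {A B H : Subgroup X}
    (hA : Nat.card A = r) (hB : Nat.card B = r) (hAH : A ≤ H) (hBH : B ≤ H) (hH : Nat.card H < r ^ 2) :
    A = B := by
  by_contra hne
  have hdisj : A ⊓ B = ⊥ := by
    have h1 : Nat.card (A ⊓ B : Subgroup X) ∣ r := by
      rw [← hA]
      exact Subgroup.card_dvd_of_le inf_le_left
    rcases (Nat.dvd_prime hr).1 h1 with h | h
    · exact Subgroup.eq_bot_of_card_eq _ h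
    · exfalso
      apply hne
      have h2 : A ⊓ B = A := Subgroup.eq_of_le_of_card_ge inf_le_left (by rw [h, hA])
      have h3 : A ⊓ B = B := Subgroup.eq_of_le_of_card_ge inf_le_right (by rw [h, hB])
      rw [← h2, h3]
  have hinj : Function.Injective (fun x : A × B => (⟨(x.1 : X) * x.2, H.mul_mem (hAH x.1.2) (hBH x.2.2)⟩ : H)) := by
    rintro ⟨a, b⟩ ⟨a', b'⟩ h
    have h1 : (a : X) * b = a' * b' := congrArg Subtype.val h
    have h2 : ((a' : X)⁻¹ * a : X) = b' * (b : X)⁻¹ := by
      calc ((a' : X)⁻¹ * a : X) = (a' : X)⁻¹ * ((a : X) * b) * (b : X)⁻¹ := by group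
        _ = (a' : X)⁻¹ * ((a' : X) * b') * (b : X)⁻¹ := by rw [h1]
        _ = _ := by group
    have h3 : ((a' : X)⁻¹ * a : X) ∈ A ⊓ B := by
      refine ⟨A.mul_mem (A.inv_mem a'.2) a.2, ?_⟩
      rw [h2]
      exact B.mul_mem b'.2 (B.inv_mem b.2)
    rw [hdisj, Subgroup.mem_bot] at h3
    have h4 : (a : X) = a' := by
      have := inv_mul_eq_one.1 h3
      exact this.symm
    have h5 : (b : X) = b' := by
      rw [h4] at h1
      exact mul_left_cancel h1
    exact Prod.ext (Subtype.ext h4) (Subtype.ext h5)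
  have h6 := Nat.card_le_card_of_injective _ hinj
  rw [Nat.card_prod, hA, hB] at h6
  nlinarith

/-- conjugation preserves the order of the normaliser -/
lemma card_normalizer_conj (H : Subgroup G13) (g : G13) :
    Nat.card (Subgroup.normalizer ((H.map (MulAut.conj g).toMonoidHom : Subgroup G13) : Set G13)) =
      Nat.card (Subgroup.normalizer (H : Set G13)) := by
  rw [← Subgroup.map_equiv_normalizer_eq]
  exact (Nat.card_congr (Subgroup.equivMapOfInjective _ _ (MulAut.conj g).injective).toEquiv).symm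

/-- explicit matrices -/
def dS : SL2 (ZMod 13) := ⟨!![2, 0; 0, 7], by decide +kernel⟩
def wS : SL2 (ZMod 13) := ⟨!![0, 1; -1, 0], by decide +kernel⟩
def cS : SL2 (ZMod 13) := ⟨!![2, 3; 2, 10], by decide +kernel⟩
def mS : SL2 (ZMod 13) := ⟨!![-1, 0; 0, -1], by decide +kernel⟩

lemma pr_mS : pr mS = 1 := by
  rw [pr_eq_one_iff]
  refine ⟨-1, by decide +kernel, by decide +kernel⟩

lemma pr_eq_one_cases {y : SL2 (ZMod 13)} (h : pr y = 1) : y = 1 ∨ y = mS := by
  obtain ⟨r, hr, hy⟩ := pr_eq_one_iff.1 h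
  rcases r_cases hr with h1 | h1
  · left
    apply Subtype.ext
    rw [hy, h1]
    simp
  · right
    apply Subtype.ext
    rw [hy, h1]
    decide +kernel

lemma pr_ne_one {y : SL2 (ZMod 13)} (h1 : y ≠ 1) (h2 : y ≠ mS) : pr y ≠ 1 := fun h =>
  (pr_eq_one_cases h).elim h1 h2

/-- the elements of the projective group -/
def dP : G13 := pr dS
def wP : G13 := pr wS
def cP : G13 := pr cS
def xP : G13 := dP ^ 2
def tP : G13 := dP ^ 3

lemma pr_pow' (y : SL2 (ZMod 13)) (n : ℕ) : (pr y) ^ n = pr (y ^ n) := rfl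

lemma xP_pow : xP ^ 3 = 1 := by
  have : xP ^ 3 = pr (dS ^ 6) := by
    rw [← pr_pow']
    show (dP ^ 2) ^ 3 = dP ^ 6
    rw [← pow_mul]
  rw [this, show dS ^ 6 = mS by decide +kernel, pr_mS]

lemma xP_ne : xP ≠ 1 := pr_ne_one (y := dS ^ 2) (by decide +kernel) (by decide +kernel)

lemma tP_sq : tP ^ 2 = 1 := by
  have : tP ^ 2 = pr (dS ^ 6) := by
    rw [← pr_pow']
    show (dP ^ 3) ^ 2 = dP ^ 6
    rw [← pow_mul]
  rw [this, show dS ^ 6 = mS by decide +kernel, pr_mS]

lemma tP_ne : tP ≠ 1 := pr_ne_one (y := dS ^ 3) (by decide +kernel) (by decide +kernel)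

lemma wP_sq : wP ^ 2 = 1 := by
  have : wP ^ 2 = pr (wS ^ 2) := rfl
  rw [this, show wS ^ 2 = mS by decide +kernel, pr_mS]

lemma wP_ne : wP ≠ 1 := pr_ne_one (y := wS) (by decide +kernel) (by decide +kernel)

lemma tw_ne : tP ≠ wP := by
  intro h
  have h1 : pr (dS ^ 3 * wS⁻¹) = 1 := by
    have : pr (dS ^ 3 * wS⁻¹) = tP * wP⁻¹ := rfl
    rw [this, h, mul_inv_cancel]
  exact pr_ne_one (by decide +kernel) (by decide +kernel) h1

lemma tw_comm : tP * wP = wP * tP := by
  have h1 : pr (dS ^ 3 * wS) = pr (wS * dS ^ 3 * mS) := by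
    rw [show dS ^ 3 * wS = wS * dS ^ 3 * mS by decide +kernel]
  have h2 : pr (wS * dS ^ 3 * mS) = wP * tP * pr mS := rfl
  rw [h2, pr_mS, mul_one] at h1
  exact h1

lemma xt_comm : xP * tP = tP * xP := by
  show dP ^ 2 * dP ^ 3 = dP ^ 3 * dP ^ 2
  rw [← pow_add, ← pow_add]

lemma wx_inv : wP * xP * wP⁻¹ = xP⁻¹ := by
  have h : wS * dS ^ 2 * wS⁻¹ = (dS ^ 2)⁻¹ := by decide +kernel
  exact congrArg pr h

lemma cP_pow : cP ^ 3 = 1 := by
  have : cP ^ 3 = pr (cS ^ 3) := rfl
  rw [this, show cS ^ 3 = 1 by decide +kernel]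
  rfl

lemma cP_ne : cP ≠ 1 := pr_ne_one (y := cS) (by decide +kernel) (by decide +kernel)

lemma ct_rel : cP * tP * cP⁻¹ = tP * wP := by
  have h : cS * dS ^ 3 * cS⁻¹ = dS ^ 3 * wS := by decide +kernel
  exact congrArg pr h

lemma cw_rel : cP * wP * cP⁻¹ = tP := by
  have h : cS * wS * cS⁻¹ = dS ^ 3 * mS := by decide +kernel
  have h2 := congrArg pr h
  have h3 : pr (dS ^ 3 * mS) = tP * pr mS := rfl
  rw [h3, pr_mS, mul_one] at h2
  exact h2

/-- a subgroup of order divisible by 3 and 4 which is proper has order 12 -/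
lemma card_eq_twelve {N : Subgroup G13} (hN : N ≠ ⊤) (h3 : 3 ∣ Nat.card N) (h4 : 4 ∣ Nat.card N) :
    Nat.card N = 12 := by
  have h1 := card_list N hN
  simp only [Finset.mem_insert, Finset.mem_singleton] at h1
  rcases h1 with h' | h' | h' | h' | h' | h' | h' | h' | h' | h' | h' | h' <;> rw [h'] at h3 h4 ⊢ <;>
    first | rfl | (exfalso; revert h3 h4; decide)

lemma t2 : tP * tP = 1 := by rw [← pow_two]; exact tP_sq
lemma w2 : wP * wP = 1 := by rw [← pow_two]; exact wP_sq

/-- the Klein subgroup -/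
def V0 : Subgroup G13 where
  carrier := {1, tP, wP, tP * wP}
  mul_mem' := by
    have e1 : tP * (tP * wP) = wP := by rw [← mul_assoc, t2, one_mul]
    have e2 : wP * (tP * wP) = tP := by rw [← mul_assoc, ← tw_comm, mul_assoc, w2, mul_one]
    have e3 : tP * wP * tP = wP := by rw [tw_comm, mul_assoc, t2, mul_one]
    have e4 : tP * wP * wP = tP := by rw [mul_assoc, w2, mul_one]
    have e5 : tP * wP * (tP * wP) = 1 := by rw [← mul_assoc, e3, w2]
    have e6 : wP * tP = tP * wP := tw_comm.symm
    rintro a b (rfl | rfl | rfl | rfl) (rfl | rfl | rfl | rfl) <;>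
      simp [t2, w2, e1, e2, e3, e4, e5, e6]
  one_mem' := by simp
  inv_mem' := by
    have e1 : tP⁻¹ = tP := inv_eq_of_mul_eq_one_left t2
    have e2 : wP⁻¹ = wP := inv_eq_of_mul_eq_one_left w2
    have e3 : (tP * wP)⁻¹ = tP * wP := by
      rw [_root_.mul_inv_rev, e1, e2, tw_comm]
    rintro a (rfl | rfl | rfl | rfl) <;> simp [e1, e2, e3]

lemma mem_V0 {y : G13} : y ∈ V0 ↔ y = 1 ∨ y = tP ∨ y = wP ∨ y = tP * wP := Iff.rfl

lemma card_V0 : Nat.card V0 = 4 := by
  have h1 : tP ≠ wP := tw_ne
  have h2 : tP ≠ tP * wP := fun h => wP_ne (by simpa using h.symm)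
  have h3 : wP ≠ tP * wP := fun h => tP_ne (by
    have : tP * wP = 1 * wP := by rw [one_mul]; exact h.symm
    exact mul_right_cancel this)
  have h4 : (1 : G13) ≠ tP := tP_ne.symm
  have h5 : (1 : G13) ≠ wP := wP_ne.symm
  have h6 : (1 : G13) ≠ tP * wP := by
    intro h
    apply h1
    have : tP * wP = wP * wP := by rw [← h, w2]
    exact mul_right_cancel this
  have hc : Set.ncard ({1, tP, wP, tP * wP} : Set G13) = 4 := by
    rw [Set.ncard_insert_of_notMem, Set.ncard_insert_of_notMem, Set.ncard_pair h3]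
    · simp [h1, h2]
    · simp [h4, h5, h6]
  have h : Nat.card V0 = Set.ncard ((V0 : Subgroup G13) : Set G13) := (Nat.card_coe_set_eq _).symm
  rw [h]
  exact hc

lemma V0_pgroup : IsPGroup 2 V0 := by
  rw [IsPGroup.iff_card]
  exact ⟨2, by rw [card_V0]; norm_num⟩

lemma V0_index : ¬ 2 ∣ V0.index := by
  have h := V0.card_mul_index
  rw [card_V0, card_G] at h
  have : V0.index = 273 := by omega
  rw [this]
  norm_num

/-- the standard Sylow 2-subgroup -/
noncomputable def P0 : Sylow 2 G13 := V0_pgroup.toSylow V0_index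

lemma coe_P0 : ((P0 : Sylow 2 G13) : Subgroup G13) = V0 := rfl

lemma conj_map {p : ℕ} [Fact p.Prime] (Q : Sylow p G13) (g : G13) :
    ((g • Q : Sylow p G13) : Subgroup G13) = (Q : Subgroup G13).map (MulAut.conj g).toMonoidHom := by
  rw [Sylow.coe_subgroup_smul]
  ext x
  rw [Subgroup.mem_smul_pointwise_iff_exists, Subgroup.mem_map]
  rfl

lemma card_normalizer_sylow {p : ℕ} [Fact p.Prime] (P Q : Sylow p G13) :
    Nat.card (Subgroup.normalizer ((P : Subgroup G13) : Set G13)) =
    Nat.card (Subgroup.normalizer ((Q : Subgroup G13) : Set G13)) := by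
  obtain ⟨g, rfl⟩ := MulAction.exists_smul_eq G13 Q P
  rw [conj_map, card_normalizer_conj]

lemma card_normalizer_V0 : Nat.card (Subgroup.normalizer ((V0 : Subgroup G13) : Set G13)) = 12 := by
  have hb : V0 ≠ ⊥ := by
    intro h
    have := card_V0
    rw [h, Subgroup.card_bot] at this
    omega
  have ht : V0 ≠ ⊤ := by
    intro h
    have := card_V0
    rw [h, Subgroup.card_top, card_G] at this
    omega
  apply card_eq_twelve (normalizer_ne_top hb ht)
  · have hc : cP ∈ Subgroup.normalizer ((V0 : Subgroup G13) : Set G13) := by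
      apply Cfsg.Agent.H20.mem_normalizer_of_conj_le
      intro y hy
      have e1 : cP * (tP * wP) * cP⁻¹ = wP := by
        have : cP * (tP * wP) * cP⁻¹ = (cP * tP * cP⁻¹) * (cP * wP * cP⁻¹) := by group
        rw [this, ct_rel, cw_rel, tw_comm, mul_assoc, t2, mul_one]
      rcases hy with rfl | rfl | rfl | rfl
      · simp [V0.one_mem]
      · rw [ct_rel]; exact Or.inr (Or.inr (Or.inr rfl))
      · rw [cw_rel]; exact Or.inr (Or.inl rfl)
      · rw [e1]; exact Or.inr (Or.inr (Or.inl rfl))
    have h3 : Nat.card (Subgroup.zpowers cP) = 3 := by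
      rw [Nat.card_zpowers]
      exact orderOf_eq_prime cP_pow cP_ne
    rw [← h3]
    apply Subgroup.card_dvd_of_le
    rw [Subgroup.zpowers_le]
    exact hc
  · rw [← card_V0]
    exact Subgroup.card_dvd_of_le Subgroup.le_normalizer

lemma card_zpowers_x : Nat.card (Subgroup.zpowers xP) = 3 := by
  rw [Nat.card_zpowers]
  exact orderOf_eq_prime xP_pow xP_ne

lemma card_zpowers_t : Nat.card (Subgroup.zpowers tP) = 2 := by
  rw [Nat.card_zpowers]
  exact orderOf_eq_prime tP_sq tP_ne

lemma card_normalizer_x : Nat.card (Subgroup.normalizer ((Subgroup.zpowers xP : Subgroup G13) : Set G13)) = 12 := by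
  have hb : Subgroup.zpowers xP ≠ ⊥ := by
    intro h
    have := card_zpowers_x
    rw [h, Subgroup.card_bot] at this
    omega
  have ht : Subgroup.zpowers xP ≠ ⊤ := by
    intro h
    have := card_zpowers_x
    rw [h, Subgroup.card_top, card_G] at this
    omega
  apply card_eq_twelve (normalizer_ne_top hb ht)
  · rw [← card_zpowers_x]
    exact Subgroup.card_dvd_of_le Subgroup.le_normalizer
  · rw [← card_V0]
    apply Subgroup.card_dvd_of_le
    intro y hy
    have ht' : tP ∈ Subgroup.normalizer ((Subgroup.zpowers xP : Subgroup G13) : Set G13) := by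
      apply Cfsg.Agent.H20.mem_normalizer_of_conj_le
      intro z hz
      obtain ⟨k, rfl⟩ := Subgroup.mem_zpowers_iff.1 hz
      have : tP * xP ^ k * tP⁻¹ = xP ^ k := by
        rw [(Commute.zpow_right (show Commute tP xP from xt_comm.symm) k).eq]
        group
      show tP * xP ^ k * tP⁻¹ ∈ _
      rw [this]
      exact Subgroup.zpow_mem _ (Subgroup.mem_zpowers xP) k
    have hw' : wP ∈ Subgroup.normalizer ((Subgroup.zpowers xP : Subgroup G13) : Set G13) := by
      apply Cfsg.Agent.H20.mem_normalizer_of_conj_le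
      intro z hz
      obtain ⟨k, rfl⟩ := Subgroup.mem_zpowers_iff.1 hz
      have : wP * xP ^ k * wP⁻¹ = (wP * xP * wP⁻¹) ^ k := by
        rw [conj_zpow]
      show wP * xP ^ k * wP⁻¹ ∈ _
      rw [this, wx_inv]
      exact Subgroup.zpow_mem _ (Subgroup.inv_mem _ (Subgroup.mem_zpowers xP)) k
    rcases hy with rfl | rfl | rfl | rfl
    · exact Subgroup.one_mem _
    · exact ht'
    · exact hw'
    · exact Subgroup.mul_mem _ ht' hw'

lemma card_normalizer_t : Nat.card (Subgroup.normalizer ((Subgroup.zpowers tP : Subgroup G13) : Set G13)) = 12 := by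
  have hb : Subgroup.zpowers tP ≠ ⊥ := by
    intro h
    have := card_zpowers_t
    rw [h, Subgroup.card_bot] at this
    omega
  have ht : Subgroup.zpowers tP ≠ ⊤ := by
    intro h
    have := card_zpowers_t
    rw [h, Subgroup.card_top, card_G] at this
    omega
  have hcomm : ∀ u : G13, u * tP = tP * u → u ∈ Subgroup.normalizer ((Subgroup.zpowers tP : Subgroup G13) : Set G13) := by
    intro u hu
    apply Cfsg.Agent.H20.mem_normalizer_of_conj_le
    intro z hz
    obtain ⟨k, rfl⟩ := Subgroup.mem_zpowers_iff.1 hz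
    have : u * tP ^ k * u⁻¹ = tP ^ k := by
      rw [(Commute.zpow_right (show Commute u tP from hu) k).eq]
      group
    show u * tP ^ k * u⁻¹ ∈ _
    rw [this]
    exact Subgroup.zpow_mem _ (Subgroup.mem_zpowers tP) k
  apply card_eq_twelve (normalizer_ne_top hb ht)
  · rw [← card_zpowers_x]
    apply Subgroup.card_dvd_of_le
    rw [Subgroup.zpowers_le]
    exact hcomm _ xt_comm
  · rw [← card_V0]
    apply Subgroup.card_dvd_of_le
    intro y hy
    rcases hy with rfl | rfl | rfl | rfl
    · exact Subgroup.one_mem _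
    · exact hcomm _ rfl
    · exact hcomm _ tw_comm.symm
    · exact hcomm _ (by rw [mul_assoc, tw_comm.symm, ← mul_assoc, t2, one_mul])

section centr

/-- conjugation on a cyclic group is a power map -/
lemma conj_eq_zpow {X : Type*} [Group X] (A : Subgroup X) [IsCyclic A] {b : X}
    (hb : b ∈ Subgroup.normalizer (A : Set X)) : ∃ i : ℤ, ∀ y ∈ A, b * y * b⁻¹ = y ^ i := by
  obtain ⟨a, ha⟩ := IsCyclic.exists_generator (α := A)
  have h1 : b * (a : X) * b⁻¹ ∈ A := (Subgroup.mem_normalizer_iff.1 hb _).1 a.2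
  obtain ⟨i, hi⟩ := ha ⟨_, h1⟩
  have hi' : (a : X) ^ i = b * (a : X) * b⁻¹ := by
    have := congrArg (fun u : A => (u : X)) hi
    simpa using this
  refine ⟨i, ?_⟩
  intro y hy
  obtain ⟨n, hn⟩ := ha ⟨y, hy⟩
  have hn' : y = (a : X) ^ n := by
    have := congrArg (fun u : A => (u : X)) hn
    simpa using this.symm
  rw [hn', ← conj_zpow, ← hi', ← _root_.zpow_mul, ← _root_.zpow_mul, mul_comm]

/-- commutators in the normaliser of a cyclic group centralise it -/
lemma comm_centralizes {X : Type*} [Group X] (A : Subgroup X) [IsCyclic A] {b h : X}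
    (hb : b ∈ Subgroup.normalizer (A : Set X)) (hh : h ∈ Subgroup.normalizer (A : Set X))
    {y : X} (hy : y ∈ A) : (b * h * b⁻¹ * h⁻¹) * y = y * (b * h * b⁻¹ * h⁻¹) := by
  obtain ⟨i, hi⟩ := conj_eq_zpow A hb
  obtain ⟨j, hj⟩ := conj_eq_zpow A hh
  have hz : (h * b)⁻¹ * y * (h * b) ∈ A := by
    have hin : (h * b)⁻¹ ∈ Subgroup.normalizer (A : Set X) :=
      Subgroup.inv_mem _ (Subgroup.mul_mem _ hh hb)
    have := (Subgroup.mem_normalizer_iff.1 hin y).1 hy
    simpa using this
  set z := (h * b)⁻¹ * y * (h * b) with hzdef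
  have hzi : b * z * b⁻¹ ∈ A := (Subgroup.mem_normalizer_iff.1 hb z).1 hz
  have hzj : h * z * h⁻¹ ∈ A := (Subgroup.mem_normalizer_iff.1 hh z).1 hz
  have e1 : y = h * (b * z * b⁻¹) * h⁻¹ := by
    rw [hzdef]
    group
  have e2 : y = (z ^ i) ^ j := by
    rw [e1, hj _ hzi, hi _ hz]
  have e3 : b * (h * z * h⁻¹) * b⁻¹ = (z ^ j) ^ i := by
    rw [hi _ hzj, hj _ hz]
  have e4 : b * (h * z * h⁻¹) * b⁻¹ = y := by
    rw [e3, e2, ← _root_.zpow_mul, ← _root_.zpow_mul, mul_comm]
  have e5 : b * h * z = y * (b * h) := by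
    rw [← e4]
    group
  have hz2 : z = b⁻¹ * h⁻¹ * y * (h * b) := by
    rw [hzdef]
    group
  calc (b * h * b⁻¹ * h⁻¹) * y = b * h * (b⁻¹ * h⁻¹ * y * (h * b)) * (b⁻¹ * h⁻¹) := by group
    _ = b * h * z * (b⁻¹ * h⁻¹) := by rw [← hz2]
    _ = y * (b * h) * (b⁻¹ * h⁻¹) := by rw [e5]
    _ = _ := by group

end centr

/-- the unipotent element -/
def uS : SL2 (ZMod 13) := ⟨!![1, 1; 0, 1], by decide +kernel⟩
def uP : G13 := pr uS

lemma uP_pow : uP ^ 13 = 1 := by
  rw [uP, pr_pow', show uS ^ 13 = 1 by decide +kernel]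
  rfl

lemma uP_ne : uP ≠ 1 := pr_ne_one (y := uS) (by decide +kernel) (by decide +kernel)

lemma card_zpowers_u : Nat.card (Subgroup.zpowers uP) = 13 := by
  rw [Nat.card_zpowers]
  exact orderOf_eq_prime uP_pow uP_ne

lemma exists_pow_u : ∀ s : ZMod 13, ∃ k : Fin 13, ((uS ^ k.val : SL2 (ZMod 13)) : M2 (ZMod 13)) = !![1, s; 0, 1] := by
  decide +kernel

/-- the centraliser of the standard unipotent element -/
lemma mem_zpowers_of_comm {v : G13} (hv : v * uP = uP * v) : v ∈ Subgroup.zpowers uP := by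
  obtain ⟨g, rfl⟩ := pr_surj v
  have h1 : pr (g * uS) = pr (uS * g) := hv
  obtain ⟨r, hr, h2⟩ := pr_eq_iff.1 h1
  -- entries
  have h3 : ((uS * g : SL2 (ZMod 13)) : M2 (ZMod 13)) = r • ((g * uS : SL2 (ZMod 13)) : M2 (ZMod 13)) := h2
  have hu : (uS : M2 (ZMod 13)) = !![1, 1; 0, 1] := rfl
  rw [Matrix.SpecialLinearGroup.coe_mul, Matrix.SpecialLinearGroup.coe_mul, hu] at h3
  have h00 := congrFun (congrFun h3 0) 0
  have h01 := congrFun (congrFun h3 0) 1
  have h10 := congrFun (congrFun h3 1) 0
  have h11 := congrFun (congrFun h3 1) 1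
  simp [Matrix.mul_apply, Fin.sum_univ_two] at h00 h01 h10 h11
  have hdet := det2 g
  have h2ne : (2 : ZMod 13) ≠ 0 := by decide +kernel
  rcases r_cases hr with hr1 | hr1
  · rw [hr1] at h00 h01
    have hc0 : (g : M2 (ZMod 13)) 1 0 = 0 := by linear_combination h00
    have hae : (g : M2 (ZMod 13)) 1 1 = (g : M2 (ZMod 13)) 0 0 := by linear_combination h01
    have ha2 : ((g : M2 (ZMod 13)) 0 0) ^ 2 = 1 := by
      rw [hc0, hae] at hdet
      linear_combination hdet
    obtain ⟨k, hk⟩ := exists_pow_u (((g : M2 (ZMod 13)) 0 0) * ((g : M2 (ZMod 13)) 0 1))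
    have hg : (g : M2 (ZMod 13)) = ((g : M2 (ZMod 13)) 0 0) • ((uS ^ k.val : SL2 (ZMod 13)) : M2 (ZMod 13)) := by
      rw [hk]
      ext i j
      fin_cases i <;> fin_cases j
      · simp
      · simp
        linear_combination -((g : M2 (ZMod 13)) 0 1) * ha2
      · simpa using hc0
      · simpa using hae
    have hp : pr (uS ^ k.val) = pr g := pr_eq_iff.2 ⟨_, ha2, hg⟩
    rw [← hp]
    show uP ^ k.val ∈ _
    exact Subgroup.npow_mem_zpowers _ _
  · exfalso
    rw [hr1] at h00 h10
    have hc0 : (g : M2 (ZMod 13)) 1 0 = 0 := by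
      have : 2 * (g : M2 (ZMod 13)) 1 0 = 0 := by linear_combination h10
      exact (mul_eq_zero.1 this).resolve_left h2ne
    have ha0 : (g : M2 (ZMod 13)) 0 0 = 0 := by
      have : 2 * (g : M2 (ZMod 13)) 0 0 = 0 := by
        rw [hc0] at h00
        linear_combination h00
      exact (mul_eq_zero.1 this).resolve_left h2ne
    rw [hc0, ha0] at hdet
    simp at hdet

/-- the standard Sylow 13 -/
noncomputable def U0 : Sylow 13 G13 := by
  refine IsPGroup.toSylow (P := Subgroup.zpowers uP) ?_ ?_
  · rw [IsPGroup.iff_card]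
    exact ⟨1, by rw [card_zpowers_u]; norm_num⟩
  · have h := (Subgroup.zpowers uP).card_mul_index
    rw [card_zpowers_u, card_G] at h
    have : (Subgroup.zpowers uP).index = 84 := by omega
    rw [this]
    norm_num

lemma coe_U0 : ((U0 : Sylow 13 G13) : Subgroup G13) = Subgroup.zpowers uP := rfl

/-- Sylow 13-subgroups are self-centralising -/
theorem mem_of_centralizes (P : Sylow 13 G13) {v : G13}
    (hv : ∀ y ∈ (P : Subgroup G13), v * y = y * v) : v ∈ (P : Subgroup G13) := by
  obtain ⟨g, rfl⟩ := MulAction.exists_smul_eq G13 U0 P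
  have h1 : g * uP * g⁻¹ ∈ ((g • U0 : Sylow 13 G13) : Subgroup G13) := by
    rw [conj_map]
    exact ⟨uP, Subgroup.mem_zpowers uP, rfl⟩
  have h2 := hv _ h1
  have h3 : (g⁻¹ * v * g) * uP = uP * (g⁻¹ * v * g) := by
    have : v * (g * uP * g⁻¹) * g = (g * uP * g⁻¹) * v * g := by rw [h2]
    calc (g⁻¹ * v * g) * uP = g⁻¹ * (v * (g * uP * g⁻¹) * g) := by group
      _ = g⁻¹ * ((g * uP * g⁻¹) * v * g) := by rw [this]
      _ = _ := by group
  have h4 := mem_zpowers_of_comm h3
  rw [conj_map]
  exact ⟨_, h4, by simp [MulAut.conj_apply]; group⟩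

/-- a subgroup of index two is normalised -/
lemma le_normalizer_of_two {X : Type*} [Group X] [Finite X] {T P : Subgroup X} (hTP : T ≤ P)
    (hc : Nat.card P = 2 * Nat.card T) : P ≤ Subgroup.normalizer (T : Set X) := by
  have hi2 : (T.subgroupOf P).index = 2 := by
    have h1 := (T.subgroupOf P).card_mul_index
    have h3 : Nat.card (T.subgroupOf P) = Nat.card T :=
      Nat.card_congr (Subgroup.subgroupOfEquivOfLe hTP).toEquiv
    rw [h3, hc] at h1
    have hpos : 0 < Nat.card T := Nat.card_pos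
    have h5 : Nat.card T * (T.subgroupOf P).index = Nat.card T * 2 := by
      rw [h1]; ring
    exact Nat.eq_of_mul_eq_mul_left hpos h5
  have hnorm := Subgroup.normal_of_index_eq_two hi2
  intro a ha
  apply Cfsg.Agent.H20.mem_normalizer_of_conj_le
  intro y hy
  have h5 := hnorm.conj_mem ⟨y, hTP hy⟩ (by simpa [Subgroup.mem_subgroupOf] using hy) ⟨a, ha⟩
  simpa [Subgroup.mem_subgroupOf] using h5

/-- uniqueness of a small prime order subgroup gives normalising -/
lemma normalizes_of_unique {r : ℕ} (hr : r.Prime) {A H : Subgroup G13} (hA : Nat.card A = r) (hAH : A ≤ H)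
    (hH : Nat.card H < r ^ 2) {g : G13} (hg : g ∈ Subgroup.normalizer (H : Set G13)) :
    g ∈ Subgroup.normalizer (A : Set G13) := by
  apply Cfsg.Agent.H20.mem_normalizer_of_conj_le
  intro z hz
  have hc : Nat.card (A.map (MulAut.conj g).toMonoidHom) = r := by
    rw [← hA]
    exact (Nat.card_congr (Subgroup.equivMapOfInjective _ _ (MulAut.conj g).injective).toEquiv).symm
  have hle : A.map (MulAut.conj g).toMonoidHom ≤ H := by
    rintro _ ⟨w, hw, rfl⟩
    exact (Subgroup.mem_normalizer_iff.1 hg w).1 (hAH hw)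
  have heq := eq_of_card_prime hr hc hA hle hAH hH
  have : g * z * g⁻¹ ∈ A.map (MulAut.conj g).toMonoidHom := ⟨z, hz, rfl⟩
  rwa [heq] at this

lemma exists_order {r : ℕ} [Fact r.Prime] {H : Subgroup G13} (hd : r ∣ Nat.card H) :
    ∃ y ∈ H, Nat.card (Subgroup.zpowers y) = r := by
  obtain ⟨y, hy⟩ := exists_prime_orderOf_dvd_card' r hd
  refine ⟨y, y.2, ?_⟩
  rw [Nat.card_zpowers, Subgroup.orderOf_coe, hy]

/-- the normaliser of a proper nontrivial subgroup has order 12, 14 or 78 -/
theorem card_normalizer_cases (H : Subgroup G13) (h1 : H ≠ ⊥) (h2 : H ≠ ⊤) :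
    Nat.card (Subgroup.normalizer (H : Set G13)) = 12 ∨ Nat.card (Subgroup.normalizer (H : Set G13)) = 14 ∨
      Nat.card (Subgroup.normalizer (H : Set G13)) = 78 := by
  have hl := card_list H h2
  simp only [Finset.mem_insert, Finset.mem_singleton] at hl
  -- the case of order 13, 26, 39
  have h13 : Nat.card H = 13 ∨ Nat.card H = 26 ∨ Nat.card H = 39 →
      Nat.card (Subgroup.normalizer (H : Set G13)) = 78 := by
    intro hc
    have hd : 13 ∣ Nat.card H := by
      rcases hc with h | h | h <;> rw [h] <;> norm_num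
    obtain ⟨y, hyH, hy⟩ := exists_order (r := 13) hd
    set A := Subgroup.zpowers y with hA
    have hAH : A ≤ H := by rw [hA, Subgroup.zpowers_le]; exact hyH
    have hpg : IsPGroup 13 A := by
      rw [IsPGroup.iff_card]
      exact ⟨1, by rw [hy]; norm_num⟩
    have hidx : ¬ 13 ∣ A.index := by
      have h := A.card_mul_index
      rw [hy, card_G] at h
      have : A.index = 84 := by omega
      rw [this]
      norm_num
    set P := hpg.toSylow hidx with hP
    have hPA : ((P : Sylow 13 G13) : Subgroup G13) = A := rfl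
    have hsmall : Nat.card H < 13 ^ 2 := by
      rcases hc with h | h | h <;> rw [h] <;> norm_num
    have hNA : Nat.card (Subgroup.normalizer (A : Set G13)) = 78 := card_normalizer13 P
    have heq : Subgroup.normalizer (H : Set G13) = Subgroup.normalizer (A : Set G13) := by
      apply le_antisymm
      · intro g hg
        exact normalizes_of_unique (by norm_num) hy hAH hsmall hg
      · intro b hb
        apply Cfsg.Agent.H20.mem_normalizer_of_conj_le
        intro h hh
        have hhN : h ∈ Subgroup.normalizer (A : Set G13) :=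
          normalizes_of_unique (by norm_num) hy hAH hsmall (Subgroup.le_normalizer hh)
        have hcyc : IsCyclic A := isCyclic_of_prime_card hy
        have hc1 : b * h * b⁻¹ * h⁻¹ ∈ (P : Subgroup G13) := by
          apply mem_of_centralizes
          intro z hz
          exact comm_centralizes A hb hhN hz
        have hc2 : b * h * b⁻¹ = (b * h * b⁻¹ * h⁻¹) * h := by group
        rw [hc2]
        exact H.mul_mem (hAH hc1) hh
    rw [heq, hNA]
  rcases hl with h | h | h | h | h | h | h | h | h | h | h | h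
  · exact absurd (Subgroup.eq_bot_of_card_eq _ h) h1
  · -- order two
    left
    obtain ⟨y, hyH, hy⟩ := exists_order (r := 2) (H := H) (by rw [h])
    have hHy : H = Subgroup.zpowers y := by
      symm
      apply Subgroup.eq_of_le_of_card_ge
      · rw [Subgroup.zpowers_le]; exact hyH
      · rw [h, hy]
    have hoy : orderOf y = 2 := by rw [← Nat.card_zpowers, hy]
    obtain ⟨P, hP⟩ := Cfsg.Agent.H20.exists_sylow_mem 2 y ⟨1, by rw [hoy]; norm_num⟩
    obtain ⟨g, rfl⟩ := MulAction.exists_smul_eq G13 P0 P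
    have hP' : y ∈ ((g • P0 : Sylow 2 G13) : Subgroup G13) := hP
    rw [conj_map] at hP'
    obtain ⟨z, hz, hzy⟩ := hP'
    have hzy' : g * z * g⁻¹ = y := hzy
    have hz1 : z ≠ 1 := by
      rintro rfl
      have : y = 1 := by rw [← hzy']; group
      rw [this, orderOf_one] at hoy
      omega
    -- every involution of V0 is conjugate to t
    have hex : ∃ h' : G13, y = h' * tP * h'⁻¹ := by
      rcases hz with rfl | rfl | rfl | rfl
      · exact absurd rfl hz1
      · exact ⟨g, hzy'.symm⟩
      · refine ⟨g * cP⁻¹, ?_⟩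
        rw [← hzy', ← cw_rel]
        group
      · refine ⟨g * cP, ?_⟩
        rw [← hzy', ← ct_rel]
        group
    obtain ⟨h', hh'⟩ := hex
    have hmap : H = (Subgroup.zpowers tP).map (MulAut.conj h').toMonoidHom := by
      rw [hHy, MonoidHom.map_zpowers, hh']
      rfl
    rw [hmap, card_normalizer_conj]
    exact card_normalizer_t
  · -- order three
    left
    have hpg : IsPGroup 3 H := by
      rw [IsPGroup.iff_card]
      exact ⟨1, by rw [h]; norm_num⟩
    have hidx : ¬ 3 ∣ H.index := by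
      have h' := H.card_mul_index
      rw [h, card_G] at h'
      have : H.index = 364 := by omega
      rw [this]
      norm_num
    have hpg2 : IsPGroup 3 (Subgroup.zpowers xP) := by
      rw [IsPGroup.iff_card]
      exact ⟨1, by rw [card_zpowers_x]; norm_num⟩
    have hidx2 : ¬ 3 ∣ (Subgroup.zpowers xP).index := by
      have h' := (Subgroup.zpowers xP).card_mul_index
      rw [card_zpowers_x, card_G] at h'
      have : (Subgroup.zpowers xP).index = 364 := by omega
      rw [this]
      norm_num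
    have := card_normalizer_sylow (hpg.toSylow hidx) (hpg2.toSylow hidx2)
    have h3 : Nat.card (Subgroup.normalizer (H : Set G13)) = Nat.card (Subgroup.normalizer ((Subgroup.zpowers xP : Subgroup G13) : Set G13)) := this
    rw [h3]
    exact card_normalizer_x
  · -- order four
    left
    have hpg : IsPGroup 2 H := by
      rw [IsPGroup.iff_card]
      exact ⟨2, by rw [h]; norm_num⟩
    have hidx : ¬ 2 ∣ H.index := by
      have h' := H.card_mul_index
      rw [h, card_G] at h'
      have : H.index = 273 := by omega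
      rw [this]
      norm_num
    have := card_normalizer_sylow (hpg.toSylow hidx) P0
    have h3 : Nat.card (Subgroup.normalizer (H : Set G13)) = Nat.card (Subgroup.normalizer ((V0 : Subgroup G13) : Set G13)) := this
    rw [h3]
    exact card_normalizer_V0
  · -- order six
    left
    obtain ⟨y, hyH, hy⟩ := exists_order (r := 3) (H := H) (by rw [h]; norm_num)
    set A := Subgroup.zpowers y with hA
    have hAH : A ≤ H := by rw [hA, Subgroup.zpowers_le]; exact hyH
    have hpg : IsPGroup 3 A := by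
      rw [IsPGroup.iff_card]
      exact ⟨1, by rw [hy]; norm_num⟩
    have hidx : ¬ 3 ∣ A.index := by
      have h' := A.card_mul_index
      rw [hy, card_G] at h'
      have : A.index = 364 := by omega
      rw [this]
      norm_num
    have hpg2 : IsPGroup 3 (Subgroup.zpowers xP) := by
      rw [IsPGroup.iff_card]
      exact ⟨1, by rw [card_zpowers_x]; norm_num⟩
    have hidx2 : ¬ 3 ∣ (Subgroup.zpowers xP).index := by
      have h' := (Subgroup.zpowers xP).card_mul_index
      rw [card_zpowers_x, card_G] at h'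
      have : (Subgroup.zpowers xP).index = 364 := by omega
      rw [this]
      norm_num
    have hNA : Nat.card (Subgroup.normalizer (A : Set G13)) = 12 := by
      have h4 := card_normalizer_sylow (hpg.toSylow hidx) (hpg2.toSylow hidx2)
      have h3 : Nat.card (Subgroup.normalizer (A : Set G13)) = Nat.card (Subgroup.normalizer ((Subgroup.zpowers xP : Subgroup G13) : Set G13)) := h4
      rw [h3]
      exact card_normalizer_x
    have hsmall : Nat.card H < 3 ^ 2 := by rw [h]; norm_num
    have hHN : H ≤ Subgroup.normalizer (A : Set G13) := fun u hu =>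
      normalizes_of_unique (by norm_num) hy hAH hsmall (Subgroup.le_normalizer hu)
    have heq : Subgroup.normalizer (H : Set G13) = Subgroup.normalizer (A : Set G13) := by
      apply le_antisymm
      · intro g hg
        exact normalizes_of_unique (by norm_num) hy hAH hsmall hg
      · apply le_normalizer_of_two hHN
        rw [hNA, h]
    rw [heq, hNA]
  · -- order seven
    right; left
    have hpg : IsPGroup 7 H := by
      rw [IsPGroup.iff_card]
      exact ⟨1, by rw [h]; norm_num⟩
    have hidx : ¬ 7 ∣ H.index := by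
      have h' := H.card_mul_index
      rw [h, card_G] at h'
      have : H.index = 156 := by omega
      rw [this]
      norm_num
    exact card_normalizer7 (hpg.toSylow hidx)
  · left
    rw [normalizer_eq_of_card (Or.inl h), h]
  · right; right
    exact h13 (Or.inl h)
  · right; left
    rw [normalizer_eq_of_card (Or.inr (Or.inl h)), h]
  · right; right
    exact h13 (Or.inr (Or.inl h))
  · right; right
    exact h13 (Or.inr (Or.inr h))
  · right; right
    rw [normalizer_eq_of_card (Or.inr (Or.inr h)), h]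

/-- the main property of `PSL₂(13)` -/
theorem psl_main (H : Subgroup G13) (hH : ¬ H.Normal) :
    IsCoatom (Subgroup.normalizer (H : Set G13)) := by
  apply isCoatom_of_card
  apply card_normalizer_cases H
  · rintro rfl
    exact hH inferInstance
  · rintro rfl
    exact hH inferInstance

end Cfsg.Agent.H20.P213
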