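import Cfsg.Prelude.Def_HallClasses
import Mathlib
import Cfsg.Agent.Lib.H20.Basic

/-!
Pronormality of overgroups of Sylow subgroups under extensions (helper20).
-/

set_option autoImplicit false
set_option linter.unusedVariables false
set_option linter.style.haveILetI false
set_option linter.unusedSectionVars false

namespace Cfsg.Agent.H20.Pron

open Subgroup

variable {G : Type*} [Group G]

/-- Conjugate of a subgroup. -/
def cj (g : G) (H : Subgroup G) : Subgroup G := H.map (MulAut.conj g).toMonoidHom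

theorem mem_cj {g x : G} {H : Subgroup G} : x ∈ cj g H ↔ g⁻¹ * x * g ∈ H := by
  simp only [cj, Subgroup.mem_map]
  constructor
  · rintro ⟨h, hh, rfl⟩
    simpa [mul_assoc] using hh
  · intro h
    exact ⟨_, h, by simp [mul_assoc]⟩

theorem conj_mem_cj {g h : G} {H : Subgroup G} (hh : h ∈ H) : g * h * g⁻¹ ∈ cj g H := by
  rw [mem_cj]; simpa [mul_assoc] using hh

theorem cj_cj (g h : G) (H : Subgroup G) : cj g (cj h H) = cj (g * h) H := by
  ext x; simp only [mem_cj]; simp [mul_assoc]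

theorem cj_one (H : Subgroup G) : cj 1 H = H := by
  ext x; simp [mem_cj]

theorem cj_of_mem {h : G} {H : Subgroup G} (hh : h ∈ H) : cj h H = H := by
  ext x
  rw [mem_cj]
  constructor
  · intro hx
    have := H.mul_mem (H.mul_mem hh hx) (H.inv_mem hh)
    simpa [mul_assoc] using this
  · intro hx
    exact H.mul_mem (H.mul_mem (H.inv_mem hh) hx) hh

theorem cj_mono {g : G} {H K : Subgroup G} (h : H ≤ K) : cj g H ≤ cj g K := Subgroup.map_mono h

theorem cj_sup (g : G) (H K : Subgroup G) : cj g (H ⊔ K) = cj g H ⊔ cj g K := Subgroup.map_sup ..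

theorem cj_inf (g : G) (H K : Subgroup G) : cj g (H ⊓ K) = cj g H ⊓ cj g K := by
  ext x; simp only [Subgroup.mem_inf, mem_cj]

theorem cj_normal (A : Subgroup G) [hA : A.Normal] (g : G) : cj g A = A := by
  ext x
  rw [mem_cj]
  constructor
  · intro hx
    have := hA.conj_mem _ hx g
    simpa [mul_assoc] using this
  · intro hx
    have := hA.conj_mem _ hx g⁻¹
    simpa [mul_assoc] using this

theorem cj_le_of_mem {L K : Subgroup G} {y : G} (hy : y ∈ L) (hK : K ≤ L) : cj y K ≤ L := by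
  intro x hx
  rw [mem_cj] at hx
  have := L.mul_mem (L.mul_mem hy (hK hx)) (L.inv_mem hy)
  simpa [mul_assoc] using this

theorem mem_normalizer_iff_cj {g : G} {H : Subgroup G} :
    g ∈ normalizer (H : Set G) ↔ cj g H = H := Subgroup.mem_normalizer_iff_map_conj_eq

theorem map_cj {Q : Type*} [Group Q] (f : G →* Q) (g : G) (H : Subgroup G) :
    (cj g H).map f = cj (f g) (H.map f) := by
  ext x
  simp only [Subgroup.mem_map, cj, MulEquiv.coe_toMonoidHom, MulAut.conj_apply]
  constructor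
  · rintro ⟨_, ⟨h, hh, rfl⟩, rfl⟩
    exact ⟨f h, ⟨h, hh, rfl⟩, by simp⟩
  · rintro ⟨_, ⟨h, hh, rfl⟩, rfl⟩
    exact ⟨g * h * g⁻¹, ⟨h, hh, rfl⟩, by simp⟩

theorem cj_inv_cj (g : G) (H : Subgroup G) : cj g⁻¹ (cj g H) = H := by
  rw [cj_cj, inv_mul_cancel, cj_one]

theorem cj_cj_inv (g : G) (H : Subgroup G) : cj g (cj g⁻¹ H) = H := by
  rw [cj_cj, mul_inv_cancel, cj_one]

/-- `K` is conjugate to `H` in the join. -/
def PP (H K : Subgroup G) : Prop := ∃ x ∈ H ⊔ K, K = cj x H

theorem isPronormal_iff {H : Subgroup G} : IsPronormal H ↔ ∀ g, PP H (cj g H) := Iff.rfl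

theorem PP_reduce {H K : Subgroup G} {y : G} (hy : y ∈ H ⊔ K) (h : PP H (cj y⁻¹ K)) : PP H K := by
  obtain ⟨x, hx, hxK⟩ := h
  have hle : H ⊔ cj y⁻¹ K ≤ H ⊔ K :=
    sup_le le_sup_left (cj_le_of_mem ((H ⊔ K).inv_mem hy) le_sup_right)
  refine ⟨y * x, (H ⊔ K).mul_mem hy (hle hx), ?_⟩
  rw [← cj_cj, ← hxK, cj_cj_inv]

theorem isPronormal_cj {H : Subgroup G} (hH : IsPronormal H) (a : G) : IsPronormal (cj a H) := by
  rw [isPronormal_iff] at hH ⊢
  intro g
  obtain ⟨x, hx, hxe⟩ := hH (a⁻¹ * g * a)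
  refine ⟨a * x * a⁻¹, ?_, ?_⟩
  · have h1 : a * x * a⁻¹ ∈ cj a (H ⊔ cj (a⁻¹ * g * a) H) := conj_mem_cj hx
    have h2 : cj a (H ⊔ cj (a⁻¹ * g * a) H) = cj a H ⊔ cj g (cj a H) := by
      rw [cj_sup, cj_cj, cj_cj]
      congr 2
      group
    rwa [h2] at h1
  · have h3 : cj g (cj a H) = cj a (cj (a⁻¹ * g * a) H) := by
      rw [cj_cj, cj_cj]; congr 1; group
    rw [h3, hxe, cj_cj, cj_cj]; congr 1; group

theorem isPronormal_map {Q : Type*} [Group Q] (f : G →* Q) (hf : Function.Surjective f)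
    {H : Subgroup G} (hH : IsPronormal H) : IsPronormal (H.map f) := by
  rw [isPronormal_iff] at hH ⊢
  intro q
  obtain ⟨g, rfl⟩ := hf q
  obtain ⟨x, hx, hxe⟩ := hH g
  refine ⟨f x, ?_, ?_⟩
  · have : f x ∈ (H ⊔ cj g H).map f := Subgroup.mem_map_of_mem f hx
    rwa [Subgroup.map_sup, map_cj] at this
  · have := congrArg (Subgroup.map f) hxe
    rwa [map_cj, map_cj] at this

theorem map_subtype_cj (B : Subgroup G) (b : B) (K : Subgroup B) :
    (cj b K).map B.subtype = cj (b : G) (K.map B.subtype) := map_cj B.subtype b K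

theorem isPronormal_subgroupOf {H B : Subgroup G} (hHB : H ≤ B) (hH : IsPronormal H) :
    IsPronormal (H.subgroupOf B) := by
  rw [isPronormal_iff] at hH ⊢
  intro b
  obtain ⟨x, hx, hxe⟩ := hH (b : G)
  have hmap : (H.subgroupOf B).map B.subtype = H := by
    rw [Subgroup.subgroupOf_map_subtype]; exact inf_eq_left.mpr hHB
  have hle : H ⊔ cj (b : G) H ≤ B := sup_le hHB (cj_le_of_mem b.2 hHB)
  refine ⟨⟨x, hle hx⟩, ?_, ?_⟩
  · have h1 : (⟨x, hle hx⟩ : B) ∈
      ((H.subgroupOf B ⊔ cj b (H.subgroupOf B)).map B.subtype).subgroupOf B := by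
      rw [Subgroup.mem_subgroupOf, Subgroup.map_sup, map_subtype_cj, hmap]
      exact hx
    have h2 : ((H.subgroupOf B ⊔ cj b (H.subgroupOf B)).map B.subtype).subgroupOf B
        = H.subgroupOf B ⊔ cj b (H.subgroupOf B) :=
      Subgroup.comap_map_eq_self_of_injective B.subtype_injective _
    rwa [h2] at h1
  · apply Subgroup.map_injective B.subtype_injective
    rw [map_subtype_cj, map_subtype_cj, hmap]
    exact hxe

/-- Pronormality in a subgroup, read in the big group. -/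
theorem pp_of_subtype {B : Subgroup G} {K : Subgroup B} (hK : IsPronormal K) (a : G) (ha : a ∈ B) :
    ∃ b ∈ B, b ∈ K.map B.subtype ⊔ cj a (K.map B.subtype) ∧
      cj a (K.map B.subtype) = cj b (K.map B.subtype) := by
  rw [isPronormal_iff] at hK
  obtain ⟨x, hx, hxe⟩ := hK ⟨a, ha⟩
  refine ⟨x, x.2, ?_, ?_⟩
  · have := Subgroup.mem_map_of_mem B.subtype hx
    rwa [Subgroup.map_sup, map_subtype_cj] at this
  · have := congrArg (Subgroup.map B.subtype) hxe
    rwa [map_subtype_cj, map_subtype_cj] at this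

/-! ### Sylow subgroups of subgroups -/

/-- `X` is a Sylow subgroup of `W`. -/
structure SylIn (p : ℕ) (X W : Subgroup G) : Prop where
  le : X ≤ W
  pg : IsPGroup p X
  nd : ¬ p ∣ X.relIndex W

variable {p : ℕ}

theorem SylIn.cj {X W : Subgroup G} (h : SylIn p X W) (g : G) : SylIn p (cj g X) (cj g W) := by
  refine ⟨cj_mono h.le, h.pg.map _, ?_⟩
  unfold Cfsg.Agent.H20.Pron.cj
  rw [Subgroup.relIndex_map_map_of_injective _ _ (MulAut.conj g).injective]
  exact h.nd

theorem SylIn.mono {X W A : Subgroup G} (h : SylIn p X A) (hXW : X ≤ W) (hWA : W ≤ A) :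
    SylIn p X W := by
  refine ⟨hXW, h.pg, fun hd => h.nd ?_⟩
  have := Subgroup.relIndex_mul_relIndex X W A hXW hWA
  rw [← this]
  exact hd.mul_right _

variable [Fact p.Prime] [Finite G]

theorem SylIn.of_sylow (S : Sylow p G) {W : Subgroup G} (h : (S : Subgroup G) ≤ W) :
    SylIn p S W := by
  refine ⟨h, S.isPGroup', fun hd => S.not_dvd_index ?_⟩
  exact hd.trans (Subgroup.relIndex_dvd_index_of_le h)

theorem SylIn.inf_normal (S : Sylow p G) (A : Subgroup G) [A.Normal] :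
    SylIn p ((S : Subgroup G) ⊓ A) A := by
  refine ⟨inf_le_right, S.isPGroup'.to_inf_left, fun hd => S.not_dvd_index ?_⟩
  rw [Subgroup.inf_relIndex_right] at hd
  exact hd.trans (relIndex_dvd_index_of_right_normal _ _)

theorem SylIn.of_sylow_subtype {A : Subgroup G} (P : Sylow p A) :
    SylIn p ((P : Subgroup A).map A.subtype) A := by
  refine ⟨Subgroup.map_subtype_le _, P.isPGroup'.map _, fun hd => P.not_dvd_index ?_⟩
  have : ((P : Subgroup A).map A.subtype).relIndex A = (P : Subgroup A).index := by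
    unfold Subgroup.relIndex
    have : ((P : Subgroup A).map A.subtype).subgroupOf A = (P : Subgroup A) :=
      Subgroup.comap_map_eq_self_of_injective A.subtype_injective _
    rw [this]
  rwa [this] at hd

/-- The Sylow subgroup of a subgroup as a `Sylow`. -/
noncomputable def SylIn.toSylow {X W : Subgroup G} (h : SylIn p X W) : Sylow p W :=
  IsPGroup.toSylow (P := X.subgroupOf W) (h.pg.comap_of_injective W.subtype W.subtype_injective) h.nd

theorem SylIn.coe_toSylow {X W : Subgroup G} (h : SylIn p X W) :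
    (h.toSylow : Subgroup W) = X.subgroupOf W := rfl

theorem SylIn.map_toSylow {X W : Subgroup G} (h : SylIn p X W) :
    (h.toSylow : Subgroup W).map W.subtype = X := by
  rw [h.coe_toSylow, Subgroup.subgroupOf_map_subtype]
  exact inf_eq_left.mpr h.le

theorem SylIn.exists_conj {X Y W : Subgroup G} (hX : SylIn p X W) (hY : SylIn p Y W) :
    ∃ w ∈ W, Pron.cj w X = Y := by
  obtain ⟨w, hw⟩ := MulAction.exists_smul_eq W hX.toSylow hY.toSylow
  refine ⟨w, w.2, ?_⟩
  have h1 : (w • hX.toSylow : Sylow p W) = hY.toSylow := hw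
  have h2 : ((w • hX.toSylow : Sylow p W) : Subgroup W) = Pron.cj w (hX.toSylow : Subgroup W) := by
    rw [Sylow.coe_subgroup_smul]; rfl
  have h3 := congrArg (fun Z : Sylow p W => (Z : Subgroup W).map W.subtype) h1
  simp only [h2, hY.map_toSylow, map_subtype_cj, hX.map_toSylow] at h3
  exact h3

/-- Any Sylow subgroup of the group contains a conjugate, under an element of `A`, meeting `A`
in a prescribed Sylow subgroup of `A`. -/
theorem exists_conj_inf (A : Subgroup G) [A.Normal] {T : Subgroup G} (hT : SylIn p T A)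
    (S : Sylow p G) {W : Subgroup G} (hSW : (S : Subgroup G) ≤ W) (hTW : T ≤ W) :
    ∃ w ∈ W ⊓ A, Pron.cj w ((S : Subgroup G) ⊓ A) = T := by
  have h1 := SylIn.inf_normal S A
  have h2 := h1.mono (W := W ⊓ A) (inf_le_inf_right A hSW) inf_le_right
  have h3 := hT.mono (W := W ⊓ A) (le_inf hTW hT.le) inf_le_right
  exact h2.exists_conj h3

/-- A conjugate of a Sylow subgroup as a Sylow subgroup. -/
noncomputable def conjSylow (S : Sylow p G) (g : G) : Sylow p G := g • S

theorem coe_conjSylow (S : Sylow p G) (g : G) :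
    (conjSylow S g : Subgroup G) = Pron.cj g S := by
  unfold conjSylow
  rw [Sylow.coe_subgroup_smul]; rfl

/-- For a Sylow subgroup `T` of the normal subgroup `A`, every subgroup which contains a Sylow
subgroup of `G` and `T` contains a Sylow subgroup of `G` normalizing `T`. -/
theorem exists_sylow_normalizing (A : Subgroup G) [A.Normal] {T : Subgroup G} (hT : SylIn p T A)
    (S : Sylow p G) {W : Subgroup G} (hSW : (S : Subgroup G) ≤ W) (hTW : T ≤ W) :
    ∃ S' : Sylow p G, (S' : Subgroup G) ≤ W ⊓ normalizer (T : Set G) := by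
  obtain ⟨w, hw, hwT⟩ := exists_conj_inf A hT S hSW hTW
  refine ⟨conjSylow S w, ?_⟩
  rw [coe_conjSylow]
  refine le_inf (cj_le_of_mem hw.1 hSW) ?_
  intro x hx
  rw [mem_normalizer_iff_cj]
  have h1 : cj x T = T := by
    rw [← hwT]
    have hx' : w⁻¹ * x * w ∈ (S : Subgroup G) := mem_cj.mp hx
    have h2 : cj (w⁻¹ * x * w) ((S : Subgroup G) ⊓ A) = (S : Subgroup G) ⊓ A := by
      rw [cj_inf, cj_normal A, cj_of_mem hx']
    calc cj x (cj w ((S : Subgroup G) ⊓ A))
        = cj w (cj (w⁻¹ * x * w) ((S : Subgroup G) ⊓ A)) := by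
          rw [cj_cj, cj_cj]; congr 1; group
      _ = _ := by rw [h2]
  exact h1

section core

variable (A : Subgroup G) [A.Normal]

/-- Steps 1 and 2. -/
theorem step_quot
    (hQ : ∀ K : Subgroup (G ⧸ A), (∃ P : Sylow p (G ⧸ A), (P : Subgroup (G ⧸ A)) ≤ K) →
      IsPronormal K)
    (H : Subgroup G) (S : Sylow p G) (hSH : (S : Subgroup G) ≤ H)
    (hii : normalizer ((H.map (QuotientGroup.mk' A) : Subgroup (G ⧸ A)) : Set (G ⧸ A)) ≤
      (normalizer (H : Set G)).map (QuotientGroup.mk' A))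
    (g : G) : ∃ a ∈ A, ∃ y ∈ H ⊔ cj g H, cj y⁻¹ (cj g H) = cj a H := by
  have hsurj := QuotientGroup.mk'_surjective A
  have hPr : IsPronormal (H.map (QuotientGroup.mk' A)) := hQ _ ⟨S.mapSurjective hsurj, by
    rw [Sylow.coe_mapSurjective]; exact Subgroup.map_mono hSH⟩
  rw [isPronormal_iff] at hPr
  obtain ⟨x, hx, hxe⟩ := hPr (QuotientGroup.mk' A g)
  rw [← map_cj, ← Subgroup.map_sup] at hx
  obtain ⟨y, hy, rfl⟩ := hx
  have hg1 : QuotientGroup.mk' A (y⁻¹ * g) ∈
      normalizer ((H.map (QuotientGroup.mk' A) : Subgroup (G ⧸ A)) : Set (G ⧸ A)) := by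
    rw [mem_normalizer_iff_cj, map_mul, map_inv, ← cj_cj, hxe, cj_inv_cj]
  obtain ⟨n, hn, hne⟩ := hii hg1
  refine ⟨y⁻¹ * g * n⁻¹, ?_, y, hy, ?_⟩
  · rw [← QuotientGroup.ker_mk' A, MonoidHom.mem_ker, map_mul, map_inv, hne]; simp
  · have hn' : cj n⁻¹ H = H := mem_normalizer_iff_cj.mp (inv_mem hn)
    rw [cj_cj, ← cj_cj (y⁻¹ * g) n⁻¹, hn']

/-- Step 3. -/
theorem step_A
    (hA : ∀ K : Subgroup A, (∃ P : Sylow p A, (P : Subgroup A) ≤ K) → IsPronormal K)
    (H : Subgroup G) (S : Sylow p G) (hSH : (S : Subgroup G) ≤ H) (a : G) (ha : a ∈ A) :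
    ∃ c ∈ A, ∃ b ∈ H ⊔ cj a H, cj b⁻¹ (cj a H) = cj c H ∧ cj c (H ⊓ A) = H ⊓ A := by
  have hK : IsPronormal (H.subgroupOf A) := hA _ ⟨(SylIn.inf_normal S A).toSylow, by
    rw [SylIn.coe_toSylow]
    intro x hx
    rw [Subgroup.mem_subgroupOf] at hx ⊢
    exact hSH hx.1⟩
  obtain ⟨b, hbA, hb, hbe⟩ := pp_of_subtype hK a ha
  rw [Subgroup.subgroupOf_map_subtype] at hb hbe
  refine ⟨b⁻¹ * a, A.mul_mem (A.inv_mem hbA) ha, b, ?_, by rw [cj_cj], ?_⟩
  · exact (sup_le_sup inf_le_left (cj_mono inf_le_left)) hb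
  · rw [← cj_cj, hbe, cj_inv_cj]

/-- Step 4. -/
theorem step_frattini (T : Subgroup G) (hT : SylIn p T A) (H : Subgroup G) (hTH : T ≤ H)
    (c : G) (hc : c ∈ A) (hcN : cj c (H ⊓ A) = H ⊓ A) :
    ∃ n ∈ A, n ∈ normalizer (T : Set G) ∧ cj n H = cj c H ∧ cj n (H ⊓ A) = H ⊓ A := by
  have hT1 : SylIn p T (H ⊓ A) := hT.mono (le_inf hTH hT.le) inf_le_right
  have hcN' : cj c⁻¹ (H ⊓ A) = H ⊓ A := by
    conv_lhs => rw [← hcN]
    rw [cj_inv_cj]
  have hT2 : SylIn p (cj c⁻¹ T) (H ⊓ A) := by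
    have := hT1.cj c⁻¹; rwa [hcN'] at this
  obtain ⟨w, hw, hwe⟩ := hT2.exists_conj hT1
  refine ⟨c * w⁻¹, A.mul_mem hc (A.inv_mem hw.2), ?_, ?_, ?_⟩
  · have h1 : w * c⁻¹ ∈ normalizer (T : Set G) :=
      mem_normalizer_iff_cj.mpr (by rw [← cj_cj]; exact hwe)
    have h2 := inv_mem h1
    simpa using h2
  · rw [← cj_cj, cj_of_mem (inv_mem hw.1)]
  · rw [← cj_cj, cj_of_mem (inv_mem hw), hcN]

/-- Step 5. -/
theorem step_last (T : Subgroup G) (hT : SylIn p T A) (H : Subgroup G) (hTH : T ≤ H)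
    (S : Sylow p G) (hSH : (S : Subgroup G) ≤ H)
    (hN : ∀ H₁ : Subgroup G, T ≤ H₁ → H₁ ≤ normalizer (T : Set G) →
      (∃ P : Sylow p G, (P : Subgroup G) ≤ H₁) →
      ∀ n ∈ normalizer (T : Set G), ∃ z ∈ H₁ ⊔ cj n H₁, cj n H₁ = cj z H₁)
    (n : G) (hnT : n ∈ normalizer (T : Set G)) (hnW : cj n (H ⊓ A) = H ⊓ A) :
    PP H (cj n H) := by
  have hT1 : SylIn p T (H ⊓ A) := hT.mono (le_inf hTH hT.le) inf_le_right
  have hTN : T ≤ H ⊓ normalizer (T : Set G) := le_inf hTH Subgroup.le_normalizer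
  obtain ⟨S', hS'⟩ := exists_sylow_normalizing A hT S hSH hTH
  obtain ⟨z, hz, hze⟩ := hN (H ⊓ normalizer (T : Set G)) hTN inf_le_right ⟨S', hS'⟩ n hnT
  have hHW : ∀ x ∈ H, cj x (H ⊓ A) = H ⊓ A := fun x hx => by
    rw [cj_inf, cj_normal A, cj_of_mem hx]
  have hdec : H = (H ⊓ A) ⊔ (H ⊓ normalizer (T : Set G)) := by
    apply le_antisymm
    · intro h hh
      have h1 : SylIn p (cj h T) (H ⊓ A) := by
        have := hT1.cj h; rwa [hHW h hh] at this
      obtain ⟨w, hw, hwe⟩ := h1.exists_conj hT1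
      have h2 : w * h ∈ H ⊓ normalizer (T : Set G) := by
        refine ⟨H.mul_mem hw.1 hh, mem_normalizer_iff_cj.mpr ?_⟩
        rw [← cj_cj]; exact hwe
      have h3 : h = w⁻¹ * (w * h) := by group
      rw [h3]
      exact Subgroup.mul_mem _ (Subgroup.mem_sup_left (inv_mem hw))
        (Subgroup.mem_sup_right h2)
    · exact sup_le inf_le_left inf_le_left
  have hzW : cj z (H ⊓ A) = H ⊓ A := by
    have h1 : H ⊓ normalizer (T : Set G) ≤ normalizer ((H ⊓ A : Subgroup G) : Set G) :=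
      fun x hx => mem_normalizer_iff_cj.mpr (hHW x hx.1)
    have h2 : (H ⊓ normalizer (T : Set G)) ⊔ cj n (H ⊓ normalizer (T : Set G)) ≤
        normalizer ((H ⊓ A : Subgroup G) : Set G) :=
      sup_le h1 (cj_le_of_mem (mem_normalizer_iff_cj.mpr hnW) h1)
    exact mem_normalizer_iff_cj.mp (h2 hz)
  refine ⟨z, (sup_le_sup inf_le_left (cj_mono inf_le_left)) hz, ?_⟩
  conv_lhs => rw [hdec]
  conv_rhs => rw [hdec]
  rw [cj_sup, cj_sup, hnW, hzW, hze]

/-- The main implication. -/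
theorem core
    (hA : ∀ K : Subgroup A, (∃ P : Sylow p A, (P : Subgroup A) ≤ K) → IsPronormal K)
    (hQ : ∀ K : Subgroup (G ⧸ A), (∃ P : Sylow p (G ⧸ A), (P : Subgroup (G ⧸ A)) ≤ K) →
      IsPronormal K)
    (T : Subgroup G) (hT : SylIn p T A)
    (hN : ∀ H₁ : Subgroup G, T ≤ H₁ → H₁ ≤ normalizer (T : Set G) →
      (∃ P : Sylow p G, (P : Subgroup G) ≤ H₁) →
      ∀ n ∈ normalizer (T : Set G), ∃ z ∈ H₁ ⊔ cj n H₁, cj n H₁ = cj z H₁)
    (hii : ∀ K : Subgroup G, (∃ P : Sylow p G, (P : Subgroup G) ≤ K) →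
      normalizer ((K.map (QuotientGroup.mk' A) : Subgroup (G ⧸ A)) : Set (G ⧸ A)) ≤
        (normalizer (K : Set G)).map (QuotientGroup.mk' A)) :
    ∀ K : Subgroup G, (∃ P : Sylow p G, (P : Subgroup G) ≤ K) → IsPronormal K := by
  rintro K ⟨S, hS⟩
  obtain ⟨a, ha, hae⟩ := (SylIn.inf_normal S A).exists_conj hT
  have hTH : T ≤ cj a K := by rw [← hae]; exact cj_mono (inf_le_left.trans hS)
  have hSH : (conjSylow S a : Subgroup G) ≤ cj a K := by rw [coe_conjSylow]; exact cj_mono hS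
  suffices h : IsPronormal (cj a K) by
    have := isPronormal_cj h a⁻¹; rwa [cj_inv_cj] at this
  generalize cj a K = H at hTH hSH
  rw [isPronormal_iff]; intro g
  obtain ⟨a1, ha1, y, hy, hye⟩ := step_quot A hQ H _ hSH (hii H ⟨_, hSH⟩) g
  apply PP_reduce hy; rw [hye]
  obtain ⟨c, hc, b, hb, hbe, hcW⟩ := step_A A hA H _ hSH a1 ha1
  apply PP_reduce hb; rw [hbe]
  obtain ⟨n, hnA, hnT, hne, hnW⟩ := step_frattini A T hT H hTH c hc hcW
  rw [← hne]
  exact step_last A T hT H hTH _ hSH hN n hnT hnW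

/-- The full normalizer of the image comes from the normalizer when pronormal. -/
theorem normalizer_map_of_pronormal (K : Subgroup G) (hK : IsPronormal K) :
    (normalizer (K : Set G)).map (QuotientGroup.mk' A) =
      normalizer ((K.map (QuotientGroup.mk' A) : Subgroup (G ⧸ A)) : Set (G ⧸ A)) := by
  apply le_antisymm (Subgroup.le_normalizer_map _)
  intro q hq
  obtain ⟨g, rfl⟩ := QuotientGroup.mk'_surjective A q
  rw [mem_normalizer_iff_cj] at hq
  rw [isPronormal_iff] at hK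
  obtain ⟨x, hx, hxe⟩ := hK g
  have hx1 : QuotientGroup.mk' A x ∈ K.map (QuotientGroup.mk' A) := by
    have := Subgroup.mem_map_of_mem (QuotientGroup.mk' A) hx
    rwa [Subgroup.map_sup, map_cj, hq, sup_idem] at this
  obtain ⟨k, hk, hke⟩ := hx1
  refine ⟨(x * k⁻¹)⁻¹ * g, ?_, ?_⟩
  · rw [SetLike.mem_coe, mem_normalizer_iff_cj, ← cj_cj, hxe]
    have : cj x K = cj (x * k⁻¹) K := by
      have h0 : x = (x * k⁻¹) * k := by group
      conv_lhs => rw [h0, ← cj_cj, cj_of_mem hk]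
    rw [this, cj_inv_cj]
  · have hmem : x * k⁻¹ ∈ A := by
      rw [← QuotientGroup.ker_mk' A, MonoidHom.mem_ker, map_mul, map_inv, hke]; simp
    have h1 : QuotientGroup.mk' A (x * k⁻¹) = 1 := by
      rw [← MonoidHom.mem_ker, QuotientGroup.ker_mk' A]; exact hmem
    rw [map_mul, map_inv, h1]; simp

/-- Self-normalizing Sylow subgroups make overgroups pronormal and self-normalizing. -/
theorem selfNormalizing_pronormal
    (hQ : ∀ P : Sylow p G, normalizer ((P : Subgroup G) : Set G) = P)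
    (K : Subgroup G) (P : Sylow p G) (hPK : (P : Subgroup G) ≤ K) :
    IsPronormal K ∧ normalizer (K : Set G) = K := by
  have key : ∀ g : G, ∃ y ∈ K ⊔ cj g K, cj g K = cj y K ∧ y⁻¹ * g ∈ K := by
    intro g
    have h1 : SylIn p (P : Subgroup G) (K ⊔ cj g K) := SylIn.of_sylow P (hPK.trans le_sup_left)
    have h2 : SylIn p (cj g (P : Subgroup G)) (K ⊔ cj g K) := by
      have := SylIn.of_sylow (W := K ⊔ cj g K) (conjSylow P g) (by
        rw [coe_conjSylow]; exact (cj_mono hPK).trans le_sup_right)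
      rwa [coe_conjSylow] at this
    obtain ⟨y, hy, hye⟩ := h1.exists_conj h2
    have h3 : y⁻¹ * g ∈ normalizer ((P : Subgroup G) : Set G) := by
      rw [mem_normalizer_iff_cj, ← cj_cj, ← hye, cj_inv_cj]
    rw [hQ P] at h3
    have h4 : y⁻¹ * g ∈ K := hPK h3
    refine ⟨y, hy, ?_, h4⟩
    have : g = y * (y⁻¹ * g) := by group
    conv_lhs => rw [this, ← cj_cj, cj_of_mem h4]
  constructor
  · rw [isPronormal_iff]
    intro g
    obtain ⟨y, hy, h1, -⟩ := key g
    exact ⟨y, hy, h1⟩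
  · apply le_antisymm _ Subgroup.le_normalizer
    intro g hg
    obtain ⟨y, hy, -, h2⟩ := key g
    rw [mem_normalizer_iff_cj] at hg
    rw [hg, sup_idem] at hy
    have := K.mul_mem hy h2
    simpa using this

end core

section quot

variable (T : Subgroup G) [(T.subgroupOf (normalizer (T : Set G))).Normal]

/-- From the quotient of the normalizer to the group. -/
theorem hN_of_quot
    (hi : ∀ K : Subgroup (↥(normalizer (T : Set G)) ⧸ T.subgroupOf (normalizer (T : Set G))),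
      (∃ P : Sylow p (↥(normalizer (T : Set G)) ⧸ T.subgroupOf (normalizer (T : Set G))),
        (P : Subgroup (↥(normalizer (T : Set G)) ⧸ T.subgroupOf (normalizer (T : Set G)))) ≤ K) →
      IsPronormal K) :
    ∀ H₁ : Subgroup G, T ≤ H₁ → H₁ ≤ normalizer (T : Set G) →
      (∃ P : Sylow p G, (P : Subgroup G) ≤ H₁) →
      ∀ n ∈ normalizer (T : Set G), ∃ z ∈ H₁ ⊔ cj n H₁, cj n H₁ = cj z H₁ := by
  rintro H₁ hTH hHN ⟨P, hP⟩ n hn
  set N := normalizer (T : Set G) with hNdef
  have hsurj := QuotientGroup.mk'_surjective (T.subgroupOf N)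
  set π := QuotientGroup.mk' (T.subgroupOf N) with hπ
  have hker : π.ker = T.subgroupOf N := QuotientGroup.ker_mk' _
  have hPr : IsPronormal ((H₁.subgroupOf N).map π) := hi _
    ⟨(SylIn.of_sylow P (hP.trans hHN)).toSylow.mapSurjective hsurj, by
      rw [Sylow.coe_mapSurjective, SylIn.coe_toSylow]
      exact Subgroup.map_mono (fun x hx => hP hx)⟩
  rw [isPronormal_iff] at hPr
  obtain ⟨x, hx, hxe⟩ := hPr (π ⟨n, hn⟩)
  rw [← map_cj, ← Subgroup.map_sup] at hx
  obtain ⟨y, hy, rfl⟩ := hx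
  rw [← map_cj, ← map_cj] at hxe
  have hle : T.subgroupOf N ≤ H₁.subgroupOf N := fun x hx => hTH hx
  have hc : ∀ u : N, π.ker ≤ cj u (H₁.subgroupOf N) := by
    intro u
    rw [hker, ← cj_normal (T.subgroupOf N) u]
    exact cj_mono hle
  have heq := Subgroup.map_injective_of_ker_le π (hc _) (hc _) hxe
  have hmap : (H₁.subgroupOf N).map N.subtype = H₁ := by
    rw [Subgroup.subgroupOf_map_subtype]; exact inf_eq_left.mpr hHN
  refine ⟨y, ?_, ?_⟩
  · have := Subgroup.mem_map_of_mem N.subtype hy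
    rwa [Subgroup.map_sup, map_subtype_cj, hmap] at this
  · have := congrArg (Subgroup.map N.subtype) heq
    rwa [map_subtype_cj, map_subtype_cj, hmap] at this

/-- From the group to the quotient of the normalizer. -/
theorem quot_of_all (A : Subgroup G) [A.Normal] (hT : SylIn p T A)
    (hall : ∀ K : Subgroup G, (∃ P : Sylow p G, (P : Subgroup G) ≤ K) → IsPronormal K) :
    ∀ K : Subgroup (↥(normalizer (T : Set G)) ⧸ T.subgroupOf (normalizer (T : Set G))),
      (∃ P : Sylow p (↥(normalizer (T : Set G)) ⧸ T.subgroupOf (normalizer (T : Set G))),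
        (P : Subgroup (↥(normalizer (T : Set G)) ⧸ T.subgroupOf (normalizer (T : Set G)))) ≤ K) →
      IsPronormal K := by
  rintro K ⟨P, hP⟩
  set N := normalizer (T : Set G) with hNdef
  have hsurj := QuotientGroup.mk'_surjective (T.subgroupOf N)
  set π := QuotientGroup.mk' (T.subgroupOf N) with hπ
  have hker : π.ker = T.subgroupOf N := QuotientGroup.ker_mk' _
  have hP0 : IsPGroup p (P : Subgroup (↥N ⧸ T.subgroupOf N)) := P.isPGroup'
  have hker' : IsPGroup p π.ker := by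
    rw [hker]; exact hT.pg.comap_of_injective N.subtype N.subtype_injective
  have hP1 : IsPGroup p ((P : Subgroup (↥N ⧸ T.subgroupOf N)).comap π) :=
    hP0.comap_of_ker_isPGroup π hker'
  have hP2 : IsPGroup p (((P : Subgroup (↥N ⧸ T.subgroupOf N)).comap π).map N.subtype) := hP1.map _
  obtain ⟨S0⟩ : Nonempty (Sylow p G) := inferInstance
  obtain ⟨S1, hS1⟩ := exists_sylow_normalizing A hT S0 (W := ⊤) le_top le_top
  have hNidx : ¬ p ∣ N.index := by
    intro hd
    apply S1.not_dvd_index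
    exact hd.trans (Subgroup.index_dvd_of_le (hS1.trans inf_le_right))
  have hidx : ¬ p ∣ (((P : Subgroup (↥N ⧸ T.subgroupOf N)).comap π).map N.subtype).index := by
    rw [Subgroup.index_map_subtype, Subgroup.index_comap_of_surjective _ hsurj]
    intro hd
    rcases (Fact.out : p.Prime).dvd_mul.mp hd with h | h
    · exact P.not_dvd_index h
    · exact hNidx h
  have hPr : IsPronormal ((K.comap π).map N.subtype) := hall _
    ⟨IsPGroup.toSylow hP2 hidx, Subgroup.map_mono (Subgroup.comap_mono hP)⟩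
  have h1 := isPronormal_subgroupOf (Subgroup.map_subtype_le _) hPr
  have h2 : ((K.comap π).map N.subtype).subgroupOf N = K.comap π :=
    Subgroup.comap_map_eq_self_of_injective N.subtype_injective _
  rw [h2] at h1
  have h3 := isPronormal_map π hsurj h1
  rwa [Subgroup.map_comap_eq_self_of_surjective hsurj] at h3

end quot

end Cfsg.Agent.H20.Pron
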