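import Mathlib
import Cfsg.Agent.Lib.H13.FrobFusion
import Cfsg.Agent.Lib.H20.Basic

/-! Normal `p`-complements and element orders in sections (helper20). -/

set_option autoImplicit false
set_option linter.style.haveILetI false
set_option linter.unusedSectionVars false

namespace Cfsg.Agent.H20

open Subgroup Cfsg
open scoped Pointwise

section abstract

variable {K : Type*} [Group K] [Finite K] {p : ℕ} [Fact p.Prime]

/-- A Frobenius-like section. -/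
theorem frob_section_props (V : Subgroup K) [hVn : V.Normal] (hVp : IsPGroup p V) (hV1 : V ≠ ⊥)
    (hVt : V ≠ ⊤) (h3 : ∀ x : K, x ^ p = 1 → x ∈ V)
    (h2 : ∀ k : K, k ∉ V → ∀ c ∈ V, c * k = k * c → c = 1) :
    pPrimeCore p K = ⊥ ∧ ∀ k : K, orderOf k ≠ Monoid.exponent K := by
  have hp : p.Prime := Fact.out
  constructor
  · rw [pPrimeCore, sSup_eq_bot]
    rintro N ⟨hN, hc⟩
    by_contra hne
    obtain ⟨n, hn, hn1⟩ := (Subgroup.bot_or_exists_ne_one N).resolve_left hne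
    obtain ⟨a, ha⟩ := IsPGroup.iff_card.mp hVp
    have hinf : N ⊓ V = ⊥ := by
      rw [← disjoint_iff]
      apply Subgroup.disjoint_of_coprime_natCard
      rw [ha]
      exact hc.pow_right a
    have hnV : n ∉ V := by
      intro h
      have : n ∈ N ⊓ V := ⟨hn, h⟩
      rw [hinf, Subgroup.mem_bot] at this
      exact hn1 this
    apply hV1
    rw [eq_bot_iff]
    intro c hcV
    rw [Subgroup.mem_bot]
    apply h2 n hnV c hcV
    have h4 : c * n * c⁻¹ * n⁻¹ ∈ N ⊓ V := by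
      constructor
      · exact N.mul_mem (hN.conj_mem n hn c) (N.inv_mem hn)
      · have h5 := hVn.conj_mem c⁻¹ (V.inv_mem hcV) n
        have h6 : c * n * c⁻¹ * n⁻¹ = c * (n * c⁻¹ * n⁻¹) := by group
        rw [h6]
        exact V.mul_mem hcV h5
    rw [hinf, Subgroup.mem_bot] at h4
    have h7 : c * n * c⁻¹ = n := by
      rw [mul_inv_eq_one] at h4
      exact h4
    rw [mul_inv_eq_iff_eq_mul] at h7
    exact h7
  · intro k hk
    have hdiv : ∀ u : K, p ∣ orderOf u → u ∈ V := by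
      intro u hu
      by_contra huV
      have hu0 : orderOf u ≠ 0 := (orderOf_pos u).ne'
      have h4 := orderOf_pow_orderOf_div hu0 hu
      have h5 : (u ^ (orderOf u / p)) ^ p = 1 := by
        have h9 := pow_orderOf_eq_one (u ^ (orderOf u / p))
        rwa [h4] at h9
      have h6 := h2 u huV _ (h3 _ h5) (Commute.pow_self u (orderOf u / p)).eq
      rw [h6, orderOf_one] at h4
      exact hp.one_lt.ne h4
    obtain ⟨v, hv, hv1⟩ := (Subgroup.bot_or_exists_ne_one V).resolve_left hV1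
    have hvp : p ∣ orderOf v := by
      obtain ⟨j, hj⟩ := hVp ⟨v, hv⟩
      have h4 : v ^ (p ^ j) = 1 := by
        have := congrArg Subtype.val hj
        simpa using this
      obtain ⟨i, -, hi⟩ := (Nat.dvd_prime_pow hp).1 (orderOf_dvd_of_pow_eq_one h4)
      rw [hi]
      apply dvd_pow_self
      rintro rfl
      rw [pow_zero, orderOf_eq_one_iff] at hi
      exact hv1 hi
    have hkV : k ∈ V := hdiv k (by
      rw [hk]; exact hvp.trans (Monoid.order_dvd_exponent v))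
    obtain ⟨j, hj⟩ := hVp ⟨k, hkV⟩
    have h4 : k ^ (p ^ j) = 1 := by
      have := congrArg Subtype.val hj
      simpa using this
    obtain ⟨i, -, hi⟩ := (Nat.dvd_prime_pow hp).1 (orderOf_dvd_of_pow_eq_one h4)
    obtain ⟨u, huV⟩ : ∃ u, u ∉ V := by
      by_contra hcon
      push Not at hcon
      exact hVt (eq_top_iff.2 fun x _ => hcon x)
    have hu := Monoid.order_dvd_exponent u
    rw [← hk, hi] at hu
    obtain ⟨b, -, hb⟩ := (Nat.dvd_prime_pow hp).1 hu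
    apply huV
    apply hdiv
    rw [hb]
    apply dvd_pow_self
    rintro rfl
    rw [pow_zero, orderOf_eq_one_iff] at hb
    exact huV (by rw [hb]; exact V.one_mem)

end abstract

section setting

variable {G : Type*} [Group G] [Finite G] {p : ℕ} [Fact p.Prime]

/-- The minimal configuration. -/
structure BadPair (p : ℕ) (Q N₀ : Subgroup G) (g : G) : Prop where
  hQp : IsPGroup p Q
  hg : g ∈ normalizer (Q : Set G)
  hcop : (orderOf g).Coprime p
  hN₀Q : N₀ ≤ Q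
  hne : N₀ ≠ Q
  hN₀g : g ∈ normalizer (N₀ : Set G)
  hQN₀ : Q ≤ normalizer (N₀ : Set G)
  hgN₀ : g ∈ centralizer (N₀ : Set G)
  hcomm : ∀ x ∈ Q, ∀ y ∈ Q, x * y * x⁻¹ * y⁻¹ ∈ N₀
  hirr : ∀ R : Subgroup G, N₀ ≤ R → R ≤ Q → g ∈ normalizer (R : Set G) → R = N₀ ∨ R = Q
  hnt : ¬ ∀ q ∈ Q, g * q * g⁻¹ * q⁻¹ ∈ N₀

theorem exists_badPair (h : ¬ H13.FrobCond p G) : ∃ (Q N₀ : Subgroup G) (g : G), BadPair p Q N₀ g := by
  classical
  have hp : p.Prime := Fact.out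
  unfold H13.FrobCond at h
  push Not at h
  obtain ⟨Q₀, hQ₀, g, hg₀, hc, hgC₀⟩ := h
  -- minimal `Q`
  let S : Set (Subgroup G) := {Q | IsPGroup p Q ∧ g ∈ normalizer (Q : Set G) ∧ g ∉ centralizer (Q : Set G)}
  have hSne : S.Nonempty := ⟨Q₀, hQ₀, hg₀, hgC₀⟩
  obtain ⟨Q, hQm⟩ := (Set.toFinite S).exists_minimal hSne
  obtain ⟨⟨hQp, hg, hgC⟩, hQmin⟩ := hQm
  have hS1 : ∀ R : Subgroup G, R ≤ Q → R ≠ Q → g ∈ normalizer (R : Set G) →
      g ∈ centralizer (R : Set G) := by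
    intro R hRQ hRne hgR
    by_contra hcon
    have h1 : R ∈ S := ⟨hQp.to_le hRQ, hgR, hcon⟩
    exact hRne (le_antisymm hRQ (hQmin h1 hRQ))
  have hQbot : Q ≠ ⊥ := by
    rintro rfl
    apply hgC
    rw [Subgroup.mem_centralizer_iff]
    intro y hy
    have hy' : y = 1 := by simpa using hy
    rw [hy']; simp
  -- maximal `N₀`
  let T : Set (Subgroup G) := {R | R ≤ Q ∧ R ≠ Q ∧ g ∈ normalizer (R : Set G) ∧
    Q ≤ normalizer (R : Set G)}
  have hbotN : ∀ x : G, x ∈ normalizer ((⊥ : Subgroup G) : Set G) := by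
    intro x
    rw [(Subgroup.normalizer_eq_top_iff).2 (inferInstance : (⊥ : Subgroup G).Normal)]
    trivial
  have hTne : T.Nonempty := ⟨⊥, bot_le, hQbot.symm, hbotN g, fun x _ => hbotN x⟩
  obtain ⟨N₀, hN₀m⟩ := (Set.toFinite T).exists_maximal hTne
  obtain ⟨⟨hN₀Q, hne, hN₀g, hQN₀⟩, hN₀max⟩ := hN₀m
  have hgN₀ := hS1 N₀ hN₀Q hne hN₀g
  have hconjQ : ∀ q ∈ Q, ∀ n ∈ N₀, q * n * q⁻¹ ∈ N₀ := fun q hq n hn =>
    (Subgroup.mem_normalizer_iff.1 (hQN₀ hq) n).1 hn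
  have hconjg : ∀ n ∈ N₀, g * n * g⁻¹ ∈ N₀ := fun n hn =>
    (Subgroup.mem_normalizer_iff.1 hN₀g n).1 hn
  have hconjgQ : ∀ n ∈ Q, g * n * g⁻¹ ∈ Q := fun n hn =>
    (Subgroup.mem_normalizer_iff.1 hg n).1 hn
  have hconjgQ' : ∀ n ∈ Q, g⁻¹ * n * g ∈ Q := fun n hn => by
    have h1 := (Subgroup.mem_normalizer_iff.1 hg (g⁻¹ * n * g)).2 (by
      simpa [mul_assoc] using hn)
    exact h1
  have hconjg' : ∀ n ∈ N₀, g⁻¹ * n * g ∈ N₀ := fun n hn => by
    have h1 := (Subgroup.mem_normalizer_iff.1 hN₀g (g⁻¹ * n * g)).2 (by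
      simpa [mul_assoc] using hn)
    exact h1
  -- the centre modulo `N₀`
  let Zc : Subgroup G :=
    { carrier := {x | x ∈ Q ∧ ∀ y ∈ Q, x * y * x⁻¹ * y⁻¹ ∈ N₀}
      one_mem' := ⟨Q.one_mem, fun y _ => by simp⟩
      mul_mem' := by
        rintro a b ⟨ha, ha2⟩ ⟨hb, hb2⟩
        refine ⟨Q.mul_mem ha hb, fun y hy => ?_⟩
        have h1 : a * b * y * (a * b)⁻¹ * y⁻¹ =
            a * (b * y * b⁻¹ * y⁻¹) * a⁻¹ * (a * y * a⁻¹ * y⁻¹) := by group
        rw [h1]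
        exact N₀.mul_mem (hconjQ a ha _ (hb2 y hy)) (ha2 y hy)
      inv_mem' := by
        rintro a ⟨ha, ha2⟩
        refine ⟨Q.inv_mem ha, fun y hy => ?_⟩
        have h1 : a⁻¹ * y * a⁻¹⁻¹ * y⁻¹ = a⁻¹ * (a * y * a⁻¹ * y⁻¹)⁻¹ * a⁻¹⁻¹ := by group
        rw [h1]
        exact hconjQ _ (Q.inv_mem ha) _ (N₀.inv_mem (ha2 y hy)) }
  have hZcQ : Zc ≤ Q := fun x hx => hx.1
  have hN₀Zc : N₀ ≤ Zc := by
    intro n hn
    refine ⟨hN₀Q hn, fun y hy => ?_⟩
    have h1 : n * y * n⁻¹ * y⁻¹ = n * (y * n⁻¹ * y⁻¹) := by group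
    rw [h1]
    exact N₀.mul_mem hn (hconjQ y hy _ (N₀.inv_mem hn))
  have hgZc : g ∈ normalizer (Zc : Set G) := by
    apply mem_normalizer_of_conj_le
    rintro x ⟨hx, hx2⟩
    refine ⟨hconjgQ x hx, fun y hy => ?_⟩
    have h1 : g * x * g⁻¹ * y * (g * x * g⁻¹)⁻¹ * y⁻¹ =
        g * (x * (g⁻¹ * y * g) * x⁻¹ * (g⁻¹ * y * g)⁻¹) * g⁻¹ := by group
    rw [h1]
    exact hconjg _ (hx2 _ (hconjgQ' y hy))
  have hQZc : Q ≤ normalizer (Zc : Set G) := by
    intro q hq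
    apply mem_normalizer_of_conj_le
    rintro x ⟨hx, hx2⟩
    refine ⟨Q.mul_mem (Q.mul_mem hq hx) (Q.inv_mem hq), fun y hy => ?_⟩
    have h1 : q * x * q⁻¹ * y * (q * x * q⁻¹)⁻¹ * y⁻¹ =
        q * (x * (q⁻¹ * y * q) * x⁻¹ * (q⁻¹ * y * q)⁻¹) * q⁻¹ := by group
    rw [h1]
    exact hconjQ q hq _ (hx2 _ (Q.mul_mem (Q.mul_mem (Q.inv_mem hq) hy) hq))
  -- `Zc` is bigger than `N₀`
  have hZcbig : ¬ Zc ≤ N₀ := by
    haveI hnq : (N₀.subgroupOf Q).Normal := (Subgroup.normal_subgroupOf_iff_le_normalizer hN₀Q).2 hQN₀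
    have hpg : IsPGroup p (Q ⧸ N₀.subgroupOf Q) := hQp.to_quotient _
    haveI hnt : Nontrivial (Q ⧸ N₀.subgroupOf Q) := by
      rw [QuotientGroup.nontrivial_iff]
      intro h1
      apply hne
      apply le_antisymm hN₀Q
      intro x hx
      have h2 : (⟨x, hx⟩ : Q) ∈ N₀.subgroupOf Q := by rw [h1]; trivial
      exact h2
    have hcen := hpg.center_nontrivial
    obtain ⟨z, hz, hz1⟩ := (Subgroup.bot_or_exists_ne_one _).resolve_left
      ((Subgroup.nontrivial_iff_ne_bot _).mp hcen)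
    obtain ⟨⟨x, hx⟩, rfl⟩ := QuotientGroup.mk_surjective z
    intro hle
    have hxZ : x ∈ Zc := by
      refine ⟨hx, fun y hy => ?_⟩
      have h1 := Subgroup.mem_center_iff.1 hz ((⟨y, hy⟩ : Q) : Q ⧸ N₀.subgroupOf Q)
      rw [← QuotientGroup.mk_mul, ← QuotientGroup.mk_mul, QuotientGroup.eq, Subgroup.mem_subgroupOf]
        at h1
      have h2 : x⁻¹ * y⁻¹ * x * y ∈ N₀ := by
        simpa [mul_assoc] using h1
      have h3 : x * y * x⁻¹ * y⁻¹ = (y * x) * (x⁻¹ * y⁻¹ * x * y) * (y * x)⁻¹ := by group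
      rw [h3]
      exact hconjQ _ (Q.mul_mem hy hx) _ h2
    apply hz1
    rw [QuotientGroup.eq_one_iff]
    exact hle hxZ
  have hZcQeq : Zc = Q := by
    by_contra hcon
    exact hZcbig (hN₀max ⟨hZcQ, hcon, hgZc, hQZc⟩ hN₀Zc)
  have hcomm : ∀ x ∈ Q, ∀ y ∈ Q, x * y * x⁻¹ * y⁻¹ ∈ N₀ := by
    intro x hx y hy
    rw [← hZcQeq] at hx
    exact hx.2 y hy
  refine ⟨Q, N₀, g, hQp, hg, hc, hN₀Q, hne, hN₀g, hQN₀, hgN₀, hcomm, ?_, ?_⟩
  · intro R hN₀R hRQ hgR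
    by_cases hRQe : R = Q
    · exact Or.inr hRQe
    · left
      refine le_antisymm (hN₀max ⟨hRQ, hRQe, hgR, ?_⟩ hN₀R) hN₀R
      intro q hq
      apply mem_normalizer_of_conj_le
      intro r hr
      have h1 : q * r * q⁻¹ = (q * r * q⁻¹ * r⁻¹) * r := by group
      rw [h1]
      exact R.mul_mem (hN₀R (hcomm q hq r (hRQ hr))) hr
  · -- coprime action
    intro hall
    apply hgC
    rw [Subgroup.mem_centralizer_iff]
    intro q hq
    set n := g * q * g⁻¹ * q⁻¹ with hn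
    have hnN : n ∈ N₀ := hall q hq
    have hgn : g * n = n * g := by
      exact ((Subgroup.mem_centralizer_iff.1 hgN₀) n hnN).symm
    have hpow : ∀ j : ℕ, g ^ j * q * (g ^ j)⁻¹ = n ^ j * q := by
      intro j
      induction j with
      | zero => simp
      | succ j ih =>
        have h1 : g ^ (j + 1) * q * (g ^ (j + 1))⁻¹ = g * (g ^ j * q * (g ^ j)⁻¹) * g⁻¹ := by
          rw [pow_succ']; group
        rw [h1, ih]
        have h2 : Commute g (n ^ j) := (show Commute g n from hgn).pow_right j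
        have h3 : g * (n ^ j * q) * g⁻¹ = n ^ j * (g * q * g⁻¹) := by
          rw [← mul_assoc g, h2.eq]; group
        rw [h3]
        have h4 : g * q * g⁻¹ = n * q := by rw [hn]; group
        rw [h4, pow_succ]
        group
    have h1 := hpow (orderOf g)
    rw [pow_orderOf_eq_one] at h1
    simp only [one_mul, inv_one, mul_one] at h1
    have h2 : n ^ orderOf g = 1 := by
      have : q = n ^ orderOf g * q := h1
      exact (mul_eq_right).1 this.symm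
    obtain ⟨j, hj⟩ := hQp ⟨n, hN₀Q hnN⟩
    have h3 : n ^ (p ^ j) = 1 := by
      have := congrArg Subtype.val hj
      simpa using this
    have h4 : n = 1 := by
      have h5 := Nat.dvd_gcd (orderOf_dvd_of_pow_eq_one h2) (orderOf_dvd_of_pow_eq_one h3)
      rw [hc.pow_right j] at h5
      exact orderOf_eq_one_iff.1 (Nat.dvd_one.1 h5)
    rw [hn] at h4
    have h6 : g * q * g⁻¹ = q := by
      rwa [mul_inv_eq_one] at h4
    rw [mul_inv_eq_iff_eq_mul] at h6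
    exact h6.symm

theorem section_of_badPair {Q N₀ : Subgroup G} {g : G} (B : BadPair p Q N₀ g) :
    ∃ (H : Subgroup G) (N : Subgroup H) (_ : N.Normal),
      pPrimeCore p (H ⧸ N) = ⊥ ∧ ∀ k : H ⧸ N, orderOf k ≠ Monoid.exponent (H ⧸ N) := by
  classical
  have hp : p.Prime := Fact.out
  obtain ⟨hQp, hg, hcop, hN₀Q, hne, hN₀g, hQN₀, hgN₀, hcomm, hirr, hnt⟩ := B
  set W : Subgroup G := zpowers g with hW
  have hWQ : W ≤ normalizer (Q : Set G) := (Subgroup.zpowers_le).2 hg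
  have hWN : W ≤ normalizer (N₀ : Set G) := (Subgroup.zpowers_le).2 hN₀g
  have hWC : W ≤ centralizer (N₀ : Set G) := (Subgroup.zpowers_le).2 hgN₀
  have hconjWQ : ∀ w ∈ W, ∀ q ∈ Q, w * q * w⁻¹ ∈ Q := fun w hw q hq =>
    (Subgroup.mem_normalizer_iff.1 (hWQ hw) q).1 hq
  have hconjWN : ∀ w ∈ W, ∀ q ∈ N₀, w * q * w⁻¹ ∈ N₀ := fun w hw q hq =>
    (Subgroup.mem_normalizer_iff.1 (hWN hw) q).1 hq
  have hconjQN : ∀ w ∈ Q, ∀ q ∈ N₀, w * q * w⁻¹ ∈ N₀ := fun w hw q hq =>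
    (Subgroup.mem_normalizer_iff.1 (hQN₀ hw) q).1 hq
  have hWcomm : ∀ a ∈ W, ∀ b ∈ W, a * b = b * a := by
    intro a ha b hb
    obtain ⟨i, rfl⟩ := Subgroup.mem_zpowers_iff.1 ha
    obtain ⟨j, rfl⟩ := Subgroup.mem_zpowers_iff.1 hb
    exact ((Commute.refl g).zpow_zpow i j).eq
  have hWoneQ : ∀ x ∈ W, x ∈ Q → x = 1 := by
    intro x hxW hxQ
    obtain ⟨j, hj⟩ := hQp ⟨x, hxQ⟩
    have h3 : x ^ (p ^ j) = 1 := by
      have := congrArg Subtype.val hj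
      simpa using this
    have h4 : orderOf x ∣ orderOf g := orderOf_dvd_of_mem_zpowers hxW
    have h5 := Nat.dvd_gcd h4 (orderOf_dvd_of_pow_eq_one h3)
    rw [hcop.pow_right j] at h5
    exact orderOf_eq_one_iff.1 (Nat.dvd_one.1 h5)
  -- the subgroup acting trivially
  let T : Subgroup G :=
    { carrier := {x | x ∈ W ∧ ∀ q ∈ Q, x * q * x⁻¹ * q⁻¹ ∈ N₀}
      one_mem' := ⟨W.one_mem, fun q _ => by simp⟩
      mul_mem' := by
        rintro a b ⟨ha, ha2⟩ ⟨hb, hb2⟩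
        refine ⟨W.mul_mem ha hb, fun q hq => ?_⟩
        have h1 : a * b * q * (a * b)⁻¹ * q⁻¹ = a * (b * q * b⁻¹ * q⁻¹) * a⁻¹ * (a * q * a⁻¹ * q⁻¹) := by
          group
        rw [h1]
        exact N₀.mul_mem (hconjWN a ha _ (hb2 q hq)) (ha2 q hq)
      inv_mem' := by
        rintro a ⟨ha, ha2⟩
        refine ⟨W.inv_mem ha, fun q hq => ?_⟩
        have h2 : a⁻¹ * q * a ∈ Q := by
          have := hconjWQ _ (W.inv_mem ha) q hq
          simpa using this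
        have h3 := ha2 _ h2
        have h4 : a⁻¹ * q * a⁻¹⁻¹ * q⁻¹ = (q * (a⁻¹ * q * a)⁻¹)⁻¹ := by group
        rw [h4]
        have h5 : a * (a⁻¹ * q * a) * a⁻¹ * (a⁻¹ * q * a)⁻¹ = q * (a⁻¹ * q * a)⁻¹ := by group
        rw [h5] at h3
        exact N₀.inv_mem h3 }
  have hTW : T ≤ W := fun x hx => hx.1
  have hTmem : ∀ x, x ∈ T ↔ x ∈ W ∧ ∀ q ∈ Q, x * q * x⁻¹ * q⁻¹ ∈ N₀ := fun x => Iff.rfl
  set H : Subgroup G := W ⊔ Q with hH
  set M : Subgroup G := T ⊔ N₀ with hM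
  have hHcoe : (H : Set G) = (W : Set G) * (Q : Set G) :=
    Subgroup.coe_mul_of_left_le_normalizer_right W Q hWQ
  have hMcoe : (M : Set G) = (T : Set G) * (N₀ : Set G) :=
    Subgroup.coe_mul_of_left_le_normalizer_right T N₀ (hTW.trans hWN)
  have hMmem : ∀ x, x ∈ M ↔ ∃ t ∈ T, ∃ n ∈ N₀, t * n = x := by
    intro x
    have : x ∈ (M : Set G) ↔ x ∈ (T : Set G) * (N₀ : Set G) := by rw [hMcoe]
    rw [Set.mem_mul] at this
    exact this
  have hHmem : ∀ x, x ∈ H ↔ ∃ w ∈ W, ∃ q ∈ Q, w * q = x := by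
    intro x
    have : x ∈ (H : Set G) ↔ x ∈ (W : Set G) * (Q : Set G) := by rw [hHcoe]
    rw [Set.mem_mul] at this
    exact this
  have hMH : M ≤ H := sup_le (hTW.trans le_sup_left) (hN₀Q.trans le_sup_right)
  have hQH : Q ≤ H := le_sup_right
  have hWH : W ≤ H := le_sup_left
  have hHQ : H ≤ normalizer (Q : Set G) := sup_le hWQ Subgroup.le_normalizer
  have hHM : H ≤ normalizer (M : Set G) := by
    apply sup_le
    · intro w hw
      apply mem_normalizer_of_conj_le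
      intro y hy
      obtain ⟨t, ht, n, hn, rfl⟩ := (hMmem y).1 hy
      have h1 : w * (t * n) * w⁻¹ = t * (w * n * w⁻¹) := by
        have h2 : w * t = t * w := hWcomm w hw t (hTW ht)
        calc w * (t * n) * w⁻¹ = (w * t) * n * w⁻¹ := by group
          _ = (t * w) * n * w⁻¹ := by rw [h2]
          _ = _ := by group
      rw [h1]
      exact (hMmem _).2 ⟨t, ht, _, hconjWN w hw n hn, rfl⟩
    · intro q hq
      apply mem_normalizer_of_conj_le
      intro y hy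
      obtain ⟨t, ht, n, hn, rfl⟩ := (hMmem y).1 hy
      have h1 : t⁻¹ * q * t * q⁻¹ ∈ N₀ := by
        have := (T.inv_mem ht).2 q hq
        simpa using this
      have h2 : q * (t * n) * q⁻¹ =
          t * ((t⁻¹ * q * t * q⁻¹) * (q * n * q⁻¹)) := by group
      rw [h2]
      exact (hMmem _).2 ⟨t, ht, _, N₀.mul_mem h1 (hconjQN q hq n hn), rfl⟩
  haveI hNn : (M.subgroupOf H).Normal := (Subgroup.normal_subgroupOf_iff_le_normalizer hMH).2 hHM
  set N : Subgroup H := M.subgroupOf H with hN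
  let π : H →* H ⧸ N := QuotientGroup.mk' N
  have hπs : Function.Surjective π := QuotientGroup.mk'_surjective N
  have hπ1 : ∀ x : H, π x = 1 ↔ (x : G) ∈ M := by
    intro x
    rw [show (π x = 1) ↔ x ∈ N from QuotientGroup.eq_one_iff x]
    exact Subgroup.mem_subgroupOf
  have hQM : ∀ x ∈ Q, x ∈ M → x ∈ N₀ := by
    intro x hx hxM
    obtain ⟨t, ht, n, hn, rfl⟩ := (hMmem x).1 hxM
    have h1 : t = (t * n) * n⁻¹ := by group
    have h2 : t ∈ Q := by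
      rw [h1]
      exact Q.mul_mem hx (Q.inv_mem (hN₀Q hn))
    rw [hWoneQ t (hTW ht) h2, one_mul]
    exact hn
  have hWMT : ∀ w ∈ W, ∀ q ∈ Q, q⁻¹ * w ∈ M → w ∈ T := by
    intro w hw q hq hqw
    obtain ⟨t, ht, n, hn, e⟩ := (hMmem _).1 hqw
    have h1 : t⁻¹ * w = (t⁻¹ * q * t) * n := by
      have h2 : w = q * (t * n) := by rw [e]; group
      rw [h2]; group
    have h2 : t⁻¹ * w ∈ Q := by
      rw [h1]
      refine Q.mul_mem ?_ (hN₀Q hn)
      have := hconjWQ _ (W.inv_mem (hTW ht)) q hq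
      simpa using this
    have h3 := hWoneQ _ (W.mul_mem (W.inv_mem (hTW ht)) hw) h2
    have h4 : w = t := by
      rw [inv_mul_eq_one] at h3
      exact h3.symm
    rw [h4]; exact ht
  let V : Subgroup (H ⧸ N) := (Q.subgroupOf H).map π
  have hQHn : (Q.subgroupOf H).Normal := (Subgroup.normal_subgroupOf_iff_le_normalizer hQH).2 hHQ
  haveI hVn : V.Normal := hQHn.map π hπs
  have hVmem : ∀ q (hq : q ∈ Q), π ⟨q, hQH hq⟩ ∈ V := fun q hq => ⟨⟨q, hQH hq⟩, hq, rfl⟩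
  have hdecomp : ∀ x : H ⧸ N, ∃ w, ∃ (hw : w ∈ W), ∃ q, ∃ (hq : q ∈ Q),
      x = π ⟨w, hWH hw⟩ * π ⟨q, hQH hq⟩ := by
    intro x
    obtain ⟨h, rfl⟩ := hπs x
    obtain ⟨w, hw, q, hq, e⟩ := (hHmem h).1 h.2
    refine ⟨w, hw, q, hq, ?_⟩
    rw [← map_mul]
    congr 1
    exact Subtype.ext e.symm
  have hVnotT : ∀ w (hw : w ∈ W), π ⟨w, hWH hw⟩ ∈ V → w ∈ T := by
    intro w hw hV
    obtain ⟨⟨q, hqH⟩, hq, e⟩ := hV
    have hq' : q ∈ Q := hq
    apply hWMT w hw q hq'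
    have h1 : π (⟨q, hqH⟩⁻¹ * ⟨w, hWH hw⟩) = 1 := by
      rw [map_mul, map_inv, ← e, inv_mul_cancel]
    exact (hπ1 _).1 h1
  have hTone : ∀ t (ht : t ∈ T), π ⟨t, hWH (hTW ht)⟩ = 1 := fun t ht =>
    (hπ1 _).2 (le_sup_left (a := T) ht)
  refine ⟨H, N, hNn, ?_⟩
  apply frob_section_props V
  · -- p-group
    rintro ⟨v, ⟨q, hqH⟩, hq, rfl⟩
    have hq' : (q : G) ∈ Q := hq
    obtain ⟨j, hj⟩ := hQp ⟨q, hq'⟩
    refine ⟨j, ?_⟩
    apply Subtype.ext
    have h1 : (q : G) ^ (p ^ j) = 1 := by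
      have := congrArg Subtype.val hj
      simpa using this
    have h2 : (⟨q, hqH⟩ : H) ^ (p ^ j) = 1 := Subtype.ext (by simpa using h1)
    show π ⟨q, hqH⟩ ^ (p ^ j) = 1
    rw [← map_pow, h2, map_one]
  · -- nontrivial
    intro hbot
    apply hne
    apply le_antisymm hN₀Q
    intro q hq
    have h1 := hVmem q hq
    rw [hbot, Subgroup.mem_bot, hπ1] at h1
    exact hQM q hq h1
  · -- proper
    intro htop
    have hgW : g ∈ W := Subgroup.mem_zpowers g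
    have h1 : π ⟨g, hWH hgW⟩ ∈ V := by rw [htop]; trivial
    have h2 := hVnotT g hgW h1
    exact hnt h2.2
  · -- elements of order p
    intro x hx
    obtain ⟨w, hw, q, hq, rfl⟩ := hdecomp x
    have hqV := hVmem q hq
    refine V.mul_mem ?_ hqV
    have h1 : (QuotientGroup.mk' V) (π ⟨q, hQH hq⟩) = 1 := (QuotientGroup.eq_one_iff _).2 hqV
    have h2 : (QuotientGroup.mk' V) (π ⟨w, hWH hw⟩) ^ p = 1 := by
      have h3 := congrArg (QuotientGroup.mk' V) hx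
      rw [map_pow, map_mul, h1, mul_one, map_one] at h3
      exact h3
    have h4 : (π ⟨w, hWH hw⟩) ^ p ∈ V := by
      rw [← map_pow] at h2
      exact (QuotientGroup.eq_one_iff _).1 h2
    have h5 : w ^ p ∈ T := by
      apply hVnotT (w ^ p) (W.pow_mem hw p)
      have h6 : (⟨w ^ p, hWH (W.pow_mem hw p)⟩ : H) = (⟨w, hWH hw⟩ : H) ^ p := rfl
      rw [h6, map_pow]
      exact h4
    have h7 : Nat.Coprime p (orderOf w) := by
      have h8 : orderOf w ∣ orderOf g := orderOf_dvd_of_mem_zpowers hw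
      exact (hcop.coprime_dvd_left h8).symm
    obtain ⟨r, hr⟩ := exists_pow_eq_self_of_coprime h7
    have h9 : w ∈ T := by
      rw [← hr]
      exact T.pow_mem h5 r
    rw [hTone w h9]
    exact V.one_mem
  · -- Frobenius
    intro k hk c hc hkc
    obtain ⟨w, hw, q₀, hq₀, rfl⟩ := hdecomp k
    obtain ⟨⟨q, hqH⟩, hq, rfl⟩ := hc
    have hq' : q ∈ Q := hq
    have hwT : w ∉ T := by
      intro hwT
      apply hk
      rw [hTone w hwT, one_mul]
      exact hVmem q₀ hq₀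
    -- commuting in `Q / N₀`
    have hcq : π ⟨q₀, hQH hq₀⟩ * π ⟨q, hqH⟩ = π ⟨q, hqH⟩ * π ⟨q₀, hQH hq₀⟩ := by
      have h1 : π (⟨q₀, hQH hq₀⟩ * ⟨q, hqH⟩ * (⟨q₀, hQH hq₀⟩)⁻¹ * (⟨q, hqH⟩)⁻¹) = 1 := by
        rw [hπ1]
        exact (le_sup_right (a := T) (hcomm q₀ hq₀ q hq'))
      rw [map_mul, map_mul, map_mul, map_inv, map_inv, mul_inv_eq_one, mul_inv_eq_iff_eq_mul] at h1
      exact h1
    have hcw : π ⟨q, hqH⟩ * π ⟨w, hWH hw⟩ = π ⟨w, hWH hw⟩ * π ⟨q, hqH⟩ := by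
      have h1 : π ⟨q, hqH⟩ * (π ⟨w, hWH hw⟩ * π ⟨q₀, hQH hq₀⟩) =
          π ⟨w, hWH hw⟩ * π ⟨q, hqH⟩ * π ⟨q₀, hQH hq₀⟩ := by
        rw [hkc, mul_assoc, mul_assoc, hcq]
      rw [← mul_assoc] at h1
      exact mul_right_cancel h1
    have hinW : w⁻¹ ∈ W := W.inv_mem hw
    have hmemN : w⁻¹ * q * w⁻¹⁻¹ * q⁻¹ ∈ N₀ := by
      apply hQM
      · refine Q.mul_mem ?_ (Q.inv_mem hq')
        exact hconjWQ _ hinW q hq'
      · have h1 : π ((⟨w, hWH hw⟩ : H)⁻¹ * ⟨q, hqH⟩ * ⟨w, hWH hw⟩ * (⟨q, hqH⟩ : H)⁻¹) = 1 := by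
          rw [map_mul, map_mul, map_mul, map_inv, map_inv, mul_assoc (π ⟨w, hWH hw⟩)⁻¹, hcw]
          group
        have h2 := (hπ1 _).1 h1
        simpa using h2
    -- the fixed subgroup
    let R : Subgroup G :=
      { carrier := {x | x ∈ Q ∧ w⁻¹ * x * w⁻¹⁻¹ * x⁻¹ ∈ N₀}
        one_mem' := ⟨Q.one_mem, by simp⟩
        mul_mem' := by
          rintro a b ⟨ha, ha2⟩ ⟨hb, hb2⟩
          refine ⟨Q.mul_mem ha hb, ?_⟩
          have h1 : w⁻¹ * (a * b) * w⁻¹⁻¹ * (a * b)⁻¹ =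
              (w⁻¹ * a * w⁻¹⁻¹ * a⁻¹) * (a * (w⁻¹ * b * w⁻¹⁻¹ * b⁻¹) * a⁻¹) := by group
          rw [h1]
          exact N₀.mul_mem ha2 (hconjQN a ha _ hb2)
        inv_mem' := by
          rintro a ⟨ha, ha2⟩
          refine ⟨Q.inv_mem ha, ?_⟩
          have h1 : w⁻¹ * a⁻¹ * w⁻¹⁻¹ * a⁻¹⁻¹ = a⁻¹ * (w⁻¹ * a * w⁻¹⁻¹ * a⁻¹)⁻¹ * a⁻¹⁻¹ := by group
          rw [h1]
          exact hconjQN _ (Q.inv_mem ha) _ (N₀.inv_mem ha2) }
    have hRmem : ∀ x, x ∈ R ↔ x ∈ Q ∧ w⁻¹ * x * w⁻¹⁻¹ * x⁻¹ ∈ N₀ := fun x => Iff.rfl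
    have hN₀R : N₀ ≤ R := by
      intro n hn
      refine (hRmem n).2 ⟨hN₀Q hn, ?_⟩
      have h1 : w⁻¹ * n = n * w⁻¹ :=
        ((Subgroup.mem_centralizer_iff.1 (hWC hinW)) n hn).symm
      rw [h1]
      simp
    have hRQ : R ≤ Q := fun x hx => hx.1
    have hgW : g ∈ W := Subgroup.mem_zpowers g
    have hgR : g ∈ normalizer (R : Set G) := by
      apply mem_normalizer_of_conj_le
      intro x hx
      have hx' := (hRmem x).1 hx
      refine (hRmem _).2 ⟨hconjWQ g hgW x hx'.1, ?_⟩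
      have h1 : w⁻¹ * g = g * w⁻¹ := hWcomm _ hinW _ hgW
      have h2 : w⁻¹ * (g * x * g⁻¹) * w⁻¹⁻¹ * (g * x * g⁻¹)⁻¹ =
          g * (w⁻¹ * x * w⁻¹⁻¹ * x⁻¹) * g⁻¹ := by
        calc w⁻¹ * (g * x * g⁻¹) * w⁻¹⁻¹ * (g * x * g⁻¹)⁻¹
            = (w⁻¹ * g) * x * g⁻¹ * w * g * x⁻¹ * g⁻¹ := by group
          _ = (g * w⁻¹) * x * g⁻¹ * w * g * x⁻¹ * g⁻¹ := by rw [h1]
          _ = g * w⁻¹ * x * (g⁻¹ * w * g) * x⁻¹ * g⁻¹ := by group
          _ = g * w⁻¹ * x * w * x⁻¹ * g⁻¹ := by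
            have h3 : g⁻¹ * w * g = w := by
              have h4 : g * w = w * g := hWcomm _ hgW _ hw
              calc g⁻¹ * w * g = g⁻¹ * (w * g) := by group
                _ = g⁻¹ * (g * w) := by rw [h4]
                _ = w := by group
            rw [h3]
          _ = _ := by group
      rw [h2]
      exact hconjWN g hgW _ hx'.2
    rcases hirr R hN₀R hRQ hgR with hRe | hRe
    · have h1 : q ∈ R := (hRmem q).2 ⟨hq', hmemN⟩
      rw [hRe] at h1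
      exact (hπ1 _).2 (le_sup_right (a := T) h1)
    · exfalso
      apply hwT
      have h1 : w⁻¹ ∈ T := by
        refine (hTmem _).2 ⟨hinW, fun x hx => ?_⟩
        have h2 : x ∈ R := by rw [hRe]; exact hx
        exact ((hRmem x).1 h2).2
      simpa using T.inv_mem h1

end setting

end Cfsg.Agent.H20
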