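import Mathlib
import Cfsg.Agent.Lib.H20.Split1
import Cfsg.Agent.Lib.H09.KSeq2

/-! Lemma on `p`-groups acting on abelian groups with fixed point free outer coset (helper20). -/

set_option autoImplicit false
set_option linter.unusedVariables false
set_option linter.style.haveILetI false

namespace Cfsg.Agent.H20

section G

/-- In a `p`-group, a nontrivial normal subgroup contains a central element of order `p`. -/
theorem exists_central_order_p {A : Type*} [Group A] [Finite A] {p : ℕ} [Fact p.Prime]
    (hA : IsPGroup p A) (M : Subgroup A) [M.Normal] (hM : M ≠ ⊥) :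
    ∃ z ∈ M, z ∈ Subgroup.center A ∧ z ≠ 1 ∧ z ^ p = 1 := by
  classical
  have hI : M ⊓ Subgroup.center A ≠ ⊥ := Cfsg.Agent.H09.normal_inf_center_ne_bot hA M hM
  obtain ⟨y, hy⟩ := Subgroup.ne_bot_iff_exists_ne_one.mp hI
  have hy1 : (y : A) ≠ 1 := fun h => hy (Subtype.ext h)
  obtain ⟨k, hk⟩ := hA y
  have hodvd : orderOf (y : A) ∣ p ^ k := orderOf_dvd_of_pow_eq_one hk
  obtain ⟨j, hjle, hj⟩ := (Nat.dvd_prime_pow Fact.out).mp hodvd
  have hj0 : j ≠ 0 := by
    rintro rfl
    rw [pow_zero] at hj
    exact hy1 (orderOf_eq_one_iff.mp hj)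
  obtain ⟨i, rfl⟩ : ∃ i, j = i + 1 := ⟨j - 1, by omega⟩
  refine ⟨(y : A) ^ p ^ i, M.pow_mem y.2.1 _, (Subgroup.center A).pow_mem y.2.2 _, ?_, ?_⟩
  · intro h
    have := orderOf_dvd_of_pow_eq_one h
    rw [hj] at this
    have h2 := (Nat.pow_dvd_pow_iff_le_right (Fact.out : p.Prime).one_lt).mp this
    omega
  · rw [← pow_mul, ← pow_succ, ← hj, pow_orderOf_eq_one]

variable {P V : Type*} [Group P] [Finite P] [Group V] [Finite V]

/-- A normal subgroup `D` of a `p`-group acting on a coprime abelian group, all elements outside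
`D` having `p`-th power `1` and acting fixed point freely, acts trivially. -/
theorem D_trivial (hV : ∀ a b : V, a * b = b * a) {p : ℕ} [Fact p.Prime] (hP : IsPGroup p P)
    (hcop : (Nat.card V).Coprime p) (ρ : P →* MulAut V) (D : Subgroup P) [D.Normal]
    (u : P) (hu : u ∉ D) (hs : ∀ y, y ∉ D → y ^ p = 1 ∧ ∀ v, ρ y v = v → v = 1) :
    ∀ d ∈ D, ρ d = 1 := by
  classical
  let f : P →* ρ.range := ρ.rangeRestrict
  have hf : Function.Surjective f := ρ.rangeRestrict_surjective
  have hRp : IsPGroup p ρ.range := hP.of_surjective f hf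
  haveI hDn : (D.map f).Normal := Subgroup.Normal.map inferInstance f hf
  by_contra hne
  have hDb : D.map f ≠ ⊥ := by
    intro h
    apply hne
    intro d hd
    have : f d ∈ D.map f := Subgroup.mem_map_of_mem _ hd
    rw [h, Subgroup.mem_bot] at this
    exact congrArg Subtype.val this
  obtain ⟨z, hzD, hzc, hz1, hzp⟩ := exists_central_order_p hRp (D.map f) hDb
  obtain ⟨d, hd, rfl⟩ := hzD
  have hcomm : ρ u * ρ d = ρ d * ρ u := by
    have := Subgroup.mem_center_iff.mp hzc (f u)
    exact congrArg Subtype.val this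
  have hα : ρ u ^ p = 1 := by
    rw [← map_pow, (hs u hu).1, map_one]
  have hβ : ρ d ^ p = 1 := by
    have := congrArg Subtype.val hzp
    simpa [f] using this
  have hfpf : ∀ (j : ℕ) (v : V), (ρ u * ρ d ^ j) v = v → v = 1 := by
    intro j v hv
    have hy : u * d ^ j ∉ D := by
      intro h
      apply hu
      have := D.mul_mem h (D.inv_mem (D.pow_mem hd j))
      simpa using this
    apply (hs _ hy).2
    rw [map_mul, map_pow]
    exact hv
  have h := two_gen_abelian hV Fact.out hcop (ρ u) (ρ d) hcomm hα hβ hfpf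
  apply hz1
  apply Subtype.ext
  exact MulEquiv.ext h

/-- Under the same hypotheses, if `V ≠ 1`, the index of `D` is `p`. -/
theorem D_index (hV : ∀ a b : V, a * b = b * a) {p : ℕ} [Fact p.Prime] (hP : IsPGroup p P)
    (hcop : (Nat.card V).Coprime p) (hVnt : Nontrivial V) (ρ : P →* MulAut V) (D : Subgroup P) [D.Normal]
    (u : P) (hu : u ∉ D) (hs : ∀ y, y ∉ D → y ^ p = 1 ∧ ∀ v, ρ y v = v → v = 1) :
    D.index = p := by
  classical
  have hD := D_trivial hV hP hcop ρ D u hu hs
  have hker : ρ.ker = D := by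
    apply le_antisymm
    · intro y hy
      by_contra hyD
      obtain ⟨v, hv⟩ := exists_ne (1 : V)
      apply hv
      apply (hs y hyD).2
      rw [MonoidHom.mem_ker.mp hy]
      rfl
    · intro d hd
      exact MonoidHom.mem_ker.mpr (hD d hd)
  let f : P →* ρ.range := ρ.rangeRestrict
  have hf : Function.Surjective f := ρ.rangeRestrict_surjective
  have hRp : IsPGroup p ρ.range := hP.of_surjective f hf
  have hcard : D.index = Nat.card ρ.range := by
    rw [← hker, Subgroup.index_ker]
  have hRnt : Nontrivial ρ.range := by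
    refine ⟨⟨f u, 1, ?_⟩⟩
    intro h
    apply hu
    rw [← hker]
    exact MonoidHom.mem_ker.mpr (congrArg Subtype.val h)
  obtain ⟨k, hk⟩ := IsPGroup.iff_card.mp hRp
  rw [hcard, hk]
  have hk0 : k ≠ 0 := by
    rintro rfl
    have : Nat.card ρ.range = 1 := by simpa using hk
    have h1 : 1 < Nat.card ρ.range := Finite.one_lt_card
    omega
  by_contra hne
  have hk2 : 2 ≤ k := by
    by_contra h
    have : k = 1 := by omega
    apply hne
    rw [this, pow_one]
  -- a central element of order `p` and an element outside its powers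
  obtain ⟨z, -, hzc, hz1, hzp⟩ := exists_central_order_p hRp (⊤ : Subgroup ρ.range) (by
    intro h
    have h2 : Nat.card (⊤ : Subgroup ρ.range) = 1 := by rw [h]; exact Subgroup.card_bot
    rw [Subgroup.card_top] at h2
    have h1 : 1 < Nat.card ρ.range := Finite.one_lt_card
    omega)
  have hcz : Nat.card (Subgroup.zpowers z) = p := by
    rw [Nat.card_zpowers]
    exact orderOf_eq_prime hzp hz1
  obtain ⟨w, hw⟩ : ∃ w : ρ.range, w ∉ Subgroup.zpowers z := by
    by_contra hall
    push Not at hall
    have htop : Subgroup.zpowers z = ⊤ := by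
      ext w
      simp [hall w]
    rw [htop, Subgroup.card_top, hk] at hcz
    have h3 : p ^ 2 ≤ p ^ k := Nat.pow_le_pow_right (Fact.out : p.Prime).pos hk2
    have h4 : p < p ^ 2 := by
      have := (Fact.out : p.Prime).two_le
      nlinarith
    omega
  obtain ⟨z', rfl⟩ := hf z
  obtain ⟨u', rfl⟩ := hf w
  have hnotD : ∀ j : ℕ, u' * z' ^ j ∉ D := by
    intro j h
    have h1 : f (u' * z' ^ j) = 1 := by
      apply Subtype.ext
      exact hD _ h
    apply hw
    rw [map_mul, map_pow] at h1
    have h2 : f u' = (f z' ^ j)⁻¹ := eq_inv_of_mul_eq_one_left h1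
    rw [h2]
    exact Subgroup.inv_mem _ (Subgroup.pow_mem _ (Subgroup.mem_zpowers _) _)
  have hu'D : u' ∉ D := by
    have := hnotD 0
    simpa using this
  have hcomm : ρ u' * ρ z' = ρ z' * ρ u' := by
    have := Subgroup.mem_center_iff.mp hzc (f u')
    exact congrArg Subtype.val this
  have hα : ρ u' ^ p = 1 := by
    rw [← map_pow, (hs u' hu'D).1, map_one]
  have hβ : ρ z' ^ p = 1 := by
    have := congrArg Subtype.val hzp
    simpa [f] using this
  have hfpf : ∀ (j : ℕ) (v : V), (ρ u' * ρ z' ^ j) v = v → v = 1 := by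
    intro j v hv
    apply (hs _ (hnotD j)).2
    rw [map_mul, map_pow]
    exact hv
  have h := two_gen_abelian hV Fact.out hcop (ρ u') (ρ z') hcomm hα hβ hfpf
  apply hz1
  apply Subtype.ext
  exact MulEquiv.ext h

end G

section Ambient

variable {G : Type*} [Group G]

/-- `(v g)^n = orbProd · g^n` for `v` in a normal subgroup `M`. -/
theorem mul_pow_eq_orbProd (M : Subgroup G) [M.Normal] (g : G) (v : M) (n : ℕ) :
    ((v : G) * g) ^ n = (orbProd (MulAut.conjNormal g : MulAut M) v n : M) * g ^ n := by
  induction n with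
  | zero => simp [orbProd]
  | succ n ih =>
    rw [pow_succ', ih, orbProd]
    simp only [Subgroup.coe_mul, MulAut.conjNormal_apply]
    rw [pow_succ']
    group

end Ambient

end Cfsg.Agent.H20
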