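import Mathlib
import Cfsg.Agent.Lib.H20.Split2
import Cfsg.Agent.Lib.H19.MaxNil
import Cfsg.Agent.Lib.H06.Nilp

/-! Kegel's theorem on splitting automorphisms of prime order (helper20): if `H` is normal in `G`,
`H ≠ G` and every element outside `H` has `p`-th power `1`, then `H` is nilpotent.
Thompson's theorem on fixed point free automorphisms of prime order is a special case. -/

set_option autoImplicit false
set_option linter.unusedVariables false
set_option linter.style.haveILetI false
set_option linter.unusedSectionVars false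

namespace Cfsg.Agent.H20

open Cfsg Cfsg.Agent.H14 Subgroup

universe u

section Setting

variable {G : Type*} [Group G] [Finite G]

/-- Conjugation by an element of the normalizer, as an automorphism of the subgroup. -/
def normConj (K : Subgroup G) (g : G) (hg : g ∈ normalizer (K : Set G)) : MulAut K where
  toFun k := ⟨g * k * g⁻¹, (mem_normalizer_iff.mp hg k).mp k.2⟩
  invFun k := ⟨g⁻¹ * k * g, by
    have := (mem_normalizer_iff.mp (inv_mem hg) (k : G)).mp k.2
    simpa using this⟩
  left_inv k := by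
    apply Subtype.ext
    show g⁻¹ * (g * (k : G) * g⁻¹) * g = k
    group
  right_inv k := by
    apply Subtype.ext
    show g * (g⁻¹ * (k : G) * g) * g⁻¹ = k
    group
  map_mul' a b := by
    apply Subtype.ext
    show g * ((a : G) * b) * g⁻¹ = (g * a * g⁻¹) * (g * b * g⁻¹)
    group

theorem normConj_apply (K : Subgroup G) (g : G) (hg : g ∈ normalizer (K : Set G)) (k : K) :
    ((normConj K g hg k : K) : G) = g * k * g⁻¹ := rfl

theorem normConj_pow (K : Subgroup G) (g : G) (hg : g ∈ normalizer (K : Set G)) (n : ℕ) (k : K) :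
    (((normConj K g hg) ^ n) k : G) = g ^ n * k * (g ^ n)⁻¹ := by
  induction n generalizing k with
  | zero => simp
  | succ n ih =>
    rw [pow_succ]
    show (((normConj K g hg) ^ n) (normConj K g hg k) : G) = _
    rw [ih, normConj_apply, pow_succ]
    group

theorem split_comm_eq_one {p : ℕ} {H : Subgroup G} (hs : ∀ g, g ∉ H → g ^ p = 1) {y c : G}
    (hy : y ∉ H) (hc : c ∈ H) (hcomm : y * c = c * y) (hcop : (orderOf c).Coprime p) : c = 1 := by
  have h1 : y * c ∉ H := by
    intro h
    apply hy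
    have := H.mul_mem h (H.inv_mem hc)
    simpa using this
  have h2 := hs _ h1
  have hc' : Commute y c := hcomm
  rw [hc'.mul_pow, hs y hy, one_mul] at h2
  have h3 := orderOf_dvd_of_pow_eq_one h2
  exact orderOf_eq_one_iff.mp (Nat.eq_one_of_dvd_coprimes hcop dvd_rfl h3)

/-- Elements of a `p'`-subgroup normalized by an outer element centralize an abelian normal
subgroup of coprime order. -/
theorem centralize_p' {p : ℕ} (hp : p.Prime) {H : Subgroup G} [H.Normal] (hs : ∀ g, g ∉ H → g ^ p = 1)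
    (K M : Subgroup G) [M.Normal] (hMH : M ≤ H) (hKH : K ≤ H)
    (hMab : ∀ a ∈ M, ∀ b ∈ M, a * b = b * a) {g : G} (hg : g ∉ H)
    (hgK : g ∈ normalizer (K : Set G)) (hcop : (Nat.card M).Coprime (Nat.card K))
    (hKp : (Nat.card K).Coprime p) : ∀ k ∈ K, ∀ m ∈ M, k * m = m * k := by
  let ρ : K →* MulAut M := (MulAut.conjNormal : G →* MulAut M).comp K.subtype
  let σ : MulAut K := normConj K g hgK
  let τ : MulAut M := MulAut.conjNormal g
  have hgp := hs g hg
  have hV : ∀ a b : M, a * b = b * a := fun a b => Subtype.ext (hMab a a.2 b b.2)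
  have hσr : σ ^ p = 1 := by
    ext k
    rw [normConj_pow, hgp]
    simp
  have hrel : ∀ k v, τ (ρ k v) = ρ (σ k) (τ v) := by
    intro k v
    apply Subtype.ext
    simp only [τ, ρ, σ, MonoidHom.comp_apply, Subgroup.subtype_apply, MulAut.conjNormal_apply,
      normConj_apply]
    group
  have hfpf : ∀ k, σ k = k → k = 1 := by
    intro k hk
    have h1 : g * (k : G) * g⁻¹ = k := congrArg Subtype.val hk
    have h2 : g * (k : G) = k * g := by
      calc g * (k : G) = g * (k : G) * g⁻¹ * g := by group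
        _ = k * g := by rw [h1]
    have h3 : (orderOf (k : G)).Coprime p := by
      rw [Subgroup.orderOf_coe]
      exact Nat.Coprime.coprime_dvd_left (orderOf_dvd_natCard k) hKp
    exact Subtype.ext (split_comm_eq_one hs hg (hKH k.2) h2 h3)
  have hT : ∀ v, orbProd τ v p = 1 := by
    intro v
    have h1 : (v : G) * g ∉ H := by
      intro h
      apply hg
      have := H.mul_mem (H.inv_mem (hMH v.2)) h
      simpa using this
    have h2 := hs _ h1
    rw [mul_pow_eq_orbProd M g v p, hgp, mul_one] at h2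
    exact Subtype.ext h2
  have hmain := frob_identity hV hp ρ σ τ hσr hrel hfpf hT hcop
  intro k hk m hm
  have h1 := hmain ⟨k, hk⟩ ⟨m, hm⟩
  have h2 : k * m * k⁻¹ = m := congrArg Subtype.val h1
  calc k * m = k * m * k⁻¹ * k := by group
    _ = m * k := by rw [h2]

/-- powers of a product with an element of the normalizer -/
theorem mul_pow_mem_of_normalizer {K : Subgroup G} {x a : G} (hx : x ∈ normalizer (K : Set G))
    (ha : a ∈ K) (n : ℕ) : ∃ b ∈ K, (a * x) ^ n = b * x ^ n := by
  induction n with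
  | zero => exact ⟨1, K.one_mem, by simp⟩
  | succ n ih =>
    obtain ⟨b, hb, hbe⟩ := ih
    refine ⟨b * (x ^ n * a * (x ^ n)⁻¹), K.mul_mem hb ?_, ?_⟩
    · exact (mem_normalizer_iff.mp (pow_mem hx n) a).mp ha
    · rw [pow_succ, hbe, pow_succ]
      group

/-- A `p`-subgroup of `H` normalized by an outer element centralizes an abelian normal `q`-group,
`q ≠ p`. -/
theorem centralize_p {p : ℕ} [Fact p.Prime] {H : Subgroup G} [H.Normal]
    (hs : ∀ g, g ∉ H → g ^ p = 1)
    (K M : Subgroup G) [M.Normal] (hMH : M ≤ H) (hKH : K ≤ H) (hKp : IsPGroup p K)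
    (hMab : ∀ a ∈ M, ∀ b ∈ M, a * b = b * a) {g : G} (hg : g ∉ H)
    (hgK : g ∈ normalizer (K : Set G)) (hcop : (Nat.card M).Coprime p) :
    ∀ k ∈ K, ∀ m ∈ M, k * m = m * k := by
  classical
  set P₁ : Subgroup G := K ⊔ zpowers g with hP₁
  have hgp := hs g hg
  have hle : zpowers g ≤ normalizer (K : Set G) := (zpowers_le).mpr hgK
  have hP₁p : IsPGroup p P₁ := by
    intro y
    have hy : (y : G) ∈ (↑(K ⊔ zpowers g) : Set G) := y.2
    rw [Subgroup.coe_mul_of_right_le_normalizer_left K (zpowers g) hle] at hy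
    obtain ⟨a, ha, b, hb, hab⟩ := hy
    obtain ⟨i, rfl⟩ := mem_zpowers_iff.mp hb
    obtain ⟨c, hc, hce⟩ := mul_pow_mem_of_normalizer (K := K) (x := g ^ i) (Subgroup.zpow_mem _ hgK i) ha p
    have h1 : (g ^ i) ^ p = 1 := by
      rw [← zpow_natCast, ← zpow_mul, mul_comm, zpow_mul, zpow_natCast, hgp, one_zpow]
    rw [h1, mul_one] at hce
    obtain ⟨e, he⟩ := hKp ⟨c, hc⟩
    have he' : c ^ p ^ e = 1 := congrArg Subtype.val he
    refine ⟨e + 1, Subtype.ext ?_⟩
    show (y : G) ^ p ^ (e + 1) = 1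
    rw [← hab, pow_succ', pow_mul, hce, he']
  let ρ : P₁ →* MulAut M := (MulAut.conjNormal : G →* MulAut M).comp P₁.subtype
  let D : Subgroup P₁ := H.subgroupOf P₁
  haveI : D.Normal := Subgroup.Normal.subgroupOf inferInstance _
  have hgP : g ∈ P₁ := Subgroup.mem_sup_right (mem_zpowers g)
  have hu : (⟨g, hgP⟩ : P₁) ∉ D := hg
  have hV : ∀ a b : M, a * b = b * a := fun a b => Subtype.ext (hMab a a.2 b b.2)
  have hst : ∀ y : P₁, y ∉ D → y ^ p = 1 ∧ ∀ v, ρ y v = v → v = 1 := by
    intro y hy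
    have hyH : (y : G) ∉ H := hy
    refine ⟨Subtype.ext (hs _ hyH), ?_⟩
    intro v hv
    have h1 : (y : G) * v * (y : G)⁻¹ = v := congrArg Subtype.val hv
    have h2 : (y : G) * v = v * y := by
      calc (y : G) * v = (y : G) * v * (y : G)⁻¹ * y := by group
        _ = v * y := by rw [h1]
    have h3 : (orderOf (v : G)).Coprime p := by
      rw [Subgroup.orderOf_coe]
      exact Nat.Coprime.coprime_dvd_left (orderOf_dvd_natCard v) hcop
    exact Subtype.ext (split_comm_eq_one hs hyH (hMH v.2) h2 h3)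
  have hD := D_trivial hV hP₁p hcop ρ D _ hu hst
  intro k hk m hm
  have hkP : k ∈ P₁ := Subgroup.mem_sup_left hk
  have h1 := hD ⟨k, hkP⟩ (hKH hk)
  have h2 : ρ ⟨k, hkP⟩ ⟨m, hm⟩ = ⟨m, hm⟩ := by rw [h1]; rfl
  have h3 : k * m * k⁻¹ = m := congrArg Subtype.val h2
  calc k * m = k * m * k⁻¹ * k := by group
    _ = m * k := by rw [h3]

/-- Passing from `H/M` nilpotent to `H` nilpotent for an abelian normal `q`-subgroup `M`. -/
theorem step3 {p : ℕ} [Fact p.Prime] {H : Subgroup G} [H.Normal] (hx : ∃ x, x ∉ H)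
    (hs : ∀ g, g ∉ H → g ^ p = 1) {q : ℕ} [Fact q.Prime] (M : Subgroup G) [M.Normal]
    (hMH : M ≤ H) (hMq : IsPGroup q M) (hMab : ∀ a ∈ M, ∀ b ∈ M, a * b = b * a)
    (hquot : Group.IsNilpotent (H.map (QuotientGroup.mk' M))) : Group.IsNilpotent H := by
  classical
  refine (Group.isNilpotent_of_finite_tfae (G := H)).out 3 0 |>.mp ?_
  intro s _ R
  set RG : Subgroup G := (R : Subgroup H).map H.subtype with hRG
  have hRGp : IsPGroup s RG := R.isPGroup'.map _
  have hRGH : RG ≤ H := Subgroup.map_subtype_le _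
  have hfr := Sylow.normalizer_sup_eq_top R
  obtain ⟨g, hgN, hg⟩ : ∃ g ∈ normalizer (RG : Set G), g ∉ H := by
    by_contra hall
    push Not at hall
    obtain ⟨x, hx⟩ := hx
    apply hx
    have hle : normalizer (RG : Set G) ≤ H := fun g hg => hall g hg
    have : (⊤ : Subgroup G) ≤ H := by
      rw [← hfr]
      exact sup_le hle le_rfl
    exact this trivial
  have hcent : s ≠ q → ∀ k ∈ RG, ∀ m ∈ M, k * m = m * k := by
    intro hsq
    obtain ⟨a, ha⟩ := IsPGroup.iff_card.mp hMq
    obtain ⟨b, hb⟩ := IsPGroup.iff_card.mp hRGp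
    have hqs : Nat.Coprime q s := (Nat.coprime_primes Fact.out Fact.out).mpr (Ne.symm hsq)
    by_cases hsp : s = p
    · subst hsp
      refine centralize_p hs RG M hMH hRGH hRGp hMab hg hgN ?_
      rw [ha]
      exact Nat.Coprime.pow_left _ hqs
    · refine centralize_p' Fact.out hs RG M hMH hRGH hMab hg hgN ?_ ?_
      · rw [ha, hb]
        exact Nat.Coprime.pow _ _ hqs
      · rw [hb]
        exact Nat.Coprime.pow_left _ ((Nat.coprime_primes Fact.out Fact.out).mpr hsp)
  -- normality
  let f : H →* H.map (QuotientGroup.mk' M) := (QuotientGroup.mk' M).subgroupMap H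
  have hf : Function.Surjective f := (QuotientGroup.mk' M).subgroupMap_surjective H
  let R' : Sylow s (H.map (QuotientGroup.mk' M)) := R.mapSurjective hf
  haveI hR'n : (R' : Subgroup (H.map (QuotientGroup.mk' M))).Normal :=
    Sylow.normal_of_normalizerCondition (Group.normalizerCondition_of_isNilpotent) R'
  constructor
  intro r hr h
  have h1 : f (h * r * h⁻¹) ∈ (R' : Subgroup (H.map (QuotientGroup.mk' M))) := by
    rw [map_mul, map_mul, map_inv]
    exact hR'n.conj_mem _ (Subgroup.mem_map_of_mem _ hr) _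
  obtain ⟨r₁, hr₁, hr₁e⟩ := h1
  have h2 : (r₁ : G)⁻¹ * ((h * r * h⁻¹ : H) : G) ∈ M := by
    have h3 : ((f r₁ : H.map (QuotientGroup.mk' M)) : G ⧸ M) = f (h * r * h⁻¹) := congrArg Subtype.val hr₁e
    exact QuotientGroup.eq.mp h3
  set y : H := h * r * h⁻¹ with hy
  set m : G := (r₁ : G)⁻¹ * (y : G) with hm
  have hye : (y : G) = r₁ * m := by rw [hm]; group
  by_cases hsq : s = q
  · subst hsq
    -- `M` lies in `R`
    have hMR : M.subgroupOf H ≤ (R : Subgroup H) := by
      haveI : (M.subgroupOf H).Normal := Subgroup.Normal.subgroupOf inferInstance _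
      have hp1 : IsPGroup s (M.subgroupOf H) := by
        intro z
        obtain ⟨k, hk⟩ := hMq ⟨(z : H), z.2⟩
        have hk' : ((z : H) : G) ^ s ^ k = 1 := congrArg Subtype.val hk
        exact ⟨k, Subtype.ext (Subtype.ext (by simpa using hk'))⟩
      have hp2 : IsPGroup s ((R : Subgroup H) ⊔ M.subgroupOf H : Subgroup H) :=
        R.isPGroup'.to_sup_of_normal_right hp1
      have heq := R.is_maximal' hp2 le_sup_left
      rw [← heq]
      exact le_sup_right
    have hmH : m ∈ H := hMH h2
    have hmR : (⟨m, hmH⟩ : H) ∈ (R : Subgroup H) := hMR (Subgroup.mem_subgroupOf.mpr h2)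
    have : y = r₁ * ⟨m, hmH⟩ := Subtype.ext hye
    rw [this]
    exact (R : Subgroup H).mul_mem hr₁ hmR
  · have hr₁G : (r₁ : G) ∈ RG := ⟨r₁, hr₁, rfl⟩
    have hcomm : Commute (r₁ : G) m := hcent hsq _ hr₁G m h2
    obtain ⟨a, ha⟩ := R.isPGroup' ⟨r, hr⟩
    obtain ⟨b, hb⟩ := R.isPGroup' ⟨r₁, hr₁⟩
    have ha' : r ^ s ^ a = 1 := congrArg Subtype.val ha
    have hb' : (r₁ : G) ^ s ^ b = 1 := by
      have := congrArg (fun z : (R : Subgroup H) => ((z : H) : G)) hb
      simpa using this
    have hya : y ^ s ^ a = 1 := by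
      rw [hy, conj_pow, ha']
      group
    have hsab : (y : G) ^ s ^ (a + b) = 1 := by
      rw [pow_add, pow_mul]
      have : (y : G) ^ s ^ a = 1 := congrArg Subtype.val hya
      rw [this, one_pow]
    have hrab : (r₁ : G) ^ s ^ (a + b) = 1 := by
      rw [add_comm, pow_add, pow_mul, hb', one_pow]
    have hmab : m ^ s ^ (a + b) = 1 := by
      rw [hye, hcomm.mul_pow, hrab, one_mul] at hsab
      exact hsab
    obtain ⟨c, hc⟩ := hMq ⟨m, h2⟩
    have hc' : m ^ q ^ c = 1 := congrArg Subtype.val hc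
    have hcop : Nat.Coprime (s ^ (a + b)) (q ^ c) :=
      Nat.Coprime.pow _ _ ((Nat.coprime_primes Fact.out Fact.out).mpr hsq)
    have h5 : orderOf m = 1 := Nat.eq_one_of_dvd_coprimes hcop (orderOf_dvd_of_pow_eq_one hmab)
      (orderOf_dvd_of_pow_eq_one hc')
    have hm1 : m = 1 := orderOf_eq_one_iff.mp h5
    have : y = r₁ := by
      apply Subtype.ext
      rw [hye, hm1, mul_one]
    rw [this]
    exact hr₁

end Setting

end Cfsg.Agent.H20
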