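import Mathlib
import Cfsg.Agent.Lib.H20.Split3
import Cfsg.Agent.Lib.H20.Basic

/-! Kegel's theorem on splitting automorphisms of prime order (helper20). -/

set_option autoImplicit false
set_option linter.unusedVariables false
set_option linter.style.haveILetI false
set_option linter.unusedSectionVars false

namespace Cfsg.Agent.H20

open Cfsg Cfsg.Agent.H14 Subgroup

universe u

section ZJ

variable {T : Type*} [Group T] [Finite T]

theorem jj_aut (θ : MulAut T) (X : Subgroup T) (hX : ∀ x, θ x ∈ X ↔ x ∈ X) {x : T}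
    (hx : x ∈ (elFam T 0).jj X) : θ x ∈ (elFam T 0).jj X := by
  have hle : (elFam T 0).jj X ≤ ((elFam T 0).jj X).comap θ.toMonoidHom := by
    refine sSup_le fun A hA a ha => ?_
    have hA' : A.map θ.toMonoidHom ∈ (elFam T 0).mx X := by
      refine ⟨?_, ?_, fun B hB hFB => ?_⟩
      · rintro _ ⟨a, ha, rfl⟩
        exact (hX a).mpr (hA.1 ha)
      · refine ⟨?_, ?_⟩
        · rintro _ ⟨a, ha, rfl⟩ _ ⟨b, hb, rfl⟩
          exact (map_mul _ _ _).symm.trans ((congrArg _ (hA.2.1.1 a ha b hb)).trans (map_mul _ _ _))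
        · intro a _
          exact pow_zero a
      · have e : Nat.card (A.map θ.toMonoidHom) = Nat.card A :=
          (Nat.card_congr (Subgroup.equivMapOfInjective A _ θ.injective).toEquiv).symm
        rw [e]
        exact hA.2.2 B hB hFB
    exact ZJFam.le_jj hA' ⟨a, ha, rfl⟩
  exact hle hx

theorem zz_aut (θ : MulAut T) (X : Subgroup T) (hX : ∀ x, θ x ∈ X ↔ x ∈ X) {z : T}
    (hz : z ∈ (elFam T 0).zz X) : θ z ∈ (elFam T 0).zz X := by
  refine ⟨jj_aut θ X hX hz.1, ?_, pow_zero _⟩
  rw [Subgroup.mem_centralizer_iff]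
  intro j hj
  have hXinv : ∀ x, θ⁻¹ x ∈ X ↔ x ∈ X := by
    intro x
    have := hX (θ⁻¹ x)
    rw [← this]
    have h2 : θ (θ⁻¹ x) = x := by
      rw [← MulAut.mul_apply, mul_inv_cancel]
      rfl
    rw [h2]
  have hj' : θ⁻¹ j ∈ (elFam T 0).jj X := jj_aut θ⁻¹ X hXinv hj
  have h3 := (Subgroup.mem_centralizer_iff.mp hz.2.1) _ hj'
  have h4 := congrArg θ h3
  rw [map_mul, map_mul] at h4
  have h2 : θ (θ⁻¹ j) = j := by
    rw [← MulAut.mul_apply, mul_inv_cancel]
    rfl
  rwa [h2] at h4

end ZJ

section Setting

variable {G : Type*} [Group G] [Finite G]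

/-- From a nontrivial abelian normal subgroup, an elementary abelian normal `q`-subgroup. -/
theorem exists_elem_normal (A : Subgroup G) [A.Normal] (hAab : ∀ a ∈ A, ∀ b ∈ A, a * b = b * a)
    (hA1 : A ≠ ⊥) : ∃ (q : ℕ) (_ : Fact q.Prime) (M : Subgroup G), M.Normal ∧ M ≤ A ∧ M ≠ ⊥ ∧
      (∀ m ∈ M, m ^ q = 1) := by
  classical
  haveI : Nontrivial A := (Subgroup.nontrivial_iff_ne_bot A).2 hA1
  obtain ⟨q, hq, hqd⟩ := Nat.exists_prime_and_dvd (Finite.one_lt_card (α := A)).ne'
  haveI : Fact q.Prime := ⟨hq⟩
  obtain ⟨a, ha⟩ := exists_prime_orderOf_dvd_card' q hqd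
  let M : Subgroup G :=
    { carrier := {x | x ∈ A ∧ x ^ q = 1}
      mul_mem' := by
        rintro x y ⟨hx, hx'⟩ ⟨hy, hy'⟩
        refine ⟨A.mul_mem hx hy, ?_⟩
        have : Commute x y := hAab x hx y hy
        rw [this.mul_pow, hx', hy', one_mul]
      one_mem' := ⟨A.one_mem, one_pow _⟩
      inv_mem' := by
        rintro x ⟨hx, hx'⟩
        exact ⟨A.inv_mem hx, by rw [inv_pow, hx', inv_one]⟩ }
  refine ⟨q, inferInstance, M, ?_, fun x hx => hx.1, ?_, fun m hm => hm.2⟩
  · constructor
    rintro x ⟨hx, hx'⟩ g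
    refine ⟨‹A.Normal›.conj_mem x hx g, ?_⟩
    rw [conj_pow, hx']
    group
  · intro h
    have h1 : (a : G) ∈ M := by
      refine ⟨a.2, ?_⟩
      have := pow_orderOf_eq_one a
      rw [ha] at this
      exact congrArg Subtype.val this
    rw [h, Subgroup.mem_bot] at h1
    have h2 : a = 1 := Subtype.ext h1
    rw [h2, orderOf_one] at ha
    exact (Fact.out : q.Prime).one_lt.ne ha

/-- The inductive step for invariant subgroups. -/
theorem split_subgroup {p : ℕ} [Fact p.Prime] {H : Subgroup G} (hs : ∀ g, g ∉ H → g ^ p = 1)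
    (H₁ : Subgroup G) (hH₁ : H₁ ≤ H) {g : G} (hg : g ∉ H) (hgn : g ∈ normalizer (H₁ : Set G)) :
    ∃ (G₁ : Subgroup G) (H₂ : Subgroup G₁), H₂.Normal ∧ Nat.card H₂ = Nat.card H₁ ∧ (∃ x, x ∉ H₂) ∧
      (∀ y, y ∉ H₂ → y ^ p = 1) ∧ (Group.IsNilpotent H₂ → Group.IsNilpotent H₁) := by
  classical
  set G₁ : Subgroup G := H₁ ⊔ zpowers g with hG₁
  have hle : H₁ ≤ G₁ := le_sup_left
  have hgG : g ∈ G₁ := Subgroup.mem_sup_right (mem_zpowers g)
  have hnorm : G₁ ≤ normalizer (H₁ : Set G) :=
    sup_le le_normalizer ((zpowers_le).mpr hgn)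
  have hgp := hs g hg
  have hg1 : g ≠ 1 := by
    rintro rfl
    exact hg H.one_mem
  have hord : orderOf g = p := orderOf_eq_prime hgp hg1
  refine ⟨G₁, H₁.subgroupOf G₁, ?_, ?_, ⟨⟨g, hgG⟩, ?_⟩, ?_, ?_⟩
  · constructor
    intro n hn k
    rw [Subgroup.mem_subgroupOf] at hn ⊢
    exact (mem_normalizer_iff.mp (hnorm k.2) n).mp hn
  · exact Nat.card_congr (Subgroup.subgroupOfEquivOfLe hle).toEquiv
  · intro h
    exact hg (hH₁ (Subgroup.mem_subgroupOf.mp h))
  · intro y hy
    have hy' : (y : G) ∉ H₁ := fun h => hy (Subgroup.mem_subgroupOf.mpr h)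
    apply Subtype.ext
    show (y : G) ^ p = 1
    apply hs
    intro hyH
    apply hy'
    have hyy : (y : G) ∈ (↑(H₁ ⊔ zpowers g) : Set G) := y.2
    rw [Subgroup.coe_mul_of_right_le_normalizer_left H₁ (zpowers g) ((zpowers_le).mpr hgn)] at hyy
    obtain ⟨a, ha, b, hb, hab⟩ := hyy
    have haH : a ∈ H := hH₁ ha
    have hbH : b ∈ H := by
      have : b = a⁻¹ * y := by rw [← hab]; group
      rw [this]
      exact H.mul_mem (H.inv_mem haH) hyH
    obtain ⟨i, rfl⟩ := mem_zpowers_iff.mp hb
    have hb1 : g ^ i = 1 := by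
      by_contra hne
      apply hg
      have hpnd : ¬ (p : ℤ) ∣ i := by
        intro hd
        apply hne
        obtain ⟨c, rfl⟩ := hd
        rw [zpow_mul, zpow_natCast, hgp, one_zpow]
      have hcop : IsCoprime i (p : ℤ) := by
        have hp' : Prime (p : ℤ) := Nat.prime_iff_prime_int.mp Fact.out
        exact ((Prime.coprime_iff_not_dvd hp').mpr hpnd).symm
      obtain ⟨u, v, huv⟩ := hcop
      have : g = (g ^ i) ^ u := by
        have h1 : g ^ (u * i + v * p) = g := by rw [huv, zpow_one]
        rw [zpow_add, mul_comm v, zpow_mul g (p : ℤ) v, zpow_natCast, hgp, one_zpow, mul_one,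
          mul_comm u, zpow_mul] at h1
        exact h1.symm
      rw [this]
      exact H.zpow_mem hbH u
    have hab' : a * g ^ i = y := hab
    rw [← hab', hb1, mul_one]
    exact ha
  · intro hnil
    exact Group.nilpotent_of_surjective (Subgroup.subgroupOfEquivOfLe hle).toMonoidHom
      (Subgroup.subgroupOfEquivOfLe hle).surjective

end Setting

/-- **Kegel's theorem.** If `H` is a proper normal subgroup of the finite group `G` and all elements
outside `H` have `p`-th power `1` for a prime `p`, then `H` is nilpotent. -/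
theorem kegel_aux (p : ℕ) [Fact p.Prime] : ∀ (n : ℕ) (G : Type u) [Group G] [Finite G]
    (H : Subgroup G) [H.Normal], Nat.card H ≤ n → (∃ x, x ∉ H) → (∀ g, g ∉ H → g ^ p = 1) →
    Group.IsNilpotent H := by
  intro n
  induction n with
  | zero =>
    intro G _ _ H _ hc
    have := Nat.card_pos (α := H)
    omega
  | succ n ih =>
    intro G _ _ H _ hc hx hs
    classical
    have hinv : ∀ H₁ : Subgroup G, H₁ ≤ H → Nat.card H₁ < Nat.card H → ∀ g, g ∉ H →
        g ∈ normalizer (H₁ : Set G) → Group.IsNilpotent H₁ := by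
      intro H₁ hH₁ hcard g hg hgn
      obtain ⟨G₁, H₂, hn, hc2, hx2, hs2, htr⟩ := split_subgroup hs H₁ hH₁ hg hgn
      haveI := hn
      exact htr (ih G₁ H₂ (by omega) hx2 hs2)
    by_cases hodd : ∃ l : ℕ, l.Prime ∧ l ≠ 2 ∧ l ∣ Nat.card H
    swap
    · push Not at hodd
      have hc0 : Nat.card H ≠ 0 := Nat.card_pos.ne'
      have h2 : IsPGroup 2 H := by
        apply IsPGroup.of_card (n := (Nat.card H).primeFactorsList.length)
        apply Nat.eq_prime_pow_of_unique_prime_dvd hc0
        intro d hd hdd
        by_contra hne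
        exact hodd d hd hne hdd
      exact h2.isNilpotent
    obtain ⟨l, hl, hl2, hlH⟩ := hodd
    haveI : Fact l.Prime := ⟨hl⟩
    obtain ⟨L⟩ : Nonempty (Sylow l H) := inferInstance
    have hfr := Sylow.normalizer_sup_eq_top L
    set LG : Subgroup G := (L : Subgroup H).map H.subtype with hLG
    have hnotle : ¬ normalizer (LG : Set G) ≤ H := by
      intro hle
      obtain ⟨x, hx⟩ := hx
      apply hx
      have : (⊤ : Subgroup G) ≤ H := by
        rw [← hfr]
        exact sup_le hle le_rfl
      exact this trivial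
    obtain ⟨g, hgN, hg⟩ := SetLike.not_le_iff_exists.mp hnotle
    -- the Thompson subgroup
    set Z : Subgroup H := (elFam H 0).zz (L : Subgroup H) with hZ
    have hLb : (L : Subgroup H) ≠ ⊥ := by
      intro h
      have h1 := L.card_eq_multiplicity
      rw [h, Subgroup.card_bot] at h1
      have hc0 : Nat.card H ≠ 0 := Nat.card_pos.ne'
      have h2 : 1 ≤ (Nat.card H).factorization l := (hl.dvd_iff_one_le_factorization hc0).mp hlH
      have h3 : 1 < l ^ (Nat.card H).factorization l := Nat.one_lt_pow (by omega) hl.one_lt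
      omega
    have hZb : Z ≠ ⊥ := Cfsg.Agent.H19.zz_ne_bot L.isPGroup' hLb
    have hZaut : ∀ g' ∈ normalizer (LG : Set G), ∀ z ∈ Z,
        (MulAut.conjNormal g' : MulAut H) z ∈ Z := by
      intro g' hg' z hz
      apply zz_aut _ _ _ hz
      intro x
      constructor
      · intro hx
        have h1 : g' * (x : G) * g'⁻¹ ∈ LG := ⟨_, hx, rfl⟩
        have h2 := (mem_normalizer_iff.mp hg' (x : G)).mpr h1
        obtain ⟨w, hw, hwe⟩ := h2
        have : w = x := Subtype.ext hwe
        rwa [← this]
      · intro hx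
        have h1 : (x : G) ∈ LG := ⟨x, hx, rfl⟩
        have h2 := (mem_normalizer_iff.mp hg' (x : G)).mp h1
        obtain ⟨w, hw, hwe⟩ := h2
        have : w = (MulAut.conjNormal g' : MulAut H) x := Subtype.ext hwe
        rwa [← this]
    -- a nontrivial abelian normal subgroup
    have hA : (∃ A : Subgroup G, A.Normal ∧ A ≤ H ∧ (∀ a ∈ A, ∀ b ∈ A, a * b = b * a) ∧ A ≠ ⊥) ∨
        Group.IsNilpotent H := by
      by_cases hN : normalizer (Z : Set H) = ⊤
      · left
        refine ⟨Z.map H.subtype, ?_, Subgroup.map_subtype_le _, ?_, ?_⟩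
        · constructor
          rintro _ ⟨z, hz, rfl⟩ g'
          have hg' : g' ∈ normalizer (LG : Set G) ⊔ H := by rw [hfr]; trivial
          rw [← SetLike.mem_coe, Subgroup.mul_normal] at hg'
          obtain ⟨n, hn, h, hh, rfl⟩ := hg'
          have h1 : (⟨h, hh⟩ : H) * z * (⟨h, hh⟩ : H)⁻¹ ∈ Z :=
            (mem_normalizer_iff.mp (hN ▸ mem_top _) z).mp hz
          have h2 := hZaut n hn _ h1
          refine ⟨_, h2, ?_⟩
          show n * (h * (z : G) * h⁻¹) * n⁻¹ = (n * h) * (z : G) * (n * h)⁻¹
          group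
        · rintro _ ⟨a, ha, rfl⟩ _ ⟨b, hb, rfl⟩
          exact congrArg Subtype.val (ZJFam.zz_comm ha hb)
        · intro h
          apply hZb
          exact (Subgroup.map_eq_bot_iff_of_injective _ H.subtype_injective).mp h
      · set N : Subgroup H := normalizer (Z : Set H) with hNdef
        set NG : Subgroup G := N.map H.subtype with hNG
        have hcN : Nat.card NG < Nat.card H := by
          have h1 : Nat.card NG = Nat.card N :=
            (Nat.card_congr (Subgroup.equivMapOfInjective N H.subtype H.subtype_injective).toEquiv).symm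
          rw [h1]
          apply lt_of_le_of_ne (Subgroup.card_le_card_group N)
          intro h2
          exact hN (Subgroup.eq_top_of_card_eq N h2)
        have hinvZ : ∀ g' ∈ normalizer (LG : Set G), ∀ z, (MulAut.conjNormal g' : MulAut H) z ∈ Z → z ∈ Z := by
          intro g' hg' z hz
          have h1 := hZaut g'⁻¹ (inv_mem hg') _ hz
          have h2 : (MulAut.conjNormal g'⁻¹ : MulAut H) ((MulAut.conjNormal g' : MulAut H) z) = z := by
            apply Subtype.ext
            show g'⁻¹ * (g' * (z : G) * g'⁻¹) * g'⁻¹⁻¹ = z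
            group
          rwa [h2] at h1
        have hNaut : ∀ y ∈ N, (MulAut.conjNormal g : MulAut H) y ∈ N := by
          intro y hy
          rw [hNdef, mem_normalizer_iff] at hy ⊢
          intro z
          set θ : MulAut H := MulAut.conjNormal g with hθ
          have hzz : z = θ (θ⁻¹ z) := by
            rw [← MulAut.mul_apply, mul_inv_cancel]; rfl
          have hinvZ' : ∀ w, θ w ∈ Z → w ∈ Z := hinvZ g hgN
          have hfw : ∀ w, w ∈ Z → θ w ∈ Z := hZaut g hgN
          rw [hzz]
          have he : θ y * θ (θ⁻¹ z) * (θ y)⁻¹ = θ (y * θ⁻¹ z * y⁻¹) := by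
            rw [map_mul, map_mul, map_inv]
          rw [he]
          constructor
          · intro h
            exact hfw _ ((hy _).mp (hinvZ' _ h))
          · intro h
            exact hfw _ ((hy _).mpr (hinvZ' _ h))
        have hgNG : g ∈ normalizer (NG : Set G) := by
          apply Cfsg.Agent.H20.mem_normalizer_of_conj_le
          rintro _ ⟨y, hy, rfl⟩
          exact ⟨_, hNaut y hy, rfl⟩
        have hNGnil := hinv NG (Subgroup.map_subtype_le _) hcN g hg hgNG
        haveI hNnil : Group.IsNilpotent N :=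
          Group.nilpotent_of_surjective
            (Subgroup.equivMapOfInjective N H.subtype H.subtype_injective).symm.toMonoidHom
            (Subgroup.equivMapOfInjective N H.subtype H.subtype_injective).symm.surjective
        have hnpc := Cfsg.Agent.H19.npc_of_nilpotent N l
        obtain ⟨P', K0, hK0, hcomp⟩ := glauberman_thompson hl2 (Or.inl rfl) L
          (D := (L : Subgroup H)) ⟨le_rfl, fun x _ g h => h⟩ hnpc
        haveI := hK0
        have hcardK0 : Nat.card K0 = (P' : Subgroup H).index := hcomp.index_eq_card.symm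
        have hidx : K0.index = Nat.card P' := hcomp.symm.index_eq_card
        obtain ⟨a, ha⟩ := IsPGroup.iff_card.mp P'.isPGroup'
        have hmemK0 : ∀ y : H, (orderOf y).Coprime l → y ∈ K0 := by
          intro y hy
          have h1 : y ^ K0.index ∈ K0 := Subgroup.pow_index_mem K0 y
          rw [hidx, ha] at h1
          have hcop : Nat.Coprime (l ^ a) (orderOf y) := Nat.Coprime.pow_left _ hy.symm
          obtain ⟨m, hm⟩ := exists_pow_eq_self_of_coprime hcop
          rw [← hm]
          exact K0.pow_mem h1 m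
        have hK0ord : ∀ y ∈ K0, (orderOf y).Coprime l := by
          intro y hy
          have h1 : orderOf (⟨y, hy⟩ : K0) ∣ Nat.card K0 := orderOf_dvd_natCard _
          rw [Subgroup.orderOf_mk] at h1
          rw [hcardK0] at h1
          exact Nat.Coprime.coprime_dvd_left h1
            (((Nat.Prime.coprime_iff_not_dvd hl).mpr P'.not_dvd_index).symm)
        set KG : Subgroup G := K0.map H.subtype with hKG
        have hKGn : KG.Normal := by
          constructor
          rintro _ ⟨y, hy, rfl⟩ g'
          have h1 : (MulAut.conjNormal g' : MulAut H) y ∈ K0 := by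
            apply hmemK0
            rw [MulEquiv.orderOf_eq]
            exact hK0ord y hy
          exact ⟨_, h1, rfl⟩
        haveI := hKGn
        by_cases hK0b : K0 = ⊥
        · right
          have h1 := hcomp.card_mul_card
          rw [hK0b, Subgroup.card_bot, one_mul, ha] at h1
          exact (IsPGroup.of_card h1.symm).isNilpotent
        · left
          have hcK : Nat.card KG < Nat.card H := by
            have h1 : Nat.card KG = Nat.card K0 :=
              (Nat.card_congr (Subgroup.equivMapOfInjective K0 H.subtype H.subtype_injective).toEquiv).symm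
            rw [h1]
            apply lt_of_le_of_ne (Subgroup.card_le_card_group K0)
            intro h2
            rw [← h2, hcardK0] at hlH
            exact P'.not_dvd_index hlH
          have hKGnil := hinv KG (Subgroup.map_subtype_le _) hcK g hg
            (by rw [Subgroup.normalizer_eq_top_iff.mpr hKGn]; trivial)
          refine ⟨KG ⊓ centralizer (KG : Set G), inferInstance, inf_le_left.trans (Subgroup.map_subtype_le _), ?_, ?_⟩
          · intro a ha b hb
            exact (Subgroup.mem_centralizer_iff.mp hb.2 a ha.1)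
          · have hKb : KG ≠ ⊥ := by
              intro h
              exact hK0b ((Subgroup.map_eq_bot_iff_of_injective _ H.subtype_injective).mp h)
            haveI : Nontrivial KG := (Subgroup.nontrivial_iff_ne_bot KG).2 hKb
            obtain ⟨z, -, hz1, hzc⟩ := Cfsg.Agent.H06.exists_central_of_normal (Q := KG) (N := ⊤)
              inferInstance (by simp)
            intro h
            have hmem : (z : G) ∈ KG ⊓ centralizer (KG : Set G) := by
              refine ⟨z.2, ?_⟩
              show (z : G) ∈ centralizer (KG : Set G)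
              rw [Subgroup.mem_centralizer_iff]
              intro w hw
              have := Subgroup.mem_center_iff.mp hzc ⟨w, hw⟩
              exact congrArg Subtype.val this
            rw [h, Subgroup.mem_bot] at hmem
            exact hz1 (Subtype.ext hmem)
    rcases hA with ⟨A, hAn, hAH, hAab, hA1⟩ | hnil
    swap
    · exact hnil
    haveI := hAn
    obtain ⟨q, hqf, M, hMn, hMA, hM1, hMq⟩ := exists_elem_normal A hAab hA1
    haveI := hMn
    have hMH : M ≤ H := hMA.trans hAH
    have hMab : ∀ a ∈ M, ∀ b ∈ M, a * b = b * a := fun a ha b hb => hAab a (hMA ha) b (hMA hb)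
    have hMp : IsPGroup q M := fun m => ⟨1, Subtype.ext (by simpa using hMq m m.2)⟩
    refine step3 hx hs M hMH hMp hMab ?_
    haveI : (H.map (QuotientGroup.mk' M)).Normal :=
      Subgroup.Normal.map inferInstance _ (QuotientGroup.mk'_surjective M)
    have hmemmap : ∀ y : G, (QuotientGroup.mk' M) y ∈ H.map (QuotientGroup.mk' M) → y ∈ H := by
      rintro y ⟨h, hh, hhy⟩
      have h1 : h⁻¹ * y ∈ M := QuotientGroup.eq.mp hhy
      have h2 := H.mul_mem hh (hMH h1)
      simpa using h2
    apply ih (G ⧸ M) (H.map (QuotientGroup.mk' M))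
    · -- the order drops
      let f : H →* H.map (QuotientGroup.mk' M) := (QuotientGroup.mk' M).subgroupMap H
      have hf : Function.Surjective f := (QuotientGroup.mk' M).subgroupMap_surjective H
      have hcc : Nat.card (H.map (QuotientGroup.mk' M)) < Nat.card H := by
        by_contra hle
        push Not at hle
        have hbij := Function.Surjective.bijective_of_nat_card_le hf hle
        obtain ⟨m, hm⟩ := Subgroup.ne_bot_iff_exists_ne_one.mp hM1
        have hmH : (m : G) ∈ H := hMH m.2
        have h1 : f ⟨m, hmH⟩ = f 1 := by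
          rw [map_one]
          apply Subtype.ext
          exact (QuotientGroup.eq_one_iff _).mpr m.2
        have h2 := hbij.1 h1
        have h3 : (m : G) = 1 := congrArg Subtype.val h2
        exact hm (Subtype.ext h3)
      omega
    · obtain ⟨x, hx⟩ := hx
      exact ⟨(QuotientGroup.mk' M) x, fun h => hx (hmemmap x h)⟩
    · intro y hy
      obtain ⟨y', rfl⟩ := QuotientGroup.mk'_surjective M y
      have h1 : y' ∉ H := fun h => hy (Subgroup.mem_map_of_mem _ h)
      rw [← map_pow, hs y' h1, map_one]

/-- **Kegel's theorem.** -/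
theorem kegel {G : Type u} [Group G] [Finite G] {p : ℕ} (hp : p.Prime) (H : Subgroup G) [H.Normal]
    (hx : ∃ x, x ∉ H) (hs : ∀ g, g ∉ H → g ^ p = 1) : Group.IsNilpotent H := by
  haveI : Fact p.Prime := ⟨hp⟩
  exact kegel_aux p _ G H le_rfl hx hs

end Cfsg.Agent.H20
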