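import Cfsg.Agent.Lib.H19.Wielandt
import Cfsg.Agent.Lib.H19.Kulakoff2
import Cfsg.Agent.Lib.H14.UniqueSub

/-!
Counting subgroups of prime power order modulo `p ^ 2`: invariant `k`-subsets and double counting.
-/

set_option autoImplicit false
set_option linter.unusedVariables false
set_option linter.style.haveILetI false
set_option linter.unusedSectionVars false

namespace Cfsg.Agent.H20.SubCount

open Cfsg.Agent.H19

variable {G : Type*} [Group G] [Finite G]

open Classical in
theorem mem_stab_iff {k : ℕ} (S : PSet G k) (w : G) :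
    w ∈ MulAction.stabilizer G S ↔ ∀ s ∈ S.1, w * s ∈ S.1 := by
  constructor
  · intro hw s hs
    exact stab_mem hw hs
  · intro h
    show w • S = S
    apply Subtype.ext
    rw [psetAction_coe]
    apply Finset.eq_of_subset_of_card_le
    · intro x hx
      rw [Finset.mem_smul_finset] at hx
      obtain ⟨y, hy, rfl⟩ := hx
      exact h y hy
    · rw [Finset.card_smul_finset]

/-- The right coset map `x ↦ x⁻¹ X`. -/
private def rc (X : Subgroup G) (x : G) : G ⧸ X := ((x⁻¹ : G) : G ⧸ X)

private lemma rc_eq_iff {X : Subgroup G} {x y : G} : rc X x = rc X y ↔ x * y⁻¹ ∈ X := by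
  unfold rc
  rw [QuotientGroup.eq]
  simp

open Classical in
private lemma rc_fiber (X : Subgroup G) (q : G ⧸ X) [Fintype G] :
    (Finset.univ.filter (fun x : G => rc X x = q)).card = Nat.card X := by
  obtain ⟨x₀, rfl⟩ : ∃ x₀, rc X x₀ = q := by
    obtain ⟨z, rfl⟩ := QuotientGroup.mk_surjective q
    exact ⟨z⁻¹, by simp [rc]⟩
  rw [Nat.card_eq_fintype_card, ← Fintype.card_coe]
  refine Fintype.card_congr ?_
  refine ⟨fun x => ⟨x.1 * x₀⁻¹, ?_⟩, fun h => ⟨h.1 * x₀, ?_⟩, ?_, ?_⟩
  · have := x.2
    rw [Finset.mem_filter] at this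
    exact rc_eq_iff.1 this.2
  · rw [Finset.mem_filter]
    refine ⟨Finset.mem_univ _, rc_eq_iff.2 ?_⟩
    simpa using h.2
  · intro x
    simp
  · intro h
    simp

/-- Number of `k`-subsets invariant under left multiplication by `X`. -/
theorem card_inv (X : Subgroup G) (t : ℕ) {k : ℕ} (hk : Nat.card X * t = k) :
    Nat.card {S : PSet G k // X ≤ MulAction.stabilizer G S} = (Nat.card (G ⧸ X)).choose t := by
  classical
  haveI := Fintype.ofFinite G
  haveI : Fintype (G ⧸ X) := Fintype.ofFinite _
  have hXpos : 0 < Nat.card X := Nat.card_pos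
  -- card of a saturated set
  have hcard : ∀ T : Finset (G ⧸ X),
      (Finset.univ.filter (fun x : G => rc X x ∈ T)).card = Nat.card X * T.card := by
    intro T
    rw [Finset.card_eq_sum_card_fiberwise (s := Finset.univ.filter (fun x : G => rc X x ∈ T))
      (f := rc X) (t := T) (fun x hx => (Finset.mem_filter.1 (Finset.mem_coe.1 hx)).2)]
    rw [mul_comm, ← smul_eq_mul, ← Finset.sum_const]
    apply Finset.sum_congr rfl
    intro q hq
    rw [← rc_fiber X q]
    congr 1
    ext x
    simp only [Finset.mem_filter, Finset.mem_univ, true_and]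
    constructor
    · exact fun h => h.2
    · intro h
      exact ⟨h ▸ hq, h⟩
  let Ψ : {T : Finset (G ⧸ X) // T.card = t} → {S : PSet G k // X ≤ MulAction.stabilizer G S} :=
    fun T => ⟨(⟨Finset.univ.filter (fun x : G => rc X x ∈ T.1), by rw [hcard, T.2, hk]⟩ : PSet G k), by
      intro h hh
      refine (mem_stab_iff _ _).2 ?_
      intro s hs
      rw [Finset.mem_filter] at hs ⊢
      refine ⟨Finset.mem_univ _, ?_⟩
      have : rc X (h * s) = rc X s := rc_eq_iff.2 (by simpa using hh)
      rw [this]
      exact hs.2⟩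
  have hΨ : Function.Bijective Ψ := by
    constructor
    · rintro ⟨T, hT⟩ ⟨T', hT'⟩ h
      have h1 : Finset.univ.filter (fun x : G => rc X x ∈ T) =
          Finset.univ.filter (fun x : G => rc X x ∈ T') :=
        congrArg (fun z => z.1.1) h
      apply Subtype.ext
      ext q
      obtain ⟨x, rfl⟩ : ∃ x, rc X x = q := by
        obtain ⟨z, rfl⟩ := QuotientGroup.mk_surjective q
        exact ⟨z⁻¹, by simp [rc]⟩
      have h2 := Finset.ext_iff.1 h1 x
      simpa using h2
    · rintro ⟨S, hS⟩
      have hsat : Finset.univ.filter (fun x : G => rc X x ∈ S.1.image (rc X)) = S.1 := by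
        ext x
        simp only [Finset.mem_filter, Finset.mem_univ, true_and, Finset.mem_image]
        constructor
        · rintro ⟨s, hs, hsx⟩
          have h1 : x * s⁻¹ ∈ X := rc_eq_iff.1 hsx.symm
          have h2 := (mem_stab_iff S _).1 (hS h1) s hs
          simpa using h2
        · intro hx
          exact ⟨x, hx, rfl⟩
      have hT : (S.1.image (rc X)).card = t := by
        have h1 := hcard (S.1.image (rc X))
        rw [hsat] at h1
        have h2 : S.1.card = k := S.2
        have h3 : Nat.card X * (S.1.image (rc X)).card = Nat.card X * t := by rw [← h1, h2, hk]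
        exact Nat.eq_of_mul_eq_mul_left hXpos h3
      refine ⟨⟨S.1.image (rc X), hT⟩, ?_⟩
      apply Subtype.ext
      apply Subtype.ext
      exact hsat
  rw [← Nat.card_congr (Equiv.ofBijective Ψ hΨ), Nat.card_eq_fintype_card, Fintype.card_finset_len,
    Nat.card_eq_fintype_card]

private lemma choose_eq (k W : ℕ) (hk : 0 < k) (hW : 0 < W) :
    (k * W).choose k = W * (k * W - 1).choose (k - 1) := by
  obtain ⟨k', rfl⟩ : ∃ k', k = k' + 1 := ⟨k - 1, by omega⟩
  have hN : 0 < (k' + 1) * W := Nat.mul_pos hk hW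
  obtain ⟨n, hn⟩ : ∃ n, (k' + 1) * W = n + 1 := ⟨(k' + 1) * W - 1, by omega⟩
  have h1 := Nat.add_one_mul_choose_eq n k'
  rw [hn]
  simp only [Nat.add_sub_cancel]
  rw [← hn] at h1 ⊢
  apply Nat.eq_of_mul_eq_mul_right hk
  calc ((k' + 1) * W).choose (k' + 1) * (k' + 1) = ((k' + 1) * W) * n.choose k' := h1.symm
    _ = W * n.choose k' * (k' + 1) := by ring

/-- Subsets whose stabilizer has order neither `k` nor `l`. -/
private def smallStab2 (G : Type*) [Group G] [Finite G] (k l : ℕ) : SubMulAction G (PSet G k) where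
  carrier := {S | Nat.card (MulAction.stabilizer G S) ≠ k ∧ Nat.card (MulAction.stabilizer G S) ≠ l}
  smul_mem' := by
    intro g S hS
    show Nat.card (MulAction.stabilizer G (g • S)) ≠ k ∧ Nat.card (MulAction.stabilizer G (g • S)) ≠ l
    rw [card_stab_smul]
    exact hS

private theorem dvd_card_small {p a W : ℕ} (hp : p.Prime) (hN : Nat.card G = p ^ (a + 1) * W) :
    W * p ^ 2 ∣ Nat.card {S : PSet G (p ^ (a + 1)) //
      Nat.card (MulAction.stabilizer G S) ≠ p ^ (a + 1) ∧
        Nat.card (MulAction.stabilizer G S) ≠ p ^ a} := by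
  show _ ∣ Nat.card (smallStab2 G (p ^ (a + 1)) (p ^ a))
  apply dvd_card_of_orbits (G := G)
  intro y
  set S := y.1 with hS
  have hyS : Nat.card (MulAction.stabilizer G S) ≠ p ^ (a + 1) ∧
      Nat.card (MulAction.stabilizer G S) ≠ p ^ a := y.2
  have h1 : Nat.card (MulAction.orbit G y) = Nat.card (MulAction.orbit G S) := by
    apply Nat.card_congr
    refine ⟨fun z => ⟨z.1.1, ?_⟩, fun z => ⟨⟨z.1, ?_⟩, ?_⟩, ?_, ?_⟩
    · obtain ⟨g, hg⟩ := z.2
      exact ⟨g, by rw [← hg]; rfl⟩
    · obtain ⟨g, hg⟩ := z.2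
      rw [← hg]
      exact (smallStab2 G (p ^ (a + 1)) (p ^ a)).smul_mem g y.2
    · obtain ⟨g, hg⟩ := z.2
      refine ⟨g, Subtype.ext hg⟩
    · intro z; rfl
    · intro z; rfl
  rw [h1]
  have h2 : Nat.card (MulAction.orbit G S) * Nat.card (MulAction.stabilizer G S) = Nat.card G := by
    have h3 := (MulAction.stabilizer G S).card_mul_index
    rw [MulAction.index_stabilizer, ← Nat.card_coe_set_eq] at h3
    rw [mul_comm]; exact h3
  have h3 : Nat.card (MulAction.stabilizer G S) ∣ p ^ (a + 1) := card_stab_dvd S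
  obtain ⟨j, hj, hj2⟩ := (Nat.dvd_prime_pow hp).1 h3
  have hja : j < a := by
    have h4 : j ≠ a + 1 := by
      rintro rfl
      exact hyS.1 hj2
    have h5 : j ≠ a := by
      rintro rfl
      exact hyS.2 hj2
    omega
  rw [hj2, hN] at h2
  generalize Nat.card (MulAction.orbit G S) = O at h2 ⊢
  have h6 : p ^ (a + 1) = p ^ 2 * p ^ (a - 1 - j) * p ^ j := by
    rw [← pow_add, ← pow_add]
    congr 1
    omega
  rw [h6] at h2
  have h7 : O = p ^ 2 * p ^ (a - 1 - j) * W := by
    apply Nat.eq_of_mul_eq_mul_right (pow_pos hp.pos j)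
    rw [h2]
    ring
  rw [h7]
  exact ⟨p ^ (a - 1 - j), by ring⟩

/-- The master congruence. -/
theorem master {p a W : ℕ} (hp : p.Prime) (hN : Nat.card G = p ^ (a + 1) * W) :
    ∃ R : ℕ, (Nat.card G - 1).choose (p ^ (a + 1) - 1) +
        Nat.card {x : Subgroup G × Subgroup G // Nat.card x.1 = p ^ (a + 1) ∧ Nat.card x.2 = p ^ a ∧
          x.2 ≤ x.1} =
      Nat.card {K : Subgroup G // Nat.card K = p ^ (a + 1)} +
        Nat.card {K : Subgroup G // Nat.card K = p ^ a} * (p * W - 1).choose (p - 1) + p ^ 2 * R := by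
  classical
  haveI := Fintype.ofFinite G
  haveI : Fintype (Subgroup G) := Fintype.ofFinite _
  set k := p ^ (a + 1) with hk
  have hkpos : 0 < k := pow_pos hp.pos _
  have hWpos : 0 < W := by
    rcases Nat.eq_zero_or_pos W with h | h
    · rw [h, mul_zero] at hN
      exact absurd hN Nat.card_pos.ne'
    · exact h
  haveI : Fintype (PSet G k) := Fintype.ofFinite _
  let st : PSet G k → Subgroup G := fun S => MulAction.stabilizer G S
  let A0 : Finset (PSet G k) := Finset.univ.filter (fun S => Nat.card (st S) = k)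
  let A1 : Finset (PSet G k) := Finset.univ.filter (fun S => ¬ Nat.card (st S) = k ∧ Nat.card (st S) = p ^ a)
  let A2 : Finset (PSet G k) := Finset.univ.filter (fun S => ¬ Nat.card (st S) = k ∧ ¬ Nat.card (st S) = p ^ a)
  let SubK : Finset (Subgroup G) := Finset.univ.filter (fun K => Nat.card K = k)
  let SubQ : Finset (Subgroup G) := Finset.univ.filter (fun K => Nat.card K = p ^ a)
  have hstdvd : ∀ S, Nat.card (st S) ∣ k := fun S => card_stab_dvd S
  -- total count
  have htotal : A0.card + A1.card + A2.card = (Nat.card G).choose k := by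
    have h1 : (Nat.card G).choose k = Nat.card (PSet G k) := by
      rw [Nat.card_eq_fintype_card (α := G)]
      have := Fintype.card_finset_len (α := G) k
      rw [← this, ← Nat.card_eq_fintype_card]
      rfl
    rw [h1, Nat.card_eq_fintype_card, ← Finset.card_univ,
      ← Finset.card_filter_add_card_filter_not (s := (Finset.univ : Finset (PSet G k)))
        (fun S => Nat.card (st S) = k)]
    rw [add_assoc]
    congr 1
    rw [← Finset.card_filter_add_card_filter_not
        (s := (Finset.univ.filter (fun S : PSet G k => ¬ Nat.card (st S) = k)))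
        (fun S => Nat.card (st S) = p ^ a)]
    congr 1
    · congr 1
      ext S
      simp [A1]
    · congr 1
      ext S
      simp [A2]
  -- small part
  have hA2 : W * p ^ 2 ∣ A2.card := by
    have h1 := dvd_card_small (G := G) (a := a) (W := W) hp hN
    have h2 : A2.card = Nat.card {S : PSet G (p ^ (a + 1)) //
      Nat.card (MulAction.stabilizer G S) ≠ p ^ (a + 1) ∧
        Nat.card (MulAction.stabilizer G S) ≠ p ^ a} := by
      rw [Nat.card_eq_fintype_card, Fintype.card_subtype]
    rw [h2]
    exact h1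
  -- fibers of the stabilizer over subgroups of order k
  have hfib : ∀ K ∈ SubK, (A0.filter (fun S => st S = K)).card = W := by
    intro K hK
    have hKc : Nat.card K = k := (Finset.mem_filter.1 hK).2
    have h1 := card_inv K 1 (k := k) (by rw [mul_one, hKc])
    have h2 : Nat.card (G ⧸ K) = W := by
      have h3 := K.card_mul_index
      rw [hKc, hN] at h3
      exact Nat.eq_of_mul_eq_mul_left hkpos h3
    rw [h2, Nat.choose_one_right] at h1
    rw [← h1, Nat.card_eq_fintype_card, Fintype.card_subtype]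
    congr 1
    ext S
    simp only [Finset.mem_filter, Finset.mem_univ, true_and, A0]
    constructor
    · rintro ⟨-, h⟩
      exact le_of_eq h.symm
    · intro h
      have h3 : Nat.card K ∣ Nat.card (st S) := Subgroup.card_dvd_of_le h
      have h4 : Nat.card (st S) = k := by
        apply Nat.dvd_antisymm (hstdvd S)
        rwa [hKc] at h3
      refine ⟨h4, ?_⟩
      exact (Subgroup.eq_of_le_of_card_ge h (by rw [h4, hKc])).symm
  have hsumA0 : ∀ F : Subgroup G → ℕ, ∑ S ∈ A0, F (st S) = W * ∑ K ∈ SubK, F K := by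
    intro F
    have hmaps : ∀ S ∈ A0, st S ∈ SubK := by
      intro S hS
      exact Finset.mem_filter.2 ⟨Finset.mem_univ _, (Finset.mem_filter.1 hS).2⟩
    rw [← Finset.sum_fiberwise_of_maps_to hmaps, Finset.mul_sum]
    apply Finset.sum_congr rfl
    intro K hK
    have h1 : ∀ S ∈ A0.filter (fun S => st S = K), F (st S) = F K := by
      intro S hS
      rw [(Finset.mem_filter.1 hS).2]
    rw [Finset.sum_congr rfl h1, Finset.sum_const, hfib K hK, smul_eq_mul]
  have hA0 : A0.card = W * SubK.card := by
    have h1 := hsumA0 (fun _ => 1)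
    simpa using h1
  -- double counting
  let m : Subgroup G → ℕ := fun K => (SubQ.filter (fun Q => Q ≤ K)).card
  have hdouble : SubQ.card * (p * W).choose p = W * ∑ K ∈ SubK, m K + A1.card := by
    have h1 : ∑ Q ∈ SubQ, ((Finset.univ : Finset (PSet G k)).filter (fun S => Q ≤ st S)).card =
        SubQ.card * (p * W).choose p := by
      rw [← smul_eq_mul, ← Finset.sum_const]
      apply Finset.sum_congr rfl
      intro Q hQ
      have hQc : Nat.card Q = p ^ a := (Finset.mem_filter.1 hQ).2
      have h2 := card_inv Q p (k := k) (by rw [hQc, hk, pow_succ])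
      have h3 : Nat.card (G ⧸ Q) = p * W := by
        have h4 := Q.card_mul_index
        rw [hQc, hN, hk, pow_succ, mul_assoc] at h4
        exact Nat.eq_of_mul_eq_mul_left (pow_pos hp.pos a) h4
      rw [h3] at h2
      rw [← h2, Nat.card_eq_fintype_card, Fintype.card_subtype]
    have h2 := Finset.sum_card_bipartiteAbove_eq_sum_card_bipartiteBelow
      (s := SubQ) (t := (Finset.univ : Finset (PSet G k))) (fun Q S => Q ≤ st S)
    unfold Finset.bipartiteAbove Finset.bipartiteBelow at h2
    rw [h1] at h2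
    rw [h2, ← Finset.sum_filter_add_sum_filter_not (s := (Finset.univ : Finset (PSet G k)))
      (fun S => Nat.card (st S) = k)]
    rw [← hsumA0]
    congr 1
    rw [← Finset.sum_filter_add_sum_filter_not
      (s := (Finset.univ.filter (fun S : PSet G k => ¬ Nat.card (st S) = k)))
      (fun S => Nat.card (st S) = p ^ a)]
    have h3 : ∀ S ∈ ((Finset.univ.filter (fun S : PSet G k => ¬ Nat.card (st S) = k)).filter
        (fun S => ¬ Nat.card (st S) = p ^ a)), (SubQ.filter (fun Q => Q ≤ st S)).card = 0 := by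
      intro S hS
      rw [Finset.card_eq_zero, Finset.filter_eq_empty_iff]
      intro Q hQ hle
      have hQc : Nat.card Q = p ^ a := (Finset.mem_filter.1 hQ).2
      simp only [Finset.mem_filter, Finset.mem_univ, true_and] at hS
      obtain ⟨j, hj, hj2⟩ := (Nat.dvd_prime_pow hp).1 (hstdvd S)
      have h4 : p ^ a ∣ p ^ j := by
        rw [← hQc, ← hj2]
        exact Subgroup.card_dvd_of_le hle
      have h5 := (Nat.pow_dvd_pow_iff_le_right hp.one_lt).1 h4
      have h6 : j = a ∨ j = a + 1 := by omega
      rcases h6 with rfl | rfl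
      · exact hS.2 hj2
      · exact hS.1 hj2
    rw [Finset.sum_eq_zero h3, add_zero]
    have h4 : ∀ S ∈ ((Finset.univ.filter (fun S : PSet G k => ¬ Nat.card (st S) = k)).filter
        (fun S => Nat.card (st S) = p ^ a)), (SubQ.filter (fun Q => Q ≤ st S)).card = 1 := by
      intro S hS
      simp only [Finset.mem_filter, Finset.mem_univ, true_and] at hS
      rw [Finset.card_eq_one]
      refine ⟨st S, ?_⟩
      ext Q
      simp only [Finset.mem_filter, Finset.mem_singleton, Finset.mem_univ, true_and, SubQ]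
      constructor
      · rintro ⟨hQc, hle⟩
        exact Subgroup.eq_of_le_of_card_ge hle (by rw [hQc, hS.2])
      · rintro rfl
        exact ⟨hS.2, le_refl _⟩
    rw [Finset.sum_congr rfl h4, Finset.sum_const, smul_eq_mul, mul_one]
    congr 1
    ext S
    simp [A1]
  -- translate
  obtain ⟨R, hR⟩ := hA2
  have hNk : Nat.card G = k * W := hN
  have e1 : (Nat.card G).choose k = W * (Nat.card G - 1).choose (k - 1) := by
    rw [hNk]; exact choose_eq k W hkpos hWpos
  have e2 : (p * W).choose p = W * (p * W - 1).choose (p - 1) := choose_eq p W hp.pos hWpos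
  have hSubK : Nat.card {K : Subgroup G // Nat.card K = k} = SubK.card := by
    rw [Nat.card_eq_fintype_card, Fintype.card_subtype]
  have hSubQ : Nat.card {K : Subgroup G // Nat.card K = p ^ a} = SubQ.card := by
    rw [Nat.card_eq_fintype_card, Fintype.card_subtype]
  have hpairs : Nat.card {x : Subgroup G × Subgroup G // Nat.card x.1 = k ∧ Nat.card x.2 = p ^ a ∧
      x.2 ≤ x.1} = ∑ K ∈ SubK, m K := by
    have h1 : Nat.card {x : Subgroup G × Subgroup G // Nat.card x.1 = k ∧ Nat.card x.2 = p ^ a ∧
        x.2 ≤ x.1} = (SubK.sigma (fun K => SubQ.filter (fun Q => Q ≤ K))).card := by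
      rw [Nat.card_eq_fintype_card, ← Fintype.card_coe]
      apply Fintype.card_congr
      refine ⟨fun x => ⟨⟨x.1.1, x.1.2⟩, ?_⟩, fun y => ⟨(y.1.1, y.1.2), ?_⟩, ?_, ?_⟩
      · simp only [Finset.mem_sigma, Finset.mem_filter, Finset.mem_univ, true_and, SubK, SubQ]
        exact ⟨x.2.1, x.2.2.1, x.2.2.2⟩
      · have h2 := y.2
        simp only [Finset.mem_sigma, Finset.mem_filter, Finset.mem_univ, true_and, SubK, SubQ] at h2
        exact ⟨h2.1, h2.2.1, h2.2.2⟩
      · intro x; rfl
      · intro y; rfl
    rw [h1, Finset.card_sigma]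
  refine ⟨R, ?_⟩
  rw [hpairs, hSubK, hSubQ]
  apply Nat.eq_of_mul_eq_mul_left hWpos
  have e3 : W * (Nat.card G - 1).choose (k - 1) = A0.card + A1.card + W * p ^ 2 * R := by
    rw [← e1, ← htotal, hR]
  rw [e2] at hdouble
  rw [mul_add, e3, hA0]
  have e4 : SubQ.card * (W * (p * W - 1).choose (p - 1)) =
      W * (SubQ.card * (p * W - 1).choose (p - 1)) := by ring
  rw [e4] at hdouble
  nlinarith [hdouble]

section Hom

variable {R : Type*} [Group R] [Finite R] {p : ℕ} [hpf : Fact p.Prime]

private lemma geom_aux (p n : ℕ) : (∑ i ∈ Finset.range n, p ^ i) * (p - 1) + 1 = p ^ n ∨ p = 0 := by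
  rcases Nat.eq_zero_or_pos p with h | h
  · right; exact h
  left
  induction n with
  | zero => simp
  | succ n ih =>
    rw [Finset.sum_range_succ, add_mul, pow_succ]
    obtain ⟨q, rfl⟩ : ∃ q, p = q + 1 := ⟨p - 1, by omega⟩
    simp only [Nat.add_sub_cancel] at ih ⊢
    nlinarith [ih]

private lemma arith_final (p m d : ℕ) (hp : p.Prime) (h : m * (p - 1) + 1 = p ^ d) (hm : 2 ≤ m) :
    ∃ e, m = 1 + p + p ^ 2 * e := by
  have hp2 := hp.two_le
  have hd : 2 ≤ d := by
    by_contra hcon
    have hd1 : d ≤ 1 := by omega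
    have h1 : p ^ d ≤ p ^ 1 := Nat.pow_le_pow_right hp.pos hd1
    rw [pow_one] at h1
    have h2 : 2 * (p - 1) ≤ m * (p - 1) := Nat.mul_le_mul_right _ hm
    omega
  obtain ⟨d', rfl⟩ : ∃ d', d = d' + 2 := ⟨d - 2, by omega⟩
  rcases geom_aux p (d' + 2) with h1 | h1
  · have h2 : m = ∑ i ∈ Finset.range (d' + 2), p ^ i := by
      have h3 : m * (p - 1) = (∑ i ∈ Finset.range (d' + 2), p ^ i) * (p - 1) := by omega
      exact Nat.eq_of_mul_eq_mul_right (by omega) h3
    refine ⟨∑ i ∈ Finset.range d', p ^ i, ?_⟩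
    rw [h2, Finset.sum_range_succ', Finset.sum_range_succ', Finset.mul_sum]
    simp only [pow_zero, zero_add, pow_one]
    have h4 : ∀ i ∈ Finset.range d', p ^ (i + 1 + 1) = p ^ 2 * p ^ i := fun i _ => by ring
    rw [Finset.sum_congr rfl h4]
    ring
  · omega

private abbrev Ch (R : Type*) [Group R] (p : ℕ) := R →* Multiplicative (ZMod p)

private instance : Finite (Ch R p) :=
  Finite.of_injective (fun f => (f : R → Multiplicative (ZMod p))) DFunLike.coe_injective

private lemma ch_pow_eq (f : Ch R p) (x : R) : (f x) ^ p = 1 := by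
  have h : Nat.card (Multiplicative (ZMod p)) = p := by
    rw [Nat.card_eq_fintype_card, Fintype.card_multiplicative, ZMod.card]
  have h1 := pow_card_eq_one' (x := f x)
  rwa [h] at h1

private lemma ch_range_top {f : Ch R p} (hf : f ≠ 1) : f.range = ⊤ := by
  have hcard : Nat.card (Multiplicative (ZMod p)) = p := by
    rw [Nat.card_eq_fintype_card, Fintype.card_multiplicative, ZMod.card]
  haveI : Fact (Nat.card (Multiplicative (ZMod p))).Prime := by
    rw [hcard]; exact hpf
  rcases Subgroup.eq_bot_or_eq_top_of_prime_card f.range with h | h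
  · exfalso
    apply hf
    ext x
    have : f x ∈ f.range := ⟨x, rfl⟩
    rw [h, Subgroup.mem_bot] at this
    simp [this]
  · exact h

private lemma ch_ker_index {f : Ch R p} (hf : f ≠ 1) : f.ker.index = p := by
  rw [Subgroup.index_ker, ch_range_top hf, Subgroup.card_top, Nat.card_eq_fintype_card,
    Fintype.card_multiplicative, ZMod.card]

/-- Characters with a given kernel are the powers of one of them. -/
private lemma ch_fiber (f : Ch R p) (hf : f ≠ 1) :
    Nat.card {g : Ch R p // g ≠ 1 ∧ g.ker = f.ker} = p - 1 := by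
  classical
  have hp : p.Prime := hpf.out
  have hpow : ∀ (z : Multiplicative (ZMod p)), z ≠ 1 → ∀ i : ℕ, 0 < i → i < p → z ^ i ≠ 1 := by
    intro z hz i hi hip h1
    have hz' : orderOf z = p := orderOf_eq_prime (by
      have h : Nat.card (Multiplicative (ZMod p)) = p := by
        rw [Nat.card_eq_fintype_card, Fintype.card_multiplicative, ZMod.card]
      have h1 := pow_card_eq_one' (x := z)
      rwa [h] at h1) hz
    have := orderOf_dvd_of_pow_eq_one h1
    rw [hz'] at this
    have := Nat.le_of_dvd hi this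
    omega
  obtain ⟨x, hx⟩ : ∃ x, f x ≠ 1 := by
    by_contra hcon
    push Not at hcon
    exact hf (MonoidHom.ext hcon)
  have hgen : ∀ z : Multiplicative (ZMod p), ∃ i : ℕ, i < p ∧ (f x) ^ i = z := by
    intro z
    have hord : orderOf (f x) = p := orderOf_eq_prime (ch_pow_eq f x) hx
    have hcard : Nat.card (Multiplicative (ZMod p)) = p := by
      rw [Nat.card_eq_fintype_card, Fintype.card_multiplicative, ZMod.card]
    have htop : Subgroup.zpowers (f x) = ⊤ := by
      apply Subgroup.eq_top_of_card_eq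
      rw [Nat.card_zpowers, hord, hcard]
    have hz : z ∈ Subgroup.zpowers (f x) := by rw [htop]; trivial
    obtain ⟨i, hi⟩ := (mem_powers_iff_mem_zpowers.2 hz)
    refine ⟨i % p, Nat.mod_lt _ hp.pos, ?_⟩
    have h5 := pow_mod_orderOf (f x) i
    rw [hord] at h5
    rw [h5]
    exact hi
  let Φ : {i : ℕ // 0 < i ∧ i < p} → {g : Ch R p // g ≠ 1 ∧ g.ker = f.ker} := fun i =>
    ⟨f ^ i.1, by
      intro h
      have h1 : (f ^ i.1) x = 1 := by rw [h]; rfl
      exact hpow _ hx i.1 i.2.1 i.2.2 (by simpa using h1), by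
      ext y
      rw [MonoidHom.mem_ker, MonoidHom.mem_ker]
      have h2 : (f ^ i.1) y = (f y) ^ i.1 := rfl
      rw [h2]
      constructor
      · intro h
        by_contra hy
        exact hpow _ hy i.1 i.2.1 i.2.2 h
      · intro h
        rw [h, one_pow]⟩
  have hΦ : Function.Bijective Φ := by
    constructor
    · rintro ⟨i, hi⟩ ⟨j, hj⟩ h
      have h1 : (f ^ i) x = (f ^ j) x := by
        have := congrArg (fun g : {g : Ch R p // g ≠ 1 ∧ g.ker = f.ker} => g.1 x) h
        exact this
      have h2 : (f x) ^ i = (f x) ^ j := h1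
      have hord : orderOf (f x) = p := orderOf_eq_prime (ch_pow_eq f x) hx
      have h3 := pow_injOn_Iio_orderOf (x := f x)
      have h4 : i = j := h3 (by simp [hord, hi.2]) (by simp [hord, hj.2]) h2
      exact Subtype.ext h4
    · rintro ⟨g, hg1, hgk⟩
      obtain ⟨i, hi, hix⟩ := hgen (g x)
      have hgx : g x ≠ 1 := by
        intro h
        have h1 : x ∈ g.ker := h
        rw [hgk] at h1
        exact hx h1
      have hi0 : 0 < i := by
        rcases Nat.eq_zero_or_pos i with h | h
        · rw [h, pow_zero] at hix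
          exact absurd hix.symm hgx
        · exact h
      refine ⟨⟨i, hi0, hi⟩, ?_⟩
      apply Subtype.ext
      ext y
      obtain ⟨j, hj, hjy⟩ := hgen (f y)
      have h1 : y * (x ^ j)⁻¹ ∈ f.ker := by
        rw [MonoidHom.mem_ker, map_mul, map_inv, map_pow, hjy]
        simp
      rw [← hgk] at h1
      have h2 : g y = g (x ^ j) := by
        rw [MonoidHom.mem_ker, map_mul, map_inv] at h1
        exact eq_of_mul_inv_eq_one h1
      show (f ^ i) y = _
      calc (f ^ i) y = (f y) ^ i := rfl
        _ = ((f x) ^ j) ^ i := by rw [hjy]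
        _ = ((f x) ^ i) ^ j := by rw [← pow_mul, ← pow_mul, mul_comm]
        _ = (g x) ^ j := by rw [hix]
        _ = g (x ^ j) := (map_pow g x j).symm
        _ = g y := h2.symm
  rw [← Nat.card_congr (Equiv.ofBijective Φ hΦ)]
  have hcard : Nat.card {i : ℕ // 0 < i ∧ i < p} = Nat.card ↥(Finset.Ioo 0 p) :=
    Nat.card_congr (Equiv.subtypeEquivRight (fun i => by simp))
  rw [hcard, Nat.card_eq_fintype_card, Fintype.card_coe, Nat.card_Ioo]
  omega

/-- Counting: every index-`p` subgroup arises as a kernel, with `p - 1` characters. -/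
private lemma card_index_p (a : ℕ) (hR : Nat.card R = p ^ (a + 1)) :
    Nat.card {Q : Subgroup R // Nat.card Q = p ^ a} * (p - 1) + 1 = Nat.card (Ch R p) := by
  classical
  have hp : p.Prime := hpf.out
  haveI : Fintype (Ch R p) := Fintype.ofFinite _
  haveI : Fintype {Q : Subgroup R // Nat.card Q = p ^ a} := Fintype.ofFinite _
  have hG : IsPGroup p R := IsPGroup.of_card hR
  have hker : ∀ f : Ch R p, f ≠ 1 → Nat.card f.ker = p ^ a := by
    intro f hf
    have h1 := f.ker.card_mul_index
    rw [ch_ker_index hf, hR, pow_succ] at h1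
    exact Nat.eq_of_mul_eq_mul_right hp.pos h1
  -- every Q is a kernel
  have hsurj : ∀ Q : {Q : Subgroup R // Nat.card Q = p ^ a}, ∃ f : Ch R p, f ≠ 1 ∧ f.ker = Q.1 := by
    rintro ⟨Q, hQ⟩
    have hidx : Q.index = p := by
      have h1 := Q.card_mul_index
      rw [hQ, hR, pow_succ] at h1
      exact Nat.eq_of_mul_eq_mul_left (pow_pos hp.pos a) h1
    have hcoat : IsCoatom Q := H19.isCoatom_of_index_prime (by rw [hidx]; exact hp)
    have hnorm := (H14.coatom_normal_index hG hcoat).1
    haveI := hnorm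
    have hq : Nat.card (R ⧸ Q) = p := hidx
    have hc : Nat.card (Multiplicative (ZMod p)) = p := by
      rw [Nat.card_eq_fintype_card, Fintype.card_multiplicative, ZMod.card]
    let e : R ⧸ Q ≃* Multiplicative (ZMod p) := mulEquivOfPrimeCardEq hq hc
    let f : Ch R p := e.toMonoidHom.comp (QuotientGroup.mk' Q)
    have hfk : f.ker = Q := by
      ext x
      rw [MonoidHom.mem_ker]
      simp only [f, MonoidHom.comp_apply, MulEquiv.coe_toMonoidHom]
      rw [EmbeddingLike.map_eq_one_iff, QuotientGroup.mk'_apply, QuotientGroup.eq_one_iff]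
    refine ⟨f, ?_, hfk⟩
    intro hf1
    have h1 : Q = ⊤ := by
      rw [← hfk, hf1]
      ext x
      simp
    rw [h1, Subgroup.index_top] at hidx
    exact hp.one_lt.ne hidx
  -- sigma decomposition
  let E := {f : Ch R p // f ≠ 1}
  have h1 : Nat.card E + 1 = Nat.card (Ch R p) := by
    have h2 : Nat.card (Ch R p) = Nat.card (E ⊕ Unit) := by
      apply Nat.card_congr
      exact (Equiv.sumCompl (fun f : Ch R p => f ≠ 1)).symm.trans
        (Equiv.sumCongr (Equiv.refl _) ⟨fun _ => (), fun _ => ⟨1, by simp⟩,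
          fun x => Subtype.ext (by
            have := x.2
            simp only [not_not] at this
            exact this.symm), fun _ => rfl⟩)
    rw [h2, Nat.card_sum]
    simp
  have h2 : Nat.card E = Nat.card {Q : Subgroup R // Nat.card Q = p ^ a} * (p - 1) := by
    let g : E → {Q : Subgroup R // Nat.card Q = p ^ a} := fun f => ⟨f.1.ker, hker f.1 f.2⟩
    have e1 : E ≃ Σ Q : {Q : Subgroup R // Nat.card Q = p ^ a}, {f : E // g f = Q} :=
      (Equiv.sigmaFiberEquiv g).symm
    rw [Nat.card_congr e1, Nat.card_sigma]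
    have h3 : ∀ Q : {Q : Subgroup R // Nat.card Q = p ^ a}, Nat.card {f : E // g f = Q} = p - 1 := by
      intro Q
      obtain ⟨f, hf, hfk⟩ := hsurj Q
      rw [← ch_fiber f hf]
      apply Nat.card_congr
      refine ⟨fun x => ⟨x.1.1, x.1.2, ?_⟩, fun x => ⟨⟨x.1, x.2.1⟩, ?_⟩, ?_, ?_⟩
      · have := congrArg Subtype.val x.2
        rw [hfk]
        exact this
      · apply Subtype.ext
        show x.1.ker = Q.1
        rw [x.2.2, hfk]
      · intro x; rfl
      · intro x; rfl
    rw [Finset.sum_congr rfl (fun Q _ => h3 Q), Finset.sum_const, smul_eq_mul, Finset.card_univ,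
      Nat.card_eq_fintype_card]
  rw [← h1, h2]

/-- The number of subgroups of index `p` in a noncyclic group of order `p ^ (a + 1)`. -/
theorem card_index_p_noncyclic (a : ℕ) (hR : Nat.card R = p ^ (a + 1)) (hnc : ¬ IsCyclic R) :
    ∃ e, Nat.card {Q : Subgroup R // Nat.card Q = p ^ a} = 1 + p + p ^ 2 * e := by
  classical
  have hp : p.Prime := hpf.out
  have hG : IsPGroup p R := IsPGroup.of_card hR
  -- the character group is a p-group
  have hch : IsPGroup p (Ch R p) := by
    intro f
    refine ⟨1, ?_⟩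
    ext x
    have h1 : (f ^ p ^ 1) x = (f x) ^ p := by
      rw [pow_one]; rfl
    rw [h1, ch_pow_eq]
    rfl
  obtain ⟨d, hd⟩ := IsPGroup.iff_card.1 hch
  have hcount := card_index_p a hR
  rw [hd] at hcount
  refine arith_final p _ d hp hcount ?_
  -- two distinct maximal subgroups
  have hQidx : ∀ M : Subgroup R, IsCoatom M → Nat.card M = p ^ a := by
    intro M hM
    have h1 := (H14.coatom_normal_index hG hM).2
    have h2 := M.card_mul_index
    rw [h1, hR, pow_succ] at h2
    exact Nat.eq_of_mul_eq_mul_right hp.pos h2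
  haveI hnt : Nontrivial R := by
    by_contra hcon
    rw [not_nontrivial_iff_subsingleton] at hcon
    exact hnc inferInstance
  have hbot : (⊥ : Subgroup R) ≠ ⊤ := bot_ne_top
  obtain ⟨M, hM, -⟩ := (eq_top_or_exists_le_coatom (⊥ : Subgroup R)).resolve_left hbot
  obtain ⟨x, hx⟩ : ∃ x, x ∉ M := by
    by_contra hcon
    push Not at hcon
    exact hM.1 ((eq_top_iff).2 (fun x _ => hcon x))
  have hzp : Subgroup.zpowers x ≠ ⊤ := by
    intro h
    exact hnc ⟨x, fun y => by
      have : y ∈ Subgroup.zpowers x := by rw [h]; trivial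
      exact this⟩
  obtain ⟨M', hM', hle⟩ := (eq_top_or_exists_le_coatom (Subgroup.zpowers x)).resolve_left hzp
  have hne : (⟨M, hQidx M hM⟩ : {Q : Subgroup R // Nat.card Q = p ^ a}) ≠ ⟨M', hQidx M' hM'⟩ := by
    intro h
    have h1 : M = M' := congrArg Subtype.val h
    apply hx
    rw [h1]
    exact hle (Subgroup.mem_zpowers x)
  have := Finite.one_lt_card_iff_nontrivial (α := {Q : Subgroup R // Nat.card Q = p ^ a})
  have h3 : Nontrivial {Q : Subgroup R // Nat.card Q = p ^ a} := ⟨⟨_, _, hne⟩⟩
  have h4 := this.2 h3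
  omega

end Hom

end Cfsg.Agent.H20.SubCount
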