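import Cfsg.Agent.Lib.H20.TQ2
import Cfsg.Agent.Lib.H19.CyclicSylow
import Mathlib

/-! The model: a normal `p`-subgroup containing its `Q`-centralizer. -/

set_option autoImplicit false
set_option linter.unusedVariables false
set_option linter.style.haveILetI false
set_option linter.unusedSectionVars false

namespace Cfsg.Agent.H20.TQ

open Cfsg Cfsg.Agent.H14

universe u

/-- Extension by a normal `p`-subgroup. -/
theorem isPSolvable_ext {A : Type*} [Group A] {p : ℕ} (N : Subgroup A) [hN : N.Normal] (hc : ∃ k, Nat.card N = p ^ k)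
    (h : IsPSolvable p (A ⧸ N)) : IsPSolvable p A := by
  obtain ⟨n, H, h0, hn, hmono, hnorm, hfac⟩ := h
  let φ : A →* A ⧸ N := QuotientGroup.mk' N
  have hφ : Function.Surjective φ := QuotientGroup.mk'_surjective N
  refine ⟨n + 1, Fin.cons ⊥ (fun i => (H i).comap φ), rfl, ?_, ?_, ?_, ?_⟩
  · have h1 : Fin.last (n + 1) = (Fin.last n).succ := rfl
    rw [h1, Fin.cons_succ, hn]
    exact Subgroup.comap_top _
  · rw [Fin.monotone_iff_le_succ]
    intro i
    refine Fin.cases ?_ (fun j => ?_) i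
    · rw [Fin.castSucc_zero, Fin.cons_zero]
      exact bot_le
    · rw [← Fin.succ_castSucc, Fin.cons_succ, Fin.cons_succ]
      exact Subgroup.comap_mono (hmono (Fin.castSucc_lt_succ).le)
  · intro i
    refine Fin.cases ?_ (fun j => ?_) i
    · rw [Fin.cons_zero]
      infer_instance
    · rw [Fin.cons_succ]
      haveI := hnorm j
      infer_instance
  · intro i
    refine Fin.cases ?_ (fun j => ?_) i
    · left
      rw [Fin.castSucc_zero, Fin.cons_zero, Fin.cons_succ, h0]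
      have h1 : (⊥ : Subgroup (A ⧸ N)).comap φ = N := by
        rw [MonoidHom.comap_bot]
        exact QuotientGroup.ker_mk' N
      rw [h1, Subgroup.relIndex_bot_left]
      exact hc
    · rw [← Fin.succ_castSucc, Fin.cons_succ, Fin.cons_succ, Subgroup.relIndex_comap,
        Subgroup.map_comap_eq_self_of_surjective hφ]
      exact hfac j

variable {p q : ℕ} [hp : Fact p.Prime] [hq : Fact q.Prime]

/-- `p`-solvability of the model. -/
theorem isPSolvable_of_ker {A B : Type*} [Group A] [Finite A] [Group B] (f : A →* B) (hf : Function.Surjective f)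
    (hB : IsPSolvable p B) (hk : IsPGroup p f.ker) : IsPSolvable p A := by
  obtain ⟨k, hk'⟩ := IsPGroup.iff_card.1 hk
  apply isPSolvable_ext f.ker ⟨k, hk'⟩
  exact Cfsg.Agent.H03.isPSolvable_of_surjective (f := (QuotientGroup.quotientKerEquivOfSurjective f hf).symm.toMonoidHom)
    (QuotientGroup.quotientKerEquivOfSurjective f hf).symm.surjective hB

/-- The model lemma. -/
theorem model {Y : Type u} [Group Y] [Finite Y] (hpq : p ≠ q) (h23 : ¬ ((p = 2 ∧ q = 3) ∨ (p = 3 ∧ q = 2)))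
    (H D : Subgroup Y) [hHn : H.Normal] [hDn : D.Normal] (hHp : IsPGroup p H)
    (hD : ∀ y, y ∈ D ↔ ∀ h ∈ H, y * h = h * y) (Q : Sylow p Y) (hQD : (Q : Subgroup Y) ⊓ D ≤ H)
    (hsol : IsPSolvable p (Y ⧸ D)) (hqD : q ∣ D.index) :
    ∃ K : Subgroup Y, IsCh (Q : Subgroup Y) K ∧ q ∣ ai K := by
  classical
  have hqp : q.Prime := hq.out
  have hpp : p.Prime := hp.out
  have hHQ : H ≤ (Q : Subgroup Y) := hHp.le_sylow_of_normal Q
  -- the normal complement
  obtain ⟨R, hR⟩ := Cfsg.Agent.H13.exists_sylow_inf_normal Q D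
  have hRH : ∀ r : ↥D, r ∈ (R : Subgroup ↥D) → (r : Y) ∈ H := by
    intro r hr
    have h1 : (r : Y) ∈ (R : Subgroup ↥D).map D.subtype := ⟨r, hr, rfl⟩
    rw [hR] at h1
    exact hQD h1
  have hRc : Subgroup.normalizer ((R : Subgroup ↥D) : Set ↥D) ≤ Subgroup.centralizer ((R : Subgroup ↥D) : Set ↥D) := by
    intro n _
    refine Subgroup.mem_centralizer_iff.2 ?_
    intro r hr
    apply Subtype.ext
    exact ((hD n).1 n.2 _ (hRH r hr)).symm
  obtain ⟨O₀, hO₀n, hO₀c⟩ := Cfsg.Agent.H19.burnside_complement R hRc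
  obtain ⟨hOn, hOcop, -⟩ := Cfsg.Agent.H19.normal_complement_facts D R O₀ hO₀c
  obtain ⟨O, hO⟩ : ∃ O, O = O₀.map D.subtype := ⟨_, rfl⟩
  rw [← hO] at hOn
  haveI := hOn
  have hOc : (Nat.card O).Coprime p := by
    rw [hO, ← Nat.card_congr (Subgroup.equivMapOfInjective O₀ _ D.subtype_injective).toEquiv]
    exact hOcop
  have hOD : O ≤ D := by
    rw [hO]
    rintro _ ⟨y, -, rfl⟩
    exact y.2
  have hdecomp : ∀ d ∈ D, ∃ o ∈ O, ∃ z ∈ H, d = o * z := by
    intro d hd
    obtain ⟨⟨o, r⟩, hor⟩ := hO₀c.2 ⟨d, hd⟩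
    refine ⟨o.1, ?_, r.1, hRH _ r.2, ?_⟩
    · rw [hO]
      exact ⟨o.1, o.2, rfl⟩
    · have := congrArg Subtype.val hor
      exact this.symm
  -- `p`-groups and `p'`-groups meet trivially
  have hdisj : ∀ (A B : Subgroup Y), IsPGroup p A → (Nat.card B).Coprime p → ∀ x, x ∈ A → x ∈ B → x = 1 := by
    intro A B hA hB x hxA hxB
    obtain ⟨n, hn⟩ := IsPGroup.iff_card.1 hA
    have h1 : orderOf x ∣ Nat.card A := Subgroup.orderOf_dvd_natCard A hxA
    have h2 : orderOf x ∣ Nat.card B := Subgroup.orderOf_dvd_natCard B hxB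
    have h3 : (Nat.card A).Coprime (Nat.card B) := by
      rw [hn]; exact Nat.Coprime.pow_left n hB.symm
    have h4 := Nat.Coprime.eq_one_of_dvd (h3.coprime_dvd_left h1) h2
    exact orderOf_eq_one_iff.1 h4
  -- the quotient
  let π : Y →* Y ⧸ O := QuotientGroup.mk' O
  have hπ : Function.Surjective π := QuotientGroup.mk'_surjective O
  have hπker : π.ker = O := QuotientGroup.ker_mk' O
  have hπO : ∀ y, π y = 1 ↔ y ∈ O := fun y => QuotientGroup.eq_one_iff y
  -- the map onto `Y/D`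
  let f : (Y ⧸ O) →* (Y ⧸ D) := QuotientGroup.map O D (MonoidHom.id Y) (by
    intro x hx; exact hOD hx)
  have hf : Function.Surjective f := by
    intro z
    obtain ⟨y, rfl⟩ := QuotientGroup.mk'_surjective D z
    exact ⟨π y, rfl⟩
  have hfker : IsPGroup p f.ker := by
    rintro ⟨x, hx⟩
    obtain ⟨y, rfl⟩ := hπ x
    have h1 : y ∈ D := by
      have h2 : f (π y) = 1 := hx
      exact (QuotientGroup.eq_one_iff y).1 h2
    obtain ⟨o, ho, z, hz, rfl⟩ := hdecomp y h1
    obtain ⟨k, hk⟩ := hHp ⟨z, hz⟩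
    refine ⟨k, Subtype.ext ?_⟩
    have h2 : z ^ p ^ k = 1 := congrArg Subtype.val hk
    change π (o * z) ^ p ^ k = 1
    rw [map_mul, (hπO o).2 ho, one_mul, ← map_pow, h2, map_one]
  have hsΓ : IsPSolvable p (Y ⧸ O) := isPSolvable_of_ker f hf hsol hfker
  have hOΓ : pPrimeCore p (Y ⧸ O) = ⊥ := by
    rw [eq_bot_iff]
    apply sSup_le
    rintro T ⟨hTn, hTc⟩
    intro x hx
    obtain ⟨d, rfl⟩ := hπ x
    -- `d` centralizes `H`
    have hdD : d ∈ D := by
      rw [hD]
      intro h hh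
      have hc1 : d * h * d⁻¹ * h⁻¹ ∈ H := H.mul_mem (hHn.conj_mem h hh d) (H.inv_mem hh)
      have hc2 : π (d * h * d⁻¹ * h⁻¹) ∈ T := by
        have e : π (d * h * d⁻¹ * h⁻¹) = π d * (π h * (π d)⁻¹ * (π h)⁻¹) := by
          simp only [map_mul, map_inv]; group
        rw [e]
        exact T.mul_mem hx (hTn.conj_mem _ (T.inv_mem hx) _)
      have hc3 : π (d * h * d⁻¹ * h⁻¹) = 1 := by
        obtain ⟨k, hk⟩ := hHp ⟨_, hc1⟩
        have h2 : (d * h * d⁻¹ * h⁻¹) ^ p ^ k = 1 := congrArg Subtype.val hk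
        have h3 : (π (d * h * d⁻¹ * h⁻¹)) ^ p ^ k = 1 := by rw [← map_pow, h2, map_one]
        have h4 := orderOf_dvd_of_pow_eq_one h3
        have h5 : orderOf (π (d * h * d⁻¹ * h⁻¹)) ∣ Nat.card T := Subgroup.orderOf_dvd_natCard T hc2
        have h6 : Nat.Coprime (p ^ k) (Nat.card T) := Nat.Coprime.pow_left k hTc.symm
        exact orderOf_eq_one_iff.1 (Nat.Coprime.eq_one_of_dvd (h6.coprime_dvd_left h4) h5)
      have hc4 := hdisj H O hHp hOc _ hc1 ((hπO _).1 hc3)
      have e5 : d * h * d⁻¹ = h := by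
        rw [mul_inv_eq_one] at hc4; exact hc4
      calc d * h = (d * h * d⁻¹) * d := by group
        _ = h * d := by rw [e5]
    obtain ⟨o, ho, z, hz, rfl⟩ := hdecomp d hdD
    have h1 : π (o * z) = π z := by rw [map_mul, (hπO o).2 ho, one_mul]
    rw [h1] at hx ⊢
    obtain ⟨k, hk⟩ := hHp ⟨z, hz⟩
    have h2 : z ^ p ^ k = 1 := congrArg Subtype.val hk
    have h3 : (π z) ^ p ^ k = 1 := by rw [← map_pow, h2, map_one]
    have h4 := orderOf_dvd_of_pow_eq_one h3
    have h5 : orderOf (π z) ∣ Nat.card T := Subgroup.orderOf_dvd_natCard T hx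
    have h6 : Nat.Coprime (p ^ k) (Nat.card T) := Nat.Coprime.pow_left k hTc.symm
    exact Subgroup.mem_bot.2 (orderOf_eq_one_iff.1 (Nat.Coprime.eq_one_of_dvd (h6.coprime_dvd_left h4) h5))
  have hqΓ : q ∣ Nat.card (Y ⧸ O) := by
    have h1 : Nat.card (Y ⧸ D) ∣ Nat.card (Y ⧸ O) := Subgroup.card_dvd_of_surjective f hf
    exact dvd_trans hqD h1
  obtain ⟨Kt, hKt, hqKt⟩ := claim hpq h23 _ (Y ⧸ O) rfl hsΓ hOΓ hqΓ (Q.mapSurjective hπ)
  rw [Sylow.coe_mapSurjective] at hKt
  -- `π` is injective on `Q`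
  have hinjQ : ∀ x ∈ (Q : Subgroup Y), π x = 1 → x = 1 := by
    intro x hx hx1
    exact hdisj (Q : Subgroup Y) O Q.2 hOc x hx ((hπO x).1 hx1)
  have hinj : Function.Injective (π.subgroupMap (Q : Subgroup Y)) := by
    rw [injective_iff_map_eq_one]
    intro x hx
    apply Subtype.ext
    exact hinjQ x x.2 (congrArg Subtype.val hx)
  let e : ↥(Q : Subgroup Y) ≃* ↥((Q : Subgroup Y).map π) :=
    MulEquiv.ofBijective (π.subgroupMap (Q : Subgroup Y)) ⟨hinj, π.subgroupMap_surjective _⟩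
  have he : ∀ x : ↥(Q : Subgroup Y), ((e x : ↥((Q : Subgroup Y).map π)) : Y ⧸ O) = π x := fun x => rfl
  obtain ⟨K, hK⟩ : ∃ K, K = (Q : Subgroup Y) ⊓ Kt.comap π := ⟨_, rfl⟩
  have hKQ : K ≤ (Q : Subgroup Y) := by
    rw [hK]; exact inf_le_left
  have hKtK : Kt = K.map π := by
    apply le_antisymm
    · intro z hz
      obtain ⟨s, hs, rfl⟩ := hKt.1 hz
      exact ⟨s, by rw [hK]; exact ⟨hs, hz⟩, rfl⟩
    · rintro _ ⟨k, hk, rfl⟩
      rw [hK] at hk
      exact hk.2
  refine ⟨K, ⟨hKQ, fun φ x hx => ?_⟩, hqKt.trans ?_⟩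
  · rw [hK]
    refine ⟨(φ x).2, ?_⟩
    have h1 : π (x : Y) ∈ Kt := by
      rw [hK] at hx
      exact hx.2
    have h2 := hKt.2 (e.symm.trans (φ.trans e)) (e x) h1
    have h3 : (e.symm.trans (φ.trans e)) (e x) = e (φ x) := by simp
    rw [h3, he] at h2
    exact h2
  · apply ai_dvd_of_surj π K Kt
    · intro y hy
      rw [hKtK]
      exact Subgroup.le_normalizer_map π ⟨y, hy, rfl⟩
    · intro y hy hc
      rw [hKtK]
      refine Subgroup.mem_centralizer_iff.2 ?_
      rintro _ ⟨k, hk, rfl⟩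
      rw [← map_mul, ← map_mul, Subgroup.mem_centralizer_iff.1 hc k hk]
    · -- lifting normalizers: a Sylow argument in the preimage of `Kt`
      intro z hz
      obtain ⟨x, rfl⟩ := hπ z
      obtain ⟨D₂, hD₂⟩ : ∃ D₂, D₂ = Kt.comap π := ⟨_, rfl⟩
      have hKD₂ : K ≤ D₂ := by
        rw [hD₂, hK]; exact inf_le_right
      have hcardK : Nat.card K = Nat.card Kt := by
        rw [hKtK]
        refine Nat.card_congr (Equiv.ofBijective (π.subgroupMap K) ⟨?_, π.subgroupMap_surjective K⟩)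
        rw [injective_iff_map_eq_one]
        intro w hw
        apply Subtype.ext
        exact hinjQ w (hKQ w.2) (congrArg Subtype.val hw)
      have hOD₂ : O ≤ D₂ := by
        rw [hD₂]
        intro o ho
        rw [Subgroup.mem_comap, (hπO o).2 ho]
        exact Kt.one_mem
      have hcardD₂ : Nat.card D₂ = Nat.card K * Nat.card O := by
        have h0 := Subgroup.relIndex_ker D₂ π
        rw [hπker, hD₂, Subgroup.map_comap_eq_self_of_surjective hπ, ← hD₂] at h0
        have h1 : Nat.card (O.subgroupOf D₂) = Nat.card O := Nat.card_congr (Subgroup.subgroupOfEquivOfLe hOD₂).toEquiv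
        have h2 := Subgroup.card_mul_index (O.subgroupOf D₂)
        rw [h1] at h2
        have h3 : (O.subgroupOf D₂).index = Nat.card Kt := h0
        rw [h3] at h2
        rw [← h2, hcardK, mul_comm]
      -- both are Sylow
      have hsyl : ∀ A : Subgroup Y, A ≤ D₂ → IsPGroup p A → Nat.card A = Nat.card K →
          ¬ p ∣ (A.subgroupOf D₂).index := by
        intro A hA hAp hAc hd
        have h1 : Nat.card (A.subgroupOf D₂) = Nat.card A := Nat.card_congr (Subgroup.subgroupOfEquivOfLe hA).toEquiv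
        have h2 := Subgroup.card_mul_index (A.subgroupOf D₂)
        rw [h1, hAc, hcardD₂] at h2
        have h3 : (A.subgroupOf D₂).index = Nat.card O :=
          Nat.eq_of_mul_eq_mul_left Nat.card_pos h2
        rw [h3] at hd
        exact (Nat.Prime.coprime_iff_not_dvd hpp).1 hOc.symm hd
      have hKp : IsPGroup p K := Q.2.to_le hKQ
      have hK₂le : K.map (MulAut.conj x).toMonoidHom ≤ D₂ := by
        rintro _ ⟨k, hk, rfl⟩
        rw [hD₂, Subgroup.mem_comap]
        have h1 : π k ∈ Kt := by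
          rw [hK] at hk
          exact hk.2
        have h2 := (Subgroup.mem_normalizer_iff.1 hz _).1 h1
        have e2 : π ((MulAut.conj x).toMonoidHom k) = π x * π k * (π x)⁻¹ := by
          simp [MulAut.conj_apply]
        rw [e2]
        exact h2
      have hK₂p : IsPGroup p (K.map (MulAut.conj x).toMonoidHom) := hKp.map _
      have hK₂c : Nat.card (K.map (MulAut.conj x).toMonoidHom) = Nat.card K :=
        (Nat.card_congr (Subgroup.equivMapOfInjective K _ (MulAut.conj x).injective).toEquiv).symm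
      let T₁ : Sylow p ↥D₂ := (IsPGroup.comap_subtype hKp (K := D₂)).toSylow (hsyl K hKD₂ hKp rfl)
      let T₂ : Sylow p ↥D₂ := (IsPGroup.comap_subtype hK₂p (K := D₂)).toSylow (hsyl _ hK₂le hK₂p hK₂c)
      obtain ⟨d, hd⟩ := Cfsg.Agent.H20.sylow_conj T₁ T₂
      have hy₀ : ∀ k ∈ K, ((d : Y)⁻¹ * x) * k * ((d : Y)⁻¹ * x)⁻¹ ∈ K := by
        intro k hk
        have h1 : (⟨x * k * x⁻¹, hK₂le ⟨k, hk, rfl⟩⟩ : ↥D₂) ∈ (T₂ : Subgroup ↥D₂) := by
          change x * k * x⁻¹ ∈ K.map (MulAut.conj x).toMonoidHom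
          exact ⟨k, hk, rfl⟩
        have h2 := (hd _).1 h1
        have h3 : (d : Y)⁻¹ * (x * k * x⁻¹) * d ∈ K := h2
        have e : ((d : Y)⁻¹ * x) * k * ((d : Y)⁻¹ * x)⁻¹ = (d : Y)⁻¹ * (x * k * x⁻¹) * d := by group
        rw [e]
        exact h3
      have hy₀N : (d : Y)⁻¹ * x ∈ Subgroup.normalizer (K : Set Y) :=
        Cfsg.Agent.H20.mem_normalizer_of_conj_le K _ hy₀
      have hdK : π (d : Y) ∈ Kt := by
        have h0 : ∀ w ∈ D₂, π w ∈ Kt := by
          rw [hD₂]; exact fun w hw => hw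
        exact h0 _ d.2
      rw [hKtK] at hdK
      obtain ⟨k₀, hk₀, hk₀d⟩ := hdK
      refine ⟨k₀ * ((d : Y)⁻¹ * x), Subgroup.mul_mem _ (Subgroup.le_normalizer hk₀) hy₀N, ?_⟩
      rw [map_mul, map_mul, map_inv, hk₀d]
      group

end Cfsg.Agent.H20.TQ
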